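import Cfsg.Agent.CLAS.WU.Def
import Cfsg.Agent.CHAR.Values

/-! Determinants, reflections and central characters. -/

set_option autoImplicit false

namespace CL.WU.BasD

open Module CL.Witt CL.Uni Cfsg

variable {F : Type*} [Field F] [Fintype F] {q : ℕ} {hF : Fintype.card F = q ^ 2}
  {V : Type*} [AddCommGroup V] [Module F V] [FiniteDimensional F V] {f : Form (HT hF) V}

omit [Fintype F] in
theorem mu_ext {a b : Mu F q} (h : a.val = b.val) : a = b := Subtype.ext (Units.ext h)

theorem dt_rf (hf : f.Nondeg) {v : V} (hv : f.B v v ≠ 0) (z : Mu F q) :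
    dt hf (rf f v z) = z := by
  refine mu_ext ?_
  rw [dt_val]
  refine (Form.det_rk1 v _ (rf_cond f v z)).trans ?_
  field_simp
  ring

theorem dt_sc (hf : f.Nondeg) (z : Mu F q) : dt hf (sc f z) = z ^ finrank F V := by
  refine mu_ext ?_
  rw [dt_val]
  have : ((sc f z).1 : V →ₗ[F] V) = z.val • LinearMap.id := LinearMap.ext fun x => rfl
  rw [this, LinearMap.det_smul, LinearMap.det_id, mul_one]
  simp [Mu.val]

theorem dt_eq_one_iff (hf : f.Nondeg) (g : f.O) : dt hf g = 1 ↔ g.1 ∈ f.SO := by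
  rw [f.mem_SO, ← dt_val hf]
  constructor
  · intro h
    exact ⟨g.2, by rw [h]; rfl⟩
  · intro h
    exact mu_ext h.2

theorem dt_eiO (hf : f.Nondeg) (u v : V) (a : F) : dt hf (eiO f u v a) = 1 :=
  (dt_eq_one_iff hf _).2 (f.ei_mem_SO u v a)

theorem isIrr_lin (hf : f.Nondeg) (l : Mu F q →* ℂˣ) : IsIrrCharacter f.O (lin hf l) :=
  CL.Char.isIrrCharacter_hom (l.comp (dt hf))

omit [FiniteDimensional F V] in
theorem sig_B (v : V) : (HT hF).σ (f.B v v) = f.B v v := by
  have := f.symm v v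
  rw [HT_ε, one_mul] at this
  exact this.symm

theorem exists_smul_eq (hf : f.Nondeg) {u v : V} (hu : f.B u u ≠ 0) (hv : f.B v v ≠ 0) :
    ∃ (g : f.O) (c : F), c ≠ 0 ∧ g.1 u = c • v := by
  obtain ⟨c, hc⟩ := CL.Tv.exists_norm_eq_of_involution (sig_ne_id hF) (sig_sig hF)
    (b := f.B u u / f.B v v) (by
      change (HT hF).σ _ = _
      rw [map_div₀, sig_B, sig_B])
  have hc0 : c ≠ 0 := by
    rintro rfl
    rw [mul_zero] at hc
    exact div_ne_zero hu hv hc.symm
  have hu0 : u ≠ 0 := by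
    rintro rfl
    exact hu (map_zero _)
  have hv0 : v ≠ 0 := by
    rintro rfl
    exact hv (map_zero _)
  obtain ⟨g, hg, h⟩ := hf.witt_vector hu0 (smul_ne_zero hc0 hv0) (by
    rw [f.q_smul, f.herm_q, f.herm_q]
    change _ = sig hF c * c * _
    rw [hc, div_mul_cancel₀ _ hv])
  exact ⟨⟨g, hg⟩, c, hc0, h⟩

omit [FiniteDimensional F V] in
theorem rf_conj (g : f.O) (v : V) (z : Mu F q) : g * rf f v z * g⁻¹ = rf f (g.1 v) z := by
  refine Subtype.ext (LinearEquiv.ext fun x => ?_)
  change g.1 ((rf f v z).1 (g.1⁻¹ x)) = _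
  rw [rf_apply, rf_apply, map_add, map_smul, f.O_B, Form.B_apply_left g.2]
  congr 1
  exact g.1.apply_symm_apply x

omit [FiniteDimensional F V] in
theorem rf_smul (v : V) {c : F} (hc : c ≠ 0) : rf f (c • v) = rf f v := by
  refine MonoidHom.ext fun z => Subtype.ext (LinearEquiv.ext fun x => ?_)
  rw [rf_apply, rf_apply, smul_smul]
  congr 2
  have hs : (HT hF).σ c ≠ 0 := fun h => hc ((HT hF).σ_eq_zero.1 h)
  simp only [map_smul, map_smulₛₗ, LinearMap.smul_apply, smul_eq_mul]
  by_cases h : f.B v v = 0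
  · simp [h]
  · field_simp

theorem hs_of_one (hf : f.Nondeg) {χ : f.O → ℂ} (hχ : IsClassFunction f.O χ) {v : V}
    (hv : f.B v v ≠ 0) (h : ∑ z : Mu F q, χ (rf f v z) = 0) : Hs f χ := by
  intro u hu
  obtain ⟨g, c, hc, hg⟩ := exists_smul_eq hf hv hu
  rw [← h]
  refine Finset.sum_congr rfl fun z _ => ?_
  rw [← rf_smul u hc, ← hg, ← rf_conj, hχ]

theorem exists_cen {χ : f.O → ℂ} (hχ : IsIrrCharacter f.O χ) : ∃ ν, Cen f χ ν := by
  have hc : ∀ z : Mu F q, sc f z ∈ Subgroup.center f.O := fun z =>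
    Subgroup.mem_center_iff.2 fun g => Subtype.ext (LinearEquiv.ext fun x =>
      g.1.map_smul z.val x)
  have h1 : χ 1 ≠ 0 := hχ.one_ne_zero
  let n : Mu F q →* ℂ :=
    { toFun := fun z => χ (sc f z) / χ 1
      map_one' := by rw [map_one, div_self h1]
      map_mul' := fun a b => by
        have := hχ.apply_center_mul (hc a) (sc f b)
        rw [map_mul]
        field_simp
        linear_combination this }
  refine ⟨n.toHomUnits, fun z g => ?_⟩
  have := hχ.apply_center_mul (hc z) g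
  rw [Subgroup.mem_center_iff.1 (hc z) g]
  change _ = χ (sc f z) / χ 1 * _
  field_simp
  linear_combination this

omit [FiniteDimensional F V] in
theorem isCompl_span {v : V} (hv : f.B v v ≠ 0) : IsCompl (F ∙ v) (f.perp (F ∙ v)) := by
  refine f.isCompl_perp_of_restrict_nondeg ((f.restrict_nondeg_iff _).2 ?_)
  rw [Submodule.disjoint_def]
  intro x hx hx'
  obtain ⟨c, rfl⟩ := Submodule.mem_span_singleton.1 hx
  rw [f.mem_perp_span_singleton, map_smul, smul_eq_mul] at hx'
  rw [(mul_eq_zero.1 hx').resolve_right hv, zero_smul]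

theorem perp_nondeg (hf : f.Nondeg) {v : V} (hv : f.B v v ≠ 0) :
    (f.restrict (f.perp (F ∙ v))).Nondeg :=
  hf.restrict_perp ((f.restrict_nondeg_iff _).2 (isCompl_span hv).disjoint)

theorem finrank_perp_span {v : V} (hv : f.B v v ≠ 0) :
    finrank F (f.perp (F ∙ v)) + 1 = finrank F V := by
  have hv0 : v ≠ 0 := by
    rintro rfl
    exact hv (map_zero _)
  have := Submodule.finrank_add_eq_of_isCompl (isCompl_span hv)
  rw [finrank_span_singleton hv0] at this
  omega

end CL.WU.BasD
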