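import Cfsg.Agent.CLAS.WU.Def

/-! Basic facts on `emb`, and the Levi decomposition. -/

set_option autoImplicit false
set_option maxHeartbeats 400000
set_option linter.unusedVariables false

namespace CL.WU.BasE

open Module CL.Witt CL.Uni Cfsg

variable {F : Type*} [Field F] [Fintype F] {q : ℕ} {hF : Fintype.card F = q ^ 2}
  {V : Type*} [AddCommGroup V] [Module F V] [FiniteDimensional F V] {f : Form (HT hF) V}

omit [FiniteDimensional F V] in
theorem span_nondeg {v : V} (hv : f.B v v ≠ 0) : (f.restrict (F ∙ v)).Nondeg := by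
  refine (f.restrict_nondeg_iff _).2 (Submodule.disjoint_def.2 fun x hx hx' => ?_)
  obtain ⟨c, rfl⟩ := Submodule.mem_span_singleton.1 hx
  have := f.mem_perp_span_singleton.1 hx'
  rw [f.B_smul_right] at this
  rw [(mul_eq_zero.1 this).resolve_right hv, zero_smul]

omit [FiniteDimensional F V] in
theorem isCompl_span {v : V} (hv : f.B v v ≠ 0) : IsCompl (F ∙ v) (f.perp (F ∙ v)) :=
  f.isCompl_perp_of_restrict_nondeg (span_nondeg hv)

theorem perp_nondeg (hf : f.Nondeg) {v : V} (hv : f.B v v ≠ 0) :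
    (f.restrict (f.perp (F ∙ v))).Nondeg :=
  hf.restrict_perp (span_nondeg hv)

theorem finrank_perp_span {v : V} (hv : f.B v v ≠ 0) :
    finrank F (f.perp (F ∙ v)) + 1 = finrank F V := by
  have := Submodule.finrank_add_eq_of_isCompl (isCompl_span hv)
  rw [finrank_span_singleton (by rintro rfl; exact hv (f.B_zero_left _))] at this
  omega

section emb
variable {W : Submodule F V} (h : IsCompl W (f.perp W))

omit [FiniteDimensional F V] in
theorem emb_left (a : (f.restrict (f.perp W)).O) {w : V} (hw : w ∈ W) : (emb f h a).1 w = w := by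
  simpa using emb_apply f h a ⟨w, hw⟩ 0

omit [FiniteDimensional F V] in
theorem emb_right (a : (f.restrict (f.perp W)).O) (u : f.perp W) :
    (emb f h a).1 u = a.1 u := by
  simpa using emb_apply f h a 0 u

omit [FiniteDimensional F V] in
theorem emb_injective : Function.Injective (emb f h) := fun a b e =>
  Subtype.ext (LinearEquiv.ext fun u => Subtype.ext (by rw [← emb_right h, ← emb_right h, e]))

omit [FiniteDimensional F V] in
theorem exists_emb {g : f.O} (hg : ∀ w ∈ W, g.1 w = w) : ∃ a, emb f h a = g :=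
  ⟨f.fixEquiv h ⟨g.1, g.2, hg⟩, Subtype.ext (congrArg (fun x : f.fix W => x.1)
    ((f.fixEquiv h).symm_apply_apply ⟨g.1, g.2, hg⟩))⟩

omit [FiniteDimensional F V] in
theorem emb_ext {a : (f.restrict (f.perp W)).O} {g : f.O} (h1 : ∀ w ∈ W, g.1 w = w)
    (h2 : ∀ u : f.perp W, g.1 u = a.1 u) : emb f h a = g :=
  Subtype.ext (LinearEquiv.ext fun x => by
    obtain ⟨w, u, rfl⟩ := Form.exists_add_of_isCompl h x
    rw [emb_apply, map_add, h1 w w.2, h2])

omit [FiniteDimensional F V] in
theorem emb_rf (u : f.perp W) (z : Mu F q) :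
    emb f h (rf (f.restrict (f.perp W)) u z) = rf f u z :=
  emb_ext h (fun w hw => by rw [rf_apply, f.mem_perp'.1 u.2 w hw, mul_zero, zero_smul, add_zero])
    fun _ => rfl

omit [FiniteDimensional F V] in
theorem emb_eiO (u v : f.perp W) (a : F) :
    emb f h (eiO (f.restrict (f.perp W)) u v a) = eiO f u v a := by
  by_cases ok : f.EichOK u v a
  · have ok' : (f.restrict (f.perp W)).EichOK u v a := ⟨ok.hu, ok.huv, ok.ha⟩
    refine emb_ext h (fun w hw => ok.ei_apply_fix (f.mem_perp'.1 u.2 w hw) (f.mem_perp'.1 v.2 w hw))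
      fun x => ?_
    rw [eiO_val, eiO_val, ok.ei_apply, ok'.ei_apply]
    rfl
  · have e1 : eiO f u v a = 1 := Subtype.ext (dif_neg ok)
    have e2 : eiO (f.restrict (f.perp W)) u v a = 1 :=
      Subtype.ext (dif_neg fun ok' => ok ⟨ok'.hu, ok'.huv, ok'.ha⟩)
    rw [e1, e2, map_one]

omit [FiniteDimensional F V] in
theorem emb_tv (u : f.perp W) (a : XA hF) :
    emb f h (tv (f.restrict (f.perp W)) u a) = tv f u a :=
  emb_eiO h u 0 _

theorem fd_emb (a : (f.restrict (f.perp W)).O) : fd (emb f h a).1 = finrank F W + fd a.1 := by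
  have e : LinearMap.ker (((emb f h a).1 : V →ₗ[F] V) - LinearMap.id) = W ⊔
      (LinearMap.ker ((a.1 : f.perp W →ₗ[F] f.perp W) - LinearMap.id)).map (f.perp W).subtype := by
    refine le_antisymm (fun x hx => ?_) (sup_le (fun w hw => ?_) ?_)
    · obtain ⟨w, u, rfl⟩ := Form.exists_add_of_isCompl h x
      have h1 : (emb f h a).1 (w + u) = w + u := sub_eq_zero.1 hx
      rw [emb_apply] at h1
      exact Submodule.add_mem_sup w.2 ⟨u, sub_eq_zero.2 (Subtype.ext (add_left_cancel h1)), rfl⟩
    · exact sub_eq_zero.2 (emb_left h a hw)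
    · rintro _ ⟨u, hu, rfl⟩
      exact sub_eq_zero.2 ((emb_right h a u).trans (congrArg Subtype.val (sub_eq_zero.1 hu)))
  have e2 := Submodule.finrank_sup_add_finrank_inf_eq W
    ((LinearMap.ker ((a.1 : f.perp W →ₗ[F] f.perp W) - LinearMap.id)).map (f.perp W).subtype)
  rw [(h.disjoint.mono_right (Submodule.map_subtype_le _ _)).eq_bot, finrank_bot, add_zero,
    Submodule.finrank_map_subtype_eq] at e2
  rw [fd, e, e2, fd]

theorem om_emb (a : (f.restrict (f.perp W)).O) :
    om f (emb f h a) = (q : ℂ) ^ finrank F W * om (f.restrict (f.perp W)) a := by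
  rw [om, om, fd_emb, ← Submodule.finrank_add_eq_of_isCompl h, pow_add, pow_add, mul_mul_mul_comm,
    ← mul_pow, neg_mul_neg, one_mul]

end emb

omit [FiniteDimensional F V] in
theorem emb_sc {v : V} (hv : f.B v v ≠ 0) (h : IsCompl (F ∙ v) (f.perp (F ∙ v))) (z : Mu F q) :
    emb f h (sc (f.restrict (f.perp (F ∙ v))) z) * rf f v z = sc f z := by
  refine Subtype.ext (LinearEquiv.ext fun x => ?_)
  obtain ⟨⟨w, hw⟩, u, rfl⟩ := Form.exists_add_of_isCompl h x
  obtain ⟨c, rfl⟩ := Submodule.mem_span_singleton.1 hw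
  have e : (rf f v z).1 (c • v + u) = (z.val * c) • v + u := by
    rw [rf_apply, f.B_add_right, f.mem_perp_span_singleton.1 u.2, f.B_smul_right, add_zero,
      add_right_comm, ← add_smul]
    congr 2
    field_simp
    ring
  change (emb f h _).1 ((rf f v z).1 (c • v + u)) = z.val • (c • v + u)
  rw [e, map_add, emb_right, emb_left h _ (Submodule.smul_mem _ _ (Submodule.mem_span_singleton_self v)),
    smul_add, mul_smul]
  rfl

omit [FiniteDimensional F V] in
/-- A hyperbolic plane contains a nonisotropic vector `w + c • w'`. -/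
theorem exists_nonisotropic {w w' : V} (hw : f.q w = 0) (hw' : f.q w' = 0) (h : f.B w w' = 1) :
    ∃ c : F, f.B (w + c • w') (w + c • w') ≠ 0 := by
  by_contra hc
  push Not at hc
  have h' : f.B w' w = 1 := by rw [f.symm, h, map_one, mul_one, HT_ε]
  have e : ∀ c : F, c + sig hF c = 0 := fun c => by
    have := hc c
    rw [f.B_add_left, f.B_add_right, f.B_add_right, f.B_smul_left, f.B_smul_left, f.B_smul_right,
      f.B_smul_right, f.B_self_eq_zero hw, f.B_self_eq_zero hw', h, h'] at this
    change 0 + c * 1 + (sig hF c * 1 + sig hF c * (c * 0)) = 0 at this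
    linear_combination this
  have e1 := e 1
  rw [map_one] at e1
  exact sig_ne_id hF (RingHom.ext fun c => by
    rw [RingHom.id_apply]; linear_combination e c - c * e1)

omit [FiniteDimensional F V] in
/-- The Levi decomposition of the stabiliser of `w` (`Form.exists_ei_apply_eq`). -/
theorem exists_levi {w w' : V} (hw : f.q w = 0) (hw' : f.q w' = 0) (h : f.B w w' = 1) {g : f.O}
    (hg : g ∈ St f w) :
    ∃ l ∈ St f w, l ∈ St f w' ∧ ∃ v a, f.EichOK w v a ∧ g = l * eiO f w v a := by
  have h1 : f.B w (g.1⁻¹ w') = f.B w w' := by rw [← Form.B_apply_left g.2, mem_St.1 hg]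
  obtain ⟨v, a, ok, e, -⟩ := Form.exists_ei_apply_eq (w := g.1⁻¹ w') hw (g⁻¹.2.2 w') h1
    (by rw [h1, h]; exact one_ne_zero)
  refine ⟨g * (eiO f w v a)⁻¹, mul_mem hg (inv_mem ok.ei_apply_u), ?_, v, a, ok,
    (inv_mul_cancel_right _ _).symm⟩
  change g.1 ((f.ei w v a).symm w') = w'
  rw [(LinearEquiv.symm_apply_eq _).2 e.symm]
  exact g.1.apply_symm_apply w'

end CL.WU.BasE
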