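import Cfsg.Agent.CLAS.WU.Def
import Cfsg.Agent.CLAS.WU.BasD
import Cfsg.Agent.CLAS.WU.BasE

/-! Basic facts on scalars, reflections, transvections and `emb`. -/

set_option autoImplicit false

namespace CL.WU

open Module CL.Witt CL.Uni Cfsg

variable {F : Type*} [Field F] [Fintype F] {q : ℕ} {hF : Fintype.card F = q ^ 2}
  {V : Type*} [AddCommGroup V] [Module F V] [FiniteDimensional F V] {f : Form (HT hF) V}

include hF in
theorem two_le_q : 2 ≤ q := SqField.two_le hF

include hF in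
theorem card_Mu : Nat.card (Mu F q) = q + 1 := by
  rw [← SqField.card_ker_norm hF]
  congr 2

theorem card_XA : Nat.card (XA hF) = q := card_ker_π hF

include hF in
theorem card_Mu_hom : Fintype.card (Mu F q →* ℂˣ) = q + 1 := by
  have : NeZero (Monoid.exponent (Mu F q)) := ⟨Monoid.exponent_ne_zero_of_finite⟩
  rw [← Nat.card_eq_fintype_card, CommGroup.card_monoidHom_of_hasEnoughRootsOfUnity, card_Mu (hF := hF)]

theorem card_XA_hom : Fintype.card (XA hF →* ℂˣ) = q := by
  have : NeZero (Monoid.exponent (XA hF)) := ⟨Monoid.exponent_ne_zero_of_finite⟩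
  rw [← Nat.card_eq_fintype_card, CommGroup.card_monoidHom_of_hasEnoughRootsOfUnity, card_XA]

omit [FiniteDimensional F V] in
theorem sc_comm (g : f.O) (z : Mu F q) : g * sc f z = sc f z * g :=
  Subtype.ext (LinearEquiv.ext fun x => map_smul g.1 z.val x)

omit [FiniteDimensional F V] in
theorem rf_conj (g : f.O) (v : V) (z : Mu F q) : g * rf f v z * g⁻¹ = rf f (g.1 v) z := by
  rw [mul_inv_eq_iff_eq_mul]
  refine Subtype.ext (LinearEquiv.ext fun x => ?_)
  change g.1 ((rf f v z).1 x) = (rf f (g.1 v) z).1 (g.1 x)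
  rw [rf_apply, rf_apply, map_add, map_smul, f.O_B, f.O_B]

omit [FiniteDimensional F V] in
theorem rf_smul (v : V) {c : F} (hc : c ≠ 0) : rf f (c • v) = rf f v := by
  refine MonoidHom.ext fun z => Subtype.ext (LinearEquiv.ext fun x => ?_)
  have h : (HT hF).σ c ≠ 0 := fun e => hc ((HT hF).σ_eq_zero.1 e)
  have e : ∀ y, f.B (c • v) y = (HT hF).σ c * f.B v y := fun y => by
    rw [map_smulₛₗ, LinearMap.smul_apply, smul_eq_mul]
  rw [rf_apply, rf_apply, e, e, map_smul, smul_smul, smul_eq_mul]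
  congr 2
  by_cases h0 : f.B v v = 0
  · simp [h0]
  · field_simp

omit [FiniteDimensional F V] in
theorem rf_self {v : V} (hv : f.B v v ≠ 0) (z : Mu F q) : (rf f v z).1 v = z.val • v := by
  rw [rf_apply, div_mul_cancel₀ _ hv, sub_smul, one_smul, add_sub_cancel]

omit [FiniteDimensional F V] in
theorem rf_perp {v x : V} (h : f.B v x = 0) (z : Mu F q) : (rf f v z).1 x = x := by
  rw [rf_apply, h, mul_zero, zero_smul, add_zero]

omit [FiniteDimensional F V] in
theorem rf_comm {v : V} {g : f.O} (hg : g ∈ St f v) (z : Mu F q) :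
    g * rf f v z = rf f v z * g := by
  have := rf_conj g v z
  rwa [mem_St.1 hg, mul_inv_eq_iff_eq_mul] at this

omit [FiniteDimensional F V] in
theorem eiO_conj (g : f.O) {u v : V} {a : F} (h : f.EichOK u v a) :
    g * eiO f u v a * g⁻¹ = eiO f (g.1 u) (g.1 v) a :=
  Subtype.ext (h.conj_ei g.2)

omit [FiniteDimensional F V] in
theorem tv_conj (g : f.O) (w : V) (a : XA hF) : g * tv f w a * g⁻¹ = tv f (g.1 w) a := by
  by_cases hw : f.q w = 0
  · have := eiO_conj g (tv_ok hw a)
    rwa [map_zero] at this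
  · have h : ∀ u : V, f.q u ≠ 0 → tv f u a = 1 := fun u hu => Subtype.ext (dif_neg fun h => hu h.hu)
    rw [h w hw, h _ (by rwa [f.O_q]), mul_one, mul_inv_cancel]

omit [FiniteDimensional F V] in
theorem tv_comm {w : V} {g : f.O} (hg : g ∈ St f w) (a : XA hF) :
    g * tv f w a = tv f w a * g := by
  have := tv_conj g w a
  rwa [mem_St.1 hg, mul_inv_eq_iff_eq_mul] at this

omit [FiniteDimensional F V] in
theorem tv_perp {w x : V} (h : f.B w x = 0) (a : XA hF) : (tv f w a).1 x = x := by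
  by_cases hw : f.q w = 0
  · exact (tv_ok hw a).ei_apply_fix h (by simp)
  · have e : tv f w a = 1 := Subtype.ext (dif_neg fun h => hw h.hu)
    rw [e]; rfl

omit [FiniteDimensional F V] in
theorem eiO_mem_St {w v : V} {a : F} (h : f.EichOK w v a) : eiO f w v a ∈ St f w := h.ei_apply_u

theorem dt_rf (hf : f.Nondeg) {v : V} (hv : f.B v v ≠ 0) (z : Mu F q) :
    dt hf (rf f v z) = z :=
  BasD.dt_rf hf hv z

theorem dt_sc (hf : f.Nondeg) (z : Mu F q) : dt hf (sc f z) = z ^ finrank F V :=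
  BasD.dt_sc hf z

theorem dt_eiO (hf : f.Nondeg) (u v : V) (a : F) : dt hf (eiO f u v a) = 1 :=
  BasD.dt_eiO hf u v a

theorem dt_eq_one_iff (hf : f.Nondeg) (g : f.O) : dt hf g = 1 ↔ g.1 ∈ f.SO :=
  BasD.dt_eq_one_iff hf g

theorem isIrr_lin (hf : f.Nondeg) (l : Mu F q →* ℂˣ) : IsIrrCharacter f.O (lin hf l) :=
  BasD.isIrr_lin hf l

/-- The norm is onto, then Witt. -/
theorem exists_smul_eq (hf : f.Nondeg) {u v : V} (hu : f.B u u ≠ 0) (hv : f.B v v ≠ 0) :
    ∃ (g : f.O) (c : F), c ≠ 0 ∧ g.1 u = c • v :=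
  BasD.exists_smul_eq hf hu hv

theorem hs_of_one (hf : f.Nondeg) {χ : f.O → ℂ} (hχ : IsClassFunction f.O χ) {v : V}
    (hv : f.B v v ≠ 0) (h : ∑ z : Mu F q, χ (rf f v z) = 0) : Hs f χ :=
  BasD.hs_of_one hf hχ hv h

/-- Schur. -/
theorem exists_cen {χ : f.O → ℂ} (hχ : IsIrrCharacter f.O χ) : ∃ ν, Cen f χ ν :=
  BasD.exists_cen hχ

omit [FiniteDimensional F V] in
theorem isCompl_span {v : V} (hv : f.B v v ≠ 0) : IsCompl (F ∙ v) (f.perp (F ∙ v)) :=
  BasE.isCompl_span hv

theorem perp_nondeg (hf : f.Nondeg) {v : V} (hv : f.B v v ≠ 0) :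
    (f.restrict (f.perp (F ∙ v))).Nondeg :=
  BasE.perp_nondeg hf hv

theorem finrank_perp_span {v : V} (hv : f.B v v ≠ 0) :
    finrank F (f.perp (F ∙ v)) + 1 = finrank F V :=
  BasE.finrank_perp_span hv

section emb
variable {W : Submodule F V} (h : IsCompl W (f.perp W))

omit [FiniteDimensional F V] in
theorem emb_left (a : (f.restrict (f.perp W)).O) {w : V} (hw : w ∈ W) : (emb f h a).1 w = w :=
  BasE.emb_left h a hw

omit [FiniteDimensional F V] in
theorem emb_right (a : (f.restrict (f.perp W)).O) (u : f.perp W) :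
    (emb f h a).1 u = a.1 u :=
  BasE.emb_right h a u

omit [FiniteDimensional F V] in
theorem emb_injective : Function.Injective (emb f h) :=
  BasE.emb_injective h

omit [FiniteDimensional F V] in
theorem exists_emb {g : f.O} (hg : ∀ w ∈ W, g.1 w = w) : ∃ a, emb f h a = g :=
  BasE.exists_emb h hg

omit [FiniteDimensional F V] in
theorem emb_rf (u : f.perp W) (z : Mu F q) :
    emb f h (rf (f.restrict (f.perp W)) u z) = rf f u z :=
  BasE.emb_rf h u z

omit [FiniteDimensional F V] in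
theorem emb_eiO (u v : f.perp W) (a : F) :
    emb f h (eiO (f.restrict (f.perp W)) u v a) = eiO f u v a :=
  BasE.emb_eiO h u v a

omit [FiniteDimensional F V] in
theorem emb_tv (u : f.perp W) (a : XA hF) :
    emb f h (tv (f.restrict (f.perp W)) u a) = tv f u a :=
  BasE.emb_tv h u a

theorem fd_emb (a : (f.restrict (f.perp W)).O) : fd (emb f h a).1 = finrank F W + fd a.1 :=
  BasE.fd_emb h a

theorem om_emb (a : (f.restrict (f.perp W)).O) :
    om f (emb f h a) = (q : ℂ) ^ finrank F W * om (f.restrict (f.perp W)) a :=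
  BasE.om_emb h a

end emb

omit [FiniteDimensional F V] in
theorem emb_sc {v : V} (hv : f.B v v ≠ 0) (h : IsCompl (F ∙ v) (f.perp (F ∙ v))) (z : Mu F q) :
    emb f h (sc (f.restrict (f.perp (F ∙ v))) z) * rf f v z = sc f z :=
  BasE.emb_sc hv h z

omit [FiniteDimensional F V] in
/-- A hyperbolic plane contains a nonisotropic vector `w + c • w'`. -/
theorem exists_nonisotropic {w w' : V} (hw : f.q w = 0) (hw' : f.q w' = 0) (h : f.B w w' = 1) :
    ∃ c : F, f.B (w + c • w') (w + c • w') ≠ 0 :=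
  BasE.exists_nonisotropic hw hw' h

omit [FiniteDimensional F V] in
/-- The Levi decomposition of the stabiliser of `w` (`Form.exists_ei_apply_eq`). -/
theorem exists_levi {w w' : V} (hw : f.q w = 0) (hw' : f.q w' = 0) (h : f.B w w' = 1) {g : f.O}
    (hg : g ∈ St f w) :
    ∃ l ∈ St f w, l ∈ St f w' ∧ ∃ v a, f.EichOK w v a ∧ g = l * eiO f w v a :=
  BasE.exists_levi hw hw' h hg

end CL.WU
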