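import Cfsg.Agent.CLAS.WU.Bas
import Cfsg.Agent.CLAS.UniGen
import Cfsg.Agent.CHAR.Quot

/-! `GU = SU × μ` when `n` is prime to `q + 1`, and `Z(SU) = 1`: send `x` to `x * (sc z)⁻¹`, `z^n = dt x`, then
`suEquiv`, the quotient map and `e.symm`.  `cent_comap`: a commutator that is a scalar `z` has `z^n = 1`. -/

set_option autoImplicit false

namespace CL.WU

open Module CL.Witt CL.Uni Cfsg

variable {F : Type*} [Field F] [Fintype F] {q : ℕ} {hF : Fintype.card F = q ^ 2}
  {V : Type*} [AddCommGroup V] [Module F V] [FiniteDimensional F V] {f : Form (HT hF) V}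

theorem Br.root (hF : Fintype.card F = q ^ 2) {n : ℕ} (hcop : Nat.Coprime n (q + 1)) :
    Function.Bijective (fun z : Mu F q => z ^ n) :=
  (powCoprime (by rwa [card_Mu (hF := hF), Nat.coprime_comm])).bijective

/-- the projection to the special unitary group -/
theorem Br.exists_SO (hf : f.Nondeg) (hcop : Nat.Coprime (finrank F V) (q + 1)) :
    ∃ π : f.O →* f.SO, Function.Surjective π ∧ ∀ x, π x = 1 ↔ ∃ z, x = sc f z := by
  let e : Mu F q ≃* Mu F q := MulEquiv.ofBijective (powMonoidHom (finrank F V)) (Br.root hF hcop)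
  let r : f.O →* f.O := (sc f).comp (e.symm.toMonoidHom.comp (dt hf))
  have hr : ∀ x, dt hf (r x) = dt hf x := fun x => by
    change dt hf (sc f _) = _
    rw [dt_sc]
    exact e.apply_symm_apply _
  have hc : ∀ x y : f.O, x * r y = r y * x := fun x y => sc_comm x _
  let π : f.O →* f.SO := MonoidHom.mk' (fun x => ⟨(x * (r x)⁻¹).1, (dt_eq_one_iff hf _).1 (by
    rw [map_mul, map_inv, hr, mul_inv_cancel])⟩) fun x y => Subtype.ext (by
      change (x * y * (r (x * y))⁻¹).1 = (x * (r x)⁻¹ * (y * (r y)⁻¹)).1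
      congr 1
      rw [← map_inv r x, ← mul_assoc, mul_assoc x (r x⁻¹), ← hc, map_mul, mul_inv_rev, ← map_inv r x, ← map_inv r y,
        hc (r y⁻¹)]
      simp only [mul_assoc])
  refine ⟨π, fun y => ⟨⟨y.1, f.SO_le_O y.2⟩, Subtype.ext ?_⟩, fun x => ⟨fun h => ?_, ?_⟩⟩
  · have : r ⟨y.1, f.SO_le_O y.2⟩ = 1 := by
      change sc f (e.symm (dt hf _)) = 1
      rw [(dt_eq_one_iff hf _).2 y.2, map_one, map_one]
    change ((⟨y.1, f.SO_le_O y.2⟩ : f.O) * (r _)⁻¹).1 = _
    rw [this, inv_one, mul_one]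
  · have : x * (r x)⁻¹ = 1 := Subtype.ext (congrArg (fun y : f.SO => y.1) h)
    exact ⟨_, mul_inv_eq_one.1 this⟩
  · rintro ⟨z, rfl⟩
    have : r (sc f z) = sc f z := by
      change sc f (e.symm (dt hf _)) = _
      rw [dt_sc]
      exact congrArg _ (e.symm_apply_apply z)
    refine Subtype.ext ?_
    change (sc f z * (r _)⁻¹).1 = _
    rw [this, mul_inv_cancel]; rfl

theorem exists_proj {G : Type*} [Group G] (hF : Fintype.card F = q ^ 2) {n : ℕ} (hn : 3 ≤ n)
    (hcop : Nat.Coprime n (q + 1)) (e : G ≃* PSU n F q) :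
    ∃ π : (std hF (Fin n)).O →* G, Function.Surjective π ∧
      ∀ x, π x = 1 ↔ ∃ z, x = sc (std hF (Fin n)) z := by
  obtain ⟨π, h1, h2⟩ := Br.exists_SO (std_nondeg hF (Fin n)) (by simpa using hcop)
  have hz : Subgroup.center (SU n F q) = ⊥ := Subgroup.eq_bot_of_card_eq _ (by
    rw [card_center_SU hF (by omega), hcop])
  let e' : (std hF (Fin n)).SO ≃* G := (suEquiv hF n).symm.trans
    (((QuotientGroup.quotientBot.symm).trans (QuotientGroup.quotientMulEquivOfEq hz.symm)).trans e.symm)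
  exact ⟨e'.toMonoidHom.comp π, e'.surjective.comp h1, fun x => by
    rw [← h2]; exact map_eq_one_iff e' e'.injective⟩

theorem cent_comap (hf : f.Nondeg) (hcop : Nat.Coprime (finrank F V) (q + 1)) {G : Type*} [Group G]
    (π : f.O →* G) (hπ : ∀ x, π x = 1 ↔ ∃ z, x = sc f z) (g : f.O) :
    (Subgroup.centralizer {π g}).comap π = Subgroup.centralizer {g} := by
  ext x
  rw [Subgroup.mem_comap, Subgroup.mem_centralizer_singleton_iff, Subgroup.mem_centralizer_singleton_iff]
  refine ⟨fun h => ?_, fun h => by rw [← map_mul, h, map_mul]⟩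
  obtain ⟨z, hz⟩ := (hπ (x * g * (g * x)⁻¹)).1 (by rw [map_mul, map_inv, map_mul, map_mul, h, mul_inv_cancel])
  have h1 := congrArg (dt hf) hz
  rw [dt_sc, map_mul, map_inv, map_mul, map_mul, mul_comm (dt hf x), mul_inv_cancel] at h1
  have : z = 1 := (Br.root hF hcop).1 (by simpa using h1.symm)
  rw [this, map_one] at hz
  exact mul_inv_eq_one.1 hz

/-- An irreducible character trivial on the scalars comes from `G`. -/
theorem exists_desc {G : Type*} [Group G] (π : f.O →* G) (hs : Function.Surjective π)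
    (hπ : ∀ x, π x = 1 ↔ ∃ z, x = sc f z) {χ : f.O → ℂ} (hχ : IsIrrCharacter f.O χ)
    (hc : Cen f χ 1) : ∃ ψ, IsIrrCharacter G ψ ∧ ∀ x, ψ (π x) = χ x := by
  have key : ∀ x, χ (Function.surjInv hs (π x)) = χ x := fun x => by
    obtain ⟨z, hz⟩ := (hπ (x⁻¹ * Function.surjInv hs (π x))).1 (by
      rw [map_mul, map_inv, Function.surjInv_eq hs, inv_mul_cancel])
    rw [inv_mul_eq_iff_eq_mul.1 hz, hc]; simp
  refine ⟨fun y => χ (Function.surjInv hs y), (CL.Char.isIrrCharacter_comp_surjective_iff π hs).1 ?_, key⟩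
  simpa only [key] using hχ

end CL.WU
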