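import Cfsg.Agent.CLAS.WU.RegD

/-! The centraliser of the regular element.  `g` has no nonzero fixed vector in `W` or `W'` (transitive on
more than one vector), so `x e = z e`, `z ∈ μ`, and `x` preserves `e^⊥ = W ⊕ W'`.  The form `B (x a) a'` on `W` is `s`-invariant,
so zero (`form_eq_zero`): `x W ⊥ W`, so `x W ⊆ W`; likewise `x W' ⊆ W'`.  `x a₀ = s^i a₀` gives `x = g^i` on `W`
(transitivity, commutation), then on `W'` by duality. -/

set_option autoImplicit false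

namespace CL.WU

open Module CL.Witt CL.Uni Cfsg

variable {F : Type*} [Field F] [Fintype F] {q : ℕ} {hF : Fintype.card F = q ^ 2}
  {V : Type*} [AddCommGroup V] [Module F V] [FiniteDimensional F V] {f : Form (HT hF) V}

namespace CenX

variable {W W' : Submodule F V} {e : V} {g : f.O}

omit [FiniteDimensional F V] in
theorem pw {s : W ≃ₗ[F] W} (hs : ∀ x : W, (s x : V) = g.1 x) (i : ℕ) (a : W) :
    ((s ^ i) a : V) = (g ^ i).1 a := by
  induction i with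
  | zero => rfl
  | succ i ih => rw [pow_succ', pow_succ', LinearEquiv.mul_apply, hs, ih]; rfl

theorem swap (h : Sg f W W' e g) : Sg f W' W e g where
  hW := h.hW'
  hW' := h.hW
  he := h.he
  pW := h.pW'
  pW' := h.pW
  span x := by
    obtain ⟨a, ha, b, hb, c, hx⟩ := h.span x
    exact ⟨b, hb, a, ha, c, by rw [hx, add_comm a]⟩
  ne e := h.ne (Submodule.finrank_eq_zero.1 (by rw [← h.rk', e, finrank_bot]))
  rk := by rw [h.rk, h.rk']
  rk' := h.rk'.symm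
  ge := h.ge
  tr := h.tr'
  tr' := h.tr

omit [FiniteDimensional F V] in
theorem zero (hf : f.Nondeg) (h : Sg f W W' e g) {b : V} (hb : b ∈ W')
    (h0 : ∀ a ∈ W, f.B a b = 0) : b = 0 := hf.right b fun y => by
  obtain ⟨a, ha, b', hb', c, rfl⟩ := h.span y
  simp [h0 a ha, h.hW'.2 _ hb' _ hb, h.pW' b hb]

omit [FiniteDimensional F V] in
theorem mem (hf : f.Nondeg) (h : Sg f W W' e g) {y : V} (he : f.B e y = 0)
    (h0 : ∀ a ∈ W, f.B a y = 0) : y ∈ W := by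
  obtain ⟨a, ha, b, hb, c, rfl⟩ := h.span y
  have hc : c = 0 := by simpa [h.pW a ha, h.pW' b hb, h.he] using he
  have := zero hf h hb fun a' ha' => by
    simpa [hc, h.hW.2 _ ha' _ ha] using h0 a' ha'
  simpa [hc, this] using ha

omit [FiniteDimensional F V] in
theorem nofix (h : Sg f W W' e g) {a : V} (ha : a ∈ W) (hg : g.1 a = a) : a = 0 := by
  classical
  by_contra h0
  obtain ⟨s, hs, hsg⟩ := h.tr
  obtain ⟨c, c0, c1⟩ : ∃ c : F, c ≠ 0 ∧ c ≠ 1 := by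
    by_contra hc
    have : (Finset.univ : Finset F) ⊆ {0, 1} := fun c _ => by
      by_contra h
      simp only [Finset.mem_insert, Finset.mem_singleton, not_or] at h
      exact hc ⟨c, h⟩
    have h1 := (Finset.card_le_card this).trans Finset.card_le_two
    have h2 := two_le_q (hF := hF)
    rw [Finset.card_univ, hF] at h1
    nlinarith
  have h1 : (⟨a, ha⟩ : W) ≠ 0 := fun e => h0 (congrArg Subtype.val e)
  obtain ⟨i, hi⟩ := hs _ h1 _ (smul_ne_zero c0 h1)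
  have h2 : ∀ i : ℕ, (g ^ i).1 a = a := fun i => (St f a).pow_mem hg i
  have h3 := congrArg Subtype.val hi
  rw [pw hsg, h2] at h3
  have h4 : (c - 1) • a = 0 := by rw [sub_smul, one_smul]; exact sub_eq_zero.2 h3.symm
  exact c1 (sub_eq_zero.1 ((smul_eq_zero.1 h4).resolve_right h0))

theorem maps (hf : f.Nondeg) (h : Sg f W W' e g) (h32 : ¬ (finrank F V = 3 ∧ q = 2)) {x : f.O}
    (hx : ∀ v, x.1 (g.1 v) = g.1 (x.1 v)) {c : F} (c0 : c ≠ 0) (hc : x.1 e = c • e) {a : V}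
    (ha : a ∈ W) : x.1 a ∈ W := by
  obtain ⟨s, hs, hsg⟩ := h.tr
  have := hs.form_eq_zero (hF := hF) (fun a => h32 ⟨by rw [h.rk, a.1], a.2⟩)
    ((f.B.comp W.subtype).compl₂ ((x.1 : V →ₗ[F] V) ∘ₗ W.subtype)) fun u v => by
      change f.B (s u) (x.1 (s v)) = f.B u (x.1 v)
      rw [hsg, hsg, hx, f.O_B]
  refine mem hf h ?_ fun a' ha' => LinearMap.congr_fun₂ this ⟨a', ha'⟩ ⟨a, ha⟩
  have h1 := f.O_B x e a
  rw [hc, h.pW a ha, map_smulₛₗ, LinearMap.smul_apply, smul_eq_mul] at h1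
  exact (mul_eq_zero.1 h1).resolve_left ((map_ne_zero _).2 c0)

end CenX

theorem Sg.cent (hf : f.Nondeg) {W W' : Submodule F V} {e : V} {g : f.O} (h : Sg f W W' e g)
    (h32 : ¬ (finrank F V = 3 ∧ q = 2)) {x : f.O} (hx : x * g = g * x) :
    ∃ (i : ℕ) (z : Mu F q), x = g ^ i * rf f e z := by
  have hx' : ∀ v, x.1 (g.1 v) = g.1 (x.1 v) := fun v => congrArg (fun y : f.O => y.1 v) hx
  have hp : ∀ (j : ℕ) v, x.1 ((g ^ j).1 v) = (g ^ j).1 (x.1 v) := fun j v =>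
    congrArg (fun y : f.O => y.1 v) ((show Commute x g from hx).pow_right j).eq
  obtain ⟨s, hs, hsg⟩ := h.tr
  obtain ⟨s', hs', hsg'⟩ := h.tr'
  obtain ⟨c, hc⟩ : ∃ c : F, x.1 e = c • e := by
    obtain ⟨a, ha, b, hb, c, hd⟩ := h.span (x.1 e)
    have h1 := hx' e
    rw [h.ge, hd, map_add, map_add, map_smul, h.ge, add_left_inj] at h1
    have ga : g.1 a ∈ W := hsg ⟨a, ha⟩ ▸ (s ⟨a, ha⟩).2
    have gb : g.1 b ∈ W' := hsg' ⟨b, hb⟩ ▸ (s' ⟨b, hb⟩).2
    have h2 : g.1 b - b = a - g.1 a := by rw [sub_eq_sub_iff_add_eq_add, h1, add_comm]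
    have h3 : g.1 b - b = 0 := CenX.zero hf h (sub_mem gb hb) fun a' ha' => by
      rw [h2]; exact h.hW.2 _ ha' _ (sub_mem ha ga)
    refine ⟨c, ?_⟩
    rw [hd, CenX.nofix h ha (sub_eq_zero.1 (h2 ▸ h3)).symm,
      CenX.nofix (CenX.swap h) hb (sub_eq_zero.1 h3), zero_add, zero_add]
  have hn : c ^ (q + 1) = 1 := by
    have h1 := f.O_B x e e
    rw [hc, map_smul, map_smulₛₗ, LinearMap.smul_apply, smul_eq_mul, smul_eq_mul, HT_σ,
      ← mul_assoc, ← pow_succ'] at h1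
    exact mul_right_cancel₀ h.he (h1.trans (one_mul _).symm)
  have c0 : c ≠ 0 := fun e => by simp [e] at hn
  obtain ⟨a0, ha0, n0⟩ := Submodule.exists_mem_ne_zero_of_ne_bot h.ne
  have m0 : (⟨a0, ha0⟩ : W) ≠ 0 := fun e => n0 (congrArg Subtype.val e)
  obtain ⟨i, hi⟩ := hs _ m0 ⟨_, CenX.maps hf h h32 hx' c0 hc ha0⟩
    fun e => n0 (x.1.map_eq_zero_iff.1 (congrArg Subtype.val e))
  have hi' : (g ^ i).1 a0 = x.1 a0 := (CenX.pw hsg i _).symm.trans (congrArg Subtype.val hi)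
  have hW : ∀ a : W, x.1 a = (g ^ i).1 a := fun a => by
    by_cases ha : a = 0
    · simp [ha]
    obtain ⟨j, rfl⟩ := hs _ m0 a ha
    rw [CenX.pw hsg, hp, ← hi']
    exact congrArg (fun y : f.O => y.1 a0) (pow_mul_comm g j i)
  have hW' : ∀ b : W', x.1 b = (g ^ i).1 b := fun b => sub_eq_zero.1
    (CenX.zero hf h (sub_mem (CenX.maps hf (CenX.swap h) h32 hx' c0 hc b.2)
      (CenX.pw hsg' i b ▸ ((s' ^ i) b).2)) fun a ha => by
      obtain ⟨a', ha'⟩ := (s ^ i).surjective ⟨a, ha⟩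
      have h1 : (g ^ i).1 a' = a := (CenX.pw hsg i _).symm.trans (congrArg Subtype.val ha')
      rw [map_sub, ← h1, f.O_B, ← hW, f.O_B, sub_self])
  refine ⟨i, rootsOfUnity.mkOfPowEq c hn, Subtype.ext (LinearEquiv.ext fun v => ?_)⟩
  obtain ⟨a, ha, b, hb, d, rfl⟩ := h.span v
  change _ = (g ^ i).1 ((rf f e _).1 _)
  simp only [map_add, map_smul, rf_perp (h.pW a ha), rf_perp (h.pW' b hb), rf_self h.he,
    hW ⟨a, ha⟩, hW' ⟨b, hb⟩, hc, show (g ^ i).1 e = e from (St f e).pow_mem h.ge i]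
  rfl

end CL.WU
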