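import Cfsg.Agent.CLAS.UniBasic
import Cfsg.Agent.CLAS.Eichler
import Cfsg.Agent.CHAR.Basic
import Cfsg.Agent.CHAR.Inner

/-! Weil characters of finite unitary groups: definitions. -/

set_option autoImplicit false

namespace CL.WU

open Module CL.Witt CL.Uni Cfsg

section Gen

open Classical in
/-- The sum of `χ` over a subgroup. -/
noncomputable def gsum {G : Type*} [Group G] [Fintype G] (χ : G → ℂ) (A : Subgroup G) : ℂ :=
  ∑ x : G, if x ∈ A then χ x else 0

/-- The `a`-component of `χ` along `ι : A →* G`. -/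
noncomputable def part {G A : Type*} [Group G] [Group A] [Fintype A] (χ : G → ℂ) (ι : A →* G)
    (a : A →* ℂˣ) : G → ℂ :=
  fun g => (Nat.card A : ℂ)⁻¹ * ∑ z : A, (((a z)⁻¹ : ℂˣ) : ℂ) * χ (g * ι z)

instance finite_O {F : Type*} [Field F] [Finite F] {T : FormType F} {V : Type*} [AddCommGroup V]
    [Module F V] [FiniteDimensional F V] (f : Form T V) : Finite f.O :=
  have : Finite V := Module.finite_of_finite F
  Finite.of_injective (fun g : f.O => (g.1 : V → V))
    fun _ _ h => Subtype.ext (DFunLike.coe_injective h)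

noncomputable instance fintype_O {F : Type*} [Field F] [Finite F] {T : FormType F} {V : Type*}
    [AddCommGroup V] [Module F V] [FiniteDimensional F V] (f : Form T V) : Fintype f.O :=
  Fintype.ofFinite _

end Gen

/-- The norm one group `{z | z ^ (q + 1) = 1}`. -/
abbrev Mu (F : Type*) [Field F] (q : ℕ) : Type _ := rootsOfUnity (q + 1) F

noncomputable instance fintype_Mu (F : Type*) [Field F] (q : ℕ) : Fintype (Mu F q) :=
  Fintype.ofFinite _

noncomputable instance fintype_hom (A : Type*) [CommGroup A] [Finite A] : Fintype (A →* ℂˣ) :=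
  have : NeZero (Monoid.exponent A) := ⟨Monoid.exponent_ne_zero_of_finite⟩
  Fintype.ofFinite _

variable {F : Type*} [Field F] [Fintype F] {q : ℕ} {hF : Fintype.card F = q ^ 2}
  {V : Type*} [AddCommGroup V] [Module F V]

/-- The value in `F` of an element of `Mu F q`. -/
abbrev Mu.val (z : Mu F q) : F := ((z : Fˣ) : F)

omit [Fintype F] in
theorem Mu.pow_succ (z : Mu F q) : z.val ^ (q + 1) = 1 := by
  have := (mem_rootsOfUnity _ _).1 z.2
  rw [Mu.val, ← Units.val_pow_eq_pow_val, this, Units.val_one]

omit [Fintype F] in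
theorem Mu.norm (z : Mu F q) : z.val ^ q * z.val = 1 := by rw [← _root_.pow_succ, z.pow_succ]

omit [Fintype F] in
theorem Mu.ne_zero (z : Mu F q) : z.val ≠ 0 := Units.ne_zero _

/-- The trace zero elements, written multiplicatively. -/
abbrev XA (hF : Fintype.card F = q ^ 2) : Type _ := Multiplicative (HT hF).π.ker

noncomputable instance fintype_XA (hF : Fintype.card F = q ^ 2) : Fintype (XA hF) :=
  Fintype.ofFinite _

/-- Scalars. -/
noncomputable def sc (f : Form (HT hF) V) : Mu F q →* f.O where
  toFun z := ⟨LinearEquiv.smulOfNeZero F V z.val z.ne_zero, by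
    refine ⟨fun x y => ?_, fun x => ?_⟩
    · change f.B (z.val • x) (z.val • y) = _
      rw [map_smul, map_smulₛₗ, LinearMap.smul_apply, smul_eq_mul, smul_eq_mul, HT_σ,
        ← mul_assoc, mul_comm z.val, z.norm, one_mul]
    · change f.q (z.val • x) = _
      rw [f.q_smul, HT_σ, z.norm, one_mul]⟩
  map_one' := Subtype.ext (LinearEquiv.ext fun x => one_smul F x)
  map_mul' a b := Subtype.ext (LinearEquiv.ext fun x => mul_smul a.val b.val x)

theorem sc_apply (f : Form (HT hF) V) (z : Mu F q) (x : V) : (sc f z).1 x = z.val • x := rfl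

theorem rf_cond (f : Form (HT hF) V) (v : V) (z : Mu F q) :
    (HT hF).π ((HT hF).σ ((z.val - 1) / f.B v v)) +
      (HT hF).σ ((z.val - 1) / f.B v v) * ((z.val - 1) / f.B v v) * f.q v = 0 := by
  have h1 : (HT hF).σ (f.B v v) = f.B v v := by
    have := f.symm v v
    rw [HT_ε, one_mul] at this
    exact this.symm
  have h2 : (HT hF).σ z.val * z.val = 1 := z.norm
  change (HT hF).σ _ + (HT hF).σ ((HT hF).σ _) + _ = 0
  rw [(HT hF).σσ, map_div₀, h1, map_sub, map_one, f.herm_q]
  by_cases h : f.B v v = 0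
  · simp [h]
  · field_simp
    linear_combination h2

/-- The reflections along `v` (trivial when `v` is isotropic). -/
noncomputable def rf (f : Form (HT hF) V) (v : V) : Mu F q →* f.O where
  toFun z := ⟨f.rk1Equiv v _ (rf_cond f v z), f.rk1Equiv_mem_O _ _ _⟩
  map_one' := Subtype.ext (LinearEquiv.ext fun x => by
    rw [f.rk1Equiv_apply]; simp [Mu.val])
  map_mul' a b := Subtype.ext (LinearEquiv.ext fun x => by
    change f.rk1 v _ x = f.rk1 v _ (f.rk1 v _ x)
    rw [f.rk1_rk1]
    congr 2
    by_cases h : f.B v v = 0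
    · simp [h]
    · simp only [Mu.val, Subgroup.coe_mul, Units.val_mul]
      field_simp
      ring)

theorem rf_apply (f : Form (HT hF) V) (v : V) (z : Mu F q) (x : V) :
    (rf f v z).1 x = x + ((z.val - 1) / f.B v v * f.B v x) • v := rfl

/-- An Eichler transformation as an element of the isometry group. -/
noncomputable def eiO (f : Form (HT hF) V) (u v : V) (a : F) : f.O :=
  ⟨f.ei u v a, Form.ei_mem_O u v a⟩

theorem eiO_val (f : Form (HT hF) V) (u v : V) (a : F) : (eiO f u v a).1 = f.ei u v a := rfl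

theorem tv_ok {f : Form (HT hF) V} {w : V} (hw : f.q w = 0) (a : XA hF) :
    f.EichOK w 0 (a.toAdd : (HT hF).π.ker) :=
  ⟨hw, map_zero _, by rw [f.q_zero]; exact a.toAdd.2⟩

/-- The transvections with centre `w` (trivial when `w` is not isotropic). -/
noncomputable def tv (f : Form (HT hF) V) (w : V) : XA hF →* f.O where
  toFun a := eiO f w 0 (a.toAdd : (HT hF).π.ker)
  map_one' := Subtype.ext (Form.ei_zero w)
  map_mul' a b := Subtype.ext (by
    by_cases hw : f.q w = 0
    · change _ = f.ei w 0 _ * f.ei w 0 _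
      rw [(tv_ok hw a).ei_mul (tv_ok hw b)]
      simp [eiO]
    · have h : ∀ c : F, f.ei w 0 c = 1 := fun c => dif_neg fun h => hw h.hu
      change f.ei w 0 _ = f.ei w 0 _ * f.ei w 0 _
      rw [h, h, h, mul_one])

theorem tv_val (f : Form (HT hF) V) (w : V) (a : XA hF) :
    (tv f w a).1 = f.ei w 0 (a.toAdd : (HT hF).π.ker) := rfl

/-- The stabiliser of a vector. -/
def St (f : Form (HT hF) V) (w : V) : Subgroup f.O where
  carrier := {g | g.1 w = w}
  mul_mem' {a b} ha hb := by
    change a.1 (b.1 w) = w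
    rw [hb, ha]
  one_mem' := rfl
  inv_mem' {a} ha := by
    change a.1.symm w = w
    rw [LinearEquiv.symm_apply_eq]
    exact ha.symm

theorem mem_St {f : Form (HT hF) V} {w : V} {g : f.O} : g ∈ St f w ↔ g.1 w = w := Iff.rfl

/-- Extension by the identity on `W` of an isometry of the orthogonal complement of `W`. -/
noncomputable def emb (f : Form (HT hF) V) {W : Submodule F V} (h : IsCompl W (f.perp W)) :
    (f.restrict (f.perp W)).O →* f.O :=
  (Subgroup.inclusion (f.fix_le_O W)).comp (f.fixEquiv h).symm.toMonoidHom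

theorem emb_apply (f : Form (HT hF) V) {W : Submodule F V} (h : IsCompl W (f.perp W))
    (a : (f.restrict (f.perp W)).O) (w : W) (u : f.perp W) :
    (emb f h a).1 (w + u) = w + a.1 u := f.fixEquiv_symm_apply h a w u

variable [FiniteDimensional F V]

/-- The determinant, with values in `Mu F q`. -/
noncomputable def dt {f : Form (HT hF) V} (hf : f.Nondeg) : f.O →* Mu F q :=
  ((LinearEquiv.det : (V ≃ₗ[F] V) →* Fˣ).comp f.O.subtype).codRestrict _ fun g => by
    rw [mem_rootsOfUnity, ← Units.val_inj, Units.val_pow_eq_pow_val, _root_.pow_succ]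
    have := hf.σ_det_mul_det g.2
    rw [HT_σ, ← LinearEquiv.coe_det] at this
    exact this

theorem dt_val {f : Form (HT hF) V} (hf : f.Nondeg) (g : f.O) :
    (dt hf g).val = LinearMap.det (g.1 : V →ₗ[F] V) := LinearEquiv.coe_det _

/-- The dimension of the fixed space. -/
noncomputable def fd (g : V ≃ₗ[F] V) : ℕ :=
  finrank F (LinearMap.ker ((g : V →ₗ[F] V) - LinearMap.id))

/-- The total Weil character. -/
noncomputable def om (f : Form (HT hF) V) : f.O → ℂ :=
  fun g => (-1) ^ finrank F V * (-(q : ℂ)) ^ fd g.1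

/-- The Weil character with central character `ν`. -/
noncomputable def ze (f : Form (HT hF) V) (ν : Mu F q →* ℂˣ) : f.O → ℂ := part (om f) (sc f) ν

/-- No reflection group has a nonzero fixed vector. -/
def Hs (f : Form (HT hF) V) (χ : f.O → ℂ) : Prop :=
  ∀ v, f.B v v ≠ 0 → ∑ z : Mu F q, χ (rf f v z) = 0

/-- The scalars act through `ν`. -/
def Cen (f : Form (HT hF) V) (χ : f.O → ℂ) (ν : Mu F q →* ℂˣ) : Prop :=
  ∀ z g, χ (g * sc f z) = ν z * χ g

/-- The linear character `l ∘ det`. -/
noncomputable def lin {f : Form (HT hF) V} (hf : f.Nondeg) (l : Mu F q →* ℂˣ) : f.O → ℂ :=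
  fun g => l (dt hf g)

/-- The extension to the stabiliser of `w` of the character of the Heisenberg group over `c`. -/
noncomputable def th (f : Form (HT hF) V) (w : V) (c : XA hF →* ℂˣ) : f.O → ℂ :=
  fun g => ((q : ℂ) + 1)⁻¹ * part (om f) (tv f w) c g

end CL.WU
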