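import Cfsg.Agent.CLAS.WU.Def

/-! Singer cycles and the regular element `(s, s^{-*}, 1)` of an odd-dimensional unitary group. -/

set_option autoImplicit false

namespace CL.WU

open Module CL.Witt CL.Uni Cfsg

/-- The powers of `s` are transitive on the nonzero vectors. -/
def Tr {F W : Type*} [Field F] [AddCommGroup W] [Module F W] (s : W ≃ₗ[F] W) : Prop :=
  ∀ x, x ≠ 0 → ∀ y, y ≠ 0 → ∃ i : ℕ, (s ^ i) x = y

variable {F : Type*} [Field F] [Fintype F] {q : ℕ} {hF : Fintype.card F = q ^ 2}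
  {V : Type*} [AddCommGroup V] [Module F V]

/-- `V = (W ⊕ W') ⊥ F e` with `W`, `W'` totally isotropic; `g` fixes `e` and is a Singer cycle on
`W` and on `W'`. -/
structure Sg (f : Form (HT hF) V) (W W' : Submodule F V) (e : V) (g : f.O) : Prop where
  hW : f.TotSing W
  hW' : f.TotSing W'
  he : f.B e e ≠ 0
  pW : ∀ x ∈ W, f.B e x = 0
  pW' : ∀ x ∈ W', f.B e x = 0
  span : ∀ x, ∃ a ∈ W, ∃ b ∈ W', ∃ c : F, x = a + b + c • e
  ne : W ≠ ⊥
  rk : finrank F V = 2 * finrank F W + 1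
  rk' : finrank F W' = finrank F W
  ge : g.1 e = e
  tr : ∃ s : W ≃ₗ[F] W, Tr s ∧ ∀ x : W, (s x : V) = g.1 x
  tr' : ∃ s : W' ≃ₗ[F] W', Tr s ∧ ∀ x : W', (s x : V) = g.1 x

end CL.WU
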