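import Cfsg.Agent.CLAS.WU.Gal

/-! The multiplicities `k_a` are equal.
Take a hyperbolic pair `w, w'` in `v^⊥`, `c ≠ 1` and `y` from `gal`.  `q² th (rf v z) = om (rf v z)` is `q^n` at
`z = 1`, else `-q^(n-1)`.  `∑_z part χ (tv w) c (rf v z) = 0` (a summand of `χ` on `μ_v`, `Hs`), so
`∑_z y (rf v z) = (q+1) y 1`.  (Then `y (rf v z) = y 1`, as `|y| ≤ y 1`.)  For `a ≠ 1` compute
`part (part χ (tv w) c) (rf v) a 1 = y 1 * q^(n-3)` and by `part_comm`, `emb_tv`, `part_ze_tv`, `th_levi` in `v^⊥`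
it is `k_a q^(n-3)`.  So `k_a = y 1 =: k`.  For `a = 1` the part is a character of degree zero.  Sum over `a`
(`sum_part`, `part_ze_rf`, `exists_emb`); other `u` by conjugation (`exists_smul_eq`). -/

set_option autoImplicit false

namespace CL.WU

open Module CL.Witt CL.Uni Cfsg

variable {F : Type*} [Field F] [Fintype F] {q : ℕ} {hF : Fintype.card F = q ^ 2}
  {V : Type*} [AddCommGroup V] [Module F V] [FiniteDimensional F V] {f : Form (HT hF) V}

theorem eq_on_St (hf : f.Nondeg) (h3 : 3 ≤ finrank F V) {χ : f.O → ℂ} (hχ : IsCharacter f.O χ)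
    (hs : Hs f χ) {ν : Mu F q →* ℂˣ} {v : V} (hv : f.B v v ≠ 0)
    (h : IsCompl (F ∙ v) (f.perp (F ∙ v)))
    (hk : ∀ a : Mu F q →* ℂˣ, ∃ k : ℕ, ∀ x, part χ (rf f v) a (emb f h x) =
      k * ze (f.restrict (f.perp (F ∙ v))) (ν / a) x) :
    ∃ k : ℕ, ∀ u, f.B u u ≠ 0 → ∀ g ∈ St f u, χ g = k * ze f ν g := by
  classical
  have hf' := perp_nondeg hf hv
  have hn := finrank_perp_span (f := f) hv
  have hq := two_le_q (hF := hF)
  have hS : ∀ x, emb f h x ∈ St f v := fun x => emb_left h x (Submodule.mem_span_singleton_self v)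
  have Z : ∀ x, part χ (rf f v) 1 (emb f h x) = 0 := fun x => by
    have := (isCharacter_part hχ (rf f v) 1 (emb f h) fun x z => rf_comm (hS x) z).norm_le_norm_one x
    rw [map_one, part_one_apply_one, hs v hv, mul_zero, norm_zero] at this
    exact norm_le_zero_iff.1 this
  obtain ⟨w, w', hw, hw', hb⟩ := exists_hyp_pair (sig_ne_id hF) hf' (by omega)
  have hw0 : (w : V) ≠ 0 := fun e => by
    rw [show w = 0 from Subtype.ext e] at hb
    simp at hb
  have : Nontrivial (XA hF →* ℂˣ) := Fintype.one_lt_card_iff_nontrivial.1 (by rw [card_XA_hom]; omega)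
  obtain ⟨c, hc⟩ := exists_ne (1 : XA hF →* ℂˣ)
  obtain ⟨y, hy, -, hy'⟩ := gal hf (w := (w : V)) hw hw0 hc hχ
  have m : ∀ (u : f.perp (F ∙ v)) z, rf f v z ∈ St f (u : V) := fun u z =>
    rf_perp (f.mem_perp_span_singleton.1 u.2) z
  have q0 : (q : ℂ) ≠ 0 := OmX.q0 hF
  have E : ∀ (a : Mu F q →* ℂˣ) (K : ℂ), (∀ x, part χ (rf f v) a (emb f h x) =
      K * ze (f.restrict (f.perp (F ∙ v))) (ν / a) x) →
      ∑ z, (((a z)⁻¹ : ℂˣ) : ℂ) * (y (rf f v z) * if z = 1 then (q : ℂ) else -1) = (q + 1) * K := fun a K hK => by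
    have c1 := congrFun (part_comm χ (tv f (w : V)) c (rf f v) a fun t z => (tv_comm (m w z) t).symm) 1
    have r : part (part χ (rf f v) a) (tv f (w : V)) c 1 = K * th (f.restrict (f.perp (F ∙ v))) w c 1 := by
      rw [← part_ze_tv hw hc (ν / a) (one_mem _)]
      change (Nat.card _ : ℂ)⁻¹ * ∑ t, _ * part χ (rf f v) a (1 * tv f (w : V) t) =
        K * ((Nat.card _ : ℂ)⁻¹ * ∑ t, _ * ze _ (ν / a) (1 * tv _ w t))
      simp only [one_mul, ← emb_tv h, hK, Finset.mul_sum]
      exact Finset.sum_congr rfl fun t _ => by ring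
    have t1 := th_levi hw hw' hb hc (one_mem _) (one_mem _)
    have t2 : ∀ z, (q : ℂ) ^ 2 * th f (w : V) c (rf f v z) =
        (if z = 1 then (q : ℂ) else -1) * om (f.restrict (f.perp (F ∙ v))) 1 := fun z => by
      rw [th_levi (f := f) (w := (w : V)) (w' := (w' : V)) hw hw' hb hc (m w z) (m w' z), ← ZeB.om_rf hv h 1 z, map_one, one_mul]
    have T0 : om (f.restrict (f.perp (F ∙ v))) 1 ≠ 0 := by rw [ZeB.om_one]; exact pow_ne_zero _ q0
    rw [r] at c1
    change (Nat.card _ : ℂ)⁻¹ * ∑ z, _ * part χ (tv f (w : V)) c (1 * rf f v z) = _ at c1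
    rw [ZeB.cM hF, inv_mul_eq_iff_eq_mul₀ (ZeB.q1 q)] at c1
    refine mul_right_cancel₀ T0 ?_
    rw [← t1, show ((q : ℂ) + 1) * K * (q ^ 2 * th (f.restrict (f.perp (F ∙ v))) w c 1) =
      q ^ 2 * ((q + 1) * (K * th (f.restrict (f.perp (F ∙ v))) w c 1)) by ring, ← c1, t1, Finset.sum_mul, Finset.mul_sum]
    refine Finset.sum_congr rfl fun z _ => ?_
    rw [one_mul, hy' _ (m w z)]
    linear_combination (-((((a z)⁻¹ : ℂˣ) : ℂ) * y (rf f v z))) * t2 z
  have Y1 : y 1 = charDegree fun g : St f (w : V) => y g := hy.apply_one_eq_charDegree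
  set d := charDegree fun g : St f (w : V) => y g with hd
  have Y : ∀ z, y (rf f v z) = d := by
    have e := E 1 0 fun x => by rw [Z, zero_mul]
    have e2 : ∑ z, ((d : ℂ) - y (rf f v z)) = 0 := by
      rw [mul_zero, Finset.sum_congr rfl (g := fun z => (if z = 1 then ((q : ℂ) + 1) * d else 0) - y (rf f v z))
        fun z _ => by
          split_ifs with hz
          · rw [hz, map_one, map_one, Y1]; simp; ring
          · simp] at e
      rw [Finset.sum_sub_distrib, Finset.sum_ite_eq', if_pos (Finset.mem_univ _)] at e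
      rw [Finset.sum_sub_distrib, Finset.sum_const, Finset.card_univ, ← Nat.card_eq_fintype_card, nsmul_eq_mul,
        ZeB.cM hF, e]
    have e3 : ∑ z, ((d : ℝ) - (y (rf f v z)).re) = 0 := by
      simpa [Complex.re_sum] using congrArg Complex.re e2
    intro z
    have := (Finset.sum_eq_zero_iff_of_nonneg fun z _ => sub_nonneg.2 (hy.re_le ⟨_, m w z⟩)).1 e3 z (Finset.mem_univ _)
    rw [← Y1]
    exact hy.eq_one_of_re_eq (g := ⟨_, m w z⟩) (sub_eq_zero.1 this).symm
  have A : ∀ g ∈ St f v, χ g = d * ze f ν g := fun g hg => by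
    obtain ⟨x, rfl⟩ := exists_emb h (g := g) fun u hu => by
      obtain ⟨r, rfl⟩ := Submodule.mem_span_singleton.1 hu
      rw [map_smul, mem_St.1 hg]
    rw [← sum_part χ (rf f v), ← sum_part (ze f ν) (rf f v), Finset.mul_sum]
    refine Finset.sum_congr rfl fun a _ => ?_
    rw [part_ze_rf hv h]
    split_ifs with ha
    · rw [ha, Z, mul_zero]
    · obtain ⟨k, hk⟩ := hk a
      have e := E a k hk
      have e2 := ZeB.sum_eps hF a 1
      simp only [one_mul, if_neg ha, map_one, Units.val_one] at e2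
      simp only [Y, mul_left_comm _ (d : ℂ), ← Finset.mul_sum] at e
      rw [hk, show (k : ℂ) = d from mul_left_cancel₀ (ZeB.q1 q) (by rw [← e, mul_comm _ (d : ℂ), ← e2])]
  refine ⟨d, fun u hu g hg => ?_⟩
  obtain ⟨s, r, r0, e⟩ := exists_smul_eq hf hu hv
  rw [← hχ.isClassFunction g s, ← (isCharacter_ze hf ν).isClassFunction g s]
  refine A _ ?_
  have : s.1.symm v = r⁻¹ • u := by
    rw [LinearEquiv.symm_apply_eq, map_smul, e, smul_smul, inv_mul_cancel₀ r0, one_smul]
  change s.1 (g.1 (s.1.symm v)) = v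
  rw [this, map_smul, mem_St.1 hg, ← this, LinearEquiv.apply_symm_apply]

end CL.WU
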