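import Cfsg.Agent.CLAS.WU.Def
import Cfsg.Agent.CHAR.Rep

/-! Fixed vectors: `fix_SO` and `lin_of_fix`. -/

set_option autoImplicit false
set_option maxHeartbeats 400000

namespace CL.WU.FixA

open Module CL.Witt CL.Uni Cfsg

variable {F : Type*} [Field F] [Fintype F] {q : ℕ} {hF : Fintype.card F = q ^ 2}
  {V : Type*} [AddCommGroup V] [Module F V] [FiniteDimensional F V] {f : Form (HT hF) V}

variable {M : Type*} [AddCommGroup M] [Module ℂ M] [FiniteDimensional ℂ M]

omit [FiniteDimensional ℂ M] in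
theorem fix_SO (hf : f.Nondeg) (ρ : Representation ℂ f.O M) {w w' : V} (hw : f.q w = 0)
    (hw' : f.q w' = 0) (h : f.B w w' ≠ 0) {x : M}
    (h1 : ∀ v a, f.EichOK w v a → ρ (eiO f w v a) x = x)
    (h2 : ∀ v a, f.EichOK w' v a → ρ (eiO f w' v a) x = x) (g : f.O) (hg : g.1 ∈ f.SO) :
    ρ g x = x := by
  let S : Subgroup f.O :=
    { carrier := {g | ρ g x = x}
      mul_mem' := fun {a b} ha hb => by
        change ρ (a * b) x = x
        rw [map_mul, End.mul_apply, hb, ha]
      one_mem' := by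
        change ρ 1 x = x
        rw [map_one, End.one_apply]
      inv_mem' := fun {a} ha => by
        change ρ a⁻¹ x = x
        conv_lhs => rw [← (ha : ρ a x = x)]
        rw [← End.mul_apply, ← map_mul, inv_mul_cancel, map_one, End.one_apply] }
  have hE : f.E ≤ S.map f.O.subtype := hf.E_le_of_B_ne hw hw' h
    (Form.U_le_iff.2 fun v a hv => ⟨eiO f w v a, h1 v a hv, rfl⟩)
    (Form.U_le_iff.2 fun v a hv => ⟨eiO f w' v a, h2 v a hv, rfl⟩)
  rw [E_eq_SO (sig_ne_id hF) hf] at hE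
  obtain ⟨g', hg', e⟩ := hE hg
  obtain rfl : g' = g := Subtype.ext e
  exact hg'

theorem dt_one (hf : f.Nondeg) {g : f.O} (h : dt hf g = 1) : g.1 ∈ f.SO := by
  rw [Form.mem_SO]
  refine ⟨g.2, ?_⟩
  rw [← dt_val hf, h]
  rfl

theorem dt_surj (hf : f.Nondeg) (h1 : 1 ≤ finrank F V) : Function.Surjective (dt hf) := fun z => by
  obtain ⟨g, hg, e⟩ := exists_det_eq (sig_ne_id hF) hf h1 (d := z.val) z.norm
  exact ⟨⟨g, hg⟩, Subtype.ext (Units.ext ((dt_val hf ⟨g, hg⟩).trans e))⟩

theorem lin_of_fix (hf : f.Nondeg) (h1 : 1 ≤ finrank F V) (ρ : Representation ℂ f.O M)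
    (hρ : ρ.IsIrreducible) {x : M} (hx : x ≠ 0) (h : ∀ g : f.O, g.1 ∈ f.SO → ρ g x = x) :
    ∃ l, ρ.character = lin hf l := by
  obtain ⟨hn, hirr⟩ := (CL.Char.isIrreducible_iff ρ).1 hρ
  have triv : ∀ g : f.O, dt hf g = 1 → ρ g = 1 := by
    let U : Submodule ℂ M :=
      { carrier := {y | ∀ g : f.O, dt hf g = 1 → ρ g y = y}
        add_mem' := fun {a b} ha hb g hg => by rw [map_add, ha g hg, hb g hg]
        zero_mem' := fun g _ => map_zero _
        smul_mem' := fun c a ha g hg => by rw [map_smul, ha g hg] }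
    have hU : U = ⊤ := (hirr U fun k y hy g hg => by
      have e : g * k = k * (k⁻¹ * g * k) := by group
      rw [← End.mul_apply, ← map_mul, e, map_mul, End.mul_apply, hy _ (by
        rw [map_mul, map_mul, hg, map_inv, mul_one, inv_mul_cancel])]).resolve_left fun e =>
      hx ((Submodule.mem_bot ℂ).1 (e ▸ (fun g hg => h g (dt_one hf hg) : x ∈ U)))
    intro g hg
    ext y
    exact (hU ▸ Submodule.mem_top : y ∈ U) g hg
  have comm : ∀ g k : f.O, ρ g * ρ k = ρ k * ρ g := fun g k => by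
    have e : g * k = k * g * (g⁻¹ * k⁻¹ * g * k) := by group
    rw [← map_mul, e, map_mul, triv (g⁻¹ * k⁻¹ * g * k) (by
      rw [map_mul, map_mul, map_mul, map_inv, map_inv, mul_right_comm _ (dt hf k)⁻¹, inv_mul_cancel,
        one_mul, inv_mul_cancel]), mul_one, map_mul]
  have sca : ∀ g : f.O, ∃ c : ℂ, ρ g = c • (1 : End ℂ M) := fun g => by
    obtain ⟨c, hc⟩ := End.exists_eigenvalue (ρ g)
    have hU := (hirr (End.eigenspace (ρ g) c) fun k y hy => by
      rw [End.mem_eigenspace_iff] at hy ⊢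
      rw [← End.mul_apply, comm, End.mul_apply, hy, map_smul]).resolve_left hc
    refine ⟨c, LinearMap.ext fun y => ?_⟩
    exact End.mem_eigenspace_iff.1 (hU ▸ Submodule.mem_top : y ∈ End.eigenspace (ρ g) c)
  have d1 : finrank ℂ M = 1 := by
    have hU := (hirr (ℂ ∙ x) fun k y hy => by
      obtain ⟨c, hc⟩ := sca k
      rw [hc]
      exact Submodule.smul_mem _ c hy).resolve_left (by simpa using hx)
    rw [← finrank_top, ← hU, finrank_span_singleton hx]
  let φ : f.O →* ℂˣ := ((LinearMap.det : End ℂ M →* ℂ).comp ρ).toHomUnits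
  refine ⟨(dt hf).liftOfSurjective (dt_surj hf h1) ⟨φ, fun g hg => ?_⟩, funext fun g => ?_⟩
  · refine Units.ext ?_
    change LinearMap.det (ρ g) = 1
    rw [triv g hg, map_one]
  · rw [lin, MonoidHom.liftOfRightInverse_comp_apply]
    change LinearMap.trace ℂ M (ρ g) = LinearMap.det (ρ g)
    obtain ⟨c, hc⟩ := sca g
    rw [hc, map_smul, LinearMap.det_smul, LinearMap.trace_one, map_one, d1]
    simp

end CL.WU.FixA
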