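import Cfsg.Agent.CLAS.WU.Def
import Cfsg.Agent.CHAR.Constit
import Cfsg.Agent.CHAR.Orth
import Cfsg.Agent.CHAR.Rep

/-! General lemmas on `part` and `gsum` (any finite group). -/

set_option autoImplicit false

namespace CL.WU

open Module CL.Witt CL.Uni Cfsg


namespace Px

variable {G A : Type*} [Group G] [Group A] [Fintype A] {M : Type*} [AddCommGroup M] [Module ℂ M]

/-- the projector -/
noncomputable def P (ρ : Representation ℂ G M) (ι : A →* G) (a : A →* ℂˣ) : Module.End ℂ M :=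
  (Nat.card A : ℂ)⁻¹ • ∑ z : A, (((a z)⁻¹ : ℂˣ) : ℂ) • ρ (ι z)

/-- the eigenspace -/
def E (ρ : Representation ℂ G M) (ι : A →* G) (a : A →* ℂˣ) : Submodule ℂ M where
  carrier := {x | ∀ z, ρ (ι z) x = (a z : ℂ) • x}
  add_mem' {x y} hx hy z := by rw [map_add, hx z, hy z, smul_add]
  zero_mem' z := by rw [map_zero, smul_zero]
  smul_mem' c x hx z := by rw [map_smul, hx z, smul_comm]

theorem cA : (Nat.card A : ℂ) ≠ 0 := Nat.cast_ne_zero.2 Nat.card_pos.ne'

theorem proj (ρ : Representation ℂ G M) (ι : A →* G) (a : A →* ℂˣ) :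
    LinearMap.IsProj (E ρ ι a) (P ρ ι a) := by
  refine ⟨fun x y => ?_, fun x hx => ?_⟩
  · simp only [P, LinearMap.smul_apply, LinearMap.sum_apply, map_smul, map_sum]
    rw [smul_comm (a y : ℂ), Finset.smul_sum, Finset.smul_sum (r := (a y : ℂ)), Finset.smul_sum,
      ← Equiv.sum_comp (Equiv.mulLeft y) fun z => (Nat.card A : ℂ)⁻¹ • (a y : ℂ) •
        (((a z)⁻¹ : ℂˣ) : ℂ) • ρ (ι z) x]
    refine Finset.sum_congr rfl fun z _ => ?_
    simp only [Equiv.coe_mulLeft, map_mul, Module.End.mul_apply, smul_smul]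
    congr 1
    simp only [mul_inv_rev, Units.val_mul, Units.val_inv_eq_inv_val]
    have := (a y).ne_zero
    field_simp
  · simp only [P, LinearMap.smul_apply, LinearMap.sum_apply, hx _, smul_smul, Units.inv_mul,
      one_smul, Finset.sum_const, Finset.card_univ, ← Nat.card_eq_fintype_card,
      ← Nat.cast_smul_eq_nsmul ℂ, inv_mul_cancel₀ (cA (A := A))]

variable [FiniteDimensional ℂ M]

theorem part_eq (ρ : Representation ℂ G M) (ι : A →* G) (a : A →* ℂˣ) (g : G) :
    part ρ.character ι a g = LinearMap.trace ℂ M (ρ g * P ρ ι a) := by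
  simp only [part, P, mul_smul_comm, Finset.mul_sum, map_smul, map_sum, smul_eq_mul,
    Representation.character, map_mul]

theorem part_one (ρ : Representation ℂ G M) (ι : A →* G) (a : A →* ℂˣ) :
    part ρ.character ι a 1 = finrank ℂ (E ρ ι a) := by
  rw [part_eq, map_one, one_mul, (proj ρ ι a).trace]

theorem ne_iff (ρ : Representation ℂ G M) (ι : A →* G) (a : A →* ℂˣ) :
    part ρ.character ι a 1 ≠ 0 ↔ ∃ x : M, x ≠ 0 ∧ ∀ z, ρ (ι z) x = (a z : ℂ) • x := by
  rw [part_one, Nat.cast_ne_zero, Ne, Submodule.finrank_eq_zero, ← Ne, Submodule.ne_bot_iff]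
  exact ⟨fun ⟨x, h, h'⟩ => ⟨x, h', h⟩, fun ⟨x, h, h'⟩ => ⟨x, h', h⟩⟩

theorem gsum_eq [Fintype G] (χ : G → ℂ) (C : Subgroup G) [Fintype C] :
    gsum χ C = Nat.card C * part χ C.subtype 1 1 := by
  classical
  simp only [gsum, part, ← mul_assoc, mul_inv_cancel₀ (cA (A := C)), one_mul, MonoidHom.one_apply,
    inv_one, Units.val_one, Subgroup.coe_subtype]
  rw [← Finset.sum_filter]
  exact Finset.sum_subtype _ (by simp) _

omit [FiniteDimensional ℂ M] in
theorem indep {T I : Type*} (op : I → Module.End ℂ M) (ψ : T → I → ℂ) (φ : I → ℂ) (S : Finset T)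
    (hS : ∀ t ∈ S, ψ t ≠ φ) : ∀ (v : T → M) (y : M), (∀ t i, op i (v t) = ψ t i • v t) →
      (∀ i, op i y = φ i • y) → y = ∑ t ∈ S, v t → y = 0 := by
  classical
  induction S using Finset.induction_on with
  | empty => exact fun v y _ _ h => h
  | insert t S ht ih =>
    intro v y hv hy h
    obtain ⟨i, hi⟩ := Function.ne_iff.1 (hS t (Finset.mem_insert_self _ _))
    rw [Finset.sum_insert ht] at h
    refine (smul_eq_zero.1 (ih (fun u hu => hS u (Finset.mem_insert_of_mem hu))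
      (fun u => (ψ u i - ψ t i) • v u) ((φ i - ψ t i) • y) (fun u j => ?_) (fun j => ?_) ?_)).resolve_left
      (sub_ne_zero.2 hi.symm)
    · rw [map_smul, hv, smul_comm]
    · rw [map_smul, hy, smul_comm]
    · rw [sub_smul, ← hy, h, map_add, map_sum, hv, smul_add, add_sub_add_left_eq_sub,
        Finset.smul_sum, ← Finset.sum_sub_distrib]
      exact Finset.sum_congr rfl fun u _ => by rw [hv, sub_smul]

end Px

section
variable {G A : Type*} [Group G] [CommGroup A] [Fintype A]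

/-- The projector `|A|⁻¹ ∑ a(z)⁻¹ ρ(ι z)` commutes with `ρ ∘ j`; take the trace on its range. -/
theorem isCharacter_part {H : Type*} [Group H] {χ : G → ℂ} (hχ : IsCharacter G χ) (ι : A →* G)
    (a : A →* ℂˣ) (j : H →* G) (hj : ∀ h z, j h * ι z = ι z * j h) :
    IsCharacter H (fun h => part χ ι a (j h)) := by
  obtain ⟨n, ρ, rfl⟩ := hχ
  have hE : ∀ h : H, Px.E ρ ι a ≤ (Px.E ρ ι a).comap (ρ (j h)) := fun h x hx z => by
    rw [← Module.End.mul_apply, ← map_mul, ← hj, map_mul, Module.End.mul_apply, hx z, map_smul]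
  convert CL.Char.isCharacter_character
    (Representation.subrepresentation (ρ.comp j) (Px.E ρ ι a) hE) using 1
  funext h
  rw [Px.part_eq, ← LinearMap.trace_restrict_eq_of_forall_mem (Px.E ρ ι a) (ρ (j h) * Px.P ρ ι a)
    (fun x => hE h (x := Px.P ρ ι a x) ((Px.proj ρ ι a).map_mem x)), Representation.character]
  congr 1
  refine LinearMap.ext fun x => Subtype.ext ?_
  change ρ (j h) (Px.P ρ ι a x) = ρ (j h) x
  rw [(Px.proj ρ ι a).map_id x x.2]

theorem sum_part (χ : G → ℂ) (ι : A →* G) (g : G) : ∑ a : A →* ℂˣ, part χ ι a g = χ g := by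
  classical
  have : NeZero (Monoid.exponent A) := ⟨Monoid.exponent_ne_zero_of_finite⟩
  simp only [part]
  rw [← Finset.mul_sum, Finset.sum_comm, Finset.sum_eq_single 1 (fun z _ hz => ?_) (by simp)]
  · simp only [map_one, inv_one, Units.val_one, one_mul, mul_one, Finset.sum_const, Finset.card_univ,
      ← Nat.card_eq_fintype_card, CommGroup.card_monoidHom_of_hasEnoughRootsOfUnity, nsmul_eq_mul,
      ← mul_assoc, inv_mul_cancel₀ (Px.cA (A := A))]
  · obtain ⟨b, hb⟩ := CommGroup.exists_apply_ne_one_of_hasEnoughRootsOfUnity A ℂ (inv_ne_one.2 hz)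
    rw [← Finset.sum_mul]
    refine mul_eq_zero_of_left (eq_zero_of_mul_eq_self_left (b := (b z⁻¹ : ℂ))
      (by rwa [Ne, Units.val_eq_one]) ?_) _
    rw [Finset.mul_sum]
    exact Fintype.sum_bijective _ (Group.mulLeft_bijective b) _ _ fun c => by
      simp [mul_comm]

theorem part_mul (χ : G → ℂ) (ι : A →* G) (a : A →* ℂˣ) (g : G) (z : A) :
    part χ ι a (g * ι z) = a z * part χ ι a g := by
  simp only [part]
  rw [mul_left_comm, Finset.mul_sum _ _ (a z : ℂ), ← Equiv.sum_comp (Equiv.mulLeft z)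
    fun y => (a z : ℂ) * ((((a y)⁻¹ : ℂˣ) : ℂ) * χ (g * ι y))]
  congr 1
  refine Finset.sum_congr rfl fun y _ => ?_
  simp only [Equiv.coe_mulLeft, map_mul, mul_inv_rev, Units.val_mul, Units.val_inv_eq_inv_val,
    mul_assoc]
  have := (a z).ne_zero
  field_simp

theorem part_comm {B : Type*} [CommGroup B] [Fintype B] (χ : G → ℂ) (ι : A →* G) (a : A →* ℂˣ)
    (κ : B →* G) (b : B →* ℂˣ) (h : ∀ z y, ι z * κ y = κ y * ι z) :
    part (part χ ι a) κ b = part (part χ κ b) ι a := by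
  funext g
  simp only [part, Finset.mul_sum]
  rw [Finset.sum_comm]
  refine Finset.sum_congr rfl fun z _ => Finset.sum_congr rfl fun y _ => ?_
  rw [mul_assoc g, mul_assoc g, h]
  ring

/-- `part` only depends on the values on the coset. -/
theorem part_congr {χ ψ : G → ℂ} {ι : A →* G} {g : G} {k : ℂ}
    (h : ∀ z, χ (g * ι z) = k * ψ (g * ι z)) (a : A →* ℂˣ) :
    part χ ι a g = k * part ψ ι a g := by
  simp only [part, h, Finset.mul_sum]
  exact Finset.sum_congr rfl fun z _ => by ring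

theorem part_one_apply_one (χ : G → ℂ) (ι : A →* G) :
    part χ ι 1 1 = (Nat.card A : ℂ)⁻¹ * ∑ z, χ (ι z) := by
  simp [part]

variable {M : Type*} [AddCommGroup M] [Module ℂ M] [FiniteDimensional ℂ M]

theorem eq_zero_of_part (ρ : Representation ℂ G M) (ι : A →* G) (a : A →* ℂˣ)
    (h : part ρ.character ι a 1 = 0) {x : M} (hx : ∀ z, ρ (ι z) x = (a z : ℂ) • x) : x = 0 :=
  by_contra fun n => (Px.ne_iff ρ ι a).2 ⟨x, n, hx⟩ h

theorem exists_of_part (ρ : Representation ℂ G M) (ι : A →* G) (a : A →* ℂˣ)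
    (h : part ρ.character ι a 1 ≠ 0) : ∃ x : M, x ≠ 0 ∧ ∀ z, ρ (ι z) x = (a z : ℂ) • x :=
  (Px.ne_iff ρ ι a).1 h

/-- If `u` acts trivially on the `a`-eigenspace of `ι`. -/
theorem part_mul_of_triv (ρ : Representation ℂ G M) (ι : A →* G) (a : A →* ℂˣ) {u : G}
    (hu : ∀ x : M, (∀ z, ρ (ι z) x = (a z : ℂ) • x) → ρ u x = x) (g : G) :
    part ρ.character ι a (g * u) = part ρ.character ι a g := by
  rw [Px.part_eq, Px.part_eq, map_mul ρ, mul_assoc]
  congr 2
  exact LinearMap.ext fun x => hu _ ((Px.proj ρ ι a).map_mem x)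

end

section
variable {G : Type*} [Group G] [Fintype G] {M : Type*} [AddCommGroup M] [Module ℂ M]
  [FiniteDimensional ℂ M]

theorem gsum_ne_zero_iff (ρ : Representation ℂ G M) (C : Subgroup G) :
    gsum ρ.character C ≠ 0 ↔ ∃ x : M, x ≠ 0 ∧ ∀ g ∈ C, ρ g x = x := by
  have := Fintype.ofFinite C
  rw [Px.gsum_eq, mul_ne_zero_iff, and_iff_right Px.cA, Px.ne_iff]
  simp

theorem gsum_eq_zero_of_le {χ : G → ℂ} (hχ : IsCharacter G χ) {A C : Subgroup G} (h : A ≤ C)
    (hA : gsum χ A = 0) : gsum χ C = 0 := by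
  obtain ⟨n, ρ, rfl⟩ := hχ
  by_contra n
  obtain ⟨x, h0, hx⟩ := (gsum_ne_zero_iff ρ C).1 n
  exact (gsum_ne_zero_iff ρ A).2 ⟨x, h0, fun g hg => hx g (h hg)⟩ hA

/-- `∑ χ(x) |C(x)| = ∑_g ∑_{x ∈ C(g)} χ(x)`, and every inner sum is `|C(g)|` times a natural
number. -/
theorem conj_inner_ne_zero_iff {χ : G → ℂ} (hχ : IsCharacter G χ) :
    classInner χ (fun g : G => (Nat.card ↥(Subgroup.centralizer ({g} : Set G)) : ℂ)) ≠ 0 ↔
      ∃ g : G, gsum χ (Subgroup.centralizer {g}) ≠ 0 := by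
  classical
  obtain ⟨n, ρ, rfl⟩ := hχ
  have e : ∀ g : G, ∃ m : ℕ, gsum ρ.character (Subgroup.centralizer {g}) = m := fun g =>
    ⟨_, by rw [Px.gsum_eq, Px.part_one, ← Nat.cast_mul]⟩
  choose m hm using e
  have s : ∑ x : G, ρ.character x *
      (starRingEnd ℂ) (Nat.card ↥(Subgroup.centralizer ({x} : Set G)) : ℂ) = ((∑ g, m g : ℕ) : ℂ) := by
    rw [Nat.cast_sum, ← Finset.sum_congr rfl fun g _ => hm g]
    simp only [gsum]
    rw [Finset.sum_comm]
    refine Finset.sum_congr rfl fun x _ => ?_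
    rw [map_natCast, ← Finset.sum_filter, Finset.sum_const, nsmul_eq_mul, mul_comm,
      Nat.card_eq_fintype_card, Fintype.card_subtype]
    congr 3
    ext g
    simp only [Finset.mem_filter, Subgroup.mem_centralizer_singleton_iff, eq_comm (a := g * x)]
  rw [classInner, s, mul_ne_zero_iff, and_iff_right (inv_ne_zero Px.cA), Nat.cast_ne_zero, Ne,
    Finset.sum_eq_zero_iff]
  simp [hm]

theorem gsum_comp {H : Type*} [Group H] [Fintype H] (π : H →* G) (χ : G → ℂ) (C : Subgroup G)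
    (hπ : Function.Surjective π) :
    gsum (fun x => χ (π x)) (C.comap π) = Nat.card π.ker * gsum χ C := by
  classical
  have hfib : ∀ h : G, ((Finset.univ.filter fun g : H => π g = h).card : ℂ) = Nat.card π.ker := by
    intro h
    obtain ⟨x, rfl⟩ := hπ h
    have : Nat.card {g : H // π g = π x} = Nat.card π.ker := by
      refine Nat.card_congr ⟨fun g => ⟨x⁻¹ * g.1, ?_⟩, fun k => ⟨x * k.1, ?_⟩, ?_, ?_⟩
      · rw [MonoidHom.mem_ker, map_mul, map_inv, g.2, inv_mul_cancel]
      · rw [map_mul, (MonoidHom.mem_ker).1 k.2, mul_one]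
      · intro g; simp
      · intro k; simp
    rw [← this, Nat.card_eq_fintype_card, Fintype.card_subtype]
  simp only [gsum, Subgroup.mem_comap]
  rw [← Finset.sum_fiberwise_of_maps_to (s := Finset.univ) (t := Finset.univ) (g := π)
    (fun g _ => Finset.mem_univ _), Finset.mul_sum]
  refine Finset.sum_congr rfl fun h _ => ?_
  rw [← hfib h, ← nsmul_eq_mul, ← Finset.sum_const]
  refine Finset.sum_congr rfl fun g hg => ?_
  rw [← (Finset.mem_filter.1 hg).2]

theorem gsum_map {H : Type*} [Group H] [Fintype H] (j : H →* G) (hj : Function.Injective j)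
    (χ : G → ℂ) (A : Subgroup H) : gsum χ (A.map j) = gsum (fun x => χ (j x)) A := by
  classical
  simp only [gsum]
  refine (Finset.sum_of_injOn j hj.injOn (fun _ _ => by simp) (fun g _ hg => if_neg ?_)
    fun x _ => ?_).symm
  · rintro ⟨x, -, rfl⟩
    exact hg ⟨x, by simp, rfl⟩
  · by_cases hx : x ∈ A
    · rw [if_pos hx, if_pos (Subgroup.mem_map_of_mem j hx)]
    · rw [if_neg hx, if_neg (by rwa [Subgroup.mem_map_iff_mem hj])]

omit [Fintype G] [FiniteDimensional ℂ M] in
/-- Weight vectors: `T` permutes the operators `op i`; if the stabiliser of the weight of `y` fixes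
`y`, the `T`-average of `y` is nonzero (independence of joint eigenspaces,
`CL.LS.wsp` in `KSG/LSWeight`), and it is fixed by `T`. -/
theorem sum_ne_zero_of_wt {T I : Type*} [Group T] [Fintype T] (ρ : T →* Module.End ℂ M)
    (op : I → Module.End ℂ M) (act : T → I → I) (hact : ∀ t i, op i * ρ t = ρ t * op (act t i))
    {φ : I → ℂ} {y : M} (hy : y ≠ 0) (hφ : ∀ i, op i y = φ i • y)
    (hst : ∀ t, (∀ i, φ (act t i) = φ i) → ρ t y = y) : ∑ t, ρ t y ≠ 0 := by
  classical
  intro h0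
  have w : ∀ t i, op i (ρ t y) = φ (act t i) • ρ t y := fun t i => by
    rw [← Module.End.mul_apply, hact, Module.End.mul_apply, hφ, map_smul]
  rw [← Finset.sum_filter_add_sum_filter_not Finset.univ fun t => (fun i => φ (act t i)) = φ,
    Finset.sum_congr rfl fun t ht => hst t (congrFun (Finset.mem_filter.1 ht).2),
    Finset.sum_const, ← Nat.cast_smul_eq_nsmul ℂ, add_eq_zero_iff_eq_neg,
    ← Finset.sum_neg_distrib] at h0
  have := Px.indep op (fun t i => φ (act t i)) φ _ (fun t ht => (Finset.mem_filter.1 ht).2)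
    (fun t => -ρ t y) _ (fun t i => by rw [map_neg, w, smul_neg])
    (fun i => by rw [map_smul, hφ, smul_comm]) h0
  refine (smul_ne_zero (Nat.cast_ne_zero.2 (Finset.card_pos.2 ⟨1, ?_⟩).ne') hy) this
  refine Finset.mem_filter.2 ⟨Finset.mem_univ _, funext fun i => smul_left_injective ℂ hy ?_⟩
  have := w 1 i
  rw [map_one, Module.End.one_apply, hφ] at this
  exact this.symm

end

end CL.WU
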