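import Cfsg.Agent.CLAS.WU.Bas
import Cfsg.Agent.CLAS.WU.Part
import Cfsg.Agent.KSG.LSWeil
import Cfsg.Agent.KSG.LSWeight
import Cfsg.Agent.CLAS.WU.FixA

/-! Fixed vectors.
`fix_SO`: the stabiliser of `x` contains `U w` and `U w'`: `Form.Nondeg.E_le_of_B_ne`, `E_eq_SO`.
`lin_of_fix`: the `SO`-fixed vectors form a subrepresentation, so `ρ` factors through the cyclic `O / SO`.
`fix_Q_of_hs`: pick a partner `w'`; `Q / X ≅ V' = ⟨w,w'⟩^⊥` acts on `M^X` by commuting operators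
`op v = ρ (eiO w v (a v))`; a nontrivial weight `φ` has `φ(v) ≠ 1` for some `v`; `φ` is an additive character of
`V'`, `= ψ(B y ·)`-like with `y ≠ 0`; choose `u ∈ V'` nonisotropic with `φ` nontrivial on `F u` (the
nonisotropic vectors span `V'`); `rf u z` fixes `φ` only if `z = 1` (`φ((z-1) c u) = 1` for all `c`), so
`sum_ne_zero_of_wt` gives a nonzero vector fixed by `rf u`, against `Hs` (`eq_zero_of_part` with `a = 1`). -/

set_option autoImplicit false

namespace CL.WU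

open Module CL.Witt CL.Uni Cfsg

variable {F : Type*} [Field F] [Fintype F] {q : ℕ} {hF : Fintype.card F = q ^ 2}
  {V : Type*} [AddCommGroup V] [Module F V] [FiniteDimensional F V] {f : Form (HT hF) V}

variable {M : Type*} [AddCommGroup M] [Module ℂ M] [FiniteDimensional ℂ M]

theorem fix_SO (hf : f.Nondeg) (ρ : Representation ℂ f.O M) {w w' : V} (hw : f.q w = 0)
    (hw' : f.q w' = 0) (h : f.B w w' ≠ 0) {x : M}
    (h1 : ∀ v a, f.EichOK w v a → ρ (eiO f w v a) x = x)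
    (h2 : ∀ v a, f.EichOK w' v a → ρ (eiO f w' v a) x = x) (g : f.O) (hg : g.1 ∈ f.SO) :
    ρ g x = x := by
  exact FixA.fix_SO hf ρ hw hw' h h1 h2 g hg

theorem lin_of_fix (hf : f.Nondeg) (h1 : 1 ≤ finrank F V) (ρ : Representation ℂ f.O M)
    (hρ : ρ.IsIrreducible) {x : M} (hx : x ≠ 0) (h : ∀ g : f.O, g.1 ∈ f.SO → ρ g x = x) :
    ∃ l, ρ.character = lin hf l := by
  exact FixA.lin_of_fix hf h1 ρ hρ hx h

namespace FixQ

omit [FiniteDimensional F V] in
theorem mul {w v v' : V} {a a' : F} (h : f.EichOK w v a) (h' : f.EichOK w v' a') :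
    eiO f w v a * eiO f w v' a' = eiO f w (v + v') (a + a' + f.B v v') := Subtype.ext (h.ei_mul h')

omit [FiniteDimensional F V] [FiniteDimensional ℂ M] in
theorem f0 (ρ : Representation ℂ f.O M) {w : V} {y : M} (hy : ∀ a, ρ (tv f w a) y = y) {a : F}
    (ha : (HT hF).π a = 0) : ρ (eiO f w 0 a) y = y := hy (Multiplicative.ofAdd ⟨a, ha⟩)

omit [FiniteDimensional F V] [FiniteDimensional ℂ M] in
theorem f1 (ρ : Representation ℂ f.O M) {w : V} {y : M} (hy : ∀ a, ρ (tv f w a) y = y) {v : V} {a a' : F}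
    (h : f.EichOK w v a) (h' : f.EichOK w v a') : ρ (eiO f w v a) y = ρ (eiO f w v a') y := by
  have e : (HT hF).π (a - a') = 0 := by rw [map_sub, h.ha, h'.ha, sub_self]
  have h0 : f.EichOK w 0 (a - a') := ⟨h.hu, map_zero _, by rw [e, f.q_zero]⟩
  have := mul h' h0
  rw [add_zero, map_zero, add_zero, add_sub_cancel] at this
  rw [← this, map_mul, Module.End.mul_apply, f0 ρ hy e]

omit [FiniteDimensional F V] [FiniteDimensional ℂ M] in
theorem inj (ρ : Representation ℂ f.O M) (g : f.O) : Function.Injective (ρ g) := CL.LS.injective_rep ρ g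

omit [FiniteDimensional F V] in
/-- Eichler transformations along nonisotropic vectors fix a weight vector. -/
theorem clA (ρ : Representation ℂ f.O M) (hs : Hs f ρ.character) {w : V} {y : M} (y0 : y ≠ 0)
    (hy : ∀ a, ρ (tv f w a) y = y) (μ : {p : V × F // f.EichOK w p.1 p.2} → ℂ)
    (hμ : ∀ i, ρ (eiO f w i.1.1 i.1.2) y = μ i • y) {u : V} (hu : f.B u u ≠ 0) {b : F} (hb : f.EichOK w u b) :
    ρ (eiO f w u b) y = y := by
  by_contra hne
  have hst : ∀ z : Mu F q, (rf f u z).1 w = w := fun z => rf_perp hb.hvu z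
  have ok : ∀ (z : Mu F q) (i : {p : V × F // f.EichOK w p.1 p.2}), f.EichOK w ((rf f u z).1 i.1.1) i.1.2 :=
    fun z i => by
      have := i.2.map (rf f u z).2
      rwa [hst] at this
  have key := sum_ne_zero_of_wt (T := Mu F q) (I := {p : V × F // f.EichOK w p.1 p.2})
    (MonoidHom.comp ρ (rf f u)) (fun i => ρ (eiO f w i.1.1 i.1.2))
    (fun z i => ⟨((rf f u z⁻¹).1 i.1.1, i.1.2), ok z⁻¹ i⟩) (fun z i => by
      have := eiO_conj (rf f u z⁻¹) i.2
      rw [hst] at this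
      change ρ _ * ρ (rf f u z) = ρ (rf f u z) * ρ (eiO f w ((rf f u z⁻¹).1 i.1.1) i.1.2)
      rw [← this, ← map_mul, ← map_mul, map_inv, inv_inv, ← mul_assoc, ← mul_assoc, mul_inv_cancel, one_mul])
    y0 hμ (fun z hz => by
      by_cases z1 : z = 1
      · rw [z1, map_one]; rfl
      exfalso
      have hz1 : 1 - (z⁻¹).val ≠ 0 := fun e => z1 (inv_eq_one.1 (Subtype.ext (Units.ext (sub_eq_zero.1 e).symm)))
      have hc := hb.smul_right (1 - (z⁻¹).val)⁻¹
      have e1 := hz ⟨(_, _), hc⟩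
      have e2 := hμ ⟨(_, _), hc⟩
      have e3 := hμ ⟨(_, _), ok z⁻¹ ⟨(_, _), hc⟩⟩
      rw [e1, ← e2] at e3
      have m := mul (ok z⁻¹ ⟨(_, _), hc⟩) hb
      have ok' := (ok z⁻¹ ⟨(_, _), hc⟩).add hb
      have ev : (rf f u z⁻¹).1 ((1 - (z⁻¹).val)⁻¹ • u) + u = (1 - (z⁻¹).val)⁻¹ • u := by
        rw [map_smul, rf_self hu, smul_smul]
        nth_rewrite 2 [← one_smul F u]
        rw [← add_smul]
        congr 1
        field_simp
        ring
      dsimp only at m ok' e3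
      rw [ev] at m ok'
      apply hne
      apply inj ρ (eiO f w ((rf f u z⁻¹).1 ((1 - (z⁻¹).val)⁻¹ • u)) _)
      rw [← Module.End.mul_apply, ← map_mul, m, e3]
      exact f1 ρ hy ok' hc)
  refine key (eq_zero_of_part ρ (rf f u) 1 (by rw [part_one_apply_one, hs u hu, mul_zero]) fun z => ?_)
  rw [MonoidHom.one_apply, Units.val_one, one_smul, map_sum]
  refine Fintype.sum_equiv (Equiv.mulLeft z) _ _ fun t => ?_
  change ρ (rf f u z) (ρ (rf f u t) y) = ρ (rf f u (z * t)) y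
  rw [map_mul, map_mul, Module.End.mul_apply]

include hF in
theorem ex_e : ∃ e : F, e ≠ 0 ∧ (HT hF).π e = 0 := by
  have h2 := two_le_q (hF := hF)
  have : Nontrivial (HT hF).π.ker := Finite.one_lt_card_iff_nontrivial.1 (by rw [card_ker_π]; omega)
  obtain ⟨e, he⟩ := exists_ne (0 : (HT hF).π.ker)
  exact ⟨e, fun h => he (Subtype.ext h), e.2⟩

include hF in
theorem ex_d : ∃ d : F, (HT hF).π d ≠ 0 := by
  by_contra hn
  have h2 := two_le_q (hF := hF)
  have e : (HT hF).π.ker = ⊤ := eq_top_iff.2 fun d _ => by_contra fun h => hn ⟨d, h⟩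
  have := card_ker_π hF
  rw [e, AddSubgroup.card_top, Nat.card_eq_fintype_card, hF] at this
  nlinarith

theorem clB (hf : f.Nondeg) (ρ : Representation ℂ f.O M) {w : V} {y : M} (hy : ∀ a, ρ (tv f w a) y = y)
    (hA : ∀ u b, f.B u u ≠ 0 → f.EichOK w u b → ρ (eiO f w u b) y = y) {v : V} {a : F} (h : f.EichOK w v a) :
    ρ (eiO f w v a) y = y := by
  by_cases hv : f.B v v = 0
  swap
  · exact hA v a hv h
  have qv : f.q v = 0 := by rw [f.herm_q, hv]
  by_cases hm : v ∈ F ∙ w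
  · obtain ⟨c, rfl⟩ := Submodule.mem_span_singleton.1 hm
    have ha : (HT hF).π a = 0 := h.ha.trans qv
    have h0 : f.EichOK w 0 a := ⟨h.hu, map_zero _, by rw [ha, f.q_zero]⟩
    have e : eiO f w (c • w) a = eiO f w 0 (a + ((HT hF).σ c - (HT hF).ε * c)) :=
      Subtype.ext (by rw [eiO_val, eiO_val, ← h0.ei_add_smul_u c, zero_add])
    rw [e]
    refine f0 ρ hy ?_
    have := (HT hF).π_sub_symm ((HT hF).σ c)
    rw [(HT hF).σσ] at this
    rw [map_add, ha, this, add_zero]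
  obtain ⟨e, e0, he⟩ := ex_e (hF := hF)
  obtain ⟨d, hd⟩ := ex_d (hF := hF)
  obtain ⟨t, ht, htv⟩ := hf.exists_perp_eq hm e
  have tw : f.B w t = 0 := f.B_eq_zero_symm (ht w (Submodule.mem_span_singleton_self w))
  obtain ⟨c, hc⟩ : ∃ c : F, f.q (t + c • v) ≠ 0 := by
    by_cases qt : f.q t = 0
    · exact ⟨d / e, by rwa [f.q_add_smul, qt, qv, htv, div_mul_cancel₀ _ e0, mul_zero, add_zero, zero_add]⟩
    · exact ⟨0, by rwa [zero_smul, add_zero]⟩
  obtain ⟨b, hb⟩ := Form.exists_eichOK (f := f) (v := t + c • v) h.hu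
    (by rw [map_add, map_smul, tw, h.huv, smul_zero, add_zero])
  have q2 : f.q (t + c • v + v) ≠ 0 := by
    rwa [f.q_add, qv, f.B_add_left, f.B_smul_left, hv, htv, mul_zero, add_zero, add_zero, he, add_zero]
  apply inj ρ (eiO f w (t + c • v) b)
  rw [← Module.End.mul_apply, ← map_mul, mul hb h, hA _ _ (by rwa [← f.herm_q]) (hb.add h),
    hA _ _ (by rwa [← f.herm_q]) hb]

end FixQ

theorem fix_Q_of_hs (hf : f.Nondeg) (ρ : Representation ℂ f.O M) (hs : Hs f ρ.character) {w : V}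
    (hw0 : w ≠ 0) {x : M} (hx : ∀ a, ρ (tv f w a) x = x) {v : V} {a : F} (h : f.EichOK w v a) :
    ρ (eiO f w v a) x = x := by
  by_contra hne
  let N : Submodule ℂ M :=
    { carrier := {y | ∀ a, ρ (tv f w a) y = y}
      zero_mem' := fun a => map_zero _
      add_mem' := fun hy hz a => by rw [map_add, hy a, hz a]
      smul_mem' := fun c y hy a => by rw [map_smul, hy a] }
  have hN : ∀ g : St f w, ∀ y ∈ N, (MonoidHom.comp ρ (St f w).subtype) g y ∈ N := fun g y hy a => by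
    change ρ (tv f w a) (ρ g.1 y) = ρ g.1 y
    rw [← Module.End.mul_apply, ← map_mul, ← tv_comm g.2, map_mul, Module.End.mul_apply, hy a]
  let R := CL.LS.subRep (MonoidHom.comp ρ (St f w).subtype) N hN
  let X : {p : V × F // f.EichOK w p.1 p.2} → Module.End ℂ N := fun i => R ⟨_, eiO_mem_St i.2⟩
  have hX : ∀ i j, Commute (X i) (X j) := fun i j => LinearMap.ext fun y => Subtype.ext (by
    change ρ (eiO f w i.1.1 i.1.2) (ρ (eiO f w j.1.1 j.1.2) y) = ρ (eiO f w j.1.1 j.1.2) (ρ (eiO f w i.1.1 i.1.2) y)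
    rw [← Module.End.mul_apply, ← Module.End.mul_apply, ← map_mul, ← map_mul, FixQ.mul i.2 j.2, FixQ.mul j.2 i.2,
      add_comm j.1.1]
    exact FixQ.f1 ρ y.2 (i.2.add j.2) (by rw [add_comm i.1.1]; exact j.2.add i.2))
  obtain ⟨μ, hμ, h1⟩ := CL.LS.exists_wsp_ne_one hX (i₀ := ⟨(v, a), h⟩)
    (fun e => hne (congrArg Subtype.val (LinearMap.congr_fun e ⟨x, hx⟩))) (p := Nat.card (St f w))
    (Nat.cast_ne_zero.2 Nat.card_pos.ne') (by rw [← map_pow, pow_card_eq_one', map_one])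
  obtain ⟨y, hy, y0⟩ := Submodule.exists_mem_ne_zero_of_ne_bot hμ
  have hμ' : ∀ i, ρ (eiO f w i.1.1 i.1.2) y = μ i • (y : M) := fun i =>
    congrArg Subtype.val (CL.LS.mem_wsp.1 hy i)
  have y0' : (y : M) ≠ 0 := fun e => y0 (Subtype.ext e)
  have := FixQ.clB hf ρ y.2 (fun u b hu hb => FixQ.clA ρ hs y0' y.2 μ hμ' hu hb) h
  rw [hμ' ⟨(v, a), h⟩] at this
  exact h1 (smul_left_injective ℂ y0' (this.trans (one_smul ℂ _).symm))

end CL.WU
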