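import Cfsg.Agent.CLAS.WU.Bas

/-! Generation.  For `g` take `v` nonisotropic, `v' = g v`.  If `v' - z v` is nonisotropic for some `z ∈ μ`,
the isometry `x ↦ x + B p x / B p (z v) • p`, `p = v' - z v` (`Form.exists_O_of_B_ne_zero`, it is a reflection
along `p`; `B p p = -π (B p (z v))`, so `B p (z v) ≠ 0`) maps `z v` to `v'`; in dimension `≥ 2` it fixes a nonisotropic vector of
`p^⊥`.  So `g ∈ K · St v`.  Otherwise `π (B v' (z v)) = 2 B v v` for all `q + 1 ≥ 3` values of `z`, which forces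
`B v' v = 0` and characteristic two; then pass through `v2 = a v + b v'` with `N a + N b = 1`, `a b ≠ 0`
(`q > 2`) or `v + v' + u` (`q = 2`, dimension `≥ 3`).  Dimension `≤ 1`: every isometry is a reflection. -/

set_option autoImplicit false

namespace CL.WU

open Module CL.Witt CL.Uni Cfsg

variable {F : Type*} [Field F] [Fintype F] {q : ℕ} {hF : Fintype.card F = q ^ 2}
  {V : Type*} [AddCommGroup V] [Module F V] [FiniteDimensional F V] {f : Form (HT hF) V}

namespace GenX

omit [FiniteDimensional F V] in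
theorem Bs (x y : V) : f.B y x = (HT hF).σ (f.B x y) := by
  have := f.symm x y
  rwa [HT_ε, one_mul] at this

/-- An element of `Mu F q`. -/
noncomputable def mk (c : F) (h : (HT hF).σ c * c = 1) : Mu F q :=
  rootsOfUnity.mkOfPowEq c (by rw [_root_.pow_succ]; exact h)

theorem mk_val (c : F) (h : (HT hF).σ c * c = 1) : (mk c h).val = c := rfl

omit [FiniteDimensional F V] in
theorem step {K : Subgroup f.O} (h1 : ∀ v z, rf f v z ∈ K) {x y : V} (hq : f.B x x = f.B y y)
    (hp : f.B (y - x) (y - x) ≠ 0) : ∃ k ∈ K, k.1 x = y := by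
  obtain ⟨p, rfl⟩ : ∃ p, y = p + x := ⟨y - x, by simp⟩
  rw [add_sub_cancel_right] at hp
  have e : f.B p p = -(f.B p x + (HT hF).σ (f.B p x)) := by
    simp only [map_add, LinearMap.add_apply] at hq
    rw [Bs p x] at hq
    linear_combination -hq
  have ha : f.B p x ≠ 0 := fun c => hp (by rw [e, c]; simp)
  have ha' : (HT hF).σ (f.B p x) ≠ 0 := (map_ne_zero _).2 ha
  refine ⟨rf f p (mk (hF := hF) (-(HT hF).σ (f.B p x) / f.B p x) ?_), h1 _ _, ?_⟩
  · rw [map_div₀, map_neg, (HT hF).σσ]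
    field_simp
  · rw [rf_apply, mk_val, add_comm p x]
    congr 1
    have : (-(HT hF).σ (f.B p x) / f.B p x - 1) / f.B p p * f.B p x = 1 := by
      field_simp
      linear_combination -e
    rw [this, one_smul]

omit [FiniteDimensional F V] in
theorem key {K : Subgroup f.O} (h1 : ∀ v z, rf f v z ∈ K) {x y : V} (hx : f.B x x = 1) (hy : f.B y y = 1)
    (h : ¬ (f.B y x = 0 ∧ (2 : F) = 0)) : ∃ k ∈ K, k.1 x = y := by
  by_cases c : ∃ z : Mu F q, f.B (y - z.val • x) (y - z.val • x) ≠ 0
  · obtain ⟨z, hz⟩ := c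
    have hn : (HT hF).σ z.val * z.val = 1 := z.norm
    obtain ⟨k, hk, e⟩ := step h1 (x := z.val • x) (y := y) (by
      rw [f.B_smul_left, f.B_smul_right, hx, hy, mul_one, hn]) hz
    refine ⟨k * rf f x z, K.mul_mem hk (h1 _ _), ?_⟩
    change k.1 ((rf f x z).1 x) = y
    rw [rf_self (by rw [hx]; exact one_ne_zero), e]
  · exfalso
    push Not at c
    have c' : ∀ z : Mu F q, z.val * f.B y x + (HT hF).σ z.val * (HT hF).σ (f.B y x) = 2 := fun z => by
      have := c z
      have hn : (HT hF).σ z.val * z.val = 1 := z.norm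
      simp only [map_sub, LinearMap.sub_apply, f.B_smul_left, f.B_smul_right, hx, hy] at this
      rw [Bs y x] at this
      linear_combination -this + hn
    have a1 := c' (mk (hF := hF) 1 (by simp))
    have a2 := c' (mk (hF := hF) (-1) (by simp))
    rw [mk_val] at a1 a2
    simp only [map_neg, map_one] at a1 a2
    have t : (2 : F) = 0 := by
      have : (2 : F) * 2 = 0 := by linear_combination -a1 - a2
      exact mul_self_eq_zero.1 this
    refine h ⟨?_, t⟩
    have : Nontrivial (Mu F q) := Finite.one_lt_card_iff_nontrivial.1 (by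
      have := two_le_q (hF := hF)
      rw [card_Mu (hF := hF)]; omega)
    obtain ⟨z, hz⟩ := exists_ne (1 : Mu F q)
    have hz' : z.val - 1 ≠ 0 := fun e => hz (Subtype.ext (Units.ext (sub_eq_zero.1 e)))
    have hn : (HT hF).σ z.val * z.val = 1 := z.norm
    have a3 := c' z
    have : (z.val - 1) * ((z.val - 1) * f.B y x) = 0 := by
      linear_combination z.val * a3 - (HT hF).σ (f.B y x) * hn - a1 +
        (z.val - 1 + f.B y x - z.val * f.B y x) * t
    exact (mul_eq_zero.1 ((mul_eq_zero.1 this).resolve_left hz')).resolve_left hz'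

include hF in
theorem exists_a (hq : q ≠ 2) : ∃ a : F, a ≠ 0 ∧ a ^ q * a ≠ 1 := by
  by_contra c
  push Not at c
  have e : rootsOfUnity (q + 1) F = ⊤ := eq_top_iff.2 fun u _ => by
    rw [mem_rootsOfUnity, ← Units.val_inj, Units.val_pow_eq_pow_val, _root_.pow_succ]
    exact c _ u.ne_zero
  have h1 := card_Mu (hF := hF)
  have h2 := two_le_q (hF := hF)
  rw [Mu, e, Subgroup.card_top, Nat.card_units, Nat.card_eq_fintype_card, hF] at h1
  have h3 : 3 * q ≤ q ^ 2 := by
    rw [sq]; exact Nat.mul_le_mul_right _ (by omega)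
  omega

theorem mid (hf : f.Nondeg) (h : ¬ (finrank F V = 2 ∧ q = 2)) {x y : V} (hx : f.B x x = 1) (hy : f.B y y = 1)
    (h0 : f.B y x = 0) (t : (2 : F) = 0) : ∃ w, f.B w w = 1 ∧ f.B w x ≠ 0 ∧ f.B y w ≠ 0 := by
  have h0' : f.B x y = 0 := f.B_eq_zero_symm h0
  by_cases hq : q = 2
  · have on : IsON f ![x, y] := fun i j => by
      fin_cases i <;> fin_cases j <;> simp [hx, hy, h0, h0']
    have l := on.linearIndependent.fintype_card_le_finrank
    rw [Fintype.card_fin] at l
    obtain ⟨u, hu⟩ := on.exists_cons (sig_ne_id hF) hf (lt_of_le_of_ne l fun e => h ⟨e.symm, hq⟩)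
    have u0 : f.B u u = 1 := hu 0 0
    have u1 : f.B u x = 0 := hu 0 1
    have u2 : f.B u y = 0 := hu 0 2
    have u1' := f.B_eq_zero_symm u1
    have u2' := f.B_eq_zero_symm u2
    refine ⟨x + y + u, ?_, ?_, ?_⟩
    · simp only [map_add, LinearMap.add_apply, hx, hy, h0, h0', u0, u1, u2, u1', u2']
      linear_combination t
    · simp [hx, h0, u1]
    · simp [hy, h0, u2']
  · obtain ⟨a, ha, ha'⟩ := exists_a (hF := hF) hq
    have ha1 : (HT hF).σ a * a ≠ 1 := ha'
    obtain ⟨b, hb⟩ := Tv.exists_norm_eq_of_involution (sig_ne_id hF) (sig_sig hF)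
      (b := 1 - (HT hF).σ a * a) (by
        change (HT hF).σ _ = _
        rw [map_sub, map_one, map_mul, (HT hF).σσ, mul_comm])
    have hb1 : (HT hF).σ b * b = 1 - (HT hF).σ a * a := hb
    have hb0 : b ≠ 0 := fun e => ha1 (by rw [e, mul_zero] at hb1; linear_combination hb1)
    refine ⟨a • x + b • y, ?_, ?_, ?_⟩
    · simp only [map_add, LinearMap.add_apply, f.B_smul_left, f.B_smul_right, hx, hy, h0, h0']
      linear_combination hb1
    · simp only [map_add, LinearMap.add_apply, f.B_smul_left, hx, h0, mul_one, mul_zero, add_zero]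
      exact (map_ne_zero _).2 ha
    · simp only [map_add, f.B_smul_right, hy, h0, mul_one, mul_zero, zero_add]
      exact hb0

end GenX

theorem eq_top_of_rf (hf : f.Nondeg) (h : ¬ (finrank F V = 2 ∧ q = 2)) {K : Subgroup f.O}
    (h1 : ∀ v z, rf f v z ∈ K) (h2 : ∀ v, f.B v v ≠ 0 → St f v ≤ K) : K = ⊤ := by
  refine eq_top_iff.2 fun g _ => ?_
  rcases Nat.eq_zero_or_pos (finrank F V) with h0 | h0
  · have := finrank_zero_iff.1 h0
    rw [show g = 1 from Subtype.ext (LinearEquiv.ext fun x => Subsingleton.elim _ _)]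
    exact K.one_mem
  obtain ⟨x, hx⟩ := exists_q_eq (sig_ne_id hF) hf h0 (b := 1) (map_one _)
  rw [Form.herm_q] at hx
  have hy : f.B (g.1 x) (g.1 x) = 1 := by rw [f.O_B, hx]
  have : ∃ k ∈ K, k.1 x = g.1 x := by
    by_cases c : f.B (g.1 x) x = 0 ∧ (2 : F) = 0
    · obtain ⟨w, hw, w1, w2⟩ := GenX.mid hf h hx hy c.1 c.2
      obtain ⟨k, hk, e⟩ := GenX.key h1 hx hw fun d => w1 d.1
      obtain ⟨k', hk', e'⟩ := GenX.key h1 hw hy fun d => w2 d.1
      refine ⟨k' * k, K.mul_mem hk' hk, ?_⟩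
      change k'.1 (k.1 x) = _
      rw [e, e']
    · exact GenX.key h1 hx hy c
  obtain ⟨k, hk, e⟩ := this
  have hm : k⁻¹ * g ∈ K := h2 x (by rw [hx]; exact one_ne_zero) (by
    change k.1.symm (g.1 x) = x
    rw [← e, LinearEquiv.symm_apply_apply])
  simpa using K.mul_mem hk hm

end CL.WU
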