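import Cfsg.Agent.CLAS.WU.Gal
import Cfsg.Agent.CLAS.WU.Fix
import Cfsg.Agent.CLAS.WU.Gen

/-! The stabiliser of an isotropic vector.
`eq_on_iso`: `g = l * eiO w v a` (`exists_levi`).  For `c ≠ 1`, `y` from `gal`: `y l = k` as `th l ≠ 0` (`th_levi`), so
`part χ (tv w) c g = k th g = k part ζ (tv w) c g`.  For `c = 1`: `part_mul_of_triv` and `fix_Q_of_hs` for `χ` and
for `ζ = ze ν` (`isCharacter_ze`, `hs_ze`) reduce to `g = l`, which fixes the nonisotropic `w + c w'`; `sum_part`.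
`levi_of_ne`: `W = span {w, w'}`, `f' = f.restrict (perp W)` of dimension `n - 2`, `K = {x | y (emb x) = y 1}` the kernel
of a character.  If `x u = z u` with `u ∈ perp W` nonisotropic then `emb x * t` maps `u` to `z u` for `t ∈ X_w`, so
`χ = k ζ` there (`hk`, `hc`, `cen_ze`), and `part_congr`, `part_ze_tv` give `y (emb x) = k`.  `eq_top_of_rf`. -/

set_option autoImplicit false

namespace CL.WU

open Module CL.Witt CL.Uni Cfsg

variable {F : Type*} [Field F] [Fintype F] {q : ℕ} {hF : Fintype.card F = q ^ 2}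
  {V : Type*} [AddCommGroup V] [Module F V] [FiniteDimensional F V] {f : Form (HT hF) V}

namespace StC

theorem th_ne {w w' : V} (hw : f.q w = 0) (hw' : f.q w' = 0) (h : f.B w w' = 1)
    {c : XA hF →* ℂˣ} (hc : c ≠ 1) {l : f.O} (hl : l ∈ St f w) (hl' : l ∈ St f w') :
    th f w c l ≠ 0 := fun e => by
  have h1 := th_levi hw hw' h hc hl hl'
  have h2 : (q : ℂ) ≠ 0 := by
    have := two_le_q (hF := hF)
    exact_mod_cast (by omega : q ≠ 0)
  rw [e, mul_zero] at h1
  exact mul_ne_zero (pow_ne_zero _ (neg_ne_zero.2 one_ne_zero)) (pow_ne_zero _ (neg_ne_zero.2 h2))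
    h1.symm

theorem triv (hf : f.Nondeg) {χ : f.O → ℂ} (hχ : IsCharacter f.O χ) (hs : Hs f χ) {w : V}
    (hw0 : w ≠ 0) {v : V} {a : F} (h : f.EichOK w v a) (g : f.O) :
    part χ (tv f w) 1 (g * eiO f w v a) = part χ (tv f w) 1 g := by
  obtain ⟨n, ρ, rfl⟩ := hχ
  exact part_mul_of_triv ρ (tv f w) 1
    (fun x hx => fix_Q_of_hs hf ρ hs hw0 (fun a => by simpa using hx a) h) g

theorem exists_ne (hf : f.Nondeg) (h1 : 1 ≤ finrank F V) : ∃ u, f.B u u ≠ 0 := by
  have := Module.nontrivial_of_finrank_pos (R := F) (M := V) h1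
  obtain ⟨w, hw0⟩ := _root_.exists_ne (0 : V)
  by_cases hw : f.q w = 0
  · obtain ⟨w', hw', h⟩ := hf.exists_partner' hw hw0
    obtain ⟨c, hc⟩ := exists_nonisotropic hw hw' h
    exact ⟨_, hc⟩
  · exact ⟨w, by rwa [← f.herm_q]⟩

end StC

theorem eq_on_iso (hf : f.Nondeg) {χ : f.O → ℂ} (hχ : IsCharacter f.O χ) (hs : Hs f χ)
    {ν : Mu F q →* ℂˣ} {k : ℕ} (hk : ∀ u, f.B u u ≠ 0 → ∀ g ∈ St f u, χ g = k * ze f ν g)
    {w w' : V} (hw : f.q w = 0) (hw' : f.q w' = 0) (h : f.B w w' = 1)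
    (hl : ∀ c : XA hF →* ℂˣ, c ≠ 1 → ∀ l ∈ St f w, l ∈ St f w' →
      part χ (tv f w) c l = k * th f w c l) :
    ∀ g ∈ St f w, χ g = k * ze f ν g := by
  classical
  intro g hg
  have hw0 : w ≠ 0 := by rintro rfl; simp at h
  obtain ⟨l, l1, l2, v, a, hv, rfl⟩ := exists_levi hw hw' h hg
  have key : ∀ g ∈ St f w, (∀ c : XA hF →* ℂˣ, c ≠ 1 → part χ (tv f w) c g = k * th f w c g) →
      χ g - k * ze f ν g = part χ (tv f w) 1 g - k * part (ze f ν) (tv f w) 1 g := fun g hg e => by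
    rw [← sum_part χ (tv f w) g, ← sum_part (ze f ν) (tv f w) g, Finset.mul_sum,
      ← Finset.sum_sub_distrib]
    exact Finset.sum_eq_single 1 (fun c _ hc => by rw [e c hc, part_ze_tv hw hc ν hg, sub_self])
      fun e => absurd (Finset.mem_univ _) e
  obtain ⟨c, hc⟩ := exists_nonisotropic hw hw' h
  rw [← sub_eq_zero, key _ hg fun c hc => ?_, StC.triv hf hχ hs hw0 hv,
    StC.triv hf (isCharacter_ze hf ν) (hs_ze hf ν) hw0 hv, ← key l l1 fun c hc => hl c hc l l1 l2,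
    hk _ hc l (by rw [mem_St, map_add, map_smul, l1, l2]), sub_self]
  obtain ⟨y, -, y1, y2⟩ := gal hf hw hw0 hc hχ
  rw [y2 _ hg, y1 l l1 v a hv, mul_right_cancel₀ (StC.th_ne hw hw' h hc l1 l2)
    ((y2 l l1).symm.trans (hl c hc l l1 l2))]

theorem levi_of_ne (hf : f.Nondeg) (h3 : 3 ≤ finrank F V) (h42 : ¬ (finrank F V = 4 ∧ q = 2))
    {χ : f.O → ℂ} (hχ : IsCharacter f.O χ) {ν : Mu F q →* ℂˣ} (hc : Cen f χ ν) {k : ℕ}
    (hk : ∀ u, f.B u u ≠ 0 → ∀ g ∈ St f u, χ g = k * ze f ν g)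
    {w w' : V} (hw : f.q w = 0) (hw' : f.q w' = 0) (h : f.B w w' = 1) {c : XA hF →* ℂˣ}
    (hc1 : c ≠ 1) : ∀ l ∈ St f w, l ∈ St f w' → part χ (tv f w) c l = k * th f w c l := by
  have hw0 : w ≠ 0 := by rintro rfl; simp at h
  have hW := f.isCompl_perp_pair hw hw' h
  have hf' := hf.restrict_perp (f.restrict_nondeg_pair hw hw' h)
  have hdim := hf.finrank_add_finrank_perp (Submodule.span F {w, w'})
  rw [f.finrank_span_pair hw hw' h] at hdim
  obtain ⟨y, y0, -, y2⟩ := gal hf hw hw0 hc1 hχ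
  have m1 : ∀ x, emb f hW x ∈ St f w := fun x => emb_left hW x (Submodule.subset_span (by simp))
  have m2 : ∀ x, emb f hW x ∈ St f w' := fun x => emb_left hW x (Submodule.subset_span (by simp))
  have key : ∀ (x) (u : f.perp (Submodule.span F {w, w'})) (z : Mu F q), f.B u u ≠ 0 →
      x.1 u = z.val • u → y (emb f hW x) = k := fun x u z hu e => by
    refine mul_right_cancel₀ (StC.th_ne hw hw' h hc1 (m1 x) (m2 x)) ?_
    rw [← y2 _ (m1 x), ← part_ze_tv hw hc1 ν (m1 x)]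
    refine part_congr (fun t => ?_) c
    have hg : emb f hW x * tv f w t * sc f z⁻¹ ∈ St f u := by
      rw [sc_comm, mem_St]
      change (sc f z⁻¹).1 ((emb f hW x).1 ((tv f w t).1 u)) = u
      rw [tv_perp (f.mem_perp_span_pair.1 u.2).1, emb_right, e, Submodule.coe_smul, ← sc_apply f z]
      change (sc f z⁻¹ * sc f z).1 u = u
      rw [← map_mul, inv_mul_cancel, map_one]
      rfl
    rw [← inv_mul_cancel_right (emb f hW x * tv f w t) (sc f z), ← map_inv, hc, cen_ze, hk u hu _ hg]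
    ring
  obtain ⟨u, hu⟩ := StC.exists_ne hf' (by omega)
  have k1 : y (emb f hW 1) = k := key 1 u 1 hu (by simp [Mu.val])
  have hy := y0.comp ((emb f hW).codRestrict (St f w) m1)
  have top := eq_top_of_rf hf' (by omega) (K := CL.Char.charKer _)
    (fun u z => hy.mem_charKer.2 (by
      by_cases hu : (f.restrict _).B u u = 0
      · congr 3
        exact Subtype.ext (LinearEquiv.ext fun x => by rw [rf_apply, hu]; simp)
      · exact (key _ u z hu (rf_self hu z)).trans k1.symm))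
    fun u hu x hx => hy.mem_charKer.2 ((key x u 1 hu (by simpa [Mu.val] using mem_St.1 hx)).trans k1.symm)
  intro l l1 l2
  obtain ⟨a, rfl⟩ := exists_emb hW (g := l) fun x hx => by
    obtain ⟨s, t, rfl⟩ := Submodule.mem_span_pair.1 hx
    rw [map_add, map_smul, map_smul, l1, l2]
  rw [y2 _ l1, ← k1]
  exact congrArg (· * _) (hy.mem_charKer.1 (top.ge (Subgroup.mem_top a)))

end CL.WU
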