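import Cfsg.Agent.CLAS.WU.Gal

/-! The case `n = 4`, `q = 2`.
`L = St w ⊓ St w'`, `u₁, u₂` an orthonormal basis of `⟨w,w'⟩^⊥` (the only nonisotropic points there, `N a = 1` for
`a ≠ 0`), `y` from `gal`, `K = {l ∈ L | y l = y 1}`.  `rf u₁ z * t` fixes `u₂`, so `y = k` on `rf u₁`, `rf u₂`, `1`
(`part_congr`, `part_ze_tv`, `th ≠ 0`).  `t₀ = tv (u₁ + u₂) 1` swaps `u₁`, `u₂`; every `l ∈ L` is in `D` or `t₀ D`,
`D = rf u₁ · rf u₂`.  It remains `y t₀ = k`.  `p = part χ (tv w) 1` is a character of `L`, `χ = p + y th` (`X_w` has two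
characters), `χ = k ζ` on `L` (fixes `w + c w'`), `4 th = om` on `L`.  `th 1 = 4`, `th t₀ = -2`.
`ν ≠ 1`: `ζ 1 = 5`, `ζ t₀ = -3`, `p 1 = k`, `p t₀ - 2 y t₀ = -3k` and `|p t₀|, |y t₀| ≤ k` force `y t₀ = k`.
`ν = 1`: `ζ 1 = 6`, `ζ t₀ = -2`; `e = rf u₂ z * (rf u₁ z)⁻¹` (`z ≠ 1`) has `ζ e = 0`, `th e = 1`, so `p 1 + p e + p e² =
2k - k - k = 0`, the operator `1 + e + e²` vanishes; `t₀ e^i` is conjugate to `t₀` by `(rf u₁ z)^i`, so `p t₀ = 0`. -/

set_option autoImplicit false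

namespace CL.WU

open Module CL.Witt CL.Uni Cfsg

variable {F : Type*} [Field F] [Fintype F] {q : ℕ} {hF : Fintype.card F = q ^ 2}
  {V : Type*} [AddCommGroup V] [Module F V] [FiniteDimensional F V] {f : Form (HT hF) V}

namespace StD

theorem part_zero {H A : Type*} [Group H] [CommGroup A] [Fintype A] {p : H → ℂ} (hp : IsCharacter H p) (ι : A →* H)
    (a : A →* ℂˣ) (h : part p ι a 1 = 0) (g : H) : part p ι a g = 0 := by
  obtain ⟨n, ρ, rfl⟩ := hp
  have : Px.P ρ ι a = 0 := LinearMap.ext fun x => eq_zero_of_part ρ ι a h ((Px.proj ρ ι a).map_mem x)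
  rw [Px.part_eq, this, mul_zero, map_zero]

theorem sum2 {A : Type*} [Fintype A] (h : Fintype.card A = 2) {a c : A} (hc : c ≠ a) (φ : A → ℂ) :
    ∑ x, φ x = φ a + φ c := by
  classical
  rw [← Finset.sum_pair hc.symm, Finset.eq_univ_of_card {a, c} (by rw [Finset.card_pair hc.symm, h])]

theorem two0 (hF : Fintype.card F = q ^ 2) (hq : q = 2) : (2 : F) = 0 := by
  have := FiniteField.cast_card_eq_zero F
  rw [hF, hq] at this
  push_cast at this
  exact mul_self_eq_zero.1 (by linear_combination this)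

theorem cube (hF : Fintype.card F = q ^ 2) (hq : q = 2) {a : F} (ha : a ≠ 0) : a ^ q * a = 1 := by
  have := FiniteField.pow_card_sub_one_eq_one a ha
  rw [hF, hq] at this
  rw [hq, ← pow_succ]; exact this

theorem ex_mu (hF : Fintype.card F = q ^ 2) (hq : q = 2) {a : F} (ha : a ≠ 0) : ∃ m : Mu F q, m.val = a :=
  ⟨⟨Units.mk0 a ha, (mem_rootsOfUnity _ _).2 (Units.ext (by
    rw [Units.val_pow_eq_pow_val, pow_succ]; exact cube hF hq ha))⟩, rfl⟩

theorem tri (hF : Fintype.card F = q ^ 2) (hq : q = 2) {z a : Mu F q} (hz : z ≠ 1) (ha : a ≠ 1) :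
    (a * z⁻¹ = 1 ∧ a * z ≠ 1) ∨ (a * z⁻¹ ≠ 1 ∧ a * z = 1) := by
  classical
  have h3 : z ^ 3 = 1 := by
    have c : Nat.card (Mu F q) = 3 := by rw [card_Mu (hF := hF)]; omega
    rw [← c]; exact pow_card_eq_one'
  have zz : z * z ≠ 1 := fun e => hz (by rw [pow_succ, pow_two, e, one_mul] at h3; exact h3)
  by_cases e : a = z
  · exact Or.inl ⟨by rw [e, mul_inv_cancel], by rwa [e]⟩
  refine Or.inr ⟨fun e' => e (mul_inv_eq_one.1 e'), by_contra fun e' => ?_⟩
  have c := Finset.card_le_univ ({1, z, z⁻¹, a} : Finset (Mu F q))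
  rw [← Nat.card_eq_fintype_card, card_Mu (hF := hF), Finset.card_insert_of_notMem, Finset.card_insert_of_notMem,
    Finset.card_pair] at c
  · omega
  · exact fun h => e' (by rw [← h, inv_mul_cancel])
  · simp only [Finset.mem_insert, Finset.mem_singleton, not_or]
    exact ⟨fun h => zz (by nth_rewrite 2 [h]; rw [mul_inv_cancel]), Ne.symm e⟩
  · simp only [Finset.mem_insert, Finset.mem_singleton, not_or]
    exact ⟨hz.symm, fun h => hz (inv_eq_one.1 h.symm), ha.symm⟩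

open Classical in
theorem stp {v : V} (hv : f.B v v ≠ 0) {g : f.O} {a : Mu F q} (hg : g.1 v = a.val • v) (b : Mu F q) :
    (if a = 1 then (q : ℂ) else -1) * om f (g * rf f v b) = (if a * b = 1 then (q : ℂ) else -1) * om f g := by
  obtain ⟨x, hx⟩ := exists_emb (isCompl_span hv) (g := g * rf f v a⁻¹) fun w hw => by
    obtain ⟨c, rfl⟩ := Submodule.mem_span_singleton.1 hw
    change g.1 ((rf f v a⁻¹).1 (c • v)) = _
    rw [map_smul, rf_self hv, map_smul, map_smul, hg, smul_smul (a⁻¹).val]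
    congr 1
    rw [show (a⁻¹).val * a.val = (a⁻¹ * a).val from rfl, inv_mul_cancel]
    exact one_smul F v
  have e1 : g = emb f (isCompl_span hv) x * rf f v a := by
    rw [hx, mul_assoc, ← map_mul, inv_mul_cancel, map_one, mul_one]
  have e2 : g * rf f v b = emb f (isCompl_span hv) x * rf f v (a * b) := by
    rw [map_mul, ← mul_assoc, ← e1]
  rw [e2, ZeB.om_rf hv]
  conv_rhs => rw [e1, ZeB.om_rf hv]
  ring

theorem ex_basis (hf : f.Nondeg) (h4 : finrank F V = 4) {w w' : V} (hw : f.q w = 0) (hw' : f.q w' = 0)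
    (h : f.B w w' = 1) : ∃ u₁ u₂ : V, f.B u₁ u₁ = 1 ∧ f.B u₂ u₂ = 1 ∧ f.B u₁ u₂ = 0 ∧ f.B w u₁ = 0 ∧ f.B w u₂ = 0 ∧
      f.B w' u₁ = 0 ∧ f.B w' u₂ = 0 ∧ ∀ x, f.B w x = 0 → f.B w' x = 0 → ∃ α β : F, x = α • u₁ + β • u₂ := by
  have hn := hf.restrict_perp (f.restrict_nondeg_pair hw hw' h)
  have hr := hf.finrank_perp (Submodule.span F {w, w'})
  rw [f.finrank_span_pair hw hw' h, h4] at hr
  obtain ⟨b, hb⟩ := exists_isON_basis (sig_ne_id hF) hn (ι := Fin 2) (by rw [hr]; rfl)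
  have m0 := f.mem_perp_span_pair.1 (b 0).2
  have m1 := f.mem_perp_span_pair.1 (b 1).2
  refine ⟨b 0, b 1, hb.self 0, hb.self 1, hb.ne (i := 0) (j := 1) (by decide), m0.1, m1.1, m0.2, m1.2, fun x h1 h2 => ?_⟩
  have := congrArg Subtype.val (b.sum_repr ⟨x, f.mem_perp_span_pair.2 ⟨h1, h2⟩⟩)
  rw [Fin.sum_univ_two] at this
  exact ⟨_, _, this.symm⟩

theorem om_ne (g : f.O) : om f g ≠ 0 :=
  mul_ne_zero (pow_ne_zero _ (by norm_num)) (pow_ne_zero _ (neg_ne_zero.2 (Nat.cast_ne_zero.2 (by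
    have := two_le_q (hF := hF); omega))))

theorem om_sc4 (h4 : finrank F V = 4) {z : Mu F q} (hz : z ≠ 1) : om f (sc f z) = 1 := by
  rw [ZeB.om_free, h4]
  · norm_num
  · intro v hv
    have : (z.val - 1) • v = 0 := by rw [sub_smul, one_smul, ← sc_apply f, hv, sub_self]
    exact (smul_eq_zero.1 this).resolve_left (ZeB.val_ne hz)

open Classical in
theorem ze_t (h4 : finrank F V = 4) (hq : q = 2) {u u' : V} (hu : f.q u = 0) (h : f.B u u' = 1) {a : XA hF}
    (ha : a ≠ 1) (ν : Mu F q →* ℂˣ) : om f (tv f u a) = -8 ∧ ze f ν (tv f u a) = if ν = 1 then -2 else -3 := by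
  have hq' : (q : ℂ) = 2 := by rw [hq]; rfl
  have e1 : om f (tv f u a) = -8 := by
    have h1 := Th.fd_levi hu h (one_mem (St f u')) ha
    have h2 := ZeB.om_one (f := f)
    rw [om, ← h1, pow_succ, one_mul, h4, hq'] at h2
    rw [om, h4, hq']
    linear_combination (-1 / 2 : ℂ) * h2
  refine ⟨e1, ?_⟩
  have e2 : ∀ z : Mu F q, om f (tv f u a * sc f z) = 1 + if z = 1 then -9 else 0 := fun z => by
    split_ifs with hz
    · rw [hz, map_one, mul_one, e1]; norm_num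
    · have := Th.om_sc hu (one_mem (St f u)) a hz
      rw [one_mul, one_mul, om_sc4 h4 hz] at this
      rw [this, add_zero]
  rw [ze, part, ZeB.cM hF]
  simp only [e2, mul_add, mul_one, mul_ite, mul_zero, Finset.sum_add_distrib, Finset.sum_ite_eq', Finset.mem_univ,
    if_true, map_one, inv_one, Units.val_one, ZeB.sum_inv hF, hq']
  split_ifs <;> norm_num

open Classical in
theorem ze_e (h4 : finrank F V = 4) (hq : q = 2) {u₁ u₂ : V} (h1 : f.B u₁ u₁ = 1) (h2 : f.B u₂ u₂ = 1)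
    (h12 : f.B u₁ u₂ = 0) {z : Mu F q} (hz : z ≠ 1) :
    om f (rf f u₂ z⁻¹ * rf f u₁ z) = 4 ∧ ze f 1 (rf f u₂ z⁻¹ * rf f u₁ z) = 0 := by
  have hq' : (q : ℂ) = 2 := by rw [hq]; rfl
  have n1 : f.B u₁ u₁ ≠ 0 := by rw [h1]; exact one_ne_zero
  have n2 : f.B u₂ u₂ ≠ 0 := by rw [h2]; exact one_ne_zero
  have e2 : ∀ a : Mu F q, om f (rf f u₂ z⁻¹ * rf f u₁ z * sc f a) = -2 + if a = 1 then 6 else 0 := fun a => by
    have s1 := stp n2 (g := sc f a) (a := a) rfl z⁻¹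
    have s2 := stp n1 (g := sc f a * rf f u₂ z⁻¹) (a := a) (by
      change (sc f a).1 ((rf f u₂ z⁻¹).1 u₁) = _
      rw [rf_perp (f.B_eq_zero_symm h12)]; rfl) z
    rw [sc_comm, ← mul_assoc]
    by_cases ha : a = 1
    · subst ha
      rw [if_pos rfl, one_mul, if_neg (inv_ne_one.2 hz), map_one, ZeB.om_one, h4, hq'] at s1
      rw [if_pos rfl, one_mul, if_neg hz, map_one, hq'] at s2
      rw [if_pos rfl, map_one]
      linear_combination (1 / 2 : ℂ) * s2 - (1 / 4 : ℂ) * s1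
    · rw [if_neg ha, om_sc4 h4 ha, hq'] at s1
      rw [if_neg ha, hq'] at s2
      rw [if_neg ha]
      rcases tri hF hq hz ha with ⟨t1, t2⟩ | ⟨t1, t2⟩
      · rw [if_pos t1] at s1
        rw [if_neg t2] at s2
        linear_combination -s2 - s1
      · rw [if_neg t1] at s1
        rw [if_pos t2] at s2
        linear_combination -s2 + 2 * s1
  refine ⟨by simpa using (by rw [e2 1, if_pos rfl]; norm_num :
    om f (rf f u₂ z⁻¹ * rf f u₁ z * sc f 1) = 4), ?_⟩
  rw [ze, part]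
  simp only [e2, MonoidHom.one_apply, inv_one, Units.val_one, one_mul, Finset.sum_add_distrib, Finset.sum_ite_eq',
    Finset.mem_univ, if_true, Finset.sum_const, Finset.card_univ, ← Nat.card_eq_fintype_card, nsmul_eq_mul, ZeB.cM hF, hq']
  norm_num

end StD

theorem levi_42 (hf : f.Nondeg) (h4 : finrank F V = 4) (hq : q = 2)
    {χ : f.O → ℂ} (hχ : IsCharacter f.O χ) {ν : Mu F q →* ℂˣ} {k : ℕ}
    (hk : ∀ u, f.B u u ≠ 0 → ∀ g ∈ St f u, χ g = k * ze f ν g)
    {w w' : V} (hw : f.q w = 0) (hw' : f.q w' = 0) (h : f.B w w' = 1) {c : XA hF →* ℂˣ}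
    (hc1 : c ≠ 1) : ∀ l ∈ St f w, l ∈ St f w' → part χ (tv f w) c l = k * th f w c l := by
  classical
  have hq' : (q : ℂ) = 2 := by rw [hq]; rfl
  have t0 := StD.two0 hF hq
  have ng : ∀ v : V, -v = v := fun v => neg_eq_of_add_eq_zero_left (by rw [← two_smul F, t0, zero_smul])
  have hw0 : w ≠ 0 := fun e => by rw [e, f.B_zero_left] at h; exact zero_ne_one h
  obtain ⟨y, hy, -, hy3⟩ := gal hf hw hw0 hc1 hχ
  obtain ⟨u₁, u₂, h1, h2, h12, a1, a2, b1, b2, hsp⟩ := StD.ex_basis hf h4 hw hw' h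
  have h21 := f.B_eq_zero_symm h12
  have n1 : f.B u₁ u₁ ≠ 0 := by rw [h1]; exact one_ne_zero
  have n2 : f.B u₂ u₂ ≠ 0 := by rw [h2]; exact one_ne_zero
  have th4 : ∀ l ∈ St f w, l ∈ St f w' → 4 * th f w c l = om f l := fun l hl hl' => by
    rw [← th_levi hw hw' h hc1 hl hl', hq']; ring
  have yk : ∀ l ∈ St f w, l ∈ St f w' → ∀ u, f.B u u ≠ 0 → f.B w u = 0 → l ∈ St f u → y l = k := by
    intro l hl hl' u hu hwu hlu
    have e := part_congr (ι := tv f w) (g := l) (fun t => hk u hu _ (mul_mem hlu (tv_perp hwu t))) c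
    rw [part_ze_tv hw hc1 ν hl, hy3 l hl] at e
    refine mul_right_cancel₀ (fun e0 => StD.om_ne l ?_) e
    rw [← th4 l hl hl', e0, mul_zero]
  have y1 : y 1 = k := yk 1 (one_mem _) (one_mem _) u₁ n1 a1 (one_mem _)
  have r1 : ∀ z, rf f u₁ z ∈ St f w := fun z => rf_perp (f.B_eq_zero_symm a1) z
  have r1' : ∀ z, rf f u₁ z ∈ St f w' := fun z => rf_perp (f.B_eq_zero_symm b1) z
  have r2 : ∀ z, rf f u₂ z ∈ St f w := fun z => rf_perp (f.B_eq_zero_symm a2) z
  have r2' : ∀ z, rf f u₂ z ∈ St f w' := fun z => rf_perp (f.B_eq_zero_symm b2) z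
  obtain ⟨K, hK⟩ : ∃ K : Subgroup (St f w), ∀ g, g ∈ K ↔ y g = k :=
    ⟨CL.Char.charKer fun g : St f w => y g, fun g => by rw [hy.mem_charKer, ← y1]; rfl⟩
  have k1 : ∀ z, (⟨_, r1 z⟩ : St f w) ∈ K := fun z => (hK _).2 (yk _ (r1 z) (r1' z) u₂ n2 a2 (rf_perp h12 z))
  have k2 : ∀ z, (⟨_, r2 z⟩ : St f w) ∈ K := fun z => (hK _).2 (yk _ (r2 z) (r2' z) u₁ n1 a1 (rf_perp h21 z))
  -- the swap
  let a₀ : XA hF := Multiplicative.ofAdd ⟨1, by
    change (1 : F) + 1 ^ q = 0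
    rw [one_pow, one_add_one_eq_two, t0]⟩
  have ha₀ : a₀ ≠ 1 := fun e => one_ne_zero (congrArg (fun x : XA hF => ((x.toAdd : (HT hF).π.ker) : F)) e)
  have B1 : f.B (u₁ + u₂) u₁ = 1 := by rw [f.B_add_left, h1, h21, add_zero]
  have B2 : f.B (u₁ + u₂) u₂ = 1 := by rw [f.B_add_left, h2, h12, zero_add]
  have q0 : f.q (u₁ + u₂) = 0 := by rw [f.herm_q, map_add, B1, B2, one_add_one_eq_two, t0]
  have s2 : (tv f (u₁ + u₂) a₀).1 u₂ = u₁ := by
    rw [Th.tv_ap q0, B2]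
    change u₂ - ((1 : F) * 1) • (u₁ + u₂) = u₁
    rw [one_mul, one_smul, ← ng u₁, ng u₁]
    nth_rewrite 2 [← ng u₁]
    abel
  have tw : tv f (u₁ + u₂) a₀ ∈ St f w :=
    tv_perp (by rw [f.B_add_left, f.B_eq_zero_symm a1, f.B_eq_zero_symm a2, add_zero]) a₀
  have tw' : tv f (u₁ + u₂) a₀ ∈ St f w' :=
    tv_perp (by rw [f.B_add_left, f.B_eq_zero_symm b1, f.B_eq_zero_symm b2, add_zero]) a₀
  obtain ⟨ot, zt⟩ := StD.ze_t h4 hq q0 B1 ha₀ ν
  generalize tv f (u₁ + u₂) a₀ = t at s2 tw tw' ot zt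
  have hp : IsCharacter (St f w) fun g => part χ (tv f w) 1 g.1 :=
    isCharacter_part hχ (tv f w) 1 (St f w).subtype fun g z => tv_comm g.2 z
  have star : ∀ l ∈ St f w, l ∈ St f w' → 4 * part χ (tv f w) 1 l + y l * om f l = 4 * (k * ze f ν l) := by
    intro l hl hl'
    obtain ⟨d, hd⟩ := exists_nonisotropic hw hw' h
    rw [← hk _ hd l (by rw [mem_St, map_add, map_smul, mem_St.1 hl, mem_St.1 hl']), ← sum_part χ (tv f w) l,
      StD.sum2 (by rw [card_XA_hom, hq]) hc1, hy3 l hl, ← th4 l hl hl']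
    ring
  have z1 := ze_one (f := f) (by omega) ν
  have st1 := star 1 (one_mem _) (one_mem _)
  have stt := star t tw tw'
  rw [h4, hq'] at z1
  rw [y1, ZeB.om_one, h4, hq'] at st1
  rw [ot, zt] at stt
  have kt : (⟨t, tw⟩ : St f w) ∈ K := by
    rw [hK]
    change y t = k
    by_cases hν : ν = 1
    · subst hν
      rw [if_pos rfl] at z1 stt
      let ι : Mu F q →* St f w :=
        { toFun := fun z => ⟨_, r2 z⁻¹⟩ * ⟨_, r1 z⟩
          map_one' := Subtype.ext (by simp)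
          map_mul' := fun a b => Subtype.ext (by
            change rf f u₂ (a * b)⁻¹ * rf f u₁ (a * b) = rf f u₂ a⁻¹ * rf f u₁ a * (rf f u₂ b⁻¹ * rf f u₁ b)
            rw [mul_inv, map_mul, map_mul, mul_assoc, mul_assoc, ← mul_assoc (rf f u₂ b⁻¹),
              rf_comm (v := u₁) (g := rf f u₂ b⁻¹) (rf_perp h21 _) a, mul_assoc]) }
      have pe : ∀ z, part χ (tv f w) 1 (ι z).1 = -k + if z = 1 then 3 * (k : ℂ) else 0 := fun z => by
        split_ifs with hz
        · rw [hz, map_one]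
          change part χ (tv f w) 1 1 = _
          linear_combination (1 / 4 : ℂ) * st1 + (k / 3 : ℂ) * z1
        · obtain ⟨o, ζ⟩ := StD.ze_e h4 hq h1 h2 h12 hz
          have s := star _ (mul_mem (r2 z⁻¹) (r1 z)) (mul_mem (r2' z⁻¹) (r1' z))
          have yz : y (rf f u₂ z⁻¹ * rf f u₁ z) = k := (hK (ι z)).1 (mul_mem (k2 z⁻¹) (k1 z))
          rw [o, ζ, yz] at s
          change part χ (tv f w) 1 (rf f u₂ z⁻¹ * rf f u₁ z) = _
          linear_combination (1 / 4 : ℂ) * s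
      have p0 := StD.part_zero hp ι 1 (by
        rw [part_one_apply_one]
        simp only [pe, Finset.sum_add_distrib, Finset.sum_ite_eq', Finset.mem_univ, if_true, Finset.sum_const,
          Finset.card_univ, ← Nat.card_eq_fintype_card, nsmul_eq_mul, ZeB.cM hF, hq']
        ring) ⟨t, tw⟩
      have cj : ∀ z, part χ (tv f w) 1 ((⟨t, tw⟩ * ι z : St f w) : f.O) = part χ (tv f w) 1 t := fun z => by
        have e := rf_conj t u₂ z⁻¹
        rw [s2] at e
        have := hp.isClassFunction ⟨t, tw⟩ ⟨_, r1 z⁻¹⟩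
        refine Eq.trans (congrArg _ ?_) this
        change t * (rf f u₂ z⁻¹ * rf f u₁ z) = rf f u₁ z⁻¹ * t * (rf f u₁ z⁻¹)⁻¹
        rw [map_inv (rf f u₁) z, inv_inv, ← map_inv, ← e]
        group
      rw [part] at p0
      simp only [cj, MonoidHom.one_apply, inv_one, Units.val_one, one_mul, Finset.sum_const, Finset.card_univ,
        ← Nat.card_eq_fintype_card, nsmul_eq_mul, ZeB.cM hF, hq'] at p0
      linear_combination (-1 / 8 : ℂ) * stt + (1 / 2 : ℂ) * p0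
    · rw [if_neg hν] at z1 stt
      have p1 : part χ (tv f w) 1 1 = k := by linear_combination (1 / 4 : ℂ) * st1 + (k / 3 : ℂ) * z1
      have n1 := hp.norm_le_norm_one ⟨t, tw⟩
      have n2 := hy.norm_le_norm_one ⟨t, tw⟩
      change ‖part χ (tv f w) 1 t‖ ≤ ‖part χ (tv f w) 1 1‖ at n1
      change ‖y t‖ ≤ ‖y 1‖ at n2
      rw [p1, Complex.norm_natCast] at n1
      rw [y1, Complex.norm_natCast] at n2
      have e : part χ (tv f w) 1 t = 2 * y t - 3 * k := by linear_combination (1 / 4 : ℂ) * stt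
      have l1 := (abs_le.1 ((Complex.abs_re_le_norm _).trans n1)).1
      have l2 := (Complex.re_le_norm _).trans n2
      rw [e] at l1
      simp only [Complex.sub_re, Complex.mul_re, Complex.re_ofNat, Complex.im_ofNat, Complex.natCast_re, zero_mul,
        sub_zero] at l1
      have d : (charDegree fun g : St f w => y g) = k := CL.Char.charDegree_eq_of_apply_one y1
      rw [← y1]
      exact hy.eq_one_of_re_eq (g := ⟨t, tw⟩) (by rw [d]; linarith)
  have c1 : ∀ l (hl : l ∈ St f w), l ∈ St f w' → ∀ α : F, α ≠ 0 → l.1 u₁ = α • u₁ → (⟨l, hl⟩ : St f w) ∈ K := by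
    intro l hl hl' α hα e
    obtain ⟨m, rfl⟩ := StD.ex_mu hF hq hα
    have := (hK (⟨l, hl⟩ * ⟨_, r1 m⁻¹⟩)).2 (yk _ (mul_mem hl (r1 _)) (mul_mem hl' (r1' _)) u₁ n1 a1 (by
      change l.1 ((rf f u₁ m⁻¹).1 u₁) = u₁
      rw [rf_self n1, map_smul, e, smul_smul, show (m⁻¹).val * m.val = (m⁻¹ * m).val from rfl, inv_mul_cancel]
      exact one_smul F u₁))
    exact (K.mul_mem_cancel_right (k1 m⁻¹)).1 this
  intro l hl hl'
  rw [hy3 l hl]
  congr 1
  refine (hK ⟨l, hl⟩).1 ?_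
  obtain ⟨α, β, e⟩ := hsp (l.1 u₁) (by rw [← a1, ← f.O_B l w u₁, mem_St.1 hl]) (by rw [← b1, ← f.O_B l w' u₁, mem_St.1 hl'])
  have nn := f.O_B l u₁ u₁
  rw [e, h1] at nn
  simp only [f.B_add_left, f.B_add_right, f.B_smul_left, f.B_smul_right, h1, h2, h12, h21, HT_σ, mul_zero, mul_one,
    add_zero, zero_add] at nn
  by_cases hβ : β = 0
  · subst hβ
    rw [zero_smul, add_zero] at e
    exact c1 l hl hl' α (fun e0 => by rw [e0] at nn; simp at nn) e
  have hα : α = 0 := by_contra fun hα => by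
    have c1 := StD.cube hF hq hα
    have c2 := StD.cube hF hq hβ
    exact one_ne_zero (α := F) (by linear_combination nn - c1 - c2 + t0 - t0)
  subst hα
  rw [zero_smul, zero_add] at e
  have := c1 (t * l) (mul_mem tw hl) (mul_mem tw' hl') β hβ (by
    change t.1 (l.1 u₁) = _
    rw [e, map_smul, s2])
  exact (K.mul_mem_cancel_left kt).1 this

end CL.WU
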