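import Cfsg.Agent.CLAS.WU.ZeC
import Cfsg.Agent.CLAS.WU.Fix
import Cfsg.Agent.CHAR.Values

/-! Dimension two.  `om g - 1` is `q² - 1` at `1`, `-(q+1)` when `fd g = 1`, and `0` otherwise.
The elements with `fd g = 1` are the nontrivial transvections (`q + 1` conjugate groups `X_w`) and the
nontrivial reflections (`q² - q` nonisotropic points, `∑_{z ≠ 1} χ (rf v z) = -D` by `Hs`, `D = χ 1`).  With
`∑_{X_w} χ = q k₀`, `|G| ⟨χ, om - 1⟩ = q (q+1)² (D - k₀)`.  If `k₀ = D`, `X_w` acts trivially for every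
isotropic `w` (conjugacy), `U w = X_w` in dimension two (or `fix_Q_of_hs`), so `fix_SO`, `lin_of_fix`.
Otherwise `⟨χ, om⟩ ≠ 0` (as `⟨χ, 1⟩ = 0` by `Hs`), so `χ = ze ν` for some `ν` (`sum_ze`, `isIrr_ze`).
To avoid counting: it is enough to show `∑_g χ(g) (om g - 1) ≠ 0`; summing over pairs `(g, v)` with `v ≠ 0`
fixed by `g ≠ 1` (each `g` with `fd g = 1` fixes `q² - 1` nonzero vectors; `St v = X_v` for isotropic `v`,
`St v = rf u` with `u ⊥ v` otherwise). -/

set_option autoImplicit false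

namespace CL.WU

open Module CL.Witt CL.Uni Cfsg

variable {F : Type*} [Field F] [Fintype F] {q : ℕ} {hF : Fintype.card F = q ^ 2}
  {V : Type*} [AddCommGroup V] [Module F V] [FiniteDimensional F V] {f : Form (HT hF) V}

namespace Two

theorem exists_perp (hf : f.Nondeg) (h2 : finrank F V = 2) {v : V} (hv : ¬ (v ≠ 0 ∧ f.q v = 0)) :
    ∃ u, f.B u u ≠ 0 ∧ f.B u v = 0 := by
  by_cases h0 : v = 0
  · obtain ⟨u, hu⟩ := exists_q_eq (sig_ne_id hF) hf (by omega) (b := 1) (map_one _)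
    refine ⟨u, ?_, by simp [h0]⟩
    rw [← f.herm_q, hu]; exact one_ne_zero
  · have hq : f.B v v ≠ 0 := by rw [← f.herm_q]; exact fun h => hv ⟨h0, h⟩
    obtain ⟨u, hu⟩ := exists_q_eq (sig_ne_id hF) (perp_nondeg hf hq)
      (by have := finrank_perp_span (f := f) hq; omega) (b := 1) (map_one _)
    refine ⟨u, ?_, f.B_eq_zero_symm (f.mem_perp_span_singleton.1 u.2)⟩
    rw [← f.herm_q]
    change (f.restrict (f.perp (F ∙ v))).q u ≠ 0
    rw [hu]; exact one_ne_zero

theorem gsum_zero (hf : f.Nondeg) {χ : f.O → ℂ} (hχ : IsCharacter f.O χ) (hs : Hs f χ) {u v : V}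
    (hu : f.B u u ≠ 0) (huv : f.B u v = 0) : gsum χ (St f v) = 0 := by
  have inj : Function.Injective (rf f u) := fun a b h => by
    rw [← dt_rf hf hu a, h, dt_rf hf hu b]
  refine gsum_eq_zero_of_le hχ (A := (⊤ : Subgroup (Mu F q)).map (rf f u)) ?_ ?_
  · rintro _ ⟨z, -, rfl⟩
    exact rf_perp huv z
  · rw [gsum_map _ inj]
    simpa [gsum] using hs u hu

open Classical in
theorem card_fix [Fintype V] (g : f.O) :
    (∑ v : V, if g ∈ St f v then (1 : ℂ) else 0) = ((q : ℂ) ^ 2) ^ fd g.1 := by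
  rw [Finset.sum_boole]
  have h1 := card_submodule_eq_pow (LinearMap.ker ((g.1 : V →ₗ[F] V) - LinearMap.id))
  rw [Nat.card_eq_fintype_card (α := F), hF] at h1
  have h2 : (Finset.univ.filter fun v : V => g ∈ St f v).card =
      Nat.card (LinearMap.ker ((g.1 : V →ₗ[F] V) - LinearMap.id)) := by
    rw [← Fintype.card_subtype, ← Nat.card_eq_fintype_card]
    refine Nat.card_congr (Equiv.subtypeEquivRight fun v => ?_)
    simp [mem_St, sub_eq_zero]
  rw [h2, h1, fd]
  push_cast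
  rfl

open Classical in
theorem key (h2 : finrank F V = 2) (g : f.O) :
    ((q : ℂ) - 1) * om f g - q + ((q : ℂ) ^ 2) ^ fd g.1 =
      if g = 1 then (q : ℂ) * (q + 1) * (q ^ 2 - 1) else 0 := by
  have hle : fd g.1 ≤ 2 := h2 ▸ Submodule.finrank_le _
  have hiff : fd g.1 = 2 ↔ g = 1 := by
    constructor
    · intro h
      have ht : LinearMap.ker ((g.1 : V →ₗ[F] V) - LinearMap.id) = ⊤ :=
        Submodule.eq_top_of_finrank_eq (h.trans h2.symm)
      refine Subtype.ext (LinearEquiv.ext fun v => ?_)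
      have : v ∈ LinearMap.ker ((g.1 : V →ₗ[F] V) - LinearMap.id) := ht ▸ Submodule.mem_top
      simpa [sub_eq_zero] using this
    · rintro rfl
      have ht : LinearMap.ker (((1 : f.O).1 : V →ₗ[F] V) - LinearMap.id) = ⊤ := by
        rw [LinearMap.ker_eq_top]
        ext v
        simp
      rw [fd, ht, finrank_top, h2]
  rw [om, h2]
  split_ifs with h
  · rw [hiff.2 h]; ring
  · have h' : fd g.1 ≠ 2 := fun e => h (hiff.1 e)
    have : fd g.1 = 0 ∨ fd g.1 = 1 := by omega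
    rcases this with e | e <;> rw [e] <;> ring

omit [FiniteDimensional F V] in
theorem card_St (v : V) : Nat.card (St f v) = Nat.card (f.fix (F ∙ v)) := by
  refine Nat.card_congr
    { toFun := fun g => ⟨g.1.1, f.mem_fix_span.2 ⟨g.1.2, fun w hw => ?_⟩⟩
      invFun := fun g => ⟨⟨g.1, g.2.1⟩, g.2.2 v (Submodule.mem_span_singleton_self v)⟩
      left_inv := fun _ => rfl
      right_inv := fun _ => rfl }
  rw [Set.mem_singleton_iff.1 hw]
  exact g.2

theorem card_O_two (hf : f.Nondeg) (h2 : finrank F V = 2) :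
    (Nat.card f.O : ℝ) = (q : ℝ) * (q + 1) * (q ^ 2 - 1) := by
  have hq := two_le_q (hF := hF)
  have h1 : 1 ≤ q ^ 2 := Nat.one_le_pow _ _ (by omega)
  rw [card_O hf, h2]
  simp only [guOrder, Finset.prod_range_succ, Finset.prod_range_zero]
  rw [if_pos (by decide), if_neg (by decide)]
  push_cast [Nat.cast_sub h1]
  ring

open Classical in
/-- The pairs `(v, g)` with `v` isotropic, nonzero and fixed by `g`. -/
theorem card_pairs [Fintype V] (hf : f.Nondeg) (h2 : finrank F V = 2) :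
    (∑ v : V, ∑ g : f.O, if (v ≠ 0 ∧ f.q v = 0) ∧ g ∈ St f v then (1 : ℝ) else 0) =
      (q : ℝ) * (q + 1) * (q ^ 2 - 1) := by
  obtain ⟨w, hw0, hw⟩ := exists_isotropic (sig_ne_id hF) hf h2.ge
  set I : ℕ := Nat.card {y : V // y ≠ 0 ∧ f.q y = 0} with hI
  have hI0 : (I : ℝ) ≠ 0 := by
    have : Nonempty {y : V // y ≠ 0 ∧ f.q y = 0} := ⟨⟨w, hw0, hw⟩⟩
    exact_mod_cast Nat.card_pos.ne'
  have h1 : ∀ v : V, (∑ g : f.O, if (v ≠ 0 ∧ f.q v = 0) ∧ g ∈ St f v then (1 : ℝ) else 0) =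
      (if v ≠ 0 ∧ f.q v = 0 then (1 : ℝ) else 0) * ((Nat.card f.O : ℝ) / I) := by
    intro v
    by_cases hv : v ≠ 0 ∧ f.q v = 0
    · have h3 := hf.card_O_eq_mul_fix hv.1
      rw [hv.2, ← hI, ← card_St] at h3
      simp only [hv, ne_eq, not_false_eq_true, and_self, true_and, if_true, one_mul]
      rw [Finset.sum_boole, h3, ← Fintype.card_subtype, ← Nat.card_eq_fintype_card]
      push_cast
      rw [mul_div_cancel_left₀ _ hI0]
    · simp only [hv, false_and, if_false, Finset.sum_const_zero, zero_mul]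
  rw [Finset.sum_congr rfl fun v _ => h1 v, ← Finset.sum_mul, Finset.sum_boole,
    ← Fintype.card_subtype, ← Nat.card_eq_fintype_card, ← hI, mul_div_cancel₀ _ hI0,
    card_O_two hf h2]

theorem triv (hf : f.Nondeg) (h2 : finrank F V = 2) {χ : f.O → ℂ} (hχ : IsCharacter f.O χ)
    (hs : Hs f χ) (h0 : ∑ g, χ g * om f g = 0) {v : V} (hv0 : v ≠ 0) (hv : f.q v = 0) {g : f.O}
    (hg : g ∈ St f v) : χ g = χ 1 := by
  classical
  have : Finite V := Module.finite_of_finite F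
  have : Fintype V := Fintype.ofFinite V
  have hz : ∀ v : V, ¬ (v ≠ 0 ∧ f.q v = 0) → gsum χ (St f v) = 0 := fun v hv => by
    obtain ⟨u, hu, huv⟩ := exists_perp hf h2 hv
    exact gsum_zero hf hχ hs hu huv
  have h1 : ∑ g, χ g = 0 := by
    have := hz 0 (by simp)
    simpa [gsum, mem_St] using this
  have h3 : ∑ g : f.O, χ g * ((q : ℂ) ^ 2) ^ fd g.1 = χ 1 * ((q : ℂ) * (q + 1) * (q ^ 2 - 1)) := by
    have e : ∑ g : f.O, χ g * (((q : ℂ) - 1) * om f g - q + ((q : ℂ) ^ 2) ^ fd g.1) =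
        χ 1 * ((q : ℂ) * (q + 1) * (q ^ 2 - 1)) := by
      rw [Finset.sum_congr rfl fun g _ => by rw [key h2 g]]
      simp [mul_ite]
    have e2 : ∑ g : f.O, χ g * (((q : ℂ) - 1) * om f g - q + ((q : ℂ) ^ 2) ^ fd g.1) =
        ((q : ℂ) - 1) * ∑ g, χ g * om f g - q * ∑ g, χ g +
          ∑ g : f.O, χ g * ((q : ℂ) ^ 2) ^ fd g.1 := by
      rw [Finset.mul_sum, Finset.mul_sum, ← Finset.sum_sub_distrib, ← Finset.sum_add_distrib]
      exact Finset.sum_congr rfl fun g _ => by ring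
    rw [← e, e2, h0, h1]; ring
  have h4 : ∑ g : f.O, χ g * ((q : ℂ) ^ 2) ^ fd g.1 =
      ∑ v : V, ∑ g : f.O, if (v ≠ 0 ∧ f.q v = 0) ∧ g ∈ St f v then χ g else 0 := by
    have e : ∑ g : f.O, χ g * ((q : ℂ) ^ 2) ^ fd g.1 = ∑ v : V, gsum χ (St f v) := by
      simp only [gsum]
      rw [Finset.sum_comm]
      refine Finset.sum_congr rfl fun g _ => ?_
      rw [← card_fix g, Finset.mul_sum]
      refine Finset.sum_congr rfl fun v _ => ?_
      split_ifs <;> simp
    rw [e]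
    refine Finset.sum_congr rfl fun v _ => ?_
    by_cases hv : v ≠ 0 ∧ f.q v = 0
    · simp only [gsum, hv, ne_eq, not_false_eq_true, and_self, true_and]
    · rw [hz v hv]
      simp only [hv, false_and, if_false, Finset.sum_const_zero]
  have h5 : ∑ v : V, ∑ g : f.O, (if (v ≠ 0 ∧ f.q v = 0) ∧ g ∈ St f v then
      (charDegree χ : ℝ) - (χ g).re else 0) = 0 := by
    have e1 := congrArg Complex.re (h4.symm.trans h3)
    rw [hχ.apply_one_eq_charDegree] at e1
    have e2 : ((charDegree χ : ℂ) * ((q : ℂ) * (q + 1) * (q ^ 2 - 1))).re =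
        (charDegree χ : ℝ) * ((q : ℝ) * (q + 1) * (q ^ 2 - 1)) := by
      rw [← Complex.ofReal_re ((charDegree χ : ℝ) * _)]
      push_cast
      rfl
    rw [e2, ← card_pairs hf h2, Complex.re_sum, Finset.mul_sum] at e1
    refine Eq.trans ?_ (sub_eq_zero.2 e1.symm)
    rw [← Finset.sum_sub_distrib]
    refine Finset.sum_congr rfl fun v _ => ?_
    rw [Complex.re_sum, Finset.mul_sum, ← Finset.sum_sub_distrib]
    refine Finset.sum_congr rfl fun g _ => ?_
    split_ifs <;> simp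
  have hn : ∀ (v : V) (g : f.O), 0 ≤ (if (v ≠ 0 ∧ f.q v = 0) ∧ g ∈ St f v then
      (charDegree χ : ℝ) - (χ g).re else 0) := fun v g => by
    split_ifs
    · exact sub_nonneg.2 (hχ.re_le g)
    · exact le_rfl
  have h6 := (Finset.sum_eq_zero_iff_of_nonneg fun v _ =>
    Finset.sum_nonneg fun g _ => hn v g).1 h5 v (Finset.mem_univ _)
  have h7 := (Finset.sum_eq_zero_iff_of_nonneg fun g _ => hn v g).1 h6 g (Finset.mem_univ _)
  rw [if_pos ⟨⟨hv0, hv⟩, hg⟩] at h7
  exact hχ.eq_one_of_re_eq (sub_eq_zero.1 h7).symm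

end Two

theorem wstar_two (hf : f.Nondeg) (h2 : finrank F V = 2) {χ : f.O → ℂ}
    (hχ : IsIrrCharacter f.O χ) (hs : Hs f χ) : (∃ l, χ = lin hf l) ∨ ∃ ν, χ = ze f ν := by
  by_cases h0 : ∑ g, χ g * om f g = 0
  · left
    have ht := fun v hv0 hv g hg => Two.triv hf h2 hχ.isCharacter hs h0 (v := v) hv0 hv (g := g) hg
    have hne := hχ.one_ne_zero
    obtain ⟨n, ρ, hρ, rfl⟩ := hχ
    have hid : ∀ v : V, v ≠ 0 → f.q v = 0 → ∀ g ∈ St f v, ρ g = LinearMap.id :=
      fun v hv0 hv g hg => by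
        rw [← CL.Char.character_eq_finrank_iff, ht v hv0 hv g hg, ρ.char_one]
    obtain ⟨w, w', hw, hw', hB⟩ := exists_hyp_pair (sig_ne_id hF) hf h2.ge
    have hw0 : w ≠ 0 := by rintro rfl; simp at hB
    have hw0' : w' ≠ 0 := by rintro rfl; simp at hB
    have hpos : 0 < finrank ℂ (Fin n → ℂ) := by
      rw [ρ.char_one] at hne
      exact Nat.pos_of_ne_zero fun h => hne (by rw [h, Nat.cast_zero])
    have : Nontrivial (Fin n → ℂ) := Module.finrank_pos_iff.1 hpos
    obtain ⟨x, hx⟩ := exists_ne (0 : Fin n → ℂ)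
    refine lin_of_fix hf (by omega) ρ hρ hx fun g hg => ?_
    refine fix_SO hf ρ hw hw' (by rw [hB]; exact one_ne_zero) (fun v a h => ?_) (fun v a h => ?_) g hg
    · rw [hid w hw0 hw _ (eiO_mem_St h)]; rfl
    · rw [hid w' hw0' hw' _ (eiO_mem_St h)]; rfl
  · right
    by_contra hc
    apply h0
    have h1 : classInner χ (om f) = 0 := by
      have e : om f = ∑ ν : Mu F q →* ℂˣ, ze f ν := by
        funext g
        rw [Finset.sum_apply, sum_ze]
      rw [e, CL.Char.classInner_sum_right]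
      refine Finset.sum_eq_zero fun ν _ => ?_
      by_contra h
      exact hc ⟨ν, hχ.eq_of_inner_ne_zero (isIrr_ze hf h2.ge ν) h⟩
    have h3 := CL.Char.card_mul_classInner χ (om f)
    rw [h1, mul_zero] at h3
    rw [h3]
    refine Finset.sum_congr rfl fun g _ => ?_
    simp [om]

end CL.WU
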