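import Cfsg.Agent.CLAS.WU.StA
import Cfsg.Agent.CLAS.WU.StB
import Cfsg.Agent.CLAS.WU.StC
import Cfsg.Agent.CLAS.WU.StD
import Cfsg.Agent.CLAS.WU.Two

/-! Induction on the dimension:
`wstar_two`; `exists_cen`, `part_rf_eq`, `eq_on_St`, `levi_of_ne` / `levi_42`, `eq_on_iso`, `ze_eq_of_fix`. -/

set_option autoImplicit false

namespace CL.WU

open Module CL.Witt CL.Uni Cfsg

variable {F : Type*} [Field F] [Fintype F] {q : ℕ} {hF : Fintype.card F = q ^ 2}
  {V : Type*} [AddCommGroup V] [Module F V] [FiniteDimensional F V] {f : Form (HT hF) V}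

theorem wstar (hf : f.Nondeg) (h2 : 2 ≤ finrank F V) {χ : f.O → ℂ} (hχ : IsIrrCharacter f.O χ)
    (hs : Hs f χ) : (∃ l, χ = lin hf l) ∨ ∃ ν, χ = ze f ν := by
  induction' hn : finrank F V with n ih generalizing V
  · omega
  rcases h2.eq_or_lt with e | h3
  · exact wstar_two hf e.symm hχ hs
  obtain ⟨v, hv⟩ : ∃ v, f.B v v ≠ 0 := by
    have : Nontrivial V := Module.nontrivial_of_finrank_pos (R := F) (by omega)
    obtain ⟨w, hw⟩ := exists_ne (0 : V)
    by_cases e : f.q w = 0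
    · obtain ⟨w', h1, h2⟩ := hf.exists_partner' e hw
      exact (exists_nonisotropic e h1 h2).elim fun _ h => ⟨_, h⟩
    · exact ⟨w, by rwa [← f.herm_q]⟩
  refine or_iff_not_imp_left.2 fun hnl => ?_
  obtain ⟨ν, hc⟩ := exists_cen hχ
  have hr := finrank_perp_span (f := f) hv
  obtain ⟨k, hk⟩ := eq_on_St hf h3 hχ.isCharacter hs (ν := ν) hv (isCompl_span hv) (by
    obtain ⟨m, ρ, hρ, rfl⟩ := hχ
    exact part_rf_eq hf h3 ρ hρ hs hc hnl hv _ fun ψ h1 h2 =>
      ih (perp_nondeg hf hv) (by omega) h1 h2 (by omega))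
  refine ⟨ν, ze_eq_of_fix hf h2 hχ hc (k := k) fun w hw => ?_⟩
  by_cases e : f.q w = 0
  · obtain ⟨w', h1, h2⟩ := hf.exists_partner' e hw
    refine eq_on_iso hf hχ.isCharacter hs hk e h1 h2 fun c hc1 => ?_
    by_cases h42 : finrank F V = 4 ∧ q = 2
    · exact levi_42 hf h42.1 h42.2 hχ.isCharacter hk e h1 h2 hc1
    · exact levi_of_ne hf h3 h42 hχ.isCharacter hc hk e h1 h2 hc1
  · exact hk w (by rwa [← f.herm_q])

end CL.WU
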