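import Cfsg.Agent.CLAS.WU.DegB
import Cfsg.Agent.CLAS.WU.WStar

/-! Uniqueness in degree `(q^n - q)/(q+1)`: `χ · lin l` is irreducible with `Hs`, not linear, so `ze ν`;
`ze_one` gives `ν = 1`; central characters give `l (z^n) = 1`, so `l = 1`. -/

set_option autoImplicit false

namespace CL.WU

open Module CL.Witt CL.Uni Cfsg

variable {F : Type*} [Field F] [Fintype F] {q : ℕ} {hF : Fintype.card F = q ^ 2}
  {V : Type*} [AddCommGroup V] [Module F V] [FiniteDimensional F V] {f : Form (HT hF) V}

theorem Deg.triv (hf : f.Nondeg) (hcop : Nat.Coprime (finrank F V) (2 * (q + 1))) {l : Mu F q →* ℂˣ}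
    (h : ∀ z, lin hf l (sc f z) = 1) : l = 1 := MonoidHom.ext fun z => by
  obtain ⟨y, rfl⟩ := (powCoprime (G := Mu F q) (n := finrank F V)
    (by rw [card_Mu (hF := hF)]; exact (hcop.coprime_mul_left_right).symm)).surjective z
  have := h y
  rw [lin, dt_sc] at this
  exact Units.val_eq_one.1 this

theorem eq_ze_of_deg (hf : f.Nondeg) (h3 : 3 ≤ finrank F V)
    (hcop : Nat.Coprime (finrank F V) (2 * (q + 1))) {χ : f.O → ℂ} (hχ : IsIrrCharacter f.O χ)
    (hc : Cen f χ 1) (hd : ((q : ℂ) + 1) * χ 1 = (q : ℂ) ^ finrank F V - q) : χ = ze f 1 := by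
  have hodd : Odd (finrank F V) := Nat.coprime_two_right.1 hcop.coprime_mul_right_right
  obtain ⟨l, hs⟩ := exists_hs_twist hf h3 hodd hχ hd
  have hi : IsIrrCharacter f.O fun g => χ g * lin hf l g := by
    have := hχ.hom_mul (l.comp (dt hf))
    simp only [mul_comm _ (χ _)] at this
    exact this
  have l1 : ∀ l : Mu F q →* ℂˣ, lin hf l 1 = 1 := fun l => by simp [lin]
  rcases wstar hf (by omega) hi hs with ⟨l', e⟩ | ⟨ν, e⟩
  · have e1 := congrFun e 1
    simp only [l1, mul_one] at e1
    rw [e1, mul_one, eq_sub_iff_add_eq] at hd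
    have e2 : q + 1 + q = q ^ finrank F V := by exact_mod_cast hd
    have h2 := two_le_q (hF := hF)
    have := Nat.pow_le_pow_right (by omega : 0 < q) h3
    have : 2 * 2 * q ≤ q ^ 3 := by rw [pow_three']; gcongr
    omega
  · have e1 := congrFun e 1
    simp only [l1, mul_one] at e1
    have e2 := ze_one (f := f) (by omega) ν
    rw [← e1, hd, hodd.neg_one_pow] at e2
    obtain rfl : ν = 1 := by
      by_contra hν
      rw [if_neg hν] at e2
      exact ZeB.q1 q (by linear_combination -e2)
    obtain rfl : l = 1 := Deg.triv hf hcop fun z => by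
      have a := cen_ze (f := f) 1 z 1
      have b := hc z 1
      rw [← e] at a
      simp only [one_mul, MonoidHom.one_apply, Units.val_one, l1, mul_one] at a b
      rw [b] at a
      exact mul_left_cancel₀ hχ.one_ne_zero (a.trans (mul_one _).symm)
    rw [← e]
    funext g
    simp [lin]

/-- `wstar`; a linear character trivial on the scalars is trivial and fails `Hs`. -/
theorem eq_ze_of_hs (hf : f.Nondeg) (h3 : 3 ≤ finrank F V)
    (hcop : Nat.Coprime (finrank F V) (2 * (q + 1))) {χ : f.O → ℂ} (hχ : IsIrrCharacter f.O χ)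
    (hc : Cen f χ 1) (hs : Hs f χ) : χ = ze f 1 := by
  rcases wstar hf (by omega) hχ hs with ⟨l, rfl⟩ | ⟨ν, rfl⟩
  · obtain rfl : l = 1 := Deg.triv hf hcop fun z => by simpa [lin] using hc z 1
    obtain ⟨u, hu⟩ := exists_q_eq (sig_ne_id hF) hf (by omega) (b := 1) (map_one _)
    have := hs u (by rw [← f.herm_q, hu]; exact one_ne_zero)
    simp only [lin, MonoidHom.one_apply, Units.val_one, Finset.sum_const, Finset.card_univ, nsmul_eq_mul, mul_one] at this
    exact absurd this (Nat.cast_ne_zero.2 Fintype.card_ne_zero)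
  · congr 1
    ext z
    exact mul_right_cancel₀ hχ.one_ne_zero ((cen_ze (f := f) ν z 1).symm.trans (hc z 1))

end CL.WU
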