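import Cfsg.Agent.CLAS.WU.Fix

/-! Small dimension forces `M^X = M^Q`.  As in `fix_Q_of_hs`: partner `w'`, `V' = ⟨w,w'⟩^⊥` of odd dimension
`n' = n - 2`, the weights of `Q / X ≅ V'` on `M^X` are `v ↦ ψ (B y v)` (`ψ` a fixed nontrivial additive character of `F`).  The set
`Ω` of `y` occurring is invariant under `GU(V')` (`emb`) and under all scalars (the isometry `w ↦ a w`, `w' ↦ a^(-q) w'`, `1` on
`V'` normalises `X`; `ei_smul_left`).  If `0 ≠ y ∈ Ω`, then `Ω` contains all nonzero isotropic vectors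
(`(q^n' + 1)(q^(n'-1) - 1)`, `n' ≥ 3`) or all nonisotropic ones (`q^(n'-1) (q-1) (q^n' + 1)`), `card_q_eq`,
`FormCount.card_hermForm_eq_zero`; both exceed `(q^n - q) / (q + 1)`, but `|Ω| ≤ dim M`. -/

set_option autoImplicit false

namespace CL.WU

open Module CL.Witt CL.Uni Cfsg

variable {F : Type*} [Field F] [Fintype F] {q : ℕ} {hF : Fintype.card F = q ^ 2}
  {V : Type*} [AddCommGroup V] [Module F V] [FiniteDimensional F V] {f : Form (HT hF) V}

variable {M : Type*} [AddCommGroup M] [Module ℂ M] [FiniteDimensional ℂ M]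

namespace DegA

/-- `t` gives a weight of the Eichler group of `w`. -/
def Wt (ρ : Representation ℂ f.O M) (ψ : AddChar F ℂ) (w t : V) : Prop :=
  ∃ y : M, y ≠ 0 ∧ ∀ v a, f.EichOK w v a → ρ (eiO f w v a) y = ψ (f.B t v) • y

omit [FiniteDimensional F V] [FiniteDimensional ℂ M] in
theorem Wt.map {ρ : Representation ℂ f.O M} {ψ : AddChar F ℂ} {w t s : V} (h : Wt ρ ψ w t)
    (g : f.O) {c : F} (hc : c ≠ 0) (hw : g.1 w = c • w) (ht : g.1 t = c • s) : Wt ρ ψ w s := by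
  obtain ⟨y, y0, hy⟩ := h
  refine ⟨ρ g y, fun e => y0 (FixQ.inj ρ g (by rw [e, map_zero])), fun v a hv => ?_⟩
  have hw' : (g⁻¹).1 w = c⁻¹ • w := by
    change g.1.symm w = _
    rw [LinearEquiv.symm_apply_eq, map_smul, hw, smul_smul, inv_mul_cancel₀ hc, one_smul]
  have h1 := eiO_conj g⁻¹ hv
  have h2 : f.EichOK w ((g⁻¹).1 v) a := by
    have := (hv.map (g⁻¹).2).smul_left c
    rwa [hw', smul_smul, mul_inv_cancel₀ hc, one_smul] at this
  have h3 : eiO f (c⁻¹ • w) ((g⁻¹).1 v) a =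
      eiO f w ((HT hF).σ c⁻¹ • (g⁻¹).1 v) ((HT hF).σ c⁻¹ * c⁻¹ * a) :=
    Subtype.ext (h2.ei_smul_left c⁻¹)
  have h4 : f.EichOK w ((HT hF).σ c⁻¹ • (g⁻¹).1 v) ((HT hF).σ c⁻¹ * c⁻¹ * a) := by
    have := h2.smul_right ((HT hF).σ c⁻¹)
    rwa [(HT hF).σσ, mul_comm c⁻¹] at this
  rw [hw', h3, inv_inv] at h1
  have h5 : eiO f w v a * g = g * eiO f w ((HT hF).σ c⁻¹ • (g⁻¹).1 v) ((HT hF).σ c⁻¹ * c⁻¹ * a) := by
    rw [← h1]; group
  rw [← Module.End.mul_apply, ← map_mul, h5, map_mul, Module.End.mul_apply, hy _ _ h4, map_smul]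
  congr 2
  have h6 : g.1 ((g⁻¹).1 v) = v := g.1.apply_symm_apply v
  rw [f.B_smul_right, ← f.O_B g, ht, h6, f.B_smul_left, ← mul_assoc, ← map_mul,
    inv_mul_cancel₀ hc, map_one, one_mul]

omit [FiniteDimensional ℂ M] in
theorem Wt.trans (hf : f.Nondeg) {ρ : Representation ℂ f.O M} {ψ : AddChar F ℂ} {w w' t s : V}
    (hw : f.q w = 0) (hww : f.B w' w = 1) (h : Wt ρ ψ w t) (ht : f.B w t = 0) (ht' : f.B w' t = 0)
    (hs : f.B w s = 0) (hs' : f.B w' s = 0) (t0 : t ≠ 0) (s0 : s ≠ 0)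
    (hq : f.q t = 0 ↔ f.q s = 0) : Wt ρ ψ w s := by
  obtain ⟨c, hc, hcs⟩ : ∃ c : F, c ≠ 0 ∧ f.q (c • s) = f.q t := by
    by_cases h0 : f.q t = 0
    · exact ⟨1, one_ne_zero, by rw [one_smul, h0, hq.1 h0]⟩
    · obtain ⟨g, c, hc, e⟩ := exists_smul_eq hf (u := t) (v := s) (by rwa [← f.herm_q])
        (by rw [← f.herm_q]; exact fun e => h0 (hq.2 e))
      exact ⟨c, hc, by rw [← e, f.O_q]⟩
  have li : ∀ (d : F) (x : V), d ≠ 0 → x ≠ 0 → f.B w' x = 0 → LinearIndependent F ![d • w, d • x] := by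
    intro d x d0 x0 hx
    rw [LinearIndependent.pair_iff]
    intro a b hab
    have h1 := congrArg (f.B w') hab
    simp only [map_add, map_smul, hww, hx, smul_eq_mul, mul_one, mul_zero, add_zero, map_zero,
      mul_eq_zero, d0, or_false] at h1
    rw [h1, zero_smul, zero_add, smul_smul, smul_eq_zero, mul_eq_zero] at hab
    exact ⟨h1, by tauto⟩
  have l1 := li 1 t one_ne_zero t0 ht'
  rw [one_smul, one_smul] at l1
  obtain ⟨g, hg, g1, g2⟩ := hf.witt_pair l1 (li c s hc s0 hs') (by rw [f.q_smul_eq_zero hw, hw]) hcs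
    (by rw [f.B_smul_left, f.B_smul_right, hs, ht, mul_zero, mul_zero])
  exact h.map ⟨g, hg⟩ hc g1 g2

theorem arith0 {q m D : ℕ} (h2 : 2 ≤ q) (hm : 2 ≤ m) (hd : (q + 1) * D + q ≤ q ^ (m + 3))
    (h : (q ^ (m + 1) + 1) * (q ^ m - 1) ≤ D) : False := by
  have h1 : q ^ 2 ≤ q ^ m := Nat.pow_le_pow_right (by omega) hm
  obtain ⟨A, hA⟩ : ∃ A, q ^ m = A + 1 := ⟨q ^ m - 1, by have := Nat.one_le_pow m q (by omega); omega⟩
  rw [pow_add, hA] at hd
  rw [pow_succ, hA, Nat.add_sub_cancel] at h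
  rw [hA] at h1
  have h3 : q ^ 2 ≤ (q + 1) * A := by nlinarith
  have h4 := Nat.mul_le_mul_left (q + 1) h
  have h5 := Nat.mul_le_mul_left ((A + 1) * q + 1) h3
  nlinarith

theorem arith1 {q m D C : ℕ} (h2 : 2 ≤ q) (hd : (q + 1) * D + q ≤ q ^ (m + 3))
    (h : (q ^ (m + 1) + 1) * (q ^ m - 1) + 1 + C = (q ^ 2) ^ (m + 1)) (hC : C ≤ D) : False := by
  obtain ⟨A, hA⟩ : ∃ A, q ^ m = A + 1 := ⟨q ^ m - 1, by have := Nat.one_le_pow m q (by omega); omega⟩
  rw [← pow_mul, mul_comm 2, pow_mul, pow_succ q m, hA, Nat.add_sub_cancel] at h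
  rw [pow_add, hA] at hd
  obtain ⟨r, rfl⟩ : ∃ r, q = r + 2 := ⟨q - 2, by omega⟩
  have hC' : C = (A + 1) * (r + 1) * ((A + 1) * (r + 2) + 1) := by nlinarith
  have h4 := Nat.mul_le_mul_left (r + 2 + 1) hC
  rw [hC'] at h4
  have h5 : (A + 1) * (r + 2) ^ 3 < (r + 2 + 1) * ((A + 1) * (r + 1) * ((A + 1) * (r + 2) + 1)) + (r + 2) := by
    have : (r + 2 + 1) * ((A + 1) * (r + 1) * ((A + 1) * (r + 2) + 1)) + (r + 2) =
        (A + 1) * (r + 2) ^ 3 + ((A + 1) * (r ^ 2 + 3 * r + 1 + A * (r + 1) * (r + 2) * (r + 3)) + (r + 2)) := by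
      ring
    omega
  omega

end DegA

theorem fix_Q_of_dim (hf : f.Nondeg) (h3 : 3 ≤ finrank F V) (hodd : Odd (finrank F V))
    (ρ : Representation ℂ f.O M) (hd : (q + 1) * finrank ℂ M + q ≤ q ^ finrank F V) {w : V}
    (hw0 : w ≠ 0) {x : M} (hx : ∀ a, ρ (tv f w a) x = x) {v : V} {a : F} (h : f.EichOK w v a) :
    ρ (eiO f w v a) x = x := by
  by_contra hne
  have hw := h.hu
  let N : Submodule ℂ M :=
    { carrier := {y | ∀ a, ρ (tv f w a) y = y}
      zero_mem' := fun a => map_zero _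
      add_mem' := fun hy hz a => by rw [map_add, hy a, hz a]
      smul_mem' := fun c y hy a => by rw [map_smul, hy a] }
  have hN : ∀ g : St f w, ∀ y ∈ N, (MonoidHom.comp ρ (St f w).subtype) g y ∈ N := fun g y hy a => by
    change ρ (tv f w a) (ρ g.1 y) = ρ g.1 y
    rw [← Module.End.mul_apply, ← map_mul, ← tv_comm g.2, map_mul, Module.End.mul_apply, hy a]
  let R := CL.LS.subRep (MonoidHom.comp ρ (St f w).subtype) N hN
  let X : {p : V × F // f.EichOK w p.1 p.2} → Module.End ℂ N := fun i => R ⟨_, eiO_mem_St i.2⟩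
  have hX : ∀ i j, Commute (X i) (X j) := fun i j => LinearMap.ext fun y => Subtype.ext (by
    change ρ (eiO f w i.1.1 i.1.2) (ρ (eiO f w j.1.1 j.1.2) y) = ρ (eiO f w j.1.1 j.1.2) (ρ (eiO f w i.1.1 i.1.2) y)
    rw [← Module.End.mul_apply, ← Module.End.mul_apply, ← map_mul, ← map_mul, FixQ.mul i.2 j.2, FixQ.mul j.2 i.2,
      add_comm j.1.1]
    exact FixQ.f1 ρ y.2 (i.2.add j.2) (by rw [add_comm i.1.1]; exact j.2.add i.2))
  obtain ⟨μ, hμ, h1⟩ := CL.LS.exists_wsp_ne_one hX (i₀ := ⟨(v, a), h⟩)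
    (fun e => hne (congrArg Subtype.val (LinearMap.congr_fun e ⟨x, hx⟩))) (p := Nat.card (St f w))
    (Nat.cast_ne_zero.2 Nat.card_pos.ne') (by rw [← map_pow, pow_card_eq_one', map_one])
  obtain ⟨y, hy, y0⟩ := Submodule.exists_mem_ne_zero_of_ne_bot hμ
  have hμ' : ∀ i, ρ (eiO f w i.1.1 i.1.2) y = μ i • (y : M) := fun i =>
    congrArg Subtype.val (CL.LS.mem_wsp.1 hy i)
  have y0' : (y : M) ≠ 0 := fun e => y0 (Subtype.ext e)
  have inj := smul_left_injective ℂ y0'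
  obtain ⟨ψ, hψ⟩ := CL.LS.exists_addChar_ne_one (F := F) (K := ℂ)
    (by rw [ringChar.eq_zero]; exact (CharP.ringChar_ne_zero_of_finite F).symm)
  obtain ⟨w', hw', hww⟩ := hf.exists_partner' hw hw0
  have hww' : f.B w' w = 1 := by rw [f.symm, hww, HT_ε, map_one, one_mul]
  -- the weight of `y`
  have ok : ∀ u : f.perp (F ∙ w), ∃ b, f.EichOK w u b := fun u =>
    Form.exists_eichOK hw (f.mem_perp_span_singleton.1 u.2)
  choose b hb using ok
  obtain ⟨l, hl⟩ := CL.LS.exists_dual hψ (W := f.perp (F ∙ w)) (fun u => μ ⟨(u, b u), hb u⟩)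
    (inj (by
      change μ _ • (y : M) = (1 : ℂ) • (y : M)
      rw [← hμ', one_smul]
      exact FixQ.f0 ρ y.2 ((hb 0).ha.trans f.q_zero)))
    (fun u u' => inj (by
      change μ _ • (y : M) = (μ _ * μ _) • (y : M)
      rw [← hμ']
      dsimp only
      rw [FixQ.f1 ρ y.2 (hb (u + u')) ((hb u).add (hb u')), Submodule.coe_add, ← FixQ.mul (hb u) (hb u'),
        map_mul, Module.End.mul_apply, hμ' ⟨(u', b u'), hb u'⟩, map_smul, hμ' ⟨(u, b u), hb u⟩, smul_smul,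
        mul_comm]))
  obtain ⟨l', hl'⟩ := LinearMap.exists_extend l
  obtain ⟨t, ht⟩ := hf.exists_rep l'
  have wt : ∀ u c, f.EichOK w u c → ρ (eiO f w u c) y = ψ (f.B t u) • (y : M) := fun u c hu => by
    have m : u ∈ f.perp (F ∙ w) := f.mem_perp_span_singleton.2 hu.huv
    rw [FixQ.f1 ρ y.2 hu (hb ⟨u, m⟩), hμ' ⟨(u, b ⟨u, m⟩), hb ⟨u, m⟩⟩, ht]
    congr 1
    rw [hl ⟨u, m⟩, ← hl']
    rfl
  have tw : f.B t w = 0 := by
    refine CL.LS.eq_of_addChar hψ fun c => ?_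
    obtain ⟨d, hd⟩ := Form.exists_eichOK (f := f) (v := c • w) hw (by rw [map_smul, h.huu, smul_zero])
    have ha : (HT hF).π d = 0 := hd.ha.trans (f.q_smul_eq_zero hw c)
    have h0 : f.EichOK w 0 d := ⟨hw, map_zero _, by rw [ha, f.q_zero]⟩
    have e : eiO f w (c • w) d = eiO f w 0 (d + ((HT hF).σ c - (HT hF).ε * c)) :=
      Subtype.ext (by rw [eiO_val, eiO_val, ← h0.ei_add_smul_u c, zero_add])
    have e1 := wt _ _ hd
    have e2 := (HT hF).π_sub_symm ((HT hF).σ c)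
    rw [(HT hF).σσ] at e2
    rw [e, FixQ.f0 ρ y.2 (by rw [map_add, ha, e2, add_zero]), f.B_smul_right] at e1
    rw [mul_zero, AddChar.map_zero_eq_one]
    exact inj (e1.symm.trans (one_smul ℂ _).symm)
  let W := f.perp (Submodule.span F {w, w'})
  have t1 : t - f.B w' t • w ∈ W := f.mem_perp_span_pair.2
    ⟨by rw [map_sub, map_smul, h.huu, f.B_eq_zero_symm tw, smul_zero, sub_zero],
      by rw [map_sub, map_smul, hww', smul_eq_mul, mul_one, sub_self]⟩
  have tB : ∀ u, f.B w u = 0 → f.B (t - f.B w' t • w) u = f.B t u := fun u hu => by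
    rw [f.B_sub_left, f.B_smul_left, hu, mul_zero, sub_zero]
  let Ω : Set W := {s | DegA.Wt ρ ψ w s}
  have t2 : (⟨_, t1⟩ : W) ∈ Ω := ⟨y, y0', fun u c hu => by rw [wt u c hu, ← tB u hu.huv]⟩
  have t3 : (⟨_, t1⟩ : W) ≠ 0 := fun e => by
    have e1 : t - f.B w' t • w = 0 := congrArg Subtype.val e
    have e2 := wt v a h
    rw [← tB v h.huv, e1, f.B_zero_left, AddChar.map_zero_eq_one, hμ' ⟨(v, a), h⟩] at e2
    exact h1 (inj e2)
  have hΩ : Ω.ncard ≤ finrank ℂ M := by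
    let wt' : W → ({p : V × F // f.EichOK w p.1 p.2} → ℂ) := fun s i => ψ (f.B s i.1.1)
    have winj : Function.Injective wt' := fun s s' e => by
      have e1 : ∀ u, f.B w u = 0 → f.B s u = f.B s' u := fun u hu =>
        CL.LS.eq_of_addChar hψ fun c => by
          obtain ⟨d, hd⟩ := Form.exists_eichOK (f := f) (v := c • u) hw (by rw [map_smul, hu, smul_zero])
          have := congrFun e ⟨(c • u, d), hd⟩
          simpa [wt'] using this
      refine Subtype.ext (hf.ext_left fun u => ?_)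
      have e2 := e1 (u - f.B w u • w') (by rw [map_sub, map_smul, hww, smul_eq_mul, mul_one, sub_self])
      rwa [map_sub, map_sub, map_smul, map_smul, f.B_eq_zero_symm (f.mem_perp_span_pair.1 s.2).2,
        f.B_eq_zero_symm (f.mem_perp_span_pair.1 s'.2).2, smul_zero, sub_zero, sub_zero] at e2
    have h4 := CL.LS.card_le_finrank hX (wt' '' Ω) (by
      rintro _ ⟨s, ⟨z, z0, hz⟩, rfl⟩
      have zN : z ∈ N := fun c => by
        have := hz 0 _ (tv_ok hw c)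
        rwa [map_zero, AddChar.map_zero_eq_one, one_smul] at this
      refine (Submodule.ne_bot_iff _).2 ⟨⟨z, zN⟩, CL.LS.mem_wsp.2 fun i => Subtype.ext (hz _ _ i.2), ?_⟩
      exact fun e => z0 (congrArg Subtype.val e))
    rw [Nat.card_coe_set_eq, Set.ncard_image_of_injective _ winj] at h4
    exact h4.trans (Submodule.finrank_le N)
  have tr : ∀ s : W, s ≠ 0 → (f.q (t - f.B w' t • w) = 0 ↔ f.q s = 0) → s ∈ Ω := fun s s0 hq =>
    DegA.Wt.trans hf hw hww' t2 (f.mem_perp_span_pair.1 t1).1 (f.mem_perp_span_pair.1 t1).2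
      (f.mem_perp_span_pair.1 s.2).1 (f.mem_perp_span_pair.1 s.2).2
      (fun e => t3 (Subtype.ext e)) (fun e => s0 (Subtype.ext e)) hq
  obtain ⟨m, hm⟩ : ∃ m, finrank F V = m + 3 := ⟨finrank F V - 3, by omega⟩
  have hW : finrank F W = m + 1 := by
    rw [hf.finrank_perp, f.finrank_span_pair hw hw' hww, hm]
    rfl
  have hme : Even m := by
    rw [hm] at hodd
    grind
  have hZ := card_q_eq (hf.restrict_perp (f.restrict_nondeg_pair hw hw' hww)) hW 0
  rw [FormCount.card_hermForm_eq_zero hF, if_neg (by grind), Nat.add_sub_cancel] at hZ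
  replace hZ : {s : W | f.q s = 0}.ncard = (q ^ (m + 1) + 1) * (q ^ m - 1) + 1 := hZ
  have : Finite V := Module.finite_of_finite F
  have h2 := two_le_q (hF := hF)
  rw [hm] at hd
  by_cases hq : f.q (t - f.B w' t • w) = 0
  · have h5 : {s : W | f.q s = 0} ⊆ insert 0 Ω := fun s hs => by
      by_cases s0 : s = 0
      · exact Or.inl s0
      · exact Or.inr (tr s s0 ⟨fun _ => hs, fun _ => hq⟩)
    have h6 := (Set.ncard_le_ncard h5).trans (Set.ncard_insert_le _ _)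
    have h7 : 1 < {s : W | f.q s = 0}.ncard :=
      (Set.one_lt_ncard_iff).2 ⟨⟨_, t1⟩, 0, hq, f.q_zero, t3⟩
    have h8 : 2 ≤ m := by
      obtain ⟨k, rfl⟩ := hme
      rcases k with _ | k
      · simp [hZ] at h7
      · omega
    exact DegA.arith0 h2 h8 hd (by omega)
  · have h5 : {s : W | f.q s = 0}ᶜ ⊆ Ω := fun s hs =>
      tr s (fun e => hs (by rw [e]; exact f.q_zero)) ⟨fun e => (hq e).elim, fun e => (hs e).elim⟩
    have h6 := Set.ncard_add_ncard_compl {s : W | f.q s = 0}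
    rw [hZ, Module.natCard_eq_pow_finrank (K := F), Nat.card_eq_fintype_card, hF, hW] at h6
    exact DegA.arith1 h2 hd h6 ((Set.ncard_le_ncard h5).trans hΩ)

end CL.WU
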