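import Cfsg.Agent.CLAS.WU.Bas
import Cfsg.Agent.CLAS.WU.Part

/-! The torus and the Weyl element of a hyperbolic plane commute with the Levi factor.
`tv (a • w) t = tv w (N a * t)` (`ei_smul_left`); `F_q^×` is transitive on the nontrivial characters of the trace zero
line (it acts freely on them, and there are `q - 1`). -/

set_option autoImplicit false

namespace CL.WU

open Module CL.Witt CL.Uni Cfsg

variable {F : Type*} [Field F] [Fintype F] {q : ℕ} {hF : Fintype.card F = q ^ 2}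
  {V : Type*} [AddCommGroup V] [Module F V] [FiniteDimensional F V] {f : Form (HT hF) V}

namespace DegT

/-- An isometry of the hyperbolic plane extended by the identity; it commutes with the Levi factor. -/
theorem ex (hf : f.Nondeg) {w w' : V} (hw : f.q w = 0) (hw' : f.q w' = 0) (h : f.B w w' = 1) (A B C D : F)
    (h1 : (HT hF).σ A * B + (HT hF).σ B * A = 0) (h2 : (HT hF).σ C * D + (HT hF).σ D * C = 0)
    (h3 : (HT hF).σ A * D + (HT hF).σ B * C = 1) :
    ∃ g : f.O, g.1 w = A • w + B • w' ∧ ∀ l ∈ St f w, l ∈ St f w' → g * l * g⁻¹ = l := by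
  have hs : ∀ x y, f.B y x = (HT hF).σ (f.B x y) := fun x y => by rw [f.symm, HT_ε, one_mul]
  have hww : f.B w w = 0 := f.B_self_eq_zero hw
  have hww' : f.B w' w' = 0 := f.B_self_eq_zero hw'
  have h' : f.B w' w = 1 := by rw [hs, h, map_one]
  have h4 : A * (HT hF).σ D + B * (HT hF).σ C = 1 := by
    have := congrArg (HT hF).σ h3
    rwa [map_add, map_mul, map_mul, (HT hF).σσ, (HT hF).σσ, map_one] at this
  let g : V →ₗ[F] V := LinearMap.id + (f.B w').smulRight ((A - 1) • w + B • w') +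
    (f.B w).smulRight (C • w + (D - 1) • w')
  have hg : ∀ x, g x = x + f.B w' x • ((A - 1) • w + B • w') + f.B w x • (C • w + (D - 1) • w') :=
    fun x => rfl
  have hB : ∀ x y, f.B (g x) (g y) = f.B x y := fun x y => by
    rw [hg, hg]
    simp only [map_add, map_smulₛₗ, LinearMap.add_apply, LinearMap.smul_apply, smul_eq_mul,
      RingHom.id_apply, hww, hww', h, h', hs w x, hs w' x, map_sub (HT hF).σ, map_one]
    linear_combination ((HT hF).σ (f.B w' x) * f.B w' y) * h1 + ((HT hF).σ (f.B w x) * f.B w y) * h2 +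
      ((HT hF).σ (f.B w' x) * f.B w y) * h3 + ((HT hF).σ (f.B w x) * f.B w' y) * h4
  have hI : f.IsIsom f g := ⟨hB, fun x => by rw [f.herm_q, f.herm_q, hB]⟩
  let e : V ≃ₗ[F] V := LinearEquiv.ofInjectiveEndo g (hI.injective hf)
  refine ⟨⟨e, hI⟩, ?_, fun l hl hl' => ?_⟩
  · change g w = _
    rw [hg, h', hww]
    module
  · rw [mul_inv_eq_iff_eq_mul]
    refine Subtype.ext (LinearEquiv.ext fun x => ?_)
    change g (l.1 x) = l.1 (g x)
    have e1 : f.B w (l.1 x) = f.B w x := by rw [← f.O_B l w x, mem_St.1 hl]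
    have e2 : f.B w' (l.1 x) = f.B w' x := by rw [← f.O_B l w' x, mem_St.1 hl']
    rw [hg, hg, e1, e2]
    simp only [map_add, map_smul, mem_St.1 hl, mem_St.1 hl']

theorem part_conj {χ : f.O → ℂ} (hχ : IsClassFunction f.O χ) (w : V) (c : XA hF →* ℂˣ) {g l : f.O}
    (hg : g * l * g⁻¹ = l) : part χ (tv f w) c l = part χ (tv f (g.1 w)) c l := by
  simp only [part]
  congr 1
  refine Finset.sum_congr rfl fun z _ => ?_
  rw [← tv_conj, ← hχ (l * tv f w z) g]
  congr 2
  conv_rhs => rw [← hg]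
  group

/-- Multiplication by a fixed point of the conjugation. -/
def mu {m : F} (hm : (HT hF).σ m = m) : XA hF →* XA hF where
  toFun z := Multiplicative.ofAdd ⟨m * (z.toAdd : (HT hF).π.ker), by
    have h : (z.toAdd.1 : F) + (HT hF).σ z.toAdd.1 = 0 := z.toAdd.2
    change m * z.toAdd.1 + (HT hF).σ (m * z.toAdd.1) = 0
    rw [map_mul, hm, ← mul_add, h, mul_zero]⟩
  map_one' := by
    refine congrArg Multiplicative.ofAdd (Subtype.ext ?_)
    simp
  map_mul' a b := by
    rw [← ofAdd_add]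
    refine congrArg Multiplicative.ofAdd (Subtype.ext ?_)
    simp [mul_add]

theorem mu_val {m : F} (hm : (HT hF).σ m = m) (z : XA hF) :
    ((mu hm z).toAdd.1 : F) = m * z.toAdd.1 := rfl

theorem xext {a b : XA hF} (h : (a.toAdd.1 : F) = b.toAdd.1) : a = b :=
  Multiplicative.toAdd.injective (Subtype.ext h)

theorem mu_bij {m : F} (hm : (HT hF).σ m = m) (h0 : m ≠ 0) : Function.Bijective (mu hm) :=
  Finite.injective_iff_bijective.1 fun a b e => xext (mul_left_cancel₀ h0 (by rw [← mu_val hm, e, mu_val]))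

theorem trans {c c' : XA hF →* ℂˣ} (hc : c ≠ 1) (hc' : c' ≠ 1) :
    ∃ (m : F) (hm : (HT hF).σ m = m), m ≠ 0 ∧ c = c'.comp (mu hm) := by
  obtain ⟨e, he⟩ : ∃ e : XA hF, (e.toAdd.1 : F) ≠ 0 := by
    by_contra! n
    exact hc' (MonoidHom.ext fun z => by
      rw [show z = 1 from xext (n z), map_one, map_one])
  have hσ : ∀ y : XA hF, (HT hF).σ y.toAdd.1 = -y.toAdd.1 := fun y =>
    eq_neg_of_add_eq_zero_right (show (y.toAdd.1 : F) + (HT hF).σ y.toAdd.1 = 0 from y.toAdd.2)
  have hm : ∀ y : XA hF, (HT hF).σ (y.toAdd.1 / e.toAdd.1) = y.toAdd.1 / e.toAdd.1 := fun y => by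
    rw [map_div₀, hσ, hσ, neg_div_neg_eq]
  have inj : Function.Injective fun y : XA hF => c'.comp (mu (hm y)) := fun a b hab => by
    by_contra n
    have h0 : ((a / b).toAdd.1 : F) / e.toAdd.1 ≠ 0 :=
      div_ne_zero (fun k => n (div_eq_one.1 (xext k))) he
    refine hc' (MonoidHom.ext fun z => ?_)
    obtain ⟨z, rfl⟩ := (mu_bij (hm (a / b)) h0).2 z
    have e1 : mu (hm (a / b)) z = mu (hm a) z / mu (hm b) z := xext (by
      simp only [mu_val, toAdd_div, AddSubgroup.coe_sub]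
      ring)
    have e2 : c' (mu (hm a) z) = c' (mu (hm b) z) := DFunLike.congr_fun hab z
    rw [e1, map_div, e2, div_self', MonoidHom.one_apply]
  obtain ⟨y, hy⟩ := ((Fintype.bijective_iff_injective_and_card _).2 ⟨inj, by
    rw [card_XA_hom, ← Nat.card_eq_fintype_card, card_XA]⟩).2 c
  refine ⟨_, hm y, fun k => hc (MonoidHom.ext fun z => ?_), hy.symm⟩
  rw [← hy]
  change c' (mu (hm y) z) = 1
  rw [show mu (hm y) z = 1 from xext (by rw [mu_val, k, zero_mul]; rfl), map_one]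

end DegT

theorem part_tv_indep (hf : f.Nondeg) {χ : f.O → ℂ} (hχ : IsClassFunction f.O χ) {w w' : V}
    (hw : f.q w = 0) (hw' : f.q w' = 0) (h : f.B w w' = 1) {c c' : XA hF →* ℂˣ} (hc : c ≠ 1)
    (hc' : c' ≠ 1) {l : f.O} (hl : l ∈ St f w) (hl' : l ∈ St f w') :
    part χ (tv f w) c l = part χ (tv f w) c' l := by
  obtain ⟨m, hm, h0, rfl⟩ := DegT.trans hc hc'
  obtain ⟨a, ha⟩ := CL.Tv.exists_norm_eq_of_involution (sig_ne_id hF) (sig_sig hF) (b := m) hm
  have ha' : (HT hF).σ a * a = m := ha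
  have a0 : (HT hF).σ a ≠ 0 := fun k => h0 (by rw [← ha', k, zero_mul])
  obtain ⟨g, hg, hc⟩ := DegT.ex hf hw hw' h a 0 0 ((HT hF).σ a)⁻¹ (by simp) (by simp)
    (by rw [mul_inv_cancel₀ a0, mul_zero, add_zero])
  rw [DegT.part_conj hχ w _ (hc l hl hl'), hg, zero_smul, add_zero]
  simp only [part]
  congr 1
  refine Fintype.sum_bijective _ (DegT.mu_bij hm h0) _ _ fun z => ?_
  congr 3
  refine Subtype.ext ?_
  rw [tv_val, tv_val, (tv_ok hw z).ei_smul_left, smul_zero, ha', DegT.mu_val]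

theorem part_tv_swap (hf : f.Nondeg) {χ : f.O → ℂ} (hχ : IsClassFunction f.O χ) {w w' : V}
    (hw : f.q w = 0) (hw' : f.q w' = 0) (h : f.B w w' = 1) (c : XA hF →* ℂˣ)
    {l : f.O} (hl : l ∈ St f w) (hl' : l ∈ St f w') :
    part χ (tv f w) c l = part χ (tv f w') c l := by
  obtain ⟨g, hg, hc⟩ := DegT.ex hf hw hw' h 0 1 1 0 (by simp) (by simp) (by simp)
  rw [DegT.part_conj hχ w _ (hc l hl hl'), hg, zero_smul, zero_add, one_smul]

end CL.WU
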