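import Cfsg.Agent.CLAS.WU.Th
import Cfsg.Agent.CHAR.Values

/-! Gallagher factorisation, see the proof in the header of `CLAS/WU/Th`. -/

set_option autoImplicit false

namespace CL.WU

open Module CL.Witt CL.Uni Cfsg

namespace Gal

open CL.Char
open scoped ComplexConjugate

theorem abs {P A : Type*} [Group P] [Finite P] [Group A] [Finite A] (Q : Subgroup P) [Q.Normal]
    (ι : A →* P) (c : A →* ℂˣ)
    (hcomm : ∀ x ∈ Q, x ∉ ι.range → ∃ y z, y * x * y⁻¹ = x * ι z ∧ c z ≠ 1)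
    {θ ψ : P → ℂ} (hθ : IsCharacter P θ) (hψ : IsCharacter P ψ)
    (hθc : ∀ g z, θ (g * ι z) = c z * θ g) (hψc : ∀ g z, ψ (g * ι z) = c z * ψ g)
    {d : ℕ} (hd : θ 1 = d) (hcard : (ι.range.subgroupOf Q).index = d ^ 2) :
    ∃ y : P → ℂ, IsCharacter P y ∧ (∀ g, ∀ n ∈ Q, y (g * n) = y g) ∧ ∀ g, ψ g = y g * θ g := by
  classical
  have := Fintype.ofFinite P
  have van : ∀ φ : P → ℂ, IsCharacter P φ → (∀ g z, φ (g * ι z) = c z * φ g) →
      ∀ x ∈ Q, x ∉ ι.range → φ x = 0 := by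
    intro φ hφ hφc x hx hx'
    obtain ⟨y, z, hyz, hz⟩ := hcomm x hx hx'
    have h1 := hφ.isClassFunction x y
    rw [hyz, hφc] at h1
    have h2 : ((c z : ℂ) - 1) * φ x = 0 := by linear_combination h1
    refine (mul_eq_zero.1 h2).resolve_left fun h => hz ?_
    exact Units.ext (sub_eq_zero.1 h)
  have hd0 : (d : ℂ) ≠ 0 := by
    have : (ι.range.subgroupOf Q).index ≠ 0 := Subgroup.index_ne_zero_of_finite
    rw [hcard] at this
    exact_mod_cast (pow_ne_zero_iff two_ne_zero).1 this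
  have hnorm : ∀ z, (c z : ℂ) * conj (c z : ℂ) = 1 := by
    intro z
    have h1 : (c z : ℂ) ^ Nat.card A = 1 := by
      rw [← Units.val_pow_eq_pow_val, ← map_pow, pow_card_eq_one', map_one, Units.val_one]
    have h2 := Complex.norm_eq_one_of_pow_eq_one h1 Nat.card_pos.ne'
    rw [Complex.mul_conj, Complex.normSq_eq_norm_sq, h2]; simp
  have hirr : IsIrrCharacter Q (fun n : Q => θ n) := by
    refine (hθ.res Q).isIrr_of_inner_self ?_
    have h1 : ∀ x : Q, θ x * conj (θ x) = if x ∈ ι.range.subgroupOf Q then (d : ℂ) ^ 2 else 0 := by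
      intro x
      split_ifs with h
      · obtain ⟨z, hz⟩ := Subgroup.mem_subgroupOf.1 h
        have h2 := hθc 1 z
        rw [one_mul, hz, hd] at h2
        rw [h2, map_mul, map_natCast]
        linear_combination (d : ℂ) ^ 2 * hnorm z
      · rw [van θ hθ hθc x x.2 fun h' => h (Subgroup.mem_subgroupOf.2 h'), zero_mul]
    have h3 := (ι.range.subgroupOf Q).card_mul_index
    rw [hcard] at h3
    have h4 : (Nat.card Q : ℂ) ≠ 0 := by exact_mod_cast Nat.card_pos.ne'
    unfold classInner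
    rw [Finset.sum_congr rfl fun x _ => h1 x, ← Finset.sum_filter, Finset.sum_const, nsmul_eq_mul,
      ← Fintype.card_subtype, ← Nat.card_eq_fintype_card, inv_mul_eq_one₀ h4, ← h3]
    push_cast
    rfl
  have hres : (fun n : Q => ψ (Q.subtype n)) = (ψ 1 / d) • fun n : Q => θ n := by
    funext x
    simp only [Pi.smul_apply, smul_eq_mul, Subgroup.coe_subtype]
    by_cases h : (x : P) ∈ ι.range
    · obtain ⟨z, hz⟩ := h
      have h2 := hθc 1 z
      have h3 := hψc 1 z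
      rw [one_mul, hz] at h2 h3
      rw [h2, h3, hd]
      field_simp
    · rw [van θ hθ hθc x x.2 h, van ψ hψ hψc x x.2 h, mul_zero]
  obtain ⟨n, hn, hsum⟩ := hψ.exists_nat_coeffs
  have key : ∀ χ : IrrCharacter P, ∃ β : P → ℂ, IsCharacter P β ∧ (∀ m ∈ Q, β m = β 1) ∧
      (n χ : ℂ) • (χ : P → ℂ) = (n χ : ℂ) • (β * θ) := by
    intro χ
    by_cases h0 : n χ = 0
    · exact ⟨fun _ => 1, isCharacter_one, fun _ _ => rfl, by simp [h0]⟩
    · obtain ⟨φ, hφ, hφ'⟩ := χ.2.exists_under_res Q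
      have h1 : classInner ψ χ ≠ 0 := by rw [hn]; exact_mod_cast h0
      have h2 := inner_comp_ne_zero_of_constituent Q.subtype hψ χ.2 h1 hφ.isCharacter hφ'
      rw [hres] at h2
      have h3 := eq_of_inner_smul_ne_zero hirr hφ h2
      rw [← h3] at hφ'
      obtain ⟨β, hβ, hβ1, hβ2⟩ := gallagher_surj hθ hirr χ.2 hφ'
      exact ⟨β, hβ.isCharacter, hβ1, by rw [hβ2]⟩
  choose β hβ hβ1 hβ2 using key
  refine ⟨∑ χ : IrrCharacter P, (n χ : ℂ) • β χ,
    isCharacter_sum _ _ fun χ _ => (hβ χ).natCast_smul _, fun g m hm => ?_, fun g => ?_⟩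
  · simp only [Finset.sum_apply, Pi.smul_apply]
    refine Finset.sum_congr rfl fun χ _ => ?_
    rw [(hβ χ).isClassFunction.mul_comm, (hβ χ).apply_mul_of_apply_eq (hβ1 χ m hm)]
  · rw [hsum, Finset.sum_congr rfl fun χ _ => hβ2 χ]
    simp only [Finset.sum_apply, Pi.smul_apply, Pi.mul_apply, smul_eq_mul, Finset.sum_mul,
      mul_assoc]

end Gal

variable {F : Type*} [Field F] [Fintype F] {q : ℕ} {hF : Fintype.card F = q ^ 2}
  {V : Type*} [AddCommGroup V] [Module F V] [FiniteDimensional F V] {f : Form (HT hF) V}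

namespace Gal

theorem exists_s {z : F} (hz : (HT hF).π z = 0) : ∃ s : F, (HT hF).σ s - s = z := by
  obtain ⟨t, ht⟩ : ∃ t, (HT hF).σ t ≠ t := by
    by_contra h
    push Not at h
    exact sig_ne_id hF (RingHom.ext h)
  have hz' : z + (HT hF).σ z = 0 := hz
  have he : (HT hF).σ t - t ≠ 0 := sub_ne_zero.2 ht
  have he' : t - (HT hF).σ t ≠ 0 := sub_ne_zero.2 ht.symm
  refine ⟨z / ((HT hF).σ t - t) * t, ?_⟩
  rw [map_mul, map_div₀, map_sub, (HT hF).σσ, eq_neg_of_add_eq_zero_right hz']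
  field_simp
  ring

/-- The Eichler subgroup of the stabiliser. -/
def Q (f : Form (HT hF) V) (w : V) : Subgroup (St f w) :=
  (f.U w).comap (f.O.subtype.comp (St f w).subtype)

omit [FiniteDimensional F V] in
theorem mem_Q {w : V} (hw : f.q w = 0) {g : St f w} :
    g ∈ Q f w ↔ ∃ v a, f.EichOK w v a ∧ g.1.1 = f.ei w v a := Form.mem_U hw

omit [FiniteDimensional F V] in
theorem Q_normal (w : V) : (Q f w).Normal := ⟨fun x hx g => by
  have h := Form.conj_mem_U g.1.2 hx
  rw [mem_St.1 g.2] at h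
  exact h⟩

/-- The transvections inside the stabiliser. -/
noncomputable def io {w : V} (hw : f.q w = 0) : XA hF →* St f w :=
  (tv f w).codRestrict _ fun a => (tv_ok hw a).ei_apply_u

omit [FiniteDimensional F V] in
theorem mem_range {w : V} (hw : f.q w = 0) {g : St f w} {k a : F} (h : f.EichOK w (k • w) a)
    (hg : g.1.1 = f.ei w (k • w) a) : g ∈ (io hw).range := by
  have h0 : f.EichOK w 0 a := by
    have := h.add_smul_u (-k)
    rwa [neg_smul, add_neg_cancel] at this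
  have h1 := h0.ei_add_smul_u k
  rw [zero_add] at h1
  have h2 : (HT hF).π (a + ((HT hF).σ k - (HT hF).ε * k)) = 0 := by
    have h3 := h0.ha
    rw [f.q_zero] at h3
    rw [map_add, h3, zero_add, HT_ε, one_mul]
    change ((HT hF).σ k - k) + (HT hF).σ ((HT hF).σ k - k) = 0
    rw [map_sub, (HT hF).σσ]
    ring
  exact ⟨Multiplicative.ofAdd ⟨_, h2⟩, Subtype.ext (Subtype.ext (hg.trans h1).symm)⟩

theorem comm (hf : f.Nondeg) {w : V} (hw : f.q w = 0) {c : XA hF →* ℂˣ} (hc : c ≠ 1)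
    (x : St f w) (hx : x ∈ Q f w) (hx' : x ∉ (io hw).range) :
    ∃ y z, y * x * y⁻¹ = x * io hw z ∧ c z ≠ 1 := by
  obtain ⟨v, a, h, hxe⟩ := (mem_Q hw).1 hx
  obtain ⟨z, hz⟩ : ∃ z, c z ≠ 1 := by
    by_contra h
    push Not at h
    exact hc (MonoidHom.ext h)
  have hv : v ∉ F ∙ w := by
    intro hv
    obtain ⟨k, rfl⟩ := Submodule.mem_span_singleton.1 hv
    exact hx' (mem_range hw h hxe)
  obtain ⟨s, hs⟩ := exists_s (hF := hF) (z := (z.toAdd : (HT hF).π.ker)) z.toAdd.2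
  obtain ⟨t, ht, ht'⟩ := hf.exists_perp_eq' hv s
  obtain ⟨b, hb⟩ := Form.exists_eichOK hw (ht w (Submodule.mem_span_singleton_self w))
  refine ⟨⟨eiO f w t b, hb.ei_apply_u⟩, z, Subtype.ext (Subtype.ext ?_), hz⟩
  change f.ei w t b * x.1.1 * (f.ei w t b)⁻¹ = x.1.1 * f.ei w 0 (z.toAdd : (HT hF).π.ker)
  rw [hxe, h.conj_ei (Form.ei_mem_O _ _ _), hb.ei_apply_u, hb.ei_apply_of_perp h.huv,
    h.ei_mul (tv_ok hw z), sub_eq_add_neg, ← neg_smul, h.ei_add_smul_u, add_zero, map_zero,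
    add_zero, f.symm v t, ht', ← hs]
  congr 1
  simp only [HT_ε, one_mul, map_neg, (HT hF).σσ]
  ring

omit [FiniteDimensional F V] in
theorem phi_ei {w w' : V} (h : f.B w w' = 1) {v : V} {a : F} (hv : f.EichOK w v a) :
    (f.ei w v a w' - w') - f.B w' (f.ei w v a w' - w') • w = v - f.B w' v • w := by
  have h' : f.B w' w = 1 := by rw [f.symm, h, map_one, HT_ε, one_mul]
  have h1 : f.ei w v a w' - w' = v - ((HT hF).ε * (f.B v w' + a * 1)) • w := by
    rw [hv.ei_apply, h, one_smul]; abel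
  rw [h1]
  generalize (HT hF).ε * (f.B v w' + a * 1) = k
  rw [map_sub, map_smul, h', smul_eq_mul, mul_one, sub_smul]
  abel

/-- The projection of `Q` to `⟨w, w'⟩^⊥`. -/
noncomputable def phi {w w' : V} (hw : f.q w = 0) (h : f.B w w' = 1) :
    Q f w →* Multiplicative V :=
  MonoidHom.mk' (fun g => Multiplicative.ofAdd
    ((g.1.1.1 w' - w') - f.B w' (g.1.1.1 w' - w') • w)) fun x y => by
      obtain ⟨v, a, hv, hx⟩ := (mem_Q hw).1 x.2
      obtain ⟨v', a', hv', hy⟩ := (mem_Q hw).1 y.2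
      have hxy : (x * y).1.1.1 = f.ei w (v + v') (a + a' + f.B v v') := by
        rw [← hv.ei_mul hv', ← hx, ← hy]; rfl
      rw [← ofAdd_add, hxy, hx, hy, phi_ei h hv, phi_ei h hv', phi_ei h (hv.add hv'), map_add,
        add_smul]
      congr 1
      abel

omit [FiniteDimensional F V] in
theorem phi_apply {w w' : V} (hw : f.q w = 0) (h : f.B w w' = 1) {x : Q f w} {v : V} {a : F}
    (hv : f.EichOK w v a) (hx : x.1.1.1 = f.ei w v a) :
    phi hw h x = Multiplicative.ofAdd (v - f.B w' v • w) := by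
  rw [← phi_ei h hv, ← hx]; rfl

omit [FiniteDimensional F V] in
theorem ker_phi {w w' : V} (hw : f.q w = 0) (h : f.B w w' = 1) :
    (io hw).range.subgroupOf (Q f w) = (phi hw h).ker := by
  ext x
  rw [Subgroup.mem_subgroupOf, MonoidHom.mem_ker]
  constructor
  · rintro ⟨z, hz⟩
    rw [phi_apply hw h (tv_ok hw z) (by rw [← hz]; rfl)]
    simp
  · intro hx
    obtain ⟨v, a, hv, hxe⟩ := (mem_Q hw).1 x.2
    rw [phi_apply hw h hv hxe, ofAdd_eq_one, sub_eq_zero] at hx
    rw [hx] at hv hxe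
    exact mem_range hw hv hxe

omit [FiniteDimensional F V] in
theorem card_range_phi {w w' : V} (hw : f.q w = 0) (h : f.B w w' = 1) :
    Nat.card (phi hw h).range = Nat.card (f.perp (Submodule.span F {w, w'})) := by
  have h' : f.B w' w = 1 := by rw [f.symm, h, map_one, HT_ε, one_mul]
  refine Nat.card_congr (Equiv.subtypeEquiv Multiplicative.toAdd fun x => ?_)
  rw [f.mem_perp_span_pair]
  constructor
  · rintro ⟨x, rfl⟩
    obtain ⟨v, a, hv, hxe⟩ := (mem_Q hw).1 x.2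
    rw [phi_apply hw h hv hxe, toAdd_ofAdd, map_sub, map_sub, map_smul, map_smul, hv.huv, hv.huu,
      h']
    simp
  · rintro ⟨h1, h2⟩
    obtain ⟨a, ha⟩ := Form.exists_eichOK hw h1
    refine ⟨⟨⟨eiO f w _ a, ha.ei_apply_u⟩, (mem_Q hw).2 ⟨_, a, ha, rfl⟩⟩, ?_⟩
    rw [phi_apply hw h ha rfl, h2]
    simp

end Gal

theorem gal (hf : f.Nondeg) {w : V} (hw : f.q w = 0) (hw0 : w ≠ 0) {c : XA hF →* ℂˣ} (hc : c ≠ 1)
    {χ : f.O → ℂ} (hχ : IsCharacter f.O χ) :
    ∃ y : f.O → ℂ, IsCharacter (St f w) (fun g => y g) ∧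
      (∀ g ∈ St f w, ∀ v a, f.EichOK w v a → y (g * eiO f w v a) = y g) ∧
      ∀ g ∈ St f w, part χ (tv f w) c g = y g * th f w c g := by
  classical
  obtain ⟨w', hw', h⟩ := hf.exists_partner' hw hw0
  have hdim := hf.finrank_add_finrank_perp (Submodule.span F {w, w'})
  rw [f.finrank_span_pair hw hw' h] at hdim
  set m := finrank F (f.perp (Submodule.span F {w, w'})) with hm
  have hq0 : (q : ℂ) ≠ 0 := by
    have := two_le_q (hF := hF)
    exact_mod_cast (by omega : q ≠ 0)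
  have hcm : ∀ (g : St f w) (z : XA hF), (St f w).subtype g * tv f w z =
      tv f w z * (St f w).subtype g := fun g z => tv_comm g.2 z
  have hθ : IsCharacter (St f w) (fun g => th f w c g) := by
    have h1 := isCharacter_part (isCharacter_ze hf 1) (tv f w) c (St f w).subtype hcm
    have h2 : (fun g : St f w => part (ze f 1) (tv f w) c ((St f w).subtype g)) =
        fun g : St f w => th f w c g := funext fun g => part_ze_tv hw hc 1 g.2
    rwa [h2] at h1
  have hψ := isCharacter_part hχ (tv f w) c (St f w).subtype hcm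
  have hd : th f w c 1 = ((q ^ m : ℕ) : ℂ) := by
    have h1 := th_levi hw hw' h hc (St f w).one_mem (St f w').one_mem
    have h2 : fd (1 : f.O).1 = finrank F V := by
      have h3 : (((1 : f.O).1 : V →ₗ[F] V) - LinearMap.id) = 0 := by
        ext x; simp
      rw [fd, h3, LinearMap.ker_zero, finrank_top]
    rw [om, h2, ← mul_pow, ← hdim] at h1
    refine mul_left_cancel₀ (pow_ne_zero 2 hq0) ?_
    rw [h1]
    push_cast
    ring
  have hcard : ((Gal.io hw).range.subgroupOf (Gal.Q f w)).index = (q ^ m) ^ 2 := by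
    rw [Gal.ker_phi hw h, Subgroup.index_ker, Gal.card_range_phi hw h,
      Module.natCard_eq_pow_finrank (K := F), Nat.card_eq_fintype_card, hF, ← hm, ← pow_mul,
      ← pow_mul, mul_comm]
  have := Gal.Q_normal (f := f) w
  obtain ⟨y, hy, hy1, hy2⟩ := Gal.abs (Gal.Q f w) (Gal.io hw) c
    (Gal.comm hf hw hc) hθ hψ
    (fun g z => by
      change ((q : ℂ) + 1)⁻¹ * part (om f) (tv f w) c (g.1 * tv f w z) =
        c z * (((q : ℂ) + 1)⁻¹ * part (om f) (tv f w) c g.1)
      rw [part_mul]; ring)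
    (fun g z => part_mul χ (tv f w) c g.1 z) hd hcard
  refine ⟨fun g => if hg : g ∈ St f w then y ⟨g, hg⟩ else 0, ?_, fun g hg v a hv => ?_,
    fun g hg => ?_⟩
  · simpa only [SetLike.coe_mem, dif_pos, Subtype.coe_eta] using hy
  · have h1 : eiO f w v a ∈ St f w := hv.ei_apply_u
    simp only [dif_pos hg, dif_pos ((St f w).mul_mem hg h1)]
    exact hy1 ⟨g, hg⟩ ⟨_, h1⟩ ((Gal.mem_Q hw).2 ⟨_, _, hv, rfl⟩)
  · simp only [dif_pos hg]
    exact hy2 ⟨g, hg⟩

end CL.WU
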