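import Cfsg.Agent.CLAS.WU.DegA
import Cfsg.Agent.CLAS.WU.DegT
import Cfsg.Agent.CLAS.WU.Gal

/-! A character of degree `(q^n - q)/(q+1)` satisfies `Hs` after a linear twist.
`χ` is not linear (degree).  A vector fixed by `tv w` and `tv w'` is zero (`fix_Q_of_dim`, `fix_SO`, `lin_of_fix`).  Take `u ⊥ w, w'`
nonisotropic, `c₀ ≠ 1`, `y` from `gal`, `k = y 1`; `part χ (tv w) c 1 = k q^(n-2)` for all `c ≠ 1` (`part_tv_indep`, `th_levi`), the same
for `w'` (`part_tv_swap`).  `k ≠ 0`: else `tv w`, `tv w'` act trivially.  `(q-1) k q^(n-2) ≤ χ 1` gives `k = 1`.  So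
`λ z = y (rf u z)` is a homomorphism and `q² part χ (tv w) c (rf u z) = λ z * om (rf u z)` for all `c ≠ 1`, also for `w'`.  By `hs_om`
the joint `(c, λ)`-eigenspace of `X_w × μ_u` is zero, so a `λ`-eigenvector of `rf u` is fixed by `tv w` and `tv w'`, hence zero:
`part χ (rf u) λ 1 = 0`.  `l = λ⁻¹`, `dt_rf`, `hs_of_one`. -/

set_option autoImplicit false

namespace CL.WU

open Module CL.Witt CL.Uni Cfsg

variable {F : Type*} [Field F] [Fintype F] {q : ℕ} {hF : Fintype.card F = q ^ 2}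
  {V : Type*} [AddCommGroup V] [Module F V] [FiniteDimensional F V] {f : Form (HT hF) V}

namespace DegB

theorem fixv {G : Type*} [Group G] [Finite G] {M : Type*} [AddCommGroup M] [Module ℂ M] [FiniteDimensional ℂ M]
    (ρ : Representation ℂ G M) (Q : Module.End ℂ M) {K : Type*} [Group K] [Finite K] (ι : K →* G) {t : ℂ} (ht : t ≠ 0)
    (h : ∀ k, LinearMap.trace ℂ M (ρ (ι k) * Q) = t) : ∃ x : M, x ≠ 0 ∧ ∀ k, ρ (ι k) x = x := by
  have := Fintype.ofFinite K
  have hP : Px.P ρ ι 1 ≠ 0 := by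
    intro h0
    have e : LinearMap.trace ℂ M (Px.P ρ ι 1 * Q) = t := by
      simp only [Px.P, MonoidHom.one_apply, inv_one, Units.val_one, one_smul, smul_mul_assoc, Finset.sum_mul,
        map_smul, map_sum, h, Finset.sum_const, Finset.card_univ, nsmul_eq_mul, smul_eq_mul]
      rw [← Nat.card_eq_fintype_card, ← mul_assoc, inv_mul_cancel₀ Px.cA, one_mul]
    rw [h0, zero_mul, map_zero] at e
    exact ht e.symm
  obtain ⟨x, hx⟩ := DFunLike.ne_iff.1 hP
  refine ⟨_, hx, fun k => ?_⟩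
  have := (Px.proj ρ ι 1).map_mem x k
  rwa [MonoidHom.one_apply, Units.val_one, one_smul] at this

theorem const {G A : Type*} [Group G] [CommGroup A] [Fintype A] (ψ : G → ℂ) (ι : A →* G)
    (h : ∀ c : A →* ℂˣ, c ≠ 1 → part ψ ι c 1 = 0) (a : A) : ψ (ι a) = ψ 1 := by
  have key : ∀ a, ψ (ι a) = part ψ ι 1 1 := fun a => by
    rw [← sum_part ψ ι (ι a), Finset.sum_eq_single 1]
    · rw [← one_mul (ι a), part_mul, MonoidHom.one_apply, Units.val_one, one_mul]
    · intro c _ hc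
      rw [← one_mul (ι a), part_mul, h c hc, mul_zero]
    · intro h; exact absurd (Finset.mem_univ _) h
  rw [key, ← key 1, map_one]

theorem geo (hf : f.Nondeg) (h3 : 3 ≤ finrank F V) : ∃ u w w' : V, f.B u u ≠ 0 ∧ f.q w = 0 ∧ f.q w' = 0 ∧
    f.B w w' = 1 ∧ f.B u w = 0 ∧ f.B u w' = 0 := by
  obtain ⟨u, hu⟩ := exists_q_eq (sig_ne_id hF) hf (by omega) (b := 1) (map_one _)
  have hu' : f.B u u ≠ 0 := by rw [← f.herm_q, hu]; exact one_ne_zero
  have hr := finrank_perp_span hu'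
  obtain ⟨w, w', h1, h2, h⟩ := exists_hyp_pair (sig_ne_id hF) (perp_nondeg hf hu') (by omega)
  exact ⟨u, w, w', hu', h1, h2, h, w.2 u (Submodule.mem_span_singleton_self u),
    w'.2 u (Submodule.mem_span_singleton_self u)⟩

theorem arith {q n m d k : ℕ} (hq : 2 ≤ q) (h1 : (q + 1) * m + q = q ^ n)
    (h2 : q ^ 2 * m + k * q ^ n = q ^ 2 * d + q * (k * q ^ n)) : k = 0 ∨ k = 1 := by
  by_contra hk
  obtain ⟨j, rfl⟩ : ∃ j, k = j + 2 := ⟨k - 2, by omega⟩
  obtain ⟨p, rfl⟩ : ∃ p, q = p + 2 := ⟨q - 2, by omega⟩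
  generalize (p + 2) ^ n = N at h1 h2
  subst h1
  have : 0 < (p + 2) ^ 2 * d + (p + 1) * (p + 3) * j * m + (p ^ 2 + 4 * p + 2) * m + (p + 1) * (j + 2) * (p + 2) := by
    positivity
  linarith

end DegB

theorem exists_hs_twist (hf : f.Nondeg) (h3 : 3 ≤ finrank F V) (hodd : Odd (finrank F V))
    {χ : f.O → ℂ} (hχ : IsIrrCharacter f.O χ)
    (hd : ((q : ℂ) + 1) * χ 1 = (q : ℂ) ^ finrank F V - q) :
    ∃ l, Hs f (fun g => χ g * lin hf l g) := by
  classical
  obtain ⟨m, ρ, hρ, rfl⟩ := id hχ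
  have hq := two_le_q (hF := hF)
  have q0 : (q : ℂ) ≠ 0 := Nat.cast_ne_zero.2 (by omega)
  have hm : ρ.character 1 = m := CL.Char.character_one_fin ρ
  have hd' : (q + 1) * m + q = q ^ finrank F V := by
    rw [hm] at hd
    have : (((q + 1) * m + q : ℕ) : ℂ) = ((q ^ finrank F V : ℕ) : ℂ) := by push_cast; linear_combination hd
    exact_mod_cast this
  obtain ⟨u, w, w', hu, hw, hw', h, uw, uw'⟩ := DegB.geo hf h3
  have w0 : w ≠ 0 := by rintro rfl; simp at h
  have w0' : w' ≠ 0 := by rintro rfl; simp at h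
  have hK : ∀ x, (∀ a, ρ (tv f w a) x = x) → (∀ a, ρ (tv f w' a) x = x) → x = 0 := by
    intro x h1 h2
    by_contra x0
    have hdim : (q + 1) * finrank ℂ (Fin m → ℂ) + q ≤ q ^ finrank F V := by
      rw [Module.finrank_fin_fun]; exact hd'.le
    obtain ⟨l, hl⟩ := lin_of_fix hf (by omega) ρ hρ x0 (fix_SO hf ρ hw hw' (by rw [h]; exact one_ne_zero)
      (fun v a hv => fix_Q_of_dim hf h3 hodd ρ hdim w0 h1 hv) (fun v a hv => fix_Q_of_dim hf h3 hodd ρ hdim w0' h2 hv))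
    have m1 : m = 1 := by
      have : (m : ℂ) = (1 : ℕ) := by rw [← hm, hl]; simp [lin]
      exact_mod_cast this
    have := Nat.pow_le_pow_right (n := q) (by omega) h3
    rw [← hd', m1] at this
    nlinarith [Nat.mul_le_mul hq hq]
  obtain ⟨c₀, hc₀⟩ : ∃ c₀ : XA hF →* ℂˣ, c₀ ≠ 1 := by
    have : Nontrivial (XA hF →* ℂˣ) := Fintype.one_lt_card_iff_nontrivial.1 (by rw [card_XA_hom]; omega)
    exact exists_ne 1
  obtain ⟨y, hy, -, hyp⟩ := gal hf hw w0 hc₀ hχ.isCharacter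
  have hcl := hχ.isClassFunction
  have hp : ∀ c : XA hF →* ℂˣ, c ≠ 1 → ∀ l ∈ St f w, l ∈ St f w' →
      (q : ℂ) ^ 2 * part ρ.character (tv f w) c l = y l * om f l := fun c hc l hl hl' => by
    rw [part_tv_indep hf hcl hw hw' h hc hc₀ hl hl', hyp l hl, ← th_levi hw hw' h hc₀ hl hl']
    ring
  obtain ⟨k, hk⟩ := hy.exists_nat_degree
  change y 1 = k at hk
  have hk01 : k = 0 ∨ k = 1 := by
    refine DegB.arith (d := finrank ℂ (Px.E ρ (tv f w) 1)) hq hd' ?_
    have e1 := sum_part ρ.character (tv f w) 1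
    have e2 : ∑ c : XA hF →* ℂˣ, (q : ℂ) ^ 2 * part ρ.character (tv f w) c 1 =
        ∑ c : XA hF →* ℂˣ, ((k : ℂ) * q ^ finrank F V +
          if c = 1 then (q : ℂ) ^ 2 * part ρ.character (tv f w) 1 1 - k * q ^ finrank F V else 0) :=
      Finset.sum_congr rfl fun c _ => by
        split_ifs with hc
        · rw [hc]; ring
        · rw [hp c hc 1 (one_mem _) (one_mem _), hk, ZeB.om_one, add_zero]
    rw [← Finset.mul_sum, e1, hm, Finset.sum_add_distrib, Finset.sum_ite_eq', if_pos (Finset.mem_univ _),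
      Finset.sum_const, Finset.card_univ, card_XA_hom, nsmul_eq_mul, Px.part_one] at e2
    have : ((q ^ 2 * m + k * q ^ finrank F V : ℕ) : ℂ) =
        ((q ^ 2 * finrank ℂ (Px.E ρ (tv f w) 1) + q * (k * q ^ finrank F V) : ℕ) : ℂ) := by
      push_cast; linear_combination e2
    exact_mod_cast this
  have r1 : ∀ z, rf f u z ∈ St f w := fun z => rf_perp uw z
  have r2 : ∀ z, rf f u z ∈ St f w' := fun z => rf_perp uw' z
  obtain ⟨κ, lam, hlam⟩ : ∃ (κ : ℂ) (lam : Mu F q →* ℂˣ), ∀ z, y (rf f u z) = κ * lam z := by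
    rcases hk01 with rfl | rfl
    · have := hy.eq_zero_of_one (by rw [← Nat.cast_zero]; exact hk)
      exact ⟨0, 1, fun z => by rw [zero_mul]; exact congrFun this ⟨_, r1 z⟩⟩
    · obtain ⟨l, hl⟩ := hy.exists_hom (by rw [← Nat.cast_one]; exact hk)
      exact ⟨1, l.comp ((rf f u).codRestrict _ r1), fun z => by rw [one_mul]; exact congrFun hl ⟨_, r1 z⟩⟩
  have t1 : ∀ a, tv f w a ∈ St f u := fun a => tv_perp (f.B_eq_zero_symm uw) a
  have t2 : ∀ a, tv f w' a ∈ St f u := fun a => tv_perp (f.B_eq_zero_symm uw') a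
  have hj : ∀ w₁ : V, (∀ a, tv f w₁ a ∈ St f u) → (∀ c z, part ρ.character (tv f w₁) c (rf f u z) =
      part ρ.character (tv f w) c (rf f u z)) → ∀ a,
      part ρ.character (rf f u) lam (tv f w₁ a) = part ρ.character (rf f u) lam 1 := by
    intro w₁ ht he
    refine DegB.const _ _ fun c hc => ?_
    rw [← part_comm _ _ _ _ _ fun a z => rf_comm (ht a) z]
    have : ∀ z : Mu F q, (((lam z)⁻¹ : ℂˣ) : ℂ) * part ρ.character (tv f w₁) c (1 * rf f u z) =
        ((q : ℂ) ^ 2)⁻¹ * κ * om f (rf f u z) := fun z => by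
      have e := hp c hc _ (r1 z) (r2 z)
      rw [hlam] at e
      rw [one_mul, he, Units.val_inv_eq_inv_val]
      have := (lam z).ne_zero
      field_simp
      linear_combination e
    rw [part, Finset.sum_congr rfl fun z _ => this z, ← Finset.mul_sum, hs_om u hu, mul_zero, mul_zero]
  have h0 : part ρ.character (rf f u) lam 1 = 0 := by
    by_contra hne
    have hψ := isCharacter_part hχ.isCharacter (rf f u) lam (St f u).subtype fun g z => rf_comm g.2 z
    obtain ⟨x, x0, hx⟩ := DegB.fixv ρ (Px.P ρ (rf f u) lam)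
      ((St f u).subtype.comp (CL.Char.charKer fun g : St f u => part ρ.character (rf f u) lam g).subtype) hne
      fun k => by rw [← Px.part_eq]; exact CL.Char.apply_eq_of_mem_charKer (G := St f u) k.2
    exact x0 (hK x (fun a => hx ⟨⟨_, t1 a⟩, hψ.mem_charKer.2 (hj w t1 (fun _ _ => rfl) a)⟩)
      fun a => hx ⟨⟨_, t2 a⟩, hψ.mem_charKer.2
        (hj w' t2 (fun c z => (part_tv_swap hf hcl hw hw' h c (r1 z) (r2 z)).symm) a)⟩)
  refine ⟨lam⁻¹, hs_of_one hf (hχ.isCharacter.mul (isIrr_lin hf lam⁻¹).isCharacter).isClassFunction hu ?_⟩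
  rw [part, mul_eq_zero, inv_eq_zero] at h0
  rw [← h0.resolve_left Px.cA]
  refine Finset.sum_congr rfl fun z _ => ?_
  rw [lin, dt_rf hf hu, one_mul, mul_comm, MonoidHom.inv_apply]

end CL.WU
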