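import Cfsg.Agent.CLAS.WU.Def

/-! Gauss sum of a skew-Hermitian form.
With `δ ≠ 0`, `δ ^ q = -δ`, the form `δ Φ` is Hermitian; split off the radical and take an orthogonal basis
(or induct on the dimension: if `Φ y y = 0` for all `y` the sum is `|U|`; otherwise `U = F y ⊕ y^⊥`
for both orders, as `Φ` is skew-Hermitian by polarisation).  One variable, `Φ y y = e ≠ 0` of trace zero:
`∑_c χ(c^(q+1) e) = 1 + (q+1) ∑_{t ∈ F_q^×} χ(t e) = 1 - (q+1) = -q`, because `F_q e` is the whole trace zero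
line, which contains `x - x^q`. -/

set_option autoImplicit false

namespace CL.WU

open Module CL.Witt CL.Uni Cfsg

variable {F : Type*} [Field F] [Fintype F] {q : ℕ} {hF : Fintype.card F = q ^ 2}
  {V : Type*} [AddCommGroup V] [Module F V] [FiniteDimensional F V] {f : Form (HT hF) V}

namespace Gauss

theorem line [DecidableEq F] (hF : Fintype.card F = q ^ 2) {e : F} (he0 : e ≠ 0) (he : e + e ^ q = 0)
    (χ : AddChar F ℂ) (hχ : ∃ x : F, χ (x - x ^ q) ≠ 1) :
    ∑ μ : F, (if μ ^ q = μ then χ (μ * e) else 0) = 0 := by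
  obtain ⟨x, hx⟩ := hχ
  have he' : e ^ q = -e := by linear_combination he
  set m : F := (x - x ^ q) / e with hm
  have hmq : m ^ q = m := by
    rw [hm, div_pow, SqField.sub_pow_q hF, SqField.pow_q_pow_q hF, he']
    field_simp
    ring
  have hme : m * e = x - x ^ q := by rw [hm]; field_simp
  set S := ∑ μ : F, (if μ ^ q = μ then χ (μ * e) else 0) with hS
  have h1 : S = S * χ (x - x ^ q) := by
    conv_lhs => rw [hS, ← Equiv.sum_comp (Equiv.addRight m)]
    rw [hS, Finset.sum_mul]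
    refine Finset.sum_congr rfl fun μ _ => ?_
    have h2 : (μ + m) ^ q = μ + m ↔ μ ^ q = μ := by
      rw [SqField.add_pow_q hF, hmq, add_left_inj]
    simp only [Equiv.coe_addRight, h2]
    split_ifs
    · rw [add_mul, AddChar.map_add_eq_mul, hme]
    · rw [zero_mul]
  have h3 : S * (χ (x - x ^ q) - 1) = 0 := by linear_combination -h1
  exact (mul_eq_zero.1 h3).resolve_right (sub_ne_zero.2 hx)

theorem one (hF : Fintype.card F = q ^ 2) {e : F} (he0 : e ≠ 0) (he : e + e ^ q = 0)
    (χ : AddChar F ℂ) (hχ : ∃ x : F, χ (x - x ^ q) ≠ 1) :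
    ∑ c : F, χ (c ^ (q + 1) * e) = -(q : ℂ) := by
  classical
  have h1 : ∑ c : F, χ (c ^ (q + 1) * e) =
      ∑ μ : F, ((Finset.univ.filter fun c : F => c ^ (q + 1) = μ).card : ℂ) * χ (μ * e) := by
    rw [← Finset.sum_fiberwise (s := Finset.univ) (g := fun c : F => c ^ (q + 1))]
    refine Finset.sum_congr rfl fun μ _ => ?_
    rw [Finset.sum_congr rfl (g := fun _ => χ (μ * e)) fun c hc => by
      rw [(Finset.mem_filter.1 hc).2]]
    rw [Finset.sum_const, nsmul_eq_mul]
  have h2 : ∀ μ : F, ((Finset.univ.filter fun c : F => c ^ (q + 1) = μ).card : ℂ) * χ (μ * e) =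
      ((q : ℂ) + 1) * (if μ ^ q = μ then χ (μ * e) else 0) - (if μ = 0 then (q : ℂ) else 0) := by
    intro μ
    by_cases h0 : μ = 0
    · subst h0
      have : (Finset.univ.filter fun c : F => c ^ (q + 1) = 0) = {0} := by
        ext c; simp
      rw [this, if_pos (SqField.zero_pow_q hF), if_pos rfl, zero_mul, AddChar.map_zero_eq_one]
      simp
    · rw [if_neg h0, sub_zero]
      split_ifs with h
      · have := SqField.card_norm_eq hF h0 h
        rw [Nat.card_eq_fintype_card, Fintype.card_subtype] at this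
        rw [this]; push_cast; rfl
      · have : (Finset.univ.filter fun c : F => c ^ (q + 1) = μ) = ∅ := by
          refine Finset.filter_eq_empty_iff.2 fun c _ hc => h ?_
          rw [← hc]; exact SqField.norm_pow_q hF c
        rw [this]; simp
  rw [h1, Finset.sum_congr rfl fun μ _ => h2 μ, Finset.sum_sub_distrib, ← Finset.mul_sum,
    line hF he0 he χ hχ]
  simp

theorem polar {U : Type*} [AddCommGroup U] [Module F U]
    (Φ : U →ₛₗ[sig hF] U →ₗ[F] F) (hΦ : ∀ y, Φ y y + (Φ y y) ^ q = 0) {x y : U}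
    (h : Φ x y = 0) : Φ y x = 0 := by
  by_contra h0
  obtain ⟨t, ht⟩ := SqField.exists_trace_eq hF (μ := 1) (one_pow q)
  have h1 := hΦ (y + (t / Φ y x) • x)
  have h2 := hΦ ((t / Φ y x) • x)
  have h3 := hΦ y
  have h4 : Φ ((t / Φ y x) • x) y = 0 := by
    rw [map_smulₛₗ, LinearMap.smul_apply, h, smul_zero]
  have h5 : Φ y ((t / Φ y x) • x) = t := by
    rw [map_smul, smul_eq_mul]; field_simp
  rw [map_add Φ, LinearMap.add_apply, map_add, map_add, h4, h5, zero_add, SqField.add_pow_q hF,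
    SqField.add_pow_q hF] at h1
  exact one_ne_zero (α := F) (by linear_combination h1 - h2 - h3 - ht)

universe u in
theorem aux (χ : AddChar F ℂ) (hχ : ∃ x : F, χ (x - x ^ q) ≠ 1) (n : ℕ) :
    ∀ (U : Type u) [AddCommGroup U] [Module F U] [FiniteDimensional F U] [Fintype U]
    (Φ : U →ₛₗ[sig hF] U →ₗ[F] F), (∀ y, Φ y y + (Φ y y) ^ q = 0) → finrank F U = n →
    ∃ r ≤ n, ∑ y, χ (Φ y y) = (-(q : ℂ)) ^ r * (q : ℂ) ^ (2 * (n - r)) := by
  classical
  have triv : ∀ (U : Type u) [AddCommGroup U] [Module F U] [FiniteDimensional F U] [Fintype U]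
      (Φ : U →ₛₗ[sig hF] U →ₗ[F] F), (∀ y, Φ y y = 0) →
      ∑ y, χ (Φ y y) = (-(q : ℂ)) ^ 0 * (q : ℂ) ^ (2 * (finrank F U - 0)) := by
    intro U _ _ _ _ Φ h
    simp only [h, AddChar.map_zero_eq_one, Finset.sum_const, Finset.card_univ, nsmul_eq_mul,
      mul_one, pow_zero, one_mul, Nat.sub_zero]
    rw [Module.card_eq_pow_finrank (K := F), hF, pow_mul]
    push_cast; rfl
  induction n with
  | zero =>
    intro U _ _ _ _ Φ _ hn
    have : Subsingleton U := Module.finrank_zero_iff.1 hn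
    refine ⟨0, le_rfl, ?_⟩
    rw [triv U Φ fun y => by rw [Subsingleton.elim y 0]; simp, hn]
  | succ n ih =>
    intro U _ _ _ _ Φ hΦ hn
    by_cases h : ∀ y, Φ y y = 0
    · exact ⟨0, Nat.zero_le _, by rw [triv U Φ h, hn]⟩
    obtain ⟨y, hy⟩ := not_forall.1 h
    set W := LinearMap.ker (Φ y) with hW
    have hr : finrank F W = n := by
      have h1 := LinearMap.finrank_range_add_finrank_ker (Φ y)
      have h2 : LinearMap.range (Φ y) = ⊤ := by
        refine LinearMap.range_eq_top.2 fun c => ⟨(c / Φ y y) • y, ?_⟩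
        rw [map_smul, smul_eq_mul]; field_simp
      rw [h2, finrank_top, finrank_self, hn, ← hW] at h1
      omega
    obtain ⟨r, hr1, hr2⟩ := ih W (Φ.domRestrict₁₂ W W) (fun w => hΦ w) hr
    refine ⟨r + 1, by omega, ?_⟩
    have hb : Function.Bijective fun p : F × W => p.1 • y + (p.2 : U) := by
      constructor
      · rintro ⟨c, w⟩ ⟨c', w'⟩ hh
        have h1 := congrArg (Φ y) hh
        have hw : Φ y w = 0 := w.2
        have hw' : Φ y w' = 0 := w'.2
        simp only [map_add, map_smul, smul_eq_mul, hw, hw', add_zero] at h1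
        have h2 : c = c' := mul_right_cancel₀ hy h1
        subst h2
        exact Prod.ext rfl (Subtype.ext (add_left_cancel hh))
      · intro u
        refine ⟨(Φ y u / Φ y y, ⟨u - (Φ y u / Φ y y) • y, ?_⟩), by simp⟩
        rw [hW, LinearMap.mem_ker, map_sub, map_smul, smul_eq_mul]
        field_simp
        ring
    rw [← hb.sum_comp, Fintype.sum_prod_type]
    have h3 : ∀ (c : F) (w : W), χ (Φ (c • y + (w : U)) (c • y + (w : U))) =
        χ (c ^ (q + 1) * Φ y y) * χ (Φ.domRestrict₁₂ W W w w) := by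
      intro c w
      have hw : Φ y w = 0 := w.2
      have hw' : Φ w y = 0 := polar Φ hΦ hw
      rw [← AddChar.map_add_eq_mul, LinearMap.domRestrict₁₂_apply]
      congr 1
      simp only [map_add, map_smul, map_smulₛₗ, LinearMap.add_apply, LinearMap.smul_apply,
        smul_eq_mul, hw, hw', sig_apply]
      ring
    simp only [h3]
    rw [← Finset.sum_mul_sum, one hF hy (hΦ y) χ hχ, hr2, Nat.add_sub_add_right]
    ring

end Gauss

theorem gauss {U : Type*} [AddCommGroup U] [Module F U] [FiniteDimensional F U] [Fintype U]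
    (Φ : U →ₛₗ[sig hF] U →ₗ[F] F) (hΦ : ∀ y, Φ y y + (Φ y y) ^ q = 0) (χ : AddChar F ℂ)
    (hχ : ∃ x : F, χ (x - x ^ q) ≠ 1) :
    ∃ r ≤ finrank F U, ∑ y, χ (Φ y y) = (-(q : ℂ)) ^ r * (q : ℂ) ^ (2 * (finrank F U - r)) := by
  exact Gauss.aux χ hχ _ U Φ hΦ rfl

end CL.WU
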