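import Cfsg.Agent.CLAS.WU.Def
import Cfsg.Agent.CHAR.Blichfeldt
import Cfsg.Agent.CHAR.Orth

/-! The Heisenberg module.
`H = F × V` with `(a,u)(b,v) = (a + b + B u v, u + v)` is a finite group.  Take an irreducible constituent of
the character induced from `χ` on the central subgroup `F` (or a minimal invariant subspace of the functions
`V → ℂ` under `(T u φ)(x) = χ(B u (x - u)) φ(x - u)`).  Conjugation by `(0,w)` multiplies `T v` by
`χ(B w v - B v w)`, nontrivial for some `w` when `v ≠ 0`; so the trace vanishes off the centre and the norm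
equation gives `dim² = |V| = q^(2n)`.  Unitarity: `CL.Char.exists_unitary` (CHAR/Blichfeldt). -/

set_option autoImplicit false

namespace CL.WU

open Module CL.Witt CL.Uni Cfsg

namespace HeisX

open CL.Char
open scoped ComplexConjugate

variable {A V : Type*} [AddCommGroup A] [AddCommGroup V]

/-- The Heisenberg group of a biadditive map. -/
@[ext] structure Hs (β : V →+ V →+ A) where
  a : A
  u : V

variable {β : V →+ V →+ A}

instance : Mul (Hs β) := ⟨fun x y => ⟨x.a + y.a + β x.u y.u, x.u + y.u⟩⟩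
instance : One (Hs β) := ⟨⟨0, 0⟩⟩
instance : Inv (Hs β) := ⟨fun x => ⟨-x.a + β x.u x.u, -x.u⟩⟩
@[simp] theorem mul_a (x y : Hs β) : (x * y).a = x.a + y.a + β x.u y.u := rfl
@[simp] theorem mul_u (x y : Hs β) : (x * y).u = x.u + y.u := rfl
@[simp] theorem one_a : (1 : Hs β).a = 0 := rfl
@[simp] theorem one_u : (1 : Hs β).u = 0 := rfl
@[simp] theorem inv_a (x : Hs β) : x⁻¹.a = -x.a + β x.u x.u := rfl
@[simp] theorem inv_u (x : Hs β) : x⁻¹.u = -x.u := rfl

instance : Group (Hs β) := Group.ofLeftAxioms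
  (fun x y z => by ext <;> simp <;> abel) (fun x => by ext <;> simp) (fun x => by ext <;> simp)

/-- coordinates -/
def eqv (β : V →+ V →+ A) : A × V ≃ Hs β :=
  ⟨fun x => ⟨x.1, x.2⟩, fun x => (x.a, x.u), fun _ => rfl, fun _ => rfl⟩

theorem z_mem (a : A) : (⟨a, 0⟩ : Hs β) ∈ Subgroup.center (Hs β) :=
  Subgroup.mem_center_iff.2 fun g => by ext <;> simp [add_comm]

theorem heis [Fintype A] [Fintype V] (β : V →+ V →+ A) (χ : AddChar A ℂ)
    (hχ : ∀ v, v ≠ 0 → ∃ w, χ (β w v - β v w) ≠ 1) {d : ℕ} (hd : Fintype.card V = d ^ 2) :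
    ∃ T : V → Matrix (Fin d) (Fin d) ℂ, T 0 = 1 ∧
      (∀ u v, T u * T v = χ (β u v) • T (u + v)) ∧ (∀ v, v ≠ 0 → (T v).trace = 0) ∧
      ∀ v, (T v).conjTranspose * T v = 1 := by
  classical
  let _ : Fintype (Hs β) := Fintype.ofEquiv _ (eqv β)
  have cH : (Nat.card (Hs β) : ℂ) = Fintype.card A * d ^ 2 := by
    rw [← Nat.card_congr (eqv β), Nat.card_prod, Nat.card_eq_fintype_card, Nat.card_eq_fintype_card,
      hd]
    push_cast; rfl
  obtain ⟨ψ, hS⟩ : ∃ ψ : IrrCharacter (Hs β), ∑ a : A, χ (-a) * (ψ : Hs β → ℂ) ⟨a, 0⟩ ≠ 0 := by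
    by_contra! h
    have h1 : ∑ ψ : IrrCharacter (Hs β),
        (ψ : Hs β → ℂ) 1 * ∑ a : A, χ (-a) * (ψ : Hs β → ℂ) ⟨a, 0⟩ = 0 := by simp [h]
    simp only [Finset.mul_sum] at h1
    rw [Finset.sum_comm, Finset.sum_eq_single (0 : A)] at h1
    · simp only [neg_zero, AddChar.map_zero_eq_one, one_mul] at h1
      rw [sum_degree_mul, if_pos (show (⟨0, 0⟩ : Hs β) = 1 from rfl)] at h1
      exact Nat.card_pos.ne' (Nat.cast_eq_zero.1 h1)
    · intro a _ ha
      simp only [mul_left_comm _ (χ (-a)), ← Finset.mul_sum]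
      rw [sum_degree_mul, if_neg fun e => ha (congrArg Hs.a e), mul_zero]
    · simp
  obtain ⟨ψ, n, ρ, hρ, rfl⟩ := ψ
  dsimp only at hS
  have hz : ∀ b : A, ρ ⟨b, 0⟩ = χ b • (1 : (Fin n → ℂ) →ₗ[ℂ] (Fin n → ℂ)) := fun b => by
    obtain ⟨c, hc⟩ : ∃ c : ℂ, ρ ⟨b, 0⟩ = c • (1 : (Fin n → ℂ) →ₗ[ℂ] (Fin n → ℂ)) :=
      ⟨_, rep_center_scalar ρ (z_mem b)⟩
    have h1 : ∀ a : A, ρ.character ⟨b + a, 0⟩ = c * ρ.character ⟨a, 0⟩ := fun a => by
      have : (⟨b + a, 0⟩ : Hs β) = ⟨b, 0⟩ * ⟨a, 0⟩ := by ext <;> simp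
      rw [this, Representation.character, map_mul, hc, smul_mul_assoc, one_mul, map_smul]
      rfl
    have h2 : c * ∑ a : A, χ (-a) * ρ.character ⟨a, 0⟩ =
        χ b * ∑ a : A, χ (-a) * ρ.character ⟨a, 0⟩ := by
      conv_rhs => rw [← Equiv.sum_comp (Equiv.addLeft b)]
      rw [Finset.mul_sum, Finset.mul_sum]
      refine Finset.sum_congr rfl fun a _ => ?_
      rw [Equiv.coe_addLeft, h1, ← mul_assoc (χ b), ← AddChar.map_add_eq_mul]
      simp only [neg_add_rev, add_neg_cancel_comm_assoc]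
      ring
    rw [hc, mul_right_cancel₀ hS h2]
  have hm : ∀ (a : A) (v : V), ρ ⟨a, v⟩ = χ a • ρ ⟨0, v⟩ := fun a v => by
    have : (⟨a, v⟩ : Hs β) = ⟨a, 0⟩ * ⟨0, v⟩ := by ext <;> simp
    rw [this, map_mul, hz, smul_mul_assoc, one_mul]
  have hc : ∀ (a : A) (v : V), ρ.character ⟨a, v⟩ = χ a * ρ.character ⟨0, v⟩ := fun a v => by
    rw [Representation.character, hm, map_smul]
    rfl
  have h0 : ∀ v : V, v ≠ 0 → ρ.character ⟨0, v⟩ = 0 := fun v hv => by
    obtain ⟨w, hw⟩ := hχ v hv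
    have h1 := (isCharacter_character ρ).isClassFunction ⟨0, v⟩ ⟨0, w⟩
    have h2 : (⟨0, w⟩ * ⟨0, v⟩ * (⟨0, w⟩ : Hs β)⁻¹ : Hs β) = ⟨β w v - β v w, v⟩ := by
      ext <;> simp <;> abel
    rw [h2, hc] at h1
    by_contra h
    exact hw (mul_right_cancel₀ h (h1.trans (one_mul _).symm))
  obtain rfl : n = d := by
    have h1 := sum_character_mul_conj ρ
    rw [← Equiv.sum_comp (eqv β), Fintype.sum_prod_type, cH,
      Finset.sum_congr rfl (g := fun _ => (n : ℂ) ^ 2) fun a _ => ?_] at h1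
    · rw [Finset.sum_const, Finset.card_univ, nsmul_eq_mul] at h1
      have h2 := mul_left_cancel₀ (Nat.cast_ne_zero.2 Fintype.card_ne_zero) h1
      exact Nat.pow_left_injective two_ne_zero (by exact_mod_cast h2)
    · rw [Finset.sum_eq_single (0 : V)]
      · change conj (ρ.character ⟨a, 0⟩) * ρ.character ⟨a, 0⟩ = _
        have e : ρ.character ⟨0, 0⟩ = n := character_one_fin ρ
        rw [hc, e, map_mul, Complex.conj_natCast, ← AddChar.map_neg_eq_conj, mul_mul_mul_comm,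
          ← AddChar.map_add_eq_mul, neg_add_cancel, AddChar.map_zero_eq_one, one_mul, sq]
      · intro v _ hv
        change conj (ρ.character ⟨a, v⟩) * ρ.character ⟨a, v⟩ = _
        rw [hc, h0 v hv, mul_zero, mul_zero]
      · simp
  let R : Hs β →* Matrix (Fin n) (Fin n) ℂ :=
    (LinearMap.toMatrixAlgEquiv' (R := ℂ) (n := Fin n)).toMonoidHom.comp ρ
  have hR : ∀ g, R g = LinearMap.toMatrix' (ρ g) := fun _ => rfl
  obtain ⟨S, hS'⟩ := Blich.exists_unitary R
  have hmul : ∀ g h, S.val * R g * S⁻¹.val * (S.val * R h * S⁻¹.val) =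
      S.val * R (g * h) * S⁻¹.val := fun g h => by
    rw [map_mul]
    simp only [mul_assoc, Units.inv_mul_cancel_left]
  refine ⟨fun v => S.val * R ⟨0, v⟩ * S⁻¹.val, ?_, fun u v => ?_, fun v hv => ?_, fun v => ?_⟩
  · change S.val * R 1 * S⁻¹.val = 1
    rw [map_one, mul_one, Units.mul_inv]
  · have : (⟨0, u⟩ * ⟨0, v⟩ : Hs β) = ⟨β u v, u + v⟩ := by ext <;> simp
    simp only [hmul, this]
    rw [hR, hm, map_smul, ← hR, mul_smul_comm, smul_mul_assoc]
  · rw [Matrix.trace_units_conj, hR, ← h0 v hv, Representation.character,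
      LinearMap.trace_eq_matrix_trace ℂ (Pi.basisFun ℂ (Fin n)), LinearMap.toMatrix_eq_toMatrix']
  · simp only [hS', hmul]
    rw [inv_mul_cancel, map_one, mul_one, Units.mul_inv]

end HeisX

variable {F : Type*} [Field F] [Fintype F] {q : ℕ} {hF : Fintype.card F = q ^ 2}
  {V : Type*} [AddCommGroup V] [Module F V] [FiniteDimensional F V] {f : Form (HT hF) V}

include hF in
theorem exists_addChar : ∃ χ : AddChar F ℂ, ∃ x : F, χ (x - x ^ q) ≠ 1 := by
  obtain ⟨x, hx⟩ : ∃ x : F, x - x ^ q ≠ 0 := by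
    by_contra! h
    exact sig_ne_id hF (RingHom.ext fun x => (sub_eq_zero.1 (h x)).symm)
  obtain ⟨χ, hχ⟩ := AddChar.exists_apply_ne_zero.2 hx
  exact ⟨χ, x, hχ⟩

theorem exists_heis (hf : f.Nondeg) (χ : AddChar F ℂ) (hχ : ∃ x : F, χ (x - x ^ q) ≠ 1) :
    ∃ T : V → Matrix (Fin (q ^ finrank F V)) (Fin (q ^ finrank F V)) ℂ, T 0 = 1 ∧
      (∀ u v, T u * T v = χ (f.B u v) • T (u + v)) ∧ (∀ v, v ≠ 0 → (T v).trace = 0) ∧
      ∀ v, (T v).conjTranspose * T v = 1 := by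
  have : Finite V := Module.finite_of_finite F
  let _ : Fintype V := Fintype.ofFinite V
  obtain ⟨x, hx⟩ := hχ
  let β : V →+ V →+ F :=
    { toFun := fun u => (f.B u).toAddMonoidHom
      map_zero' := by ext; simp
      map_add' := fun u v => by ext; simp }
  refine HeisX.heis β χ (fun v hv => ?_) ?_
  · obtain ⟨w, hw⟩ := hf.exists_B_eq hv (x ^ q)
    refine ⟨w, ?_⟩
    change χ (f.B w v - f.B v w) ≠ 1
    rw [f.symm v w, hw, HT_ε, one_mul]
    change χ (sig hF (sig hF x) - _) ≠ 1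
    rwa [sig_sig]
  · rw [Module.card_eq_pow_finrank (K := F), hF, ← pow_mul, ← pow_mul, mul_comm]

end CL.WU
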