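import Cfsg.Agent.CLAS.WU.Om
import Cfsg.Agent.CLAS.WU.Part
import Cfsg.Agent.CLAS.WU.Bas

/-! Values of the Weil characters. -/

set_option autoImplicit false
set_option linter.unusedSectionVars false
set_option linter.unusedVariables false

namespace CL.WU

open Module CL.Witt CL.Uni Cfsg

variable {F : Type*} [Field F] [Fintype F] {q : ℕ} {hF : Fintype.card F = q ^ 2}
  {V : Type*} [AddCommGroup V] [Module F V] [FiniteDimensional F V] {f : Form (HT hF) V}

namespace ZeB

open Classical in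
theorem sum_inv (hF : Fintype.card F = q ^ 2) (a : Mu F q →* ℂˣ) :
    ∑ z : Mu F q, (((a z)⁻¹ : ℂˣ) : ℂ) = if a = 1 then (q : ℂ) + 1 else 0 := by
  split_ifs with h
  · simp only [h, MonoidHom.one_apply, inv_one, Units.val_one, Finset.sum_const, Finset.card_univ, nsmul_eq_mul,
      mul_one]
    rw [← Nat.card_eq_fintype_card, card_Mu (hF := hF)]
    push_cast; rfl
  · refine sum_hom_units_eq_zero ((Units.coeHom ℂ).comp a⁻¹) fun e => h (MonoidHom.ext fun z => ?_)
    simpa using DFunLike.congr_fun e z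

theorem q1 (q : ℕ) : (q : ℂ) + 1 ≠ 0 := Nat.cast_add_one_ne_zero q

theorem cM (hF : Fintype.card F = q ^ 2) : (Nat.card (Mu F q) : ℂ) = q + 1 := by
  rw [card_Mu (hF := hF)]; push_cast; rfl

theorem om_free {g : f.O} (h : ∀ v, g.1 v = v → v = 0) : om f g = (-1) ^ finrank F V := by
  have : LinearMap.ker ((g.1 : V →ₗ[F] V) - LinearMap.id) = ⊥ :=
    LinearMap.ker_eq_bot'.2 fun v hv => h v (sub_eq_zero.1 hv)
  rw [om, fd, this, finrank_bot, pow_zero, mul_one]

theorem om_one : om f 1 = (q : ℂ) ^ finrank F V := by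
  have : LinearMap.ker (((1 : f.O).1 : V →ₗ[F] V) - LinearMap.id) = ⊤ :=
    LinearMap.ker_eq_top.2 (sub_self _)
  rw [om, fd, this, finrank_top, ← mul_pow, neg_mul_neg, one_mul]

omit [Fintype F] in
theorem val_ne {z : Mu F q} (hz : z ≠ 1) : z.val - 1 ≠ 0 := fun e =>
  hz (Subtype.ext (Units.ext (sub_eq_zero.1 e)))

open Classical in
theorem om_rf {v : V} (hv : f.B v v ≠ 0) (h : IsCompl (F ∙ v) (f.perp (F ∙ v)))
    (x : (f.restrict (f.perp (F ∙ v))).O) (z : Mu F q) :
    om f (emb f h x * rf f v z) = (if z = 1 then (q : ℂ) else -1) * om (f.restrict (f.perp (F ∙ v))) x := by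
  have v0 : v ≠ 0 := fun e => hv (by simp [e])
  split_ifs with hz
  · rw [hz, map_one, mul_one, om_emb, finrank_span_singleton v0, pow_one]
  have ap : ∀ (c : F) (u : f.perp (F ∙ v)), (emb f h x * rf f v z).1 (c • v + u) = (z.val * c) • v + x.1 u := by
    intro c u
    change (emb f h x).1 ((rf f v z).1 _) = _
    rw [map_add, map_smul, rf_self hv, rf_perp (u.2 v (Submodule.mem_span_singleton_self v)), smul_smul, mul_comm c]
    exact emb_apply f h x ⟨_, Submodule.smul_mem _ _ (Submodule.mem_span_singleton_self v)⟩ u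
  have : LinearMap.ker (((emb f h x * rf f v z).1 : V →ₗ[F] V) - LinearMap.id) =
      (LinearMap.ker ((x.1 : f.perp (F ∙ v) →ₗ[F] f.perp (F ∙ v)) - LinearMap.id)).map (Submodule.subtype _) := by
    ext y
    constructor
    · intro hy
      obtain ⟨w, hw, u, hu, rfl⟩ := Submodule.mem_sup.1 (h.sup_eq_top.ge (Submodule.mem_top (x := y)))
      obtain ⟨c, rfl⟩ := Submodule.mem_span_singleton.1 hw
      have e : (z.val * c) • v + (x.1 ⟨u, hu⟩ : V) = c • v + u := (ap c ⟨u, hu⟩).symm.trans (sub_eq_zero.1 hy)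
      have e1 : ((z.val - 1) * c) • v = u - x.1 ⟨u, hu⟩ := by
        rw [sub_mul, one_mul, sub_smul, sub_eq_sub_iff_add_eq_add, e, add_comm]
      have e2 : ((z.val - 1) * c) • v = 0 := (Submodule.disjoint_def.1 h.disjoint) _
        (Submodule.smul_mem _ _ (Submodule.mem_span_singleton_self v)) (e1 ▸ sub_mem hu (x.1 ⟨u, hu⟩).2)
      have c0 : c = 0 := (mul_eq_zero.1 ((smul_eq_zero.1 e2).resolve_right v0)).resolve_left (val_ne hz)
      refine ⟨⟨u, hu⟩, sub_eq_zero.2 (Subtype.ext ?_), by simp [c0]⟩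
      exact (sub_eq_zero.1 (e1.symm.trans e2)).symm
    · rintro ⟨u, hu, rfl⟩
      have := ap 0 u
      rw [mul_zero, zero_smul, zero_add, zero_add, show x.1 u = u from sub_eq_zero.1 hu] at this
      exact sub_eq_zero.2 this
  rw [om, om, fd, fd, this, Submodule.finrank_map_subtype_eq, ← finrank_perp_span hv]
  ring

open Classical in
theorem sum_eps (hF : Fintype.card F = q ^ 2) (a : Mu F q →* ℂˣ) (y : Mu F q) :
    ∑ z : Mu F q, (((a z)⁻¹ : ℂˣ) : ℂ) * (if y * z = 1 then (q : ℂ) else -1) =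
      if a = 1 then 0 else (a y : ℂ) * (q + 1) := by
  have : ∀ z : Mu F q, (((a z)⁻¹ : ℂˣ) : ℂ) * (if y * z = 1 then (q : ℂ) else -1) =
      (if z = y⁻¹ then (a y : ℂ) * (q + 1) else 0) - ((a z)⁻¹ : ℂˣ) := fun z => by
    by_cases e : z = y⁻¹
    · simp [e]; ring
    · rw [if_neg e, if_neg fun k => e (eq_inv_of_mul_eq_one_right k)]; ring
  rw [Finset.sum_congr rfl fun z _ => this z, Finset.sum_sub_distrib, sum_inv hF, Finset.sum_ite_eq',
    if_pos (Finset.mem_univ _)]
  split_ifs with e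
  · simp [e]
  · rw [sub_zero]

open Classical in
theorem part_rf {v : V} (hv : f.B v v ≠ 0) (h : IsCompl (F ∙ v) (f.perp (F ∙ v)))
    (ν a : Mu F q →* ℂˣ) (x : (f.restrict (f.perp (F ∙ v))).O) :
    part (ze f ν) (rf f v) a (emb f h x) =
      if a = 1 then 0 else ze (f.restrict (f.perp (F ∙ v))) (ν / a) x := by
  have e : ∀ z y : Mu F q, om f (emb f h x * rf f v z * sc f y) = (if y * z = 1 then (q : ℂ) else -1) *
      om (f.restrict (f.perp (F ∙ v))) (x * sc _ y) := fun z y => by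
    rw [← om_rf hv h, mul_assoc, sc_comm, ← emb_sc hv h, map_mul, map_mul, mul_assoc, mul_assoc]
  simp only [ze, part, e, Finset.mul_sum]
  rw [Finset.sum_comm]
  have t : ∀ y : Mu F q, ∑ z : Mu F q, (Nat.card (Mu F q) : ℂ)⁻¹ * ((((a z)⁻¹ : ℂˣ) : ℂ) *
      ((Nat.card (Mu F q) : ℂ)⁻¹ * ((((ν y)⁻¹ : ℂˣ) : ℂ) * ((if y * z = 1 then (q : ℂ) else -1) *
        om (f.restrict (f.perp (F ∙ v))) (x * sc _ y))))) = (Nat.card (Mu F q) : ℂ)⁻¹ * (Nat.card (Mu F q) : ℂ)⁻¹ *
      (((ν y)⁻¹ : ℂˣ) : ℂ) * om (f.restrict (f.perp (F ∙ v))) (x * sc _ y) *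
        (if a = 1 then 0 else (a y : ℂ) * (q + 1)) := fun y => by
    rw [← sum_eps hF, Finset.mul_sum]
    exact Finset.sum_congr rfl fun z _ => by ring
  rw [Finset.sum_congr rfl fun y _ => t y]
  split_ifs
  · simp
  · refine Finset.sum_congr rfl fun y _ => ?_
    have := q1 q
    simp only [cM hF, MonoidHom.div_apply, inv_div, Units.val_div_eq_div_val, Units.val_inv_eq_inv_val]
    field_simp

end ZeB

theorem isCharacter_ze (hf : f.Nondeg) (ν : Mu F q →* ℂˣ) : IsCharacter f.O (ze f ν) :=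
  isCharacter_part (isCharacter_om hf) (sc f) ν (MonoidHom.id _) sc_comm

theorem cen_ze (ν : Mu F q →* ℂˣ) : Cen f (ze f ν) ν :=
  fun z g => part_mul _ _ _ g z

theorem sum_ze (g : f.O) : ∑ ν : Mu F q →* ℂˣ, ze f ν g = om f g :=
  sum_part _ _ g

open Classical in
theorem ze_one (h1 : 1 ≤ finrank F V) (ν : Mu F q →* ℂˣ) :
    ((q : ℂ) + 1) * ze f ν 1 =
      (q : ℂ) ^ finrank F V + (-1) ^ finrank F V * (if ν = 1 then (q : ℂ) else -1) := by
  have e : ∀ z : Mu F q, (((ν z)⁻¹ : ℂˣ) : ℂ) * om f (1 * sc f z) = (-1) ^ finrank F V * ((ν z)⁻¹ : ℂˣ) +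
      if z = 1 then (q : ℂ) ^ finrank F V - (-1) ^ finrank F V else 0 := fun z => by
    split_ifs with hz
    · simp [hz, ZeB.om_one]
    · rw [one_mul, ZeB.om_free fun v hv => ?_, mul_comm, add_zero]
      rw [sc_apply, ← sub_eq_zero, ← one_smul F v, smul_smul, mul_one, ← sub_smul] at hv
      exact (smul_eq_zero.1 hv).resolve_left (ZeB.val_ne hz)
  rw [ze, part, ZeB.cM hF, mul_inv_cancel_left₀ (ZeB.q1 q), Finset.sum_congr rfl fun z _ => e z,
    Finset.sum_add_distrib, ← Finset.mul_sum, ZeB.sum_inv hF, Finset.sum_ite_eq', if_pos (Finset.mem_univ _)]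
  split_ifs <;> ring

/-- `om (rf v z) = -q^(n-1)` for `z ≠ 1`. -/
theorem hs_om : Hs f (om f) := fun v hv => by
  classical
  have e := fun z => ZeB.om_rf hv (isCompl_span hv) 1 z
  have s := ZeB.sum_eps hF 1 1
  simp only [map_one, one_mul, MonoidHom.one_apply, inv_one, Units.val_one, if_true] at e s
  simp only [e]
  rw [← Finset.sum_mul, s, zero_mul]

/-- A summand of a character without fixed vectors has none. -/
theorem hs_ze (hf : f.Nondeg) (ν : Mu F q →* ℂˣ) : Hs f (ze f ν) := fun v hv => by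
  have e := ZeB.part_rf hv (isCompl_span hv) ν 1 1
  rw [map_one, if_pos rfl, part_one_apply_one, ZeB.cM hF] at e
  exact (mul_eq_zero.1 e).resolve_left (inv_ne_zero (ZeB.q1 q))

open Classical in
theorem ze_off (ν : Mu F q →* ℂˣ) {g : f.O} (hg : ∀ (z : Mu F q) (v : V), g.1 v = z.val • v → v = 0) :
    ze f ν g = if ν = 1 then (-1) ^ finrank F V else 0 := by
  have e : ∀ z : Mu F q, om f (g * sc f z) = (-1) ^ finrank F V := fun z => ZeB.om_free fun v hv => by
    refine hg z⁻¹ v ?_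
    change g.1 (z.val • v) = v at hv
    rw [map_smul] at hv
    nth_rw 2 [← hv]
    rw [smul_smul, show (z⁻¹).val * z.val = 1 from Units.inv_mul _, one_smul]
  simp only [ze, part, e]
  rw [← Finset.sum_mul, ZeB.sum_inv hF, ZeB.cM hF]
  split_ifs
  · exact inv_mul_cancel_left₀ (ZeB.q1 q) _
  · simp

theorem gsum_ze_one (C : Subgroup f.O) (hC : ∀ z, sc f z ∈ C) :
    gsum (ze f 1) C = gsum (om f) C := by
  classical
  have e : ∀ z : Mu F q, ∑ x : f.O, (if x ∈ C then om f (x * sc f z) else 0) = gsum (om f) C := fun z => by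
    rw [gsum, ← Equiv.sum_comp (Equiv.mulRight (sc f z)) fun x => if x ∈ C then om f x else 0]
    exact Finset.sum_congr rfl fun x _ => by simp only [Equiv.coe_mulRight, C.mul_mem_cancel_right (hC z)]
  have t : ∀ x : f.O, (if x ∈ C then ze f 1 x else 0) =
      ((q : ℂ) + 1)⁻¹ * ∑ z : Mu F q, if x ∈ C then om f (x * sc f z) else 0 := fun x => by
    rw [ze, part, ZeB.cM hF]
    split_ifs <;> simp
  rw [gsum, Finset.sum_congr rfl fun x _ => t x, ← Finset.mul_sum, Finset.sum_comm,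
    Finset.sum_congr rfl fun z _ => e z, Finset.sum_const, Finset.card_univ, nsmul_eq_mul,
    ← Nat.card_eq_fintype_card, ZeB.cM hF, inv_mul_cancel_left₀ (ZeB.q1 q)]

open Classical in
/-- Restriction to `GU(v^⊥) × μ_v`: `om (emb h * rf v z) = om' h * (q or -1)`,
`sc y = emb (sc y) * rf v y`. -/
theorem part_ze_rf {v : V} (hv : f.B v v ≠ 0) (h : IsCompl (F ∙ v) (f.perp (F ∙ v)))
    (ν a : Mu F q →* ℂˣ) (x : (f.restrict (f.perp (F ∙ v))).O) :
    part (ze f ν) (rf f v) a (emb f h x) =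
      if a = 1 then 0 else ze (f.restrict (f.perp (F ∙ v))) (ν / a) x :=
  ZeB.part_rf hv h ν a x

end CL.WU
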