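import Cfsg.Agent.CLAS.WU.OddC
import Cfsg.Agent.CLAS.WU.ZeB

/-! In odd dimension the Weil character has no centraliser-fixed vectors.
Strong induction on the dimension: a proper invariant nondegenerate `U` gives `V = U ⊥ U^⊥`; let `W` be the summand of even
dimension, so `perp W` is the odd one (`perp (perp U) = U`); take `A'` for the restriction of `g` to `perp W` (`stabRes`),
`A = A'.map (emb f h)`, `gsum_map`, `om_emb`.  Then `gsum_eq_zero_of_le`, `gsum_ze_one`. -/

set_option autoImplicit false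

namespace CL.WU

open Module CL.Witt CL.Uni Cfsg

variable {F : Type*} [Field F] [Fintype F] {q : ℕ} {hF : Fintype.card F = q ^ 2}
  {V : Type*} [AddCommGroup V] [Module F V] [FiniteDimensional F V] {f : Form (HT hF) V}

namespace OddX

/-- The reduction step: pass to the orthogonal complement of an invariant nondegenerate subspace. -/
theorem step {W : Submodule F V} (hW : (f.restrict W).Nondeg) (g : f.O)
    (hg : ∀ x ∈ W, g.1 x ∈ W)
    (ih : ∀ g' : (f.restrict (f.perp W)).O,
      ∃ A ≤ Subgroup.centralizer {g'}, gsum (om (f.restrict (f.perp W))) A = 0) :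
    ∃ A ≤ Subgroup.centralizer {g}, gsum (om f) A = 0 := by
  have h : IsCompl W (f.perp W) := f.isCompl_perp_of_restrict_nondeg hW
  have hs : g.1 ∈ f.stab W := f.mem_stab_iff_le.2 ⟨g.2, hg⟩
  have hs' : g.1 ∈ f.stab (f.perp W) := f.stab_le_stab_perp W hs
  obtain ⟨A, hA, h0⟩ := ih (f.stabRes (f.perp W) ⟨g.1, hs'⟩)
  refine ⟨A.map (emb f h), ?_, ?_⟩
  · rintro _ ⟨a, ha, rfl⟩
    have hc := Subgroup.mem_centralizer_singleton_iff.1 (hA ha)
    refine Subgroup.mem_centralizer_singleton_iff.2 (Subtype.ext (LinearEquiv.ext fun v => ?_))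
    obtain ⟨w, hw, u, hu, rfl⟩ := Submodule.mem_sup.1
      (h.sup_eq_top ▸ Submodule.mem_top : v ∈ W ⊔ f.perp W)
    have e1 : (emb f h a).1 (g.1 u) = g.1 ((emb f h a).1 u) := by
      have e2 := congrArg (fun x : (f.restrict (f.perp W)).O => (x.1 ⟨u, hu⟩ : V)) hc
      have e3 := emb_right h a ((f.stabRes (f.perp W) ⟨g.1, hs'⟩).1 ⟨u, hu⟩)
      have e4 := emb_right h a ⟨u, hu⟩
      change (emb f h a).1 (g.1 u) = _ at e3
      change (emb f h a).1 u = _ at e4
      rw [e3, e4]
      exact e2
    change (emb f h a).1 (g.1 (w + u)) = g.1 ((emb f h a).1 (w + u))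
    rw [map_add, map_add, map_add, map_add, emb_left h a hw, emb_left h a (hg w hw), e1]
  · rw [gsum_map _ (emb_injective h)]
    unfold gsum at h0 ⊢
    simp only [om_emb h]
    have h1 := congrArg (fun t => (q : ℂ) ^ finrank F W * t) h0
    simp only [mul_zero, Finset.mul_sum, mul_ite] at h1
    exact h1

universe u

theorem ind (n : ℕ) : ∀ {V : Type u} [AddCommGroup V] [Module F V] [FiniteDimensional F V]
    {f : Form (HT hF) V}, f.Nondeg → finrank F V = n → Odd n → ∀ g : f.O,
      ∃ A ≤ Subgroup.centralizer {g}, gsum (om f) A = 0 := by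
  induction n using Nat.strong_induction_on with
  | _ n ih =>
  intro V _ _ _ f hf hn hodd g
  by_cases hind : ∀ U : Submodule F V, (∀ x ∈ U, g.1 x ∈ U) → (f.restrict U).Nondeg →
      U = ⊥ ∨ U = ⊤
  · exact exists_sub_of_indec hf (hn ▸ hodd) g hind
  · push Not at hind
    obtain ⟨U, hU, hUn, hb, ht⟩ := hind
    have hc : IsCompl U (f.perp U) := f.isCompl_perp_of_restrict_nondeg hUn
    have hd := Submodule.finrank_add_eq_of_isCompl hc
    have h1 : finrank F U ≠ 0 := fun e => hb (Submodule.finrank_eq_zero.1 e)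
    have h2 : finrank F U < finrank F V := Submodule.finrank_lt ht
    by_cases he : Odd (finrank F (f.perp U))
    · exact step hUn g hU fun g' =>
        ih (finrank F (f.perp U)) (by omega) (hf.restrict_perp hUn) rfl he g'
    · have hs : g.1 ∈ f.stab (f.perp U) :=
        f.stab_le_stab_perp U (f.mem_stab_iff_le.2 ⟨g.2, hU⟩)
      have hd2 : finrank F (f.perp (f.perp U)) = finrank F U := by rw [hf.perp_perp]
      refine step (hf.restrict_perp hUn) g (f.mem_stab_iff_le.1 hs).2 fun g' =>
        ih (finrank F U) (by omega) (hf.restrict_perp (hf.restrict_perp hUn)) hd2 ?_ g'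
      rw [Nat.odd_iff] at he hodd ⊢
      omega

end OddX

theorem exists_sub_of_odd (hf : f.Nondeg) (hodd : Odd (finrank F V)) (g : f.O) :
    ∃ A ≤ Subgroup.centralizer {g}, gsum (om f) A = 0 := by
  exact OddX.ind _ hf rfl hodd g

theorem gsum_ze_cent (hf : f.Nondeg) (hodd : Odd (finrank F V)) (g : f.O) :
    gsum (ze f 1) (Subgroup.centralizer {g}) = 0 := by
  obtain ⟨A, hA, h0⟩ := exists_sub_of_odd hf hodd g
  rw [gsum_ze_one _ fun z => Subgroup.mem_centralizer_singleton_iff.2 (sc_comm g z).symm]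
  exact gsum_eq_zero_of_le (isCharacter_om hf) hA h0

end CL.WU
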