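import Cfsg.Agent.CLAS.WU.Bas

/-! The ring `F[g]` with its involution.
`φ` is induced by `Polynomial.aeval g` (`Ideal.Quotient.liftₐ`; injective by `minpoly.dvd`).  For every `r` there is a unique
`r'` with `B (φ r x) y = B x (φ r' y)` (induction on polynomials; `g⁻¹` is a power of `g`, finite order; uniqueness from
nondegeneracy and injectivity); `s r = r'`. -/

set_option autoImplicit false

namespace CL.WU

open Module CL.Witt CL.Uni Cfsg

variable {F : Type*} [Field F] [Fintype F] {q : ℕ} {hF : Fintype.card F = q ^ 2}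
  {V : Type*} [AddCommGroup V] [Module F V] [FiniteDimensional F V] {f : Form (HT hF) V}

namespace OddL

omit [FiniteDimensional F V] in
theorem star {R : Type*} [CommRing R] [Algebra F R] (hf : f.Nondeg) (φ : R →ₐ[F] Module.End F V)
    (hφ : Function.Injective φ) (hex : ∀ r, ∃ r', ∀ x y, f.B (φ r x) y = f.B x (φ r' y)) :
    ∃ s : R →+* R, (∀ x, s (s x) = x) ∧ (∀ c : F, s (algebraMap F _ c) = algebraMap F _ (c ^ q)) ∧
      ∀ r x y, f.B (φ r x) y = f.B x (φ (s r) y) := by
  choose s hs using hex
  have uq : ∀ r r', (∀ x y, f.B (φ r x) y = f.B x (φ r' y)) → s r = r' := fun r r' h =>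
    hφ (LinearMap.ext fun y => hf.ext_right fun x => by rw [← hs, h])
  have hc : ∀ c : F, s (algebraMap F _ c) = algebraMap F _ (c ^ q) := fun c => uq _ _ fun x y => by
    rw [φ.commutes, φ.commutes, Module.algebraMap_end_apply, Module.algebraMap_end_apply,
      f.B_smul_left, f.B_smul_right, HT_σ]
  refine ⟨{ toFun := s
            map_one' := uq _ _ fun x y => by rw [map_one]; rfl
            map_mul' := fun a b => uq _ _ fun x y => by
              rw [map_mul, mul_comm (s a), map_mul, Module.End.mul_apply, Module.End.mul_apply, hs, hs]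
            map_zero' := uq _ _ fun x y => by rw [map_zero]; simp
            map_add' := fun a b => uq _ _ fun x y => by
              rw [map_add, map_add, LinearMap.add_apply, LinearMap.add_apply, f.B_add_left,
                f.B_add_right, hs, hs] }, fun r => uq _ _ fun x y => ?_, hc, hs⟩
  change f.B (φ (s r) x) y = _
  rw [f.symm y, ← hs, ← f.symm]

end OddL

theorem exists_star (hf : f.Nondeg) (g : f.O) :
    ∃ φ : AdjoinRoot (minpoly F (g.1 : Module.End F V)) →ₐ[F] Module.End F V,
      Function.Injective φ ∧ φ (AdjoinRoot.root _) = (g.1 : Module.End F V) ∧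
      ∃ s : AdjoinRoot (minpoly F (g.1 : Module.End F V)) →+*
          AdjoinRoot (minpoly F (g.1 : Module.End F V)),
        (∀ x, s (s x) = x) ∧ (∀ c : F, s (algebraMap F _ c) = algebraMap F _ (c ^ q)) ∧
        ∀ r x y, f.B (φ r x) y = f.B x (φ (s r) y) := by
  let φ : AdjoinRoot (minpoly F (g.1 : Module.End F V)) →ₐ[F] Module.End F V :=
    Ideal.Quotient.liftₐ (Ideal.span {minpoly F (g.1 : Module.End F V)})
      (Polynomial.aeval (g.1 : Module.End F V)) fun a ha => by
        obtain ⟨b, rfl⟩ := Ideal.mem_span_singleton'.1 ha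
        rw [map_mul, minpoly.aeval, mul_zero]
  have hmk : ∀ p, φ (AdjoinRoot.mk _ p) = Polynomial.aeval (g.1 : Module.End F V) p := fun _ => rfl
  have hr : φ (AdjoinRoot.root _) = (g.1 : Module.End F V) := by
    rw [← AdjoinRoot.mk_X, hmk, Polynomial.aeval_X]
  have hinj : Function.Injective φ := by
    refine (injective_iff_map_eq_zero φ).2 fun r h => ?_
    induction r using AdjoinRoot.induction_on with
    | ih p => exact AdjoinRoot.mk_eq_zero.2 (minpoly.dvd F _ (by rwa [hmk] at h))
  refine ⟨φ, hinj, hr, OddL.star hf φ hinj fun r => ?_⟩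
  have hp : ∀ (n : ℕ) (x : V), φ (AdjoinRoot.root _ ^ n) x = (g ^ n).1 x := by
    intro n x
    rw [map_pow, hr, Subgroup.coe_pow, LinearEquiv.pow_apply, Module.End.pow_apply]
    rfl
  induction r using AdjoinRoot.induction_on with
  | ih p =>
    induction p using Polynomial.induction_on' with
    | add p p' h h' =>
      obtain ⟨a, ha⟩ := h
      obtain ⟨b, hb⟩ := h'
      refine ⟨a + b, fun x y => ?_⟩
      rw [map_add, map_add, map_add, LinearMap.add_apply, LinearMap.add_apply, f.B_add_left,
        f.B_add_right, ha, hb]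
    | monomial n a =>
      refine ⟨algebraMap F _ (a ^ q) * AdjoinRoot.root _ ^ (n * (orderOf g - 1)), fun x y => ?_⟩
      have h1 : g ^ n * g ^ (n * (orderOf g - 1)) = 1 := by
        have h2 : n + n * (orderOf g - 1) = orderOf g * n := by
          obtain ⟨k, hk⟩ := Nat.exists_eq_add_of_lt (orderOf_pos g)
          rw [hk]; simp; ring
        rw [← pow_add, h2, pow_mul, pow_orderOf_eq_one, one_pow]
      have h3 : (g ^ n).1 ((g ^ (n * (orderOf g - 1))).1 y) = y := by
        change (g ^ n * g ^ (n * (orderOf g - 1))).1 y = y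
        rw [h1]; rfl
      rw [← Polynomial.C_mul_X_pow_eq_monomial, map_mul, map_pow, AdjoinRoot.mk_X, AdjoinRoot.mk_C,
        ← AdjoinRoot.algebraMap_eq, map_mul, map_mul, φ.commutes, φ.commutes, Module.End.mul_apply,
        Module.End.mul_apply, hp, hp, Module.algebraMap_end_apply, Module.algebraMap_end_apply,
        f.B_smul_left, f.B_smul_right, HT_σ, ← f.O_B (g ^ n) x, h3]

end CL.WU
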