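import Cfsg.Agent.CLAS.WU.Bas

/-! Orthogonally indecomposable modules of odd dimension are cyclic over a local ring.
`isLocalRing_of_indec`: a self-adjoint idempotent has an invariant nondegenerate range, so is `0` or `1`.  For an idempotent
`e ≠ 0, 1`: `e * s e` is self-adjoint idempotent, not `1`, so `0`; then `e + s e` is one, `≠ 0`, so `1`; the ranges of `e`
and `s e` are totally isotropic and complementary, each of dimension `≤ n / 2`, against `n` odd.  In the finite ring `R` some
positive power of each `x` is idempotent, so `x` is nilpotent or a unit.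
`exists_cyclic`: `π^i = 0 ≠ π^(i-1)`; the sesquilinear form `B x (φ (π^(i-1)) y)` is nonzero, so by polarisation
(`σ ≠ id`) `B v (φ (π^(i-1)) v) ≠ 0` for some `v`.  Every `r ≠ 0` is a unit times `π^j`, `j < i`, so divides `π^(i-1)`:
`r ↦ φ r v` is injective, and the radical of `U = R v` (invariant, by adjointness) is zero; so `U = ⊤`. -/

set_option autoImplicit false

namespace CL.WU

open Module CL.Witt CL.Uni Cfsg

variable {F : Type*} [Field F] [Fintype F] {q : ℕ} {hF : Fintype.card F = q ^ 2}
  {V : Type*} [AddCommGroup V] [Module F V] [FiniteDimensional F V] {f : Form (HT hF) V}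

variable {R : Type*} [CommRing R] [Algebra F R] [FiniteDimensional F R]

omit [Fintype F] in
theorem OddM.pw (F : Type*) [Field F] [Algebra F R] [FiniteDimensional F R] (a : R) :
    ∃ (n : ℕ) (y : R), a ^ n * (a * y) = a ^ n := by
  have : IsArtinianRing R := IsArtinianRing.of_finite F R
  obtain ⟨n, y, h⟩ := IsArtinian.exists_pow_succ_smul_dvd a (1 : R)
  refine ⟨n, y, ?_⟩
  simpa [pow_succ, mul_assoc] using h

theorem isLocalRing_of_indec (hf : f.Nondeg) (hodd : Odd (finrank F V))
    (φ : R →ₐ[F] Module.End F V) (hφ : Function.Injective φ) (s : R →+* R) (hs : ∀ x, s (s x) = x)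
    (hadj : ∀ r x y, f.B (φ r x) y = f.B x (φ (s r) y))
    (hind : ∀ U : Submodule F V, (∀ r, ∀ x ∈ U, φ r x ∈ U) → (f.restrict U).Nondeg →
      U = ⊥ ∨ U = ⊤) : IsLocalRing R := by
  have mul : ∀ a b x, φ a (φ b x) = φ (a * b) x := fun a b x => by rw [map_mul]; rfl
  have sa : ∀ e : R, e * e = e → s e = e → e = 0 ∨ e = 1 := fun e he hse => by
    rcases hind (LinearMap.range (φ e)) (by
      rintro r _ ⟨x, rfl⟩
      exact ⟨φ r x, by rw [mul, mul, mul_comm]⟩) (by
      rintro ⟨_, x, rfl⟩ h
      refine Subtype.ext (hf _ fun y => ?_)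
      have : f.B (φ e x) (φ e y) = 0 := h ⟨_, y, rfl⟩
      change f.B (φ e x) y = 0
      rwa [hadj, mul, hse, he, ← hse, ← hadj] at this) with h | h
    · exact Or.inl (hφ (by rw [map_zero, LinearMap.range_eq_bot.1 h]))
    · refine Or.inr (hφ (LinearMap.ext fun x => ?_))
      obtain ⟨y, rfl⟩ := LinearMap.range_eq_top.1 h x
      rw [mul, he, map_one]
      rfl
  have iso : ∀ e : R, s e * e = 0 → 2 * finrank F (LinearMap.range (φ e)) ≤ finrank F V := fun e he => by
    have := Submodule.finrank_mono (s := LinearMap.range (φ e)) (t := f.perp (LinearMap.range (φ e))) (by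
      rintro _ ⟨x, rfl⟩ _ ⟨y, rfl⟩
      rw [hadj, mul, he, map_zero, LinearMap.zero_apply, map_zero])
    have := hf.finrank_add_finrank_perp (LinearMap.range (φ e))
    omega
  have id : ∀ e : R, e * e = e → e = 0 ∨ e = 1 := fun e he => by
    have he' : s e * s e = s e := by rw [← map_mul, he]
    rcases sa (e * s e) (by linear_combination s e * s e * he + e * he')
      (by rw [map_mul, hs, mul_comm]) with h | h
    · rcases sa (e + s e) (by linear_combination he + he' + 2 * h) (by rw [map_add, hs, add_comm])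
        with h' | h'
      · exact Or.inl (by linear_combination e * h' - he - h)
      · exfalso
        have h1 := iso e (by rw [mul_comm, h])
        have h2 := iso (s e) (by rw [hs, h])
        have h3 := Submodule.finrank_add_le_finrank_add_finrank (LinearMap.range (φ e))
          (LinearMap.range (φ (s e)))
        rw [show LinearMap.range (φ e) ⊔ LinearMap.range (φ (s e)) = ⊤ from eq_top_iff.2 fun x _ =>
          Submodule.mem_sup.2 ⟨_, ⟨x, rfl⟩, _, ⟨x, rfl⟩, by
            rw [← LinearMap.add_apply, ← map_add, h', map_one]; rfl⟩, finrank_top] at h3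
        obtain ⟨k, hk⟩ := hodd
        omega
    · exact Or.inr (by linear_combination (1 - e) * h + s e * he)
  have : Nontrivial V := Module.nontrivial_of_finrank_pos (R := F) hodd.pos
  have : Nontrivial R := φ.toRingHom.domain_nontrivial
  refine IsLocalRing.of_isUnit_or_isUnit_one_sub_self fun a => ?_
  obtain ⟨n, y, h⟩ := OddM.pw F a
  have hk : ∀ k, a ^ n * (a * y) ^ k = a ^ n := fun k => by
    induction k with
    | zero => simp
    | succ k ih => rw [pow_succ, ← mul_assoc, ih, h]
  rcases id ((a * y) ^ (n + 1)) (by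
    linear_combination (exp := 1) (a * y ^ (n + 1)) * hk (n + 1)) with e | e
  · exact Or.inr (IsNilpotent.isUnit_one_sub ⟨n, by rw [← hk (n + 1), e, mul_zero]⟩)
  · exact Or.inl (isUnit_of_mul_isUnit_left (IsUnit.of_pow_eq_one e n.succ_ne_zero))

theorem exists_cyclic (hf : f.Nondeg) [IsLocalRing R] (π : R)
    (hπ : IsLocalRing.maximalIdeal R = Ideal.span {π})
    (φ : R →ₐ[F] Module.End F V) (hφ : Function.Injective φ) (s : R →+* R)
    (hadj : ∀ r x y, f.B (φ r x) y = f.B x (φ (s r) y))
    (hind : ∀ U : Submodule F V, (∀ r, ∀ x ∈ U, φ r x ∈ U) → (f.restrict U).Nondeg →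
      U = ⊥ ∨ U = ⊤) : ∃ v : V, Function.Bijective (fun r : R => φ r v) := by
  classical
  have mul : ∀ a b x, φ a (φ b x) = φ (a * b) x := fun a b x => by rw [map_mul]; rfl
  have un : ∀ c : R, IsUnit c ∨ π ∣ c := fun c => or_iff_not_imp_left.2 fun h => by
    rw [← Ideal.mem_span_singleton, ← hπ]
    exact h
  have nil : ∃ n, π ^ n = 0 := by
    obtain ⟨n, y, h⟩ := OddM.pw F π
    have u : IsUnit (1 - π * y) := IsLocalRing.isUnit_one_sub_self_of_mem_nonunits _ (by
      rw [← IsLocalRing.mem_maximalIdeal, hπ, Ideal.mem_span_singleton]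
      exact dvd_mul_right _ _)
    exact ⟨n, u.mul_left_eq_zero.1 (by linear_combination -h)⟩
  obtain ⟨k, k0, k1⟩ : ∃ k, π ^ k ≠ 0 ∧ π ^ (k + 1) = 0 := by
    have h0 : Nat.find nil ≠ 0 := fun e => by simpa [e] using Nat.find_spec nil
    obtain ⟨k, hk⟩ := Nat.exists_eq_succ_of_ne_zero h0
    exact ⟨k, Nat.find_min nil (by omega), by rw [← Nat.succ_eq_add_one, ← hk]; exact Nat.find_spec nil⟩
  have dv : ∀ r : R, r ≠ 0 → r ∣ π ^ k := fun r hr => by
    have : ∀ j, r ∣ π ^ j ∨ π ^ (j + 1) ∣ r := fun j => by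
      induction j with
      | zero => simpa [isUnit_iff_dvd_one] using un r
      | succ j ih =>
        rcases ih with h | ⟨c, rfl⟩
        · exact Or.inl (h.trans (pow_dvd_pow _ j.le_succ))
        · rcases un c with h | h
          · exact Or.inl (h.mul_right_dvd.2 dvd_rfl)
          · exact Or.inr (by rw [pow_succ π (j + 1)]; exact mul_dvd_mul_left _ h)
    exact (this k).resolve_right fun h => hr (zero_dvd_iff.1 (k1 ▸ h))
  obtain ⟨v, hv⟩ : ∃ v, f.B v (φ (π ^ k) v) ≠ 0 := by
    by_contra! h
    obtain ⟨c, hc⟩ := DFunLike.ne_iff.1 (sig_ne_id hF)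
    refine k0 (hφ (LinearMap.ext fun y => ?_))
    rw [map_zero]
    refine hf.right _ fun x => ?_
    have h1 := h (x + y)
    have h2 := h (c • x + y)
    simp only [map_add, map_smulₛₗ, LinearMap.add_apply, LinearMap.smul_apply, smul_eq_mul, h,
      RingHom.id_apply] at h1 h2
    refine (mul_eq_zero.1 (?_ : ((HT hF).σ c - c) * f.B x (φ (π ^ k) y) = 0)).resolve_left
      (sub_ne_zero.2 hc)
    linear_combination h2 - c * h1
  let L : R →ₗ[F] V := LinearMap.applyₗ v ∘ₗ φ.toLinearMap
  refine ⟨v, (LinearMap.ker_eq_bot (f := L)).1 (LinearMap.ker_eq_bot'.2 fun r hr => by_contra fun n => ?_),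
    (LinearMap.range_eq_top (f := L)).1 ((hind _ ?_ ?_).resolve_left fun h => ?_)⟩
  · obtain ⟨c, hc⟩ := dv r n
    change φ r v = 0 at hr
    rw [hc, mul_comm, ← mul, hr, map_zero, map_zero] at hv
    exact hv rfl
  · rintro r _ ⟨c, rfl⟩
    exact ⟨r * c, (mul r c v).symm⟩
  · rintro ⟨_, r, rfl⟩ h
    by_contra n
    obtain ⟨c, hc⟩ := dv (s r) fun e => n (Subtype.ext (hf _ fun y => by
      change f.B (φ r v) y = 0
      rw [hadj, e, map_zero, LinearMap.zero_apply, map_zero]))
    have : f.B (φ r v) (φ c v) = 0 := h ⟨_, c, rfl⟩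
    rw [hadj, mul, ← hc] at this
    exact hv this
  · have : φ (π ^ k) v = 0 := LinearMap.congr_fun (LinearMap.range_eq_bot.1 h) _
    rw [this, map_zero] at hv
    exact hv rfl

end CL.WU
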