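import Cfsg.Agent.CLAS.WU.OddR
import Cfsg.Agent.CLAS.WU.OddL
import Cfsg.Agent.CLAS.WU.OddM

/-! The indecomposable case.  `R = AdjoinRoot (minpoly F g)` is a principal
ideal ring (quotient of `F[X]`), finite; `A = {x | ∃ r, r * s r = 1 ∧ x = φ r}` is in bijection with the norm one elements,
commutes with `g = φ root`, and `r ↦ φ r v` carries `ker (mulLeft (a - 1))` onto `ker (φ a - 1)`. -/

set_option autoImplicit false

namespace CL.WU

open Module CL.Witt CL.Uni Cfsg

variable {F : Type*} [Field F] [Fintype F] {q : ℕ} {hF : Fintype.card F = q ^ 2}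
  {V : Type*} [AddCommGroup V] [Module F V] [FiniteDimensional F V] {f : Form (HT hF) V}

namespace OddC

variable {R : Type*} [CommRing R] [Algebra F R] (φ : R →ₐ[F] Module.End F V) (s : R →+* R)
  (hadj : ∀ r x y, f.B (φ r x) y = f.B x (φ (s r) y))

omit [FiniteDimensional F V] in
theorem ap_ap (a b : R) (x : V) : φ a (φ b x) = φ (a * b) x := by
  rw [map_mul]; rfl

/-- The isometry given by a norm one element. -/
noncomputable def iso (r : R) (hr : r * s r = 1) : f.O :=
  ⟨LinearEquiv.ofLinear (φ r) (φ (s r))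
    (LinearMap.ext fun x => by
      change φ r (φ (s r) x) = x
      rw [ap_ap, hr, map_one]; rfl)
    (LinearMap.ext fun x => by
      change φ (s r) (φ r x) = x
      rw [ap_ap, mul_comm, hr, map_one]; rfl), by
    have h : ∀ x y, f.B (φ r x) (φ r y) = f.B x y := fun x y => by
      rw [hadj, ap_ap, mul_comm, hr, map_one]; rfl
    refine ⟨h, fun x => ?_⟩
    change f.q (φ r x) = f.q x
    rw [f.herm_q, f.herm_q, h]⟩

omit [FiniteDimensional F V] in
theorem iso_apply (r : R) (hr : r * s r = 1) (x : V) : (iso φ s hadj r hr).1 x = φ r x := rfl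

/-- The subgroup of norm one elements. -/
def grp (f : Form (HT hF) V) (hs : ∀ x, s (s x) = x) : Subgroup f.O where
  carrier := {x | ∃ r, r * s r = 1 ∧ ∀ v, x.1 v = φ r v}
  mul_mem' := by
    rintro a b ⟨r, hr, ha⟩ ⟨t, ht, hb⟩
    refine ⟨r * t, ?_, fun v => ?_⟩
    · rw [map_mul, mul_mul_mul_comm, hr, ht, one_mul]
    · change a.1 (b.1 v) = _
      rw [hb, ha, ap_ap]
  one_mem' := ⟨1, by simp, fun v => by simp⟩
  inv_mem' := by
    rintro a ⟨r, hr, ha⟩
    refine ⟨s r, by rw [hs, mul_comm, hr], fun v => ?_⟩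
    change a.1.symm v = _
    rw [LinearEquiv.symm_apply_eq, ha, ap_ap, hr, map_one]; rfl

/-- The orbit map. -/
def orb (v : V) : R →ₗ[F] V where
  toFun r := φ r v
  map_add' a b := by simp
  map_smul' c a := by simp

omit [FiniteDimensional F V] in
theorem fd_iso {v : V} (hv : Function.Bijective (fun r : R => φ r v)) (r : R) (hr : r * s r = 1) :
    fd (iso φ s hadj r hr).1 = finrank F (LinearMap.ker (LinearMap.mulLeft F (r - 1))) := by
  let e : R ≃ₗ[F] V := LinearEquiv.ofBijective (orb φ v) hv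
  have he : ∀ t, e t = φ t v := fun _ => rfl
  rw [fd, ← LinearEquiv.finrank_map_eq e]
  refine congrArg (fun U : Submodule F V => finrank F U) ?_
  ext x
  obtain ⟨t, rfl⟩ := e.surjective x
  have h1 : ((iso φ s hadj r hr).1 : V →ₗ[F] V) (e t) - e t = e ((r - 1) * t) := by
    change φ r (e t) - e t = _
    rw [he, he, ap_ap, sub_mul, one_mul, map_sub]; rfl
  rw [LinearMap.mem_ker, LinearMap.sub_apply, LinearMap.id_apply, h1, Submodule.mem_map_equiv,
    LinearEquiv.symm_apply_apply, LinearMap.mem_ker, LinearMap.mulLeft_apply, e.map_eq_zero_iff]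

include hadj in
theorem main [IsPrincipalIdealRing R] (hf : f.Nondeg) (hodd : Odd (finrank F V))
    (hφ : Function.Injective φ) (hs : ∀ x, s (s x) = x)
    (hsF : ∀ c : F, s (algebraMap F R c) = algebraMap F R (c ^ q))
    (hind : ∀ U : Submodule F V, (∀ r, ∀ x ∈ U, φ r x ∈ U) → (f.restrict U).Nondeg →
      U = ⊥ ∨ U = ⊤) : gsum (om f) (grp φ s f hs) = 0 := by
  classical
  have : FiniteDimensional F R := FiniteDimensional.of_injective φ.toLinearMap hφ
  have : Finite R := Module.finite_of_finite F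
  have : Fintype R := Fintype.ofFinite R
  have : IsLocalRing R := isLocalRing_of_indec hf hodd φ hφ s hs hadj hind
  obtain ⟨π, hπ⟩ := (IsPrincipalIdealRing.principal (IsLocalRing.maximalIdeal R)).principal
  obtain ⟨v, hv⟩ := exists_cyclic hf π hπ φ hφ s hadj hind
  have hr : finrank F R = finrank F V := (LinearEquiv.ofBijective (orb φ v) hv).finrank_eq
  have h0 := sum_norm_one (hF := hF) π hπ s hs hsF (hr ▸ hodd)
  have h1 : gsum (om f) (grp φ s f hs) =
      ∑ a ∈ Finset.univ.filter (fun a : R => a * s a = 1), (-1) ^ finrank F V *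
        (-(q : ℂ)) ^ finrank F (LinearMap.ker (LinearMap.mulLeft F (a - 1))) := by
    rw [gsum, ← Finset.sum_filter]
    symm
    refine Finset.sum_bij (fun a ha => iso φ s hadj a (Finset.mem_filter.1 ha).2) ?_ ?_ ?_ ?_
    · intro a ha
      exact Finset.mem_filter.2 ⟨Finset.mem_univ _, a, (Finset.mem_filter.1 ha).2, fun _ => rfl⟩
    · intro a ha b hb h
      refine hφ (LinearMap.ext fun x => ?_)
      rw [← iso_apply φ s hadj a (Finset.mem_filter.1 ha).2, h, iso_apply]
    · intro x hx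
      obtain ⟨r, hr, hx⟩ := (Finset.mem_filter.1 hx).2
      exact ⟨r, Finset.mem_filter.2 ⟨Finset.mem_univ _, hr⟩,
        Subtype.ext (LinearEquiv.ext fun y => (hx y).symm)⟩
    · intro a ha
      rw [om, fd_iso φ s hadj hv]
  rw [h1, ← Finset.mul_sum]
  convert mul_zero _

end OddC

theorem exists_sub_of_indec (hf : f.Nondeg) (hodd : Odd (finrank F V)) (g : f.O)
    (hind : ∀ U : Submodule F V, (∀ x ∈ U, g.1 x ∈ U) → (f.restrict U).Nondeg → U = ⊥ ∨ U = ⊤) :
    ∃ A ≤ Subgroup.centralizer {g}, gsum (om f) A = 0 := by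
  obtain ⟨φ, hφ, hg, s, hs, hsF, hadj⟩ := exists_star hf g
  have : IsPrincipalIdealRing (AdjoinRoot (minpoly F (g.1 : Module.End F V))) :=
    IsPrincipalIdealRing.of_surjective (AdjoinRoot.mk _) AdjoinRoot.mk_surjective
  have hg' : ∀ x, g.1 x = φ (AdjoinRoot.root _) x := fun x => by rw [hg]; rfl
  refine ⟨OddC.grp φ s f hs, ?_, OddC.main φ s hadj hf hodd hφ hs hsF fun U hU => hind U ?_⟩
  · rintro x ⟨r, -, hx⟩
    rw [Subgroup.mem_centralizer_singleton_iff]
    refine Subtype.ext (LinearEquiv.ext fun v => ?_)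
    change x.1 (g.1 v) = g.1 (x.1 v)
    rw [hx, hx, hg', hg', OddC.ap_ap, OddC.ap_ap, mul_comm]
  · intro x hx
    rw [hg']
    exact hU _ x hx

end CL.WU
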