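import Cfsg.Agent.CLAS.WU.Bas

/-! The sum over the norm one units of a local ring (Cayley transform and a filtration count). -/

set_option autoImplicit false

namespace CL.WU

open Module CL.Witt CL.Uni Cfsg

namespace OddR

open IsLocalRing Finset

variable {R : Type*} [CommRing R] [Fintype R] [IsLocalRing R] {s : R →+* R}

omit [Fintype R] in
theorem s_mem (hs : ∀ x, s (s x) = x) {x : R} (hx : x ∈ maximalIdeal R) : s x ∈ maximalIdeal R := by
  rw [mem_maximalIdeal, mem_nonunits_iff] at hx ⊢
  intro h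
  exact hx (by simpa [hs] using h.map s)

omit [Fintype R] in
theorem unit_iff {x : R} : IsUnit x ↔ x ∉ maximalIdeal R := by
  rw [mem_maximalIdeal, mem_nonunits_iff, not_not]

omit [Fintype R] in
theorem den_unit (hs : ∀ x, s (s x) = x) {e e' : R} (h2 : s e' = e) (hu : IsUnit (e - e'))
    {t : R} (ht : s t = t) : IsUnit (1 + e' * t) := by
  rw [unit_iff]
  intro h
  have h' := s_mem hs h
  rw [map_add, map_one, map_mul, h2, ht] at h'
  have h3 : (e - e') * t ∈ maximalIdeal R := by
    have := sub_mem h' h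
    convert this using 1; ring
  have h4 : t ∈ maximalIdeal R := (Ideal.unit_mul_mem_iff_mem _ hu).1 h3
  have h5 : (1 : R) ∈ maximalIdeal R := by
    have := sub_mem h (Ideal.mul_mem_left _ e' h4)
    simpa using this
  exact (unit_iff.1 isUnit_one) h5

open Classical in
theorem cay (hs : ∀ x, s (s x) = x) {e e' : R} (h1 : s e = e') (h2 : s e' = e) (hu : IsUnit (e - e'))
    (I : Ideal R) :
    (univ.filter fun t : R => t ∈ I ∧ s t = t).card =
      (univ.filter fun a : R => a * s a = 1 ∧ a - 1 ∈ I ∧ IsUnit (a * e' - e)).card := by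
  refine Finset.card_bij (fun t _ => (1 + e * t) * Ring.inverse (1 + e' * t)) ?_ ?_ ?_
  · intro t ht
    obtain ⟨tI, ts⟩ := (mem_filter.1 ht).2
    have hd := den_unit hs h2 hu ts
    set w := Ring.inverse (1 + e' * t) with hw
    have e1 : (1 + e' * t) * w = 1 := Ring.mul_inverse_cancel _ hd
    have e2 : (1 + e * t) * s w = 1 := by
      have := congrArg s e1
      rwa [map_mul, map_add, map_one, map_mul, h2, ts] at this
    refine mem_filter.2 ⟨mem_univ _, ?_, ?_, ?_⟩
    · rw [map_mul, map_add, map_one, map_mul, h1, ts]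
      linear_combination ((1 + e * t) * s w) * e1 + e2
    · have : (1 + e * t) * w - 1 = ((e - e') * w) * t := by linear_combination e1
      rw [this]; exact I.mul_mem_left _ tI
    · have : (1 + e * t) * w * e' - e = -((e - e') * w) := by linear_combination e * e1
      rw [this]
      exact (hu.mul (IsUnit.of_mul_eq_one_right _ e1)).neg
  · intro t ht t' ht' h
    have hd := den_unit hs h2 hu (mem_filter.1 ht).2.2
    have hd' := den_unit hs h2 hu (mem_filter.1 ht').2.2
    have e1 := Ring.mul_inverse_cancel _ hd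
    have e2 := Ring.mul_inverse_cancel _ hd'
    have : (e - e') * t = (e - e') * t' := by
      linear_combination (1 + e' * t) * (1 + e' * t') * h - (1 + e * t) * (1 + e' * t') * e1 +
        (1 + e * t') * (1 + e' * t) * e2
    exact hu.mul_left_cancel this
  · intro a ha
    obtain ⟨a1, aI, au⟩ := (mem_filter.1 ha).2
    set w := Ring.inverse (a * e' - e) with hw
    have e1 : (a * e' - e) * w = 1 := Ring.mul_inverse_cancel _ au
    have e2 : (s a * e - e') * s w = 1 := by
      have := congrArg s e1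
      rwa [map_mul, map_sub, map_mul, h1, h2, map_one] at this
    have e3 : s w = -(a * w) := by
      linear_combination (-(s w)) * e1 + (-(a * w)) * e2 + (w * e * s w) * a1
    have ts : s ((1 - a) * w) = (1 - a) * w := by
      rw [map_mul, map_sub, map_one, e3]
      linear_combination w * a1
    refine ⟨(1 - a) * w, mem_filter.2 ⟨mem_univ _, ?_, ts⟩, ?_⟩
    · have : (1 - a) * w = (-w) * (a - 1) := by ring
      rw [this]; exact I.mul_mem_left _ aI
    · have e4 := Ring.mul_inverse_cancel _ (den_unit hs h2 hu ts)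
      linear_combination a * e4 + (Ring.inverse (1 + e' * ((1 - a) * w))) * (a - 1) * e1

omit [IsLocalRing R] in
open Classical in
theorem sq_fix (hs : ∀ x, s (s x) = x) {e e' : R} (h1 : s e = e') (h2 : s e' = e) (hu : IsUnit (e - e'))
    (I : Ideal R) (hI : ∀ x ∈ I, s x ∈ I) :
    (univ.filter fun t : R => t ∈ I ∧ s t = t).card ^ 2 = Nat.card I := by
  have : Nat.card I = (univ.filter fun t : R => t ∈ I).card := by
    rw [Nat.card_eq_fintype_card, Fintype.card_subtype]
  rw [this, sq, ← card_product]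
  refine Finset.card_bij (fun p _ => p.1 + e * p.2) ?_ ?_ ?_
  · intro p hp
    obtain ⟨a, b⟩ := mem_product.1 hp
    exact mem_filter.2 ⟨mem_univ _, add_mem (mem_filter.1 a).2.1 (I.mul_mem_left _ (mem_filter.1 b).2.1)⟩
  · intro p hp p' hp' h
    obtain ⟨a, b⟩ := mem_product.1 hp
    obtain ⟨a', b'⟩ := mem_product.1 hp'
    have h' := congrArg s h
    simp only [map_add, map_mul, h1, (mem_filter.1 a).2.2, (mem_filter.1 b).2.2, (mem_filter.1 a').2.2,
      (mem_filter.1 b').2.2] at h'
    have k : p.2 = p'.2 := hu.mul_left_cancel (by linear_combination h - h')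
    refine Prod.ext ?_ k
    rw [k] at h
    exact add_right_cancel h
  · intro z hz
    have zI := (mem_filter.1 hz).2
    set w := Ring.inverse (e - e') with hw
    have e1 : (e - e') * w = 1 := Ring.mul_inverse_cancel _ hu
    have e2 : (e' - e) * s w = 1 := by
      have := congrArg s e1
      rwa [map_mul, map_sub, h1, h2, map_one] at this
    have e3 : s w = -w := by linear_combination (-(s w)) * e1 + (-w) * e2
    have yI : w * (z - s z) ∈ I := I.mul_mem_left _ (sub_mem zI (hI z zI))
    have ys : s (w * (z - s z)) = w * (z - s z) := by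
      rw [map_mul, map_sub, hs, e3]; ring
    refine ⟨(z - e * (w * (z - s z)), w * (z - s z)), mem_product.2 ⟨mem_filter.2 ⟨mem_univ _,
      sub_mem zI (I.mul_mem_left _ yI), ?_⟩, mem_filter.2 ⟨mem_univ _, yI, ys⟩⟩, by ring⟩
    rw [map_sub, map_mul, ys, h1]
    linear_combination (z - s z) * e1

open Classical in
/-- The norm one elements: those in the Cayley chart and those congruent to `e / e'`. -/
theorem card_all (hs : ∀ x, s (s x) = x) {e e' : R} (h1 : s e = e') (h2 : s e' = e) (hu : IsUnit (e - e'))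
    (he : IsUnit e') :
    (univ.filter fun a : R => a * s a = 1).card =
      (univ.filter fun t : R => t ∈ (⊤ : Ideal R) ∧ s t = t).card +
        (univ.filter fun a : R => a * s a = 1 ∧ a - 1 ∈ maximalIdeal R).card := by
  rw [cay hs h1 h2 hu, ← card_filter_add_card_filter_not (s := univ.filter fun a : R => a * s a = 1)
    (fun a => IsUnit (a * e' - e)), filter_filter, filter_filter]
  congr 1
  · congr 1; ext a; simp
  · have he0 : IsUnit e := by simpa [h2] using he.map s
    set w := Ring.inverse e with hw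
    have e1 : e * w = 1 := Ring.mul_inverse_cancel _ he0
    have e2 : e' * s w = 1 := by
      have := congrArg s e1
      rwa [map_mul, h1, map_one] at this
    have wu : IsUnit w := IsUnit.of_mul_eq_one_right _ e1
    refine Finset.card_bij (fun a _ => a * e' * w) ?_ ?_ ?_
    · intro a ha
      obtain ⟨a1, a2⟩ := (mem_filter.1 ha).2
      rw [unit_iff, not_not] at a2
      refine mem_filter.2 ⟨mem_univ _, ?_, ?_⟩
      · rw [map_mul, map_mul, h2]
        linear_combination (a * s a * e' * s w) * e1 + (a * s a) * e2 + a1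
      · have : a * e' * w - 1 = w * (a * e' - e) := by linear_combination e1
        rw [this]; exact Ideal.mul_mem_left _ _ a2
    · intro a _ b _ h
      exact he.mul_right_cancel (wu.mul_right_cancel h)
    · intro b hb
      obtain ⟨b1, b2⟩ := (mem_filter.1 hb).2
      refine ⟨b * e * s w, mem_filter.2 ⟨mem_univ _, ?_, ?_⟩, ?_⟩
      · rw [map_mul, map_mul, h1, hs]
        linear_combination (b * s b * e' * s w) * e1 + (b * s b) * e2 + b1
      · rw [unit_iff, not_not]
        have : b * e * s w * e' - e = e * (b - 1) := by linear_combination (b * e) * e2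
        rw [this]; exact Ideal.mul_mem_left _ _ b2
      · linear_combination (b * e' * s w) * e1 + b * e2

open Classical in
theorem card_sub (hs : ∀ x, s (s x) = x) {e e' : R} (h1 : s e = e') (h2 : s e' = e) (hu : IsUnit (e - e'))
    (I : Ideal R) (hI : I ≤ maximalIdeal R) :
    (univ.filter fun a : R => a * s a = 1 ∧ a - 1 ∈ I).card =
      (univ.filter fun t : R => t ∈ I ∧ s t = t).card := by
  rw [cay hs h1 h2 hu]
  congr 1
  ext a
  simp only [mem_filter, mem_univ, true_and]
  refine ⟨fun h => ⟨h.1, h.2, ?_⟩, fun h => ⟨h.1, h.2.1⟩⟩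
  rw [unit_iff]
  intro k
  have : e - e' ∈ maximalIdeal R := by
    have := sub_mem (Ideal.mul_mem_left _ e' (hI h.2)) k
    convert this using 1; ring
  exact unit_iff.1 hu this

theorem exists_nil {π : R} (hπ : maximalIdeal R = Ideal.span {π}) :
    ∃ i, π ^ i = 0 ∧ ∀ j < i, π ^ j ≠ 0 := by
  classical
  have hm : π ∈ maximalIdeal R := hπ ▸ Ideal.mem_span_singleton_self π
  have : ∃ i, π ^ i = 0 := by
    obtain ⟨a, b, hab, h⟩ : ∃ a b : ℕ, a < b ∧ π ^ a = π ^ b := by
      obtain ⟨a, b, hab, h⟩ := Finite.exists_ne_map_eq_of_infinite (fun n : ℕ => π ^ n)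
      rcases lt_or_gt_of_ne hab with k | k
      exacts [⟨a, b, k, h⟩, ⟨b, a, k, h.symm⟩]
    obtain ⟨c, rfl⟩ := Nat.exists_eq_add_of_lt hab
    have hu : IsUnit (1 - π ^ (c + 1)) := by
      rw [unit_iff]
      intro k
      have := add_mem k (Ideal.pow_mem_of_mem _ hm (c + 1) (Nat.succ_pos c))
      exact unit_iff.1 (isUnit_one (M := R)) (by simpa using this)
    refine ⟨a, hu.mul_left_cancel ?_⟩
    rw [add_assoc, pow_add] at h
    linear_combination h
  exact ⟨Nat.find this, Nat.find_spec this, fun j hj => Nat.find_min this hj⟩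

theorem card_step {π : R} (hπ : maximalIdeal R = Ideal.span {π}) {j : ℕ} (hj : π ^ j ≠ 0) :
    Nat.card (Ideal.span {π ^ j} : Ideal R) =
      Nat.card (R ⧸ maximalIdeal R) * Nat.card (Ideal.span {π ^ (j + 1)} : Ideal R) := by
  have hm : π ∈ maximalIdeal R := hπ ▸ Ideal.mem_span_singleton_self π
  let φ : R →+ R := AddMonoidHom.mulRight (π ^ j)
  have h1 : φ.range = (Ideal.span {π ^ j} : Ideal R).toAddSubgroup := by
    ext x
    simp [φ, Ideal.mem_span_singleton']
  have h2 : (Ideal.span {π ^ (j + 1)} : Ideal R).toAddSubgroup.comap φ = (maximalIdeal R).toAddSubgroup := by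
    ext r
    simp only [φ, AddSubgroup.mem_comap, Submodule.mem_toAddSubgroup, AddMonoidHom.coe_mulRight,
      Ideal.mem_span_singleton']
    constructor
    · rintro ⟨t, ht⟩
      have k : r - t * π ∈ maximalIdeal R := by
        by_contra k
        exact hj ((unit_iff.2 k).mul_left_cancel (by linear_combination -ht))
      simpa using add_mem k (Ideal.mul_mem_left _ t hm)
    · intro hr
      rw [hπ, Ideal.mem_span_singleton'] at hr
      obtain ⟨t, rfl⟩ := hr
      exact ⟨t, by ring⟩
  have h3 := AddSubgroup.index_comap (Ideal.span {π ^ (j + 1)} : Ideal R).toAddSubgroup φ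
  rw [h1, h2] at h3
  have hle : (Ideal.span {π ^ (j + 1)} : Ideal R).toAddSubgroup ≤ (Ideal.span {π ^ j} : Ideal R).toAddSubgroup :=
    Ideal.span_singleton_le_span_singleton.2 (pow_dvd_pow π (Nat.le_succ j))
  have h4 := AddSubgroup.index_mul_card
    ((Ideal.span {π ^ (j + 1)} : Ideal R).toAddSubgroup.addSubgroupOf (Ideal.span {π ^ j} : Ideal R).toAddSubgroup)
  rw [Nat.card_congr (AddSubgroup.addSubgroupOfEquivOfLe hle).toEquiv] at h4
  change _ = (maximalIdeal R).toAddSubgroup.index * _
  rw [h3]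
  exact h4.symm

theorem card_pow {π : R} (hπ : maximalIdeal R = Ideal.span {π}) {i : ℕ} (h0 : π ^ i = 0)
    (hi : ∀ j < i, π ^ j ≠ 0) (k j : ℕ) (h : j + k = i) :
    Nat.card (Ideal.span {π ^ j} : Ideal R) = Nat.card (R ⧸ maximalIdeal R) ^ k := by
  induction k generalizing j with
  | zero =>
    rw [add_zero] at h
    rw [h, h0, Ideal.span_singleton_zero]
    simp
  | succ k ih => rw [card_step hπ (hi j (by omega)), ih (j + 1) (by omega), _root_.pow_succ']

omit [Fintype R] in
theorem exists_val {π : R} (hπ : maximalIdeal R = Ideal.span {π}) {i : ℕ} (h0 : π ^ i = 0)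
    (hi : ∀ j < i, π ^ j ≠ 0) (x : R) :
    ∃ v ≤ i, Ideal.span {x} = Ideal.span {π ^ v} ∧ ∀ j < i, (x ∈ Ideal.span {π ^ (j + 1)} ↔ j < v) := by
  classical
  have hex : ∃ v, v = i ∨ x ∉ Ideal.span {π ^ (v + 1)} := ⟨i, Or.inl rfl⟩
  have hv := Nat.find_spec hex
  have hlt : ∀ j < Nat.find hex, x ∈ Ideal.span {π ^ (j + 1)} := fun j hj => by
    have := Nat.find_min hex hj
    push Not at this
    exact this.2
  have hle : Nat.find hex ≤ i := Nat.find_min' hex (Or.inl rfl)
  generalize Nat.find hex = v at hv hlt hle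
  have hx : x ∈ Ideal.span {π ^ v} := by
    rcases Nat.eq_zero_or_pos v with h | h
    · rw [h]; simp
    · have := hlt (v - 1) (by omega)
      rwa [Nat.sub_add_cancel h] at this
  refine ⟨v, hle, ?_, fun j hj => ⟨fun h => ?_, hlt j⟩⟩
  · rcases hv with h | h
    · rw [h, h0] at hx ⊢
      rw [Ideal.span_singleton_zero, Ideal.mem_bot] at hx
      rw [hx]
    · obtain ⟨t, rfl⟩ := Ideal.mem_span_singleton'.1 hx
      refine Ideal.span_singleton_mul_left_unit (unit_iff.2 fun k => h ?_) _
      rw [hπ, Ideal.mem_span_singleton'] at k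
      obtain ⟨u, rfl⟩ := k
      exact Ideal.mem_span_singleton'.2 ⟨u, by ring⟩
  · by_contra k
    rcases hv with h' | h'
    · omega
    · exact h' (Ideal.span_singleton_le_span_singleton.2 (pow_dvd_pow π (by omega)) h)

theorem alt {i : ℕ} (hi : Odd i) : ∑ j ∈ range i, (-1 : ℂ) ^ j = 1 := by
  rw [neg_one_geom_sum, if_neg (Nat.not_even_iff_odd.2 hi)]

end OddR

variable {F : Type*} [Field F] [Fintype F] {q : ℕ} {hF : Fintype.card F = q ^ 2}
  {V : Type*} [AddCommGroup V] [Module F V] [FiniteDimensional F V] {f : Form (HT hF) V}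

include hF in
open Classical in
theorem sum_norm_one {R : Type*} [CommRing R] [Algebra F R] [FiniteDimensional F R] [Fintype R]
    [IsLocalRing R] (π : R) (hπ : IsLocalRing.maximalIdeal R = Ideal.span {π}) (s : R →+* R)
    (hs : ∀ x, s (s x) = x) (hsF : ∀ c : F, s (algebraMap F R c) = algebraMap F R (c ^ q))
    (hodd : Odd (finrank F R)) :
    ∑ a ∈ Finset.univ.filter (fun a : R => a * s a = 1),
      (-(q : ℂ)) ^ finrank F (LinearMap.ker (LinearMap.mulLeft F (a - 1))) = 0 := by
  have hq : 2 ≤ q := two_le_q (hF := hF)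
  have hq2 : 2 ≤ q ^ 2 := by nlinarith
  obtain ⟨ε, hε⟩ := SqField.exists_pow_q_ne hF
  have h1 : s (algebraMap F R ε) = algebraMap F R (ε ^ q) := hsF ε
  have h2 : s (algebraMap F R (ε ^ q)) = algebraMap F R ε := by rw [hsF, SqField.pow_q_pow_q hF]
  have hu : IsUnit (algebraMap F R ε - algebraMap F R (ε ^ q)) := by
    rw [← map_sub]; exact (IsUnit.mk0 _ (sub_ne_zero.2 hε.symm)).map _
  have he : IsUnit (algebraMap F R (ε ^ q)) := by
    refine (IsUnit.mk0 _ fun h => hε ?_).map _
    rw [h, (pow_eq_zero_iff (by omega)).1 h]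
  obtain ⟨i, h0, hi⟩ := OddR.exists_nil hπ
  set d := finrank F (R ⧸ IsLocalRing.maximalIdeal R) with hd
  have hD : Nat.card (R ⧸ IsLocalRing.maximalIdeal R) = (q ^ 2) ^ d := by
    rw [Module.natCard_eq_pow_finrank (K := F), Nat.card_eq_fintype_card, hF]
  have hc := fun k j h => OddR.card_pow hπ h0 hi k j h
  simp only [hD] at hc
  have hR : Nat.card R = ((q ^ 2) ^ d) ^ i := by
    rw [← hc i 0 (zero_add i), pow_zero, Ideal.span_singleton_one]
    exact (Nat.card_congr (Submodule.topEquiv (R := R) (M := R)).toEquiv).symm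
  have hn : finrank F R = d * i := by
    apply Nat.pow_right_injective hq2
    change (q ^ 2) ^ _ = (q ^ 2) ^ _
    rw [pow_mul (q ^ 2), ← hR, Module.natCard_eq_pow_finrank (K := F), Nat.card_eq_fintype_card, hF]
  rw [hn, Nat.odd_mul] at hodd
  obtain ⟨od, oi⟩ := hodd
  have hm : π ∈ IsLocalRing.maximalIdeal R := hπ ▸ Ideal.mem_span_singleton_self π
  have hst : ∀ j, ∀ x ∈ (Ideal.span {π ^ j} : Ideal R), s x ∈ (Ideal.span {π ^ j} : Ideal R) := by
    intro j x hx
    obtain ⟨t, rfl⟩ := Ideal.mem_span_singleton'.1 hx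
    have := OddR.s_mem hs hm
    rw [hπ, Ideal.mem_span_singleton'] at this
    obtain ⟨u, hu⟩ := this
    exact Ideal.mem_span_singleton'.2 ⟨s t * u ^ j, by rw [map_mul, map_pow, ← hu]; ring⟩
  have hfix : ∀ k j, j + k = i → (Finset.univ.filter fun t : R =>
      t ∈ (Ideal.span {π ^ j} : Ideal R) ∧ s t = t).card = (q ^ d) ^ k := by
    intro k j h
    apply Nat.pow_left_injective two_ne_zero
    change _ ^ 2 = _ ^ 2
    rw [OddR.sq_fix hs h1 h2 hu _ (hst j), hc k j h]
    ring
  have hg : ∀ x : R, (-(q : ℂ)) ^ finrank F (LinearMap.ker (LinearMap.mulLeft F x)) =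
      1 + ∑ j ∈ Finset.range i, if x ∈ (Ideal.span {π ^ (j + 1)} : Ideal R) then
        ((-(q : ℂ) ^ d) ^ (j + 1) - (-(q : ℂ) ^ d) ^ j) else 0 := by
    intro x
    obtain ⟨v, hv, e1, e2⟩ := OddR.exists_val hπ h0 hi x
    have k1 : finrank F (LinearMap.range (LinearMap.mulLeft F x)) = d * (i - v) := by
      apply Nat.pow_right_injective hq2
      change (q ^ 2) ^ _ = (q ^ 2) ^ _
      rw [pow_mul (q ^ 2), ← hc (i - v) v (by omega), ← e1, ← hF, ← Nat.card_eq_fintype_card,
        ← Module.natCard_eq_pow_finrank (K := F)]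
      refine Nat.card_congr (Equiv.subtypeEquivRight fun y => ?_)
      simp [Ideal.mem_span_singleton', mul_comm]
    have k2 := LinearMap.finrank_range_add_finrank_ker (LinearMap.mulLeft F x)
    have k3 : finrank F (LinearMap.ker (LinearMap.mulLeft F x)) = d * v := by
      obtain ⟨c, rfl⟩ := Nat.exists_eq_add_of_le hv
      rw [k1, hn, Nat.add_sub_cancel_left, mul_add] at k2
      omega
    rw [k3, pow_mul, od.neg_pow, Finset.sum_congr rfl (g := fun j => if j < v then
      ((-(q : ℂ) ^ d) ^ (j + 1) - (-(q : ℂ) ^ d) ^ j) else 0)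
      (fun j hj => by simp only [e2 j (Finset.mem_range.1 hj)]), ← Finset.sum_filter]
    have : (Finset.range i).filter (· < v) = Finset.range v := by
      ext j; simp only [Finset.mem_filter, Finset.mem_range]; omega
    rw [this, Finset.sum_range_sub (fun j => (-(q : ℂ) ^ d) ^ j)]
    ring
  obtain ⟨i, rfl⟩ : ∃ k, i = k + 1 := ⟨i - 1, by have := oi.pos; omega⟩
  have hA : ∀ j k, j + 1 + k = i + 1 → (Finset.univ.filter fun a : R => a * s a = 1 ∧
      a - 1 ∈ (Ideal.span {π ^ (j + 1)} : Ideal R)).card = (q ^ d) ^ k := by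
    intro j k h
    rw [OddR.card_sub hs h1 h2 hu _ ?_, hfix k _ h]
    rw [Ideal.span_singleton_le_iff_mem]
    exact Ideal.pow_mem_of_mem _ hm _ (Nat.succ_pos j)
  have hA0 : (Finset.univ.filter fun a : R => a * s a = 1).card = (q ^ d) ^ (i + 1) + (q ^ d) ^ i := by
    rw [OddR.card_all hs h1 h2 hu he, ← hfix (i + 1) 0 (zero_add _), ← hA 0 i (by omega), hπ]
    simp
  simp only [hg]
  rw [Finset.sum_add_distrib, Finset.sum_comm, Finset.sum_const, hA0,
    Finset.sum_congr rfl (g := fun j => -(((q : ℂ) ^ d) ^ (i + 1) + ((q : ℂ) ^ d) ^ i) * (-1) ^ j) ?_,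
    ← Finset.mul_sum, OddR.alt oi]
  · simp
  · intro j hj
    obtain ⟨k, hk⟩ := Nat.exists_eq_add_of_le (Nat.lt_succ_iff.1 (Finset.mem_range.1 hj))
    rw [← Finset.sum_filter, Finset.filter_filter, Finset.sum_const, hA j k (by omega), hk,
      neg_pow ((q : ℂ) ^ d), neg_pow ((q : ℂ) ^ d)]
    simp only [nsmul_eq_mul, Nat.cast_pow]
    ring

end CL.WU
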