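import Cfsg.Agent.CLAS.WU.Gauss
import Cfsg.Agent.CLAS.WU.Heis
import Cfsg.Agent.CLAS.WU.Bas

/-! The total Weil character is a character.
`T` from `exists_heis`, `N = q^n`.  The `T v` are linearly independent (trace form), so a basis of the matrices;
a matrix commuting with all `T v` is scalar.  `(T u)⁻¹ = χ(B u u) T(-u) = (T u)ᴴ`.
`S g = ∑_u T(g u) (T u)ᴴ = ∑_u χ(-B ((g-1)u) u) T((g-1)u)`; `S g * T v = T (g v) * S g`; `(S g)ᴴ = S g⁻¹`;
`trace (S g) = q^(2 d_g) N` (`d_g = fd g`).  `trace (S g * S h) = N ∑_{(u,v) ∈ U} χ(Φ(u,v))`,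
`U = {(u,v) | (g-1)u + (h-1)v = 0}`, `x = (g-1)u`, `Φ(y,y') = -B x u' + B x v' - B x x'`, of trace zero on the
diagonal since `g, h` are isometries.  For `h = g⁻¹`, `Φ = 0`, so `S g * S g⁻¹ = q^(2n + 2 d_g)`.  So `S g` is
invertible, `S g * S h = κ • S (g h)` (the quotient commutes with all `T v`), `|κ| = q^(n + d_g + d_h - d_gh)` by
`(S g)ᴴ S g`, and `κ q^(2 d_gh) = (-q)^r q^(2 (dim U - r))` by `gauss`; comparing absolute values
`r ≡ n + d_g + d_h + d_gh (mod 2)`.  Hence `W g = (-1)^(n + d_g) q^(-n - d_g) S g` is a homomorphism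
with trace `om f g`. -/

set_option autoImplicit false

namespace CL.WU

open Module CL.Witt CL.Uni Cfsg

variable {F : Type*} [Field F] [Fintype F] {q : ℕ} {hF : Fintype.card F = q ^ 2}
  {V : Type*} [AddCommGroup V] [Module F V] [FiniteDimensional F V] {f : Form (HT hF) V}

namespace OmX
open Matrix
set_option linter.unusedSectionVars false

structure HM (f : Form (HT hF) V) (χ : AddChar F ℂ) {m : Type} [Fintype m] [DecidableEq m] (T : V → Matrix m m ℂ) :
    Prop where
  zero : T 0 = 1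
  mul : ∀ u v, T u * T v = χ (f.B u v) • T (u + v)
  tr : ∀ v, v ≠ 0 → (T v).trace = 0
  uni : ∀ v, (T v)ᴴ * T v = 1
  card : Fintype.card m = q ^ finrank F V

variable [Fintype V] {χ : AddChar F ℂ} {m : Type} [Fintype m] [DecidableEq m] {T : V → Matrix m m ℂ}

noncomputable def S (T : V → Matrix m m ℂ) (g : f.O) : Matrix m m ℂ := ∑ u, T (g.1 u) * (T u)ᴴ

theorem cardW (hF : Fintype.card F = q ^ 2) (W : Type*) [AddCommGroup W] [Module F W] [Fintype W] :
    Fintype.card W = q ^ (2 * finrank F W) := by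
  rw [Module.card_eq_pow_finrank (K := F), hF, pow_mul]

theorem q0 (hF : Fintype.card F = q ^ 2) : (q : ℂ) ≠ 0 := by
  have := two_le_q (hF := hF)
  exact Nat.cast_ne_zero.2 (by omega)

namespace HM
variable (h : HM f χ T)
include h

theorem uni' (v : V) : T v * (T v)ᴴ = 1 := mul_eq_one_comm.1 (h.uni v)

theorem ct (v u : V) : (T (v + u))ᴴ * T v = χ (f.B v u) • (T u)ᴴ := by
  rw [← mul_one (_ * T v), ← h.uni' u, ← mul_assoc, mul_assoc _ (T v), h.mul, mul_smul_comm, h.uni, smul_mul_assoc, one_mul]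

theorem ct2 (v u : V) : (T u)ᴴ * (T v)ᴴ = χ (-f.B v u) • (T (v + u))ᴴ := by
  rw [← mul_one (T (v + u))ᴴ, ← h.uni' v, ← mul_assoc, h.ct, smul_mul_assoc, smul_smul, ← AddChar.map_add_eq_mul,
    neg_add_cancel, AddChar.map_zero_eq_one, one_smul]

open Classical in
theorem tr2 (a b : V) : (T a * (T b)ᴴ).trace = if a = b then (q : ℂ) ^ finrank F V else 0 := by
  split_ifs with e
  · rw [e, h.uni', trace_one, h.card, Nat.cast_pow]
  · have := h.ct2 (-b) b
    rw [neg_add_cancel, h.zero, conjTranspose_one] at this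
    have e2 : (T b)ᴴ = χ (-f.B (-b) b) • T (-b) := by
      rw [← mul_one (T b)ᴴ, ← h.uni (-b), ← mul_assoc, this, smul_mul_assoc, one_mul]
    rw [e2, mul_smul_comm, h.mul, trace_smul, trace_smul, h.tr _ (by rwa [← sub_eq_add_neg, sub_ne_zero]), smul_zero, smul_zero]

theorem scalar {X : Matrix m m ℂ} (hX : ∀ v, X * T v = T v * X) : ∃ c : ℂ, X = c • (1 : Matrix m m ℂ) := by
  classical
  have li : LinearIndependent ℂ T := Fintype.linearIndependent_iff.2 fun c hc w => by
    have := congrArg (fun Y => (Y * (T w)ᴴ).trace) hc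
    simp only [Finset.sum_mul, trace_sum, smul_mul_assoc, trace_smul, h.tr2, smul_eq_mul, mul_ite, mul_zero,
      zero_mul, trace_zero] at this
    rw [Finset.sum_ite_eq', if_pos (Finset.mem_univ _)] at this
    exact (mul_eq_zero.1 this).resolve_right (pow_ne_zero _ (q0 hF))
  have sp := li.span_eq_top_of_card_eq_finrank' (by
    rw [Module.finrank_matrix, h.card, cardW hF, Module.finrank_self, two_mul, pow_add, mul_one])
  have all : ∀ Y, Commute Y X := fun Y => by
    have : Y ∈ Submodule.span ℂ (Set.range T) := sp ▸ Submodule.mem_top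
    induction this using Submodule.span_induction with
    | mem _ hy => obtain ⟨v, rfl⟩ := hy; exact (hX v).symm
    | zero => exact Commute.zero_left _
    | add _ _ _ _ a b => exact a.add_left b
    | smul c _ _ a => exact a.smul_left c
  obtain ⟨c, rfl⟩ := mem_range_scalar_of_commute_single (M := X) fun i j _ => all _
  exact ⟨c, by rw [scalar_apply, smul_one_eq_diagonal]⟩

theorem S_T (g : f.O) (v : V) : S T g * T v = T (g.1 v) * S T g := by
  rw [S, Finset.sum_mul, Finset.mul_sum, ← Equiv.sum_comp (Equiv.addLeft v)]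
  refine Finset.sum_congr rfl fun u _ => ?_
  rw [Equiv.coe_addLeft, mul_assoc, h.ct, ← mul_assoc, h.mul, g.2.1, map_add, mul_smul_comm, smul_mul_assoc]

omit h in
theorem S_star (g : f.O) : (S T g)ᴴ = S T g⁻¹ := by
  rw [S, S, conjTranspose_sum, ← g.1.toEquiv.sum_comp fun u => T ((g⁻¹).1 u) * (T u)ᴴ]
  refine Finset.sum_congr rfl fun u _ => ?_
  rw [conjTranspose_mul, conjTranspose_conjTranspose]
  exact congrArg (fun x => T x * _) (g.1.symm_apply_apply u).symm

theorem tr_S (g : f.O) : (S T g).trace = (q : ℂ) ^ (2 * fd g.1) * q ^ finrank F V := by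
  classical
  rw [S, trace_sum]
  simp only [h.tr2]
  rw [← Finset.sum_filter, Finset.sum_const, nsmul_eq_mul, fd, ← Nat.cast_pow q (2 * _), ← cardW hF, Fintype.card_subtype]
  congr 3
  ext u
  simp [sub_eq_zero]

theorem SS (g k : f.O) : S T g * S T k = ∑ w, T (g.1 (k.1 w)) * S T g * (T w)ᴴ := by
  rw [S.eq_1 T k, Finset.mul_sum]
  exact Finset.sum_congr rfl fun w _ => by rw [← mul_assoc, h.S_T]

theorem S_inv (g : f.O) : S T g * S T g⁻¹ = (q : ℂ) ^ (2 * (finrank F V + fd g.1)) • (1 : Matrix m m ℂ) := by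
  obtain ⟨c, hc⟩ := h.scalar (X := S T g * S T g⁻¹) fun v => by
    rw [mul_assoc, h.S_T, ← mul_assoc, h.S_T, mul_assoc]
    exact congrArg (fun x => T x * _) (g.1.apply_symm_apply v)
  have e := congrArg trace (hc.symm.trans (h.SS g g⁻¹))
  have e2 : ∀ w, (T (g.1 ((g⁻¹).1 w)) * S T g * (T w)ᴴ).trace = (S T g).trace := fun w => by
    rw [trace_mul_cycle, show g.1 ((g⁻¹).1 w) = w from g.1.apply_symm_apply w, h.uni, one_mul]
  simp only [trace_sum, e2] at e
  rw [trace_smul, trace_one, h.card, Finset.sum_const, Finset.card_univ, cardW hF, h.tr_S, nsmul_eq_mul, smul_eq_mul,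
    ← mul_assoc, Nat.cast_pow, Nat.cast_pow, ← pow_add, ← mul_add] at e
  rw [hc, mul_right_cancel₀ (pow_ne_zero _ (q0 hF)) e]

theorem tr_SS (hχ : ∃ x : F, χ (x - x ^ q) ≠ 1) (g k : f.O) : ∃ r e : ℕ,
    (S T g * S T k).trace = (-(q : ℂ)) ^ r * q ^ (2 * e) * q ^ finrank F V := by
  classical
  let L : V × V →ₗ[F] V := (g.1 : V →ₗ[F] V) ∘ₗ ((k.1 : V →ₗ[F] V) ∘ₗ LinearMap.fst F V V + LinearMap.snd F V V) -
    (LinearMap.fst F V V + LinearMap.snd F V V)
  have mL : ∀ y : V × V, y ∈ LinearMap.ker L ↔ g.1 (k.1 y.1 + y.2) = y.1 + y.2 := fun y => by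
    rw [LinearMap.mem_ker]; exact sub_eq_zero
  let Φ : LinearMap.ker L →ₛₗ[sig hF] LinearMap.ker L →ₗ[F] F :=
    (f.B.comp ((((k.1 : V →ₗ[F] V) - LinearMap.id) ∘ₗ LinearMap.fst F V V) ∘ₗ (LinearMap.ker L).subtype)).compl₂
      (LinearMap.snd F V V ∘ₗ (LinearMap.ker L).subtype)
  have hΦ : ∀ y, Φ y y = f.B (k.1 y.1.1 - y.1.1) y.1.2 := fun _ => rfl
  obtain ⟨r, -, hr⟩ := gauss Φ (fun y => by
    have e1 := g.2.1 (k.1 y.1.1 + y.1.2) (k.1 y.1.1 + y.1.2)
    have e2 := f.symm (k.1 y.1.1 - y.1.1) y.1.2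
    have e3 := k.2.1 y.1.1 y.1.1
    rw [(mL _).1 y.2] at e1
    rw [HT_ε, one_mul, HT_σ] at e2
    rw [hΦ, ← e2]
    simp only [map_add, map_sub, LinearMap.add_apply, LinearMap.sub_apply] at e1 ⊢
    linear_combination -e1 - e3) χ hχ
  refine ⟨r, finrank F (LinearMap.ker L) - r, ?_⟩
  simp only [hΦ] at hr
  rw [← hr, h.SS, trace_sum, Finset.sum_mul, ← Finset.sum_subtype (Finset.univ.filter fun y => y ∈ LinearMap.ker L)
    (fun y => by simp) fun y : V × V => χ (f.B (k.1 y.1 - y.1) y.2) * (q : ℂ) ^ finrank F V, Finset.sum_filter,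
    Fintype.sum_prod_type]
  refine Finset.sum_congr rfl fun w _ => ?_
  rw [S, Finset.mul_sum, Finset.sum_mul, trace_sum]
  refine Finset.sum_congr rfl fun u _ => ?_
  rw [← mul_assoc, mul_assoc, h.mul, h.ct2, smul_mul_smul_comm, trace_smul, h.tr2, ← map_add, g.2.1,
    ← AddChar.map_add_eq_mul, map_sub, LinearMap.sub_apply, sub_eq_add_neg, smul_eq_mul, mul_ite, mul_zero]
  exact if_congr (mL (w, u)).symm rfl rfl

theorem S_mul (hχ : ∃ x : F, χ (x - x ^ q) ≠ 1) (g k : f.O) :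
    (q : ℂ) ^ fd (g * k).1 • (S T g * S T k) =
      ((-1) ^ (finrank F V + fd g.1 + fd k.1 + fd (g * k).1) * (q : ℂ) ^ (finrank F V + fd g.1 + fd k.1)) • S T (g * k) := by
  have q1 := q0 hF
  obtain ⟨c, hc⟩ := h.scalar (X := S T g * S T k * S T (g * k)⁻¹) fun v => by
    rw [mul_assoc, h.S_T, ← mul_assoc, mul_assoc _ _ (T _), h.S_T, ← mul_assoc, h.S_T, mul_assoc, mul_assoc, mul_assoc]
    exact congrArg (fun x => T x * _) ((g * k).1.apply_symm_apply v)
  obtain ⟨κ, hκ⟩ : ∃ κ : ℂ, S T g * S T k = κ • S T (g * k) := by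
    have e := congrArg (· * S T (g * k)⁻¹⁻¹) hc
    rw [mul_assoc, h.S_inv, inv_inv, mul_smul_comm, mul_one, smul_mul_assoc, one_mul] at e
    rw [← eq_inv_smul_iff₀ (pow_ne_zero _ q1), smul_smul] at e
    exact ⟨_, e⟩
  obtain ⟨r, e, hr⟩ := h.tr_SS hχ g k
  rw [hκ, trace_smul, h.tr_S, smul_eq_mul, ← mul_assoc] at hr
  have h1 := mul_right_cancel₀ (pow_ne_zero _ q1) hr
  have h2 : star κ = κ := by
    rw [eq_div_of_mul_eq (pow_ne_zero _ q1) h1]; simp
  have h3 := congrArg (fun X => (X * Xᴴ).trace) hκ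
  simp only [conjTranspose_mul, conjTranspose_smul, S_star, h2] at h3
  rw [mul_assoc, ← mul_assoc (S T k), h.S_inv, smul_mul_assoc, one_mul, mul_smul_comm, h.S_inv, smul_mul_smul_comm, h.S_inv,
    smul_smul, smul_smul, trace_smul, trace_smul, trace_one, h.card, Nat.cast_pow, smul_eq_mul, smul_eq_mul] at h3
  have h4 := mul_right_cancel₀ (pow_ne_zero _ q1) h3
  generalize finrank F V = n at *
  generalize fd (g * k).1 = d at *
  generalize fd g.1 = a at *
  generalize fd k.1 = b at *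
  have h5 : (q : ℂ) ^ (2 * (n + b) + 2 * (n + a) + 4 * d) = q ^ (2 * r + 4 * e + 2 * (n + d)) := by
    have : (-(q : ℂ)) ^ r * (-(q : ℂ)) ^ r = q ^ (2 * r) := by rw [← mul_pow, neg_mul_neg, ← sq, pow_mul]
    rw [pow_add, pow_add _ _ (2 * (n + a)), h4, pow_add _ (2 * r + 4 * e), pow_add _ (2 * r), ← this]
    linear_combination (q ^ (2 * (n + d)) * (κ * q ^ (2 * d) + (-(q : ℂ)) ^ r * q ^ (2 * e))) * h1
  have h6 := Nat.pow_right_injective (two_le_q (hF := hF)) (by exact_mod_cast h5 :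
    q ^ (2 * (n + b) + 2 * (n + a) + 4 * d) = q ^ (2 * r + 4 * e + 2 * (n + d)))
  rw [hκ, smul_smul]
  congr 1
  refine mul_right_cancel₀ (pow_ne_zero d q1) ?_
  rw [mul_assoc ((-1) ^ _), ← pow_add, show n + a + b + d = r + 2 * e by omega, pow_add, pow_mul, neg_one_sq, one_pow,
    mul_one, pow_add, ← mul_assoc, ← neg_pow, ← h1]
  ring

end HM
end OmX

theorem isCharacter_om (hf : f.Nondeg) : IsCharacter f.O (om f) := by
  classical
  have : Finite V := Module.finite_of_finite F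
  have := Fintype.ofFinite V
  obtain ⟨χ, hχ⟩ := exists_addChar (hF := hF)
  obtain ⟨T, h0, h1, h2, h3⟩ := exists_heis hf χ hχ
  have h : OmX.HM f χ T := ⟨h0, h1, h2, h3, Fintype.card_fin _⟩
  have q1 := OmX.q0 hF
  let W : f.O →* Matrix (Fin (q ^ finrank F V)) (Fin (q ^ finrank F V)) ℂ :=
    { toFun := fun g => ((-1) ^ (finrank F V + fd g.1) / (q : ℂ) ^ (finrank F V + fd g.1)) • OmX.S T g
      map_one' := by
        have e : fd (1 : f.O).1 = finrank F V := by
          rw [fd, show (((1 : f.O).1 : V →ₗ[F] V) - LinearMap.id) = 0 from sub_self _, LinearMap.ker_zero, finrank_top]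
        have e2 : OmX.S T (1 : f.O) = ∑ u : V, 1 := Finset.sum_congr rfl fun u _ => h.uni' u
        rw [e, e2, Finset.sum_const, Finset.card_univ, OmX.cardW hF, ← Nat.cast_smul_eq_nsmul ℂ, smul_smul, ← two_mul,
          pow_mul, neg_one_sq, one_pow, Nat.cast_pow, div_mul_cancel₀ _ (pow_ne_zero _ q1), one_smul]
      map_mul' := fun g k => by
        have e := h.S_mul hχ g k
        rw [← eq_inv_smul_iff₀ (pow_ne_zero _ q1)] at e
        rw [smul_mul_smul_comm, e, smul_smul, smul_smul]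
        congr 1
        generalize finrank F V = n
        generalize fd (g * k).1 = d
        generalize fd g.1 = a
        generalize fd k.1 = b
        have s : ∀ j : ℕ, (-1 : ℂ) ^ j * (-1) ^ j = 1 := fun j => by rw [← mul_pow, neg_mul_neg, one_mul, one_pow]
        simp only [pow_add]
        field_simp
        linear_combination (-1 : ℂ) * ((-1) ^ a * (-1) ^ a * ((-1) ^ b * (-1) ^ b) * s n + (-1) ^ b * (-1) ^ b * s a + s b) }
  refine ⟨_, (Matrix.toLinAlgEquiv' : _ ≃ₐ[ℂ] _).toMonoidHom.comp W, funext fun g => ?_⟩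
  change LinearMap.trace ℂ _ (Matrix.toLin' (W g)) = _
  rw [Matrix.trace_toLin'_eq]
  change (((-1) ^ (finrank F V + fd g.1) / (q : ℂ) ^ (finrank F V + fd g.1)) • OmX.S T g).trace = _
  rw [Matrix.trace_smul, h.tr_S, om, smul_eq_mul, neg_pow (q : ℂ), two_mul]
  simp only [pow_add]
  field_simp

end CL.WU
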