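import Cfsg.Agent.CLAS.WU.RegD

/-! Regular orbits of a Singer cycle on degenerate skew-Hermitian forms.
`k = dim rad b`, `1 ≤ k < m`.  Choose `h` mapping `U = ⟨x, s x, …, s^(k-1) x⟩` onto the radical.  If `t = s^i` preserves
`b ∘ h` it preserves `U`, and `U ⊔ s U = ⟨x, …, s^k x⟩` of dimension `k + 1`; so `d = 1` in `exists_deg`, `t = c`,
`c^q c = 1` as `b ≠ 0`. -/

set_option autoImplicit false

namespace CL.WU

open Module CL.Witt CL.Uni Cfsg

variable {F : Type*} [Field F] [Fintype F] {q : ℕ} {hF : Fintype.card F = q ^ 2}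
  {W : Type*} [AddCommGroup W] [Module F W] [FiniteDimensional F W] {s : W ≃ₗ[F] W}

theorem reg_deg (h : Tr s) (b : W →ₛₗ[(HT hF).σ] W →ₗ[F] F) (hb : ∀ u v, b v u = -(b u v) ^ q)
    (hb0 : b ≠ 0) (hd : ∃ x, x ≠ 0 ∧ ∀ y, b x y = 0) :
    ∃ k : W ≃ₗ[F] W, ∀ i : ℕ, (∀ x y, b (k ((s ^ i) x)) (k ((s ^ i) y)) = b (k x) (k y)) →
      ∃ z : Mu F q, ∀ x, (s ^ i) x = z.val • x := by
  obtain ⟨x, x0, hx⟩ := hd
  haveI : Nontrivial W := ⟨⟨x, 0, x0⟩⟩
  let U : ℕ → Submodule F W := fun n => Submodule.span F (Set.range fun j : Fin n => (s ^ (j : ℕ)) x)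
  have rk : ∀ n, n ≤ finrank F W → finrank F (U n) = n := fun n hn => by
    have := finrank_span_eq_card ((h.indep x0).comp (Fin.castLE hn) (Fin.castLE_injective hn))
    rw [Fintype.card_fin] at this
    exact this
  have mem : ∀ n j, j < n → (s ^ j) x ∈ U n := fun n j hj => Submodule.subset_span ⟨⟨j, hj⟩, rfl⟩
  have lt : finrank F (LinearMap.ker b) < finrank F W :=
    Submodule.finrank_lt fun e => hb0 (LinearMap.ker_eq_top.1 e)
  have pos : 0 < finrank F (LinearMap.ker b) := by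
    haveI : Nontrivial (LinearMap.ker b) :=
      ⟨⟨⟨x, LinearMap.ext hx⟩, 0, fun e => x0 (congrArg Subtype.val e)⟩⟩
    exact finrank_pos
  obtain ⟨n, hn⟩ : ∃ n, finrank F (LinearMap.ker b) = n + 1 := ⟨_, (Nat.succ_pred_eq_of_pos pos).symm⟩
  let e : U (n + 1) ≃ₗ[F] LinearMap.ker b := LinearEquiv.ofFinrankEq _ _ ((rk _ (by omega)).trans hn.symm)
  obtain ⟨g, hg⟩ := Submodule.exists_linearEquiv_restrict_eq e
  have iff : ∀ u, u ∈ U (n + 1) ↔ g u ∈ LinearMap.ker b := fun u => by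
    refine ⟨fun hu => hg ⟨u, hu⟩ ▸ (e ⟨u, hu⟩).2, fun hu => ?_⟩
    obtain ⟨w, hw⟩ := e.surjective ⟨g u, hu⟩
    have : g w = g u := (hg w).symm.trans (congrArg Subtype.val hw)
    exact g.injective this ▸ w.2
  refine ⟨g, fun i hi => ?_⟩
  have i1 : ∀ u ∈ U (n + 1), (s ^ i) u ∈ U (n + 1) := fun u hu => by
    refine (iff _).2 (LinearMap.ext fun y => ?_)
    obtain ⟨y, rfl⟩ := g.surjective y
    obtain ⟨y, rfl⟩ := (s ^ i).surjective y
    rw [hi, LinearMap.mem_ker.1 ((iff u).1 hu)]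
    rfl
  have up : U (n + 1) ≤ U (n + 2) := Submodule.span_le.2 (by
    rintro _ ⟨j, rfl⟩
    exact mem _ _ (by omega))
  have sh : U (n + 1) ≤ (U (n + 2)).comap (s : W →ₗ[F] W) := Submodule.span_le.2 (by
    rintro _ ⟨j, rfl⟩
    have := mem (n + 2) (j + 1) (by omega)
    rw [pow_succ'] at this
    exact this)
  have i2 : U (n + 2) ≤ (U (n + 2)).comap ((s ^ i : W ≃ₗ[F] W) : W →ₗ[F] W) := Submodule.span_le.2 (by
    rintro _ ⟨j, rfl⟩
    change (s ^ i) ((s ^ (j : ℕ)) x) ∈ U (n + 2)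
    by_cases hj : (j : ℕ) < n + 1
    · exact up (i1 _ (mem _ _ hj))
    · have : (j : ℕ) = n + 1 := by omega
      have e : (s ^ i) ((s ^ (n + 1)) x) = s ((s ^ i) ((s ^ n) x)) := by
        change (s ^ i * s ^ (n + 1)) x = (s * (s ^ i * s ^ n)) x
        congr 1
        group
      rw [this, e]
      exact sh (i1 _ (mem _ _ (by omega))))
  obtain ⟨d, h1, h2, -⟩ := h.exists_deg i
  have d1 := h1 _ i1
  have d2 := h1 (U (n + 2)) fun u hu => i2 hu
  rw [rk _ (by omega)] at d1 d2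
  obtain ⟨c, hc⟩ := h2 (Nat.eq_one_of_dvd_one ((Nat.dvd_add_right d1).1 d2))
  obtain ⟨u, v, huv⟩ : ∃ u v, b (g u) (g v) ≠ 0 := by
    by_contra! hz
    refine hb0 (LinearMap.ext fun u => LinearMap.ext fun v => ?_)
    obtain ⟨u, rfl⟩ := g.surjective u
    obtain ⟨v, rfl⟩ := g.surjective v
    exact hz u v
  have e1 := hi u v
  rw [hc, hc, g.map_smul, g.map_smul, (b _).map_smul, b.map_smulₛₗ, LinearMap.smul_apply, smul_eq_mul, smul_eq_mul,
    HT_σ, ← mul_assoc] at e1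
  have e2 : c * c ^ q = 1 := mul_right_cancel₀ huv (e1.trans (one_mul _).symm)
  refine ⟨⟨Units.mkOfMulEqOne c _ e2, ?_⟩, hc⟩
  rw [mem_rootsOfUnity, ← Units.val_inj, Units.val_pow_eq_pow_val, pow_succ']
  exact e2

end CL.WU
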