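import Cfsg.Agent.CLAS.SqField

/-! A quadratic `c² = α c + β` with `α^q + β^q α = 0`, `β^q β = 1` has a root in the field with `q²` elements. -/

set_option autoImplicit false

namespace CL.WU.RegR

open Module CL.SqField

variable {F : Type*} [Field F] [Fintype F] {q : ℕ}

/-- a monic quadratic over the fixed field has a root -/
theorem root_fixed (hF : Fintype.card F = q ^ 2) {a b : F} (ha : a ^ q = a) (hb : b ^ q = b) :
    ∃ t : F, t * t = a + b * t := by
  let a' : fixedSubfield hF := ⟨a, ha⟩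
  let b' : fixedSubfield hF := ⟨b, hb⟩
  by_cases hab : ∀ r : fixedSubfield hF, r ^ 2 ≠ a' + b' * r
  · have := Fact.mk hab
    have hr : finrank (fixedSubfield hF) F = 2 := by
      have h1 := Module.natCard_eq_pow_finrank (K := fixedSubfield hF) (V := F)
      rw [Nat.card_eq_fintype_card, hF, card_fixedSubfield] at h1
      exact (Nat.pow_right_injective (two_le hF) h1).symm
    obtain ⟨φ⟩ := FiniteField.nonempty_algHom_of_finrank_dvd (F := fixedSubfield hF)
      (K := QuadraticAlgebra (fixedSubfield hF) a' b') (L := F)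
      (by rw [QuadraticAlgebra.finrank_eq_two, hr])
    refine ⟨φ QuadraticAlgebra.omega, ?_⟩
    rw [← map_mul, QuadraticAlgebra.omega_mul_omega_eq_add, map_add, map_smul, map_smul, map_one]
    simp [Subfield.smul_def, a', b']
  · push Not at hab
    obtain ⟨r, hr⟩ := hab
    refine ⟨r, ?_⟩
    have h := congrArg (fun x : fixedSubfield hF => (x : F)) hr
    simpa [a', b', sq] using h

theorem exists_root (hF : Fintype.card F = q ^ 2) {α β : F} (h1 : α ^ q + β ^ q * α = 0)
    (h2 : β ^ q * β = 1) : ∃ c : F, c * c = α * c + β := by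
  have hn : (-β) ^ (q + 1) = 1 := by
    rw [pow_succ, neg_pow_q hF, neg_mul_neg, h2]
  obtain ⟨γ, hγ, hγ'⟩ := exists_div_of_norm_one hF hn
  have hγq : γ ^ q ≠ 0 := pow_ne_zero _ hγ
  have e1 : -β ^ q * γ = γ ^ q := by
    have h := congrArg (· ^ q) hγ'
    simp only [mul_pow, neg_pow_q hF, pow_q_pow_q hF] at h
    exact h
  have hρ : (α * γ ^ q) ^ q = α * γ ^ q := by
    rw [mul_pow, pow_q_pow_q hF]
    linear_combination γ * h1 + α * e1
  have hN : (-(γ * γ ^ q)) ^ q = -(γ * γ ^ q) := by
    rw [neg_pow_q hF, mul_pow_q_pow_q hF]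
  obtain ⟨y, hy⟩ := root_fixed hF hN hρ
  refine ⟨y / γ ^ q, ?_⟩
  field_simp
  linear_combination hy + γ ^ q * hγ'

end CL.WU.RegR
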