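import Cfsg.Agent.CLAS.WU.RegA
import Cfsg.Agent.CLAS.WU.RegR

/-! Regular orbits of a Singer cycle on nondegenerate skew-Hermitian forms.
`δ b` is Hermitian (`δ^q = -δ ≠ 0`; `Form.ofHerm`), with an orthonormal basis `e_j` (`exists_isON_basis`); `k (s^j x) = e_j`,
`b' = b ∘ k`.  `Δ(x,y) = b' (s x) (s y) - b' x y` vanishes on `U × U`, `U = ⟨x, …, s^(m-2) x⟩`, so its radical has
codimension `≤ 2`; it is `t`-invariant for an isometry `t = s^i` of `b'`.  `d ∣ m`.  Codimension `0`: `form_eq_zero`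
(`m = 1`: `d = 1`).  Codimension `1`: `d = 1`.  Codimension `2`: `d ∣ 2`, and `d = 2` is impossible: from
`b' ((t² - α t - β) x) (t² y) = 0`, `1 = α^q t + β^q t²`, so `α^q + β^q α = 0`, `β^q β = 1` (`t` is not scalar), and
`exists_root` gives a root.  `exists_root`: `-β = γ / γ^q` (`γ = 1 - β`, or of trace zero if `β = 1`), `ρ = α γ^q` and
`N = γ γ^q` are fixed by `σ`, `c = γ / y` with `y² - ρ y + N = 0`; a monic quadratic over the fixed field has a root in `F`. -/

set_option autoImplicit false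

namespace CL.WU

open Module CL.Witt CL.Uni Cfsg

variable {F : Type*} [Field F] [Fintype F] {q : ℕ} {hF : Fintype.card F = q ^ 2}
  {W : Type*} [AddCommGroup W] [Module F W] [FiniteDimensional F W] {s : W ≃ₗ[F] W}

include hF in
theorem exists_root {α β : F} (h1 : α ^ q + β ^ q * α = 0) (h2 : β ^ q * β = 1) :
    ∃ c : F, c * c = α * c + β :=
  RegR.exists_root hF h1 h2

theorem reg_nondeg (h : Tr s) (b : W →ₛₗ[(HT hF).σ] W →ₗ[F] F) (hb : ∀ u v, b v u = -(b u v) ^ q)
    (hb0 : b ≠ 0) (hd : ∀ x, (∀ y, b x y = 0) → x = 0) :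
    ∃ k : W ≃ₗ[F] W, ∀ i : ℕ, (∀ x y, b (k ((s ^ i) x)) (k ((s ^ i) y)) = b (k x) (k y)) →
      ∃ z : Mu F q, ∀ x, (s ^ i) x = z.val • x := by
  obtain ⟨x, x0⟩ : ∃ x : W, x ≠ 0 := by
    by_contra! hz
    exact hb0 (LinearMap.ext fun u => by rw [hz u, map_zero, LinearMap.zero_apply])
  have : Nontrivial W := ⟨⟨x, 0, x0⟩⟩
  obtain ⟨δ, δ0, hδ⟩ := SqField.exists_trace_zero hF
  have hS : LinearMap.IsSymm (I := sig hF) (δ • b) := ⟨fun u v => by
    change (δ * b u v) ^ q = δ * b v u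
    rw [hb u v, mul_pow]
    linear_combination (b u v) ^ q * hδ⟩
  have nd : (Form.ofHerm (sig_ne_id hF) (sig_sig hF) (δ • b) hS).Nondeg := fun u hu =>
    hd u fun y => (mul_eq_zero.1 (hu y)).resolve_left δ0
  obtain ⟨e, he⟩ := exists_isON_basis (sig_ne_id hF) nd (ι := Fin (finrank F W)) (Fintype.card_fin _)
  obtain ⟨n, hn⟩ : ∃ n, finrank F W = n + 1 := ⟨_, (Nat.succ_pred_eq_of_pos finrank_pos).symm⟩
  let B : Basis (Fin (finrank F W)) F W :=
    basisOfLinearIndependentOfCardEqFinrank' _ (h.indep x0) (Fintype.card_fin _)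
  have hB : ∀ j, B j = (s ^ (j : ℕ)) x := fun j => by
    simp only [B, coe_basisOfLinearIndependentOfCardEqFinrank']
  let k : W ≃ₗ[F] W := B.equiv e (Equiv.refl _)
  have hk : ∀ j, k (B j) = e j := fun j => by simp [k]
  let c : W →ₛₗ[(HT hF).σ] W →ₗ[F] F := (b.comp (k : W →ₗ[F] W)).compl₂ (k : W →ₗ[F] W)
  have hc : ∀ u v, c u v = b (k u) (k v) := fun _ _ => rfl
  have cB : ∀ i j, δ * c (B i) (B j) = if i = j then 1 else 0 := fun i j => by
    rw [hc, hk, hk]
    exact he i j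
  let Δ : W →ₛₗ[(HT hF).σ] W →ₗ[F] F := (c.comp (s : W →ₗ[F] W)).compl₂ (s : W →ₗ[F] W) - c
  have hΔ : ∀ u v, Δ u v = c (s u) (s v) - c u v := fun _ _ => rfl
  let l : Fin (finrank F W) := ⟨n, by omega⟩
  have sB : ∀ (j : Fin (finrank F W)) (hj : j ≠ l),
      s (B j) = B ⟨j + 1, by have := j.2; have : (j : ℕ) ≠ n := fun e => hj (Fin.ext e); omega⟩ := fun j hj => by
    rw [hB, hB, pow_succ']
    rfl
  have ΔB : ∀ i j, i ≠ l → j ≠ l → Δ (B i) (B j) = 0 := fun i j hi hj => by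
    refine (mul_eq_zero.1 ?_).resolve_left δ0
    rw [hΔ, sB i hi, sB j hj, mul_sub, cB, cB]
    simp [Fin.ext_iff]
  let R : Submodule F W := ⨅ v, LinearMap.ker (Δ v)
  have hR : ∀ u, u ∈ R ↔ ∀ v, Δ v u = 0 := fun u => by simp [R]
  let φ : W →ₗ[F] F × F := (B.coord l).prod (Δ (B l))
  have le : LinearMap.ker φ ≤ R := fun u hu => by
    have h1 : B.coord l u = 0 := congrArg Prod.fst (LinearMap.mem_ker.1 hu)
    have h2 : Δ (B l) u = 0 := congrArg Prod.snd (LinearMap.mem_ker.1 hu)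
    have h3 : Δ.flip u = 0 := B.ext fun j => by
      change Δ (B j) u = 0
      by_cases hj : j = l
      · rw [hj, h2]
      · have : Δ (B j) = Δ (B j) (B l) • B.coord l := B.ext fun i => by
          by_cases hi : i = l
          · simp [hi]
          · rw [ΔB j i hj hi]
            simp [hi]
        rw [this, LinearMap.smul_apply, h1, smul_zero]
    exact (hR u).2 fun v => LinearMap.congr_fun h3 v
  have rk : finrank F W ≤ finrank F R + 2 := by
    have h1 := φ.finrank_range_add_finrank_ker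
    have h2 := Submodule.finrank_mono le
    have h3 := (LinearMap.range φ).finrank_le
    rw [Module.finrank_prod, finrank_self] at h3
    omega
  have c0 : c ≠ 0 := fun e0 => hb0 (LinearMap.ext fun u => LinearMap.ext fun v => by
    obtain ⟨u, rfl⟩ := k.surjective u
    obtain ⟨v, rfl⟩ := k.surjective v
    rw [← hc, e0]
    rfl)
  refine ⟨k, fun i hi => ?_⟩
  replace hi : ∀ u v, c ((s ^ i) u) ((s ^ i) v) = c u v := hi
  have cm : ∀ u, s ((s ^ i) u) = (s ^ i) (s u) := fun u => by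
    change (s * s ^ i) u = (s ^ i * s) u
    rw [← pow_succ, ← pow_succ']
  obtain ⟨d, h0, h1, h2⟩ := h.exists_deg i
  have d1 := h0 ⊤ fun _ _ => trivial
  rw [finrank_top] at d1
  have d2 := h0 R fun u hu => (hR _).2 fun v => by
    obtain ⟨v, rfl⟩ := (s ^ i).surjective v
    rw [hΔ, cm, cm, hi, hi, ← hΔ]
    exact (hR u).1 hu v
  have d12 : d = 1 ∨ d = 2 := by
    by_cases h12 : finrank F W = 1 ∧ q = 2
    · exact Or.inl (Nat.eq_one_of_dvd_one (h12.1 ▸ d1))
    · have lt : finrank F R < finrank F W := Submodule.finrank_lt fun e0 =>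
        c0 (h.form_eq_zero h12 c fun u v => sub_eq_zero.1 ((hR v).1 (e0 ▸ Submodule.mem_top) u))
      have d3 := Nat.dvd_sub d1 d2
      have : finrank F W - finrank F R = 1 ∨ finrank F W - finrank F R = 2 := by omega
      rcases this with e1 | e1 <;> rw [e1] at d3
      · exact Or.inl (Nat.eq_one_of_dvd_one d3)
      · exact (Nat.dvd_prime Nat.prime_two).1 d3
  rcases d12 with d12 | d12
  · obtain ⟨a, ha⟩ := h1 d12
    obtain ⟨u, v, huv⟩ : ∃ u v, c u v ≠ 0 := by
      by_contra! hz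
      exact c0 (LinearMap.ext fun u => LinearMap.ext fun v => hz u v)
    have e1 := hi u v
    rw [ha, ha, (c _).map_smul, c.map_smulₛₗ, LinearMap.smul_apply, smul_eq_mul, smul_eq_mul,
      HT_σ, ← mul_assoc] at e1
    have e2 : a * a ^ q = 1 := mul_right_cancel₀ huv (e1.trans (one_mul _).symm)
    refine ⟨⟨Units.mkOfMulEqOne a _ e2, ?_⟩, ha⟩
    rw [mem_rootsOfUnity, ← Units.val_inj, Units.val_pow_eq_pow_val, pow_succ']
    exact e2
  · exfalso
    obtain ⟨α, β, ht, hr⟩ := h2 d12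
    have key : ∀ y, y = (α ^ q + β ^ q * α) • (s ^ i) y + (β ^ q * β) • y := fun y => by
      have z : ∀ u, c u (y - (α ^ q • (s ^ i) y + β ^ q • (s ^ i) ((s ^ i) y))) = 0 := fun u => by
        have e1 : c ((s ^ i) ((s ^ i) u)) ((s ^ i) ((s ^ i) y)) = c u y := by rw [hi, hi]
        rw [ht u, map_add, c.map_smulₛₗ, c.map_smulₛₗ, LinearMap.add_apply, LinearMap.smul_apply,
          LinearMap.smul_apply, hi, HT_σ, HT_σ] at e1
        rw [map_sub, map_add, map_smul, map_smul, ← e1, sub_self]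
      have z0 := hd (k _) fun v => by
        obtain ⟨v, rfl⟩ := k.surjective v
        rw [hb, ← hc, z v, SqField.zero_pow_q hF, neg_zero]
      have z1 := sub_eq_zero.1 (k.injective (z0.trans (map_zero k).symm))
      rw [ht y] at z1
      refine z1.trans ?_
      module
    by_cases hA : α ^ q + β ^ q * α = 0
    · have e1 := key x
      rw [hA, zero_smul, zero_add] at e1
      have e2 : β ^ q * β = 1 := smul_left_injective F x0 (e1.symm.trans (one_smul F x).symm)
      obtain ⟨r, er⟩ := exists_root (hF := hF) hA e2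
      exact hr r er
    · have sc : ∀ y, (s ^ i) y = ((α ^ q + β ^ q * α)⁻¹ * (1 - β ^ q * β)) • y := fun y => by
        rw [mul_smul, eq_inv_smul_iff₀ hA, sub_smul, one_smul]
        exact eq_sub_of_add_eq (key y).symm
      have e1 := ht x
      generalize (α ^ q + β ^ q * α)⁻¹ * (1 - β ^ q * β) = a at sc
      rw [sc, sc, smul_smul, smul_smul, ← add_smul] at e1
      exact hr a (smul_left_injective F x0 e1)

theorem reg (h : Tr s) (b : W →ₛₗ[(HT hF).σ] W →ₗ[F] F) (hb : ∀ u v, b v u = -(b u v) ^ q)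
    (hb0 : b ≠ 0) :
    ∃ k : W ≃ₗ[F] W, ∀ i : ℕ, (∀ x y, b (k ((s ^ i) x)) (k ((s ^ i) y)) = b (k x) (k y)) →
      ∃ z : Mu F q, ∀ x, (s ^ i) x = z.val • x := by
  by_cases hd : ∃ x, x ≠ 0 ∧ ∀ y, b x y = 0
  · exact reg_deg h b hb hb0 hd
  · exact reg_nondeg h b hb hb0 fun x hx => by_contra fun h0 => hd ⟨x, h0, hx⟩

end CL.WU
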