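import Cfsg.Agent.CLAS.WU.Def2
import Cfsg.Agent.CLAS.WU.Bas

/-! Singer cycles.  An endomorphism commuting with `s` has an `s`-invariant kernel, so is zero or
bijective.  `exists_deg`: `t = s^i`, `d = natDegree (minpoly F t)`, irreducible; an invariant `U` is a vector space over the
field `AdjoinRoot (minpoly F t)`.  `indep`: the span of the `s^j x`, `j < k`, is `s`-invariant at the first dependence.
`form_eq_zero`: `b x x = c` for all `x ≠ 0`; scaling gives `c = 0` or `q = 2`; for `q = 2` and independent `x, y` sum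
`b (x + a y) (x + a y) = c` over the three `a ≠ 0`: `c = 0` again.  Then polarise with `a^q ≠ a`. -/

set_option autoImplicit false

namespace CL.WU

open Module CL.Witt CL.Uni Cfsg

variable {F : Type*} [Field F] [Fintype F] {q : ℕ} {hF : Fintype.card F = q ^ 2}
  {W : Type*} [AddCommGroup W] [Module F W] [FiniteDimensional F W] {s : W ≃ₗ[F] W}

omit [Fintype F] [FiniteDimensional F W] in
theorem RegDX.pow_apply (s : W ≃ₗ[F] W) (i : ℕ) (x : W) : (s ^ i) x = ((s : End F W) ^ i) x := by
  induction i with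
  | zero => rfl
  | succ i ih => rw [pow_succ', pow_succ', LinearEquiv.mul_apply, ih]; rfl

omit [Fintype F] [FiniteDimensional F W] in
theorem RegDX.aeval_res {t : End F W} {U : Submodule F W} (hU : ∀ x ∈ U, t x ∈ U) (P : Polynomial F)
    (x : U) : (Polynomial.aeval (t.restrict hU) P x : W) = Polynomial.aeval t P x := by
  rw [Polynomial.aeval_eq_sum_range, Polynomial.aeval_eq_sum_range, LinearMap.sum_apply,
    LinearMap.sum_apply, Submodule.coe_sum]
  refine Finset.sum_congr rfl fun j _ => ?_
  rw [Module.End.pow_restrict]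
  rfl

theorem exists_tr (F W : Type*) [Field F] [Finite F] [AddCommGroup W] [Module F W]
    [FiniteDimensional F W] : ∃ s : W ≃ₗ[F] W, Tr s := by
  rcases Nat.eq_zero_or_pos (finrank F W) with h0 | h0
  · have := Module.finrank_zero_iff.1 h0
    exact ⟨1, fun x hx => absurd (Subsingleton.elim _ _) hx⟩
  obtain ⟨p, hp⟩ := CharP.exists F
  have : Fact p.Prime := ⟨CharP.char_is_prime F p⟩
  have : NeZero (finrank F W) := ⟨h0.ne'⟩
  let K := FiniteField.Extension F p (finrank F W)
  let e : W ≃ₗ[F] K := LinearEquiv.ofFinrankEq _ _ (FiniteField.finrank_extension F p _).symm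
  obtain ⟨g, hg⟩ := IsCyclic.exists_monoid_generator (α := Kˣ)
  let m : K ≃ₗ[F] K := (LinearEquiv.smulOfUnit g : K ≃ₗ[K] K).restrictScalars F
  have hs : ∀ (i : ℕ) x, ((e.trans (m.trans e.symm)) ^ i) x = e.symm ((g : K) ^ i * e x) := fun i x => by
    induction i with
    | zero => simp
    | succ i ih =>
      rw [pow_succ', LinearEquiv.mul_apply, ih]
      change e.symm ((g : K) * e (e.symm _)) = _
      rw [e.apply_symm_apply, pow_succ', mul_assoc]
  refine ⟨e.trans (m.trans e.symm), fun x hx y hy => ?_⟩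
  have hx' : e x ≠ 0 := e.map_ne_zero_iff.2 hx
  obtain ⟨i, hi⟩ := hg (Units.mk0 _ (div_ne_zero (e.map_ne_zero_iff.2 hy) hx'))
  have hi' : (g : K) ^ i = e y / e x := by simpa using congrArg Units.val hi
  exact ⟨i, by rw [hs, hi', div_mul_cancel₀ _ hx', e.symm_apply_apply]⟩

omit [Fintype F] in
theorem Tr.eq_zero_or_bij (h : Tr s) {t : W →ₗ[F] W} (ht : ∀ x, t (s x) = s (t x)) :
    t = 0 ∨ Function.Bijective t := by
  by_cases hi : Function.Injective t
  · exact Or.inr ⟨hi, LinearMap.injective_iff_surjective.1 hi⟩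
  rw [injective_iff_map_eq_zero] at hi
  push Not at hi
  obtain ⟨x, hx, hx0⟩ := hi
  have hp : ∀ i : ℕ, t ((s ^ i) x) = 0 := fun i => by
    induction i with
    | zero => simpa using hx
    | succ i ih => rw [pow_succ', LinearEquiv.mul_apply, ht, ih, map_zero]
  refine Or.inl (LinearMap.ext fun y => ?_)
  by_cases hy : y = 0
  · rw [hy, map_zero, map_zero]
  · obtain ⟨i, rfl⟩ := h x hx0 y hy
    exact hp i

omit [Fintype F] in
theorem Tr.indep (h : Tr s) {x : W} (hx : x ≠ 0) :
    LinearIndependent F (fun j : Fin (finrank F W) => (s ^ (j : ℕ)) x) := by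
  have : Nontrivial W := ⟨x, 0, hx⟩
  refine linearIndependent_of_top_le_span_of_card_eq_finrank (fun y _ => ?_) (Fintype.card_fin _)
  by_cases hy : y = 0
  · rw [hy]; exact zero_mem _
  obtain ⟨i, rfl⟩ := h x hx y hy
  have hd : (Polynomial.X ^ i %ₘ (s : End F W).charpoly).natDegree < finrank F W := by
    rw [← (s : End F W).charpoly_natDegree]
    refine Polynomial.natDegree_modByMonic_lt _ (LinearMap.charpoly_monic _) fun e => ?_
    have := (s : End F W).charpoly_natDegree
    rw [e, Polynomial.natDegree_one] at this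
    exact finrank_pos.ne this
  rw [RegDX.pow_apply, LinearMap.pow_eq_aeval_mod_charpoly, Polynomial.aeval_eq_sum_range' hd,
    LinearMap.sum_apply]
  refine sum_mem fun j hj => Submodule.smul_mem _ _ (Submodule.subset_span ⟨⟨j, Finset.mem_range.1 hj⟩, ?_⟩)
  exact RegDX.pow_apply _ _ _

omit [Fintype F] in
theorem Tr.exists_deg (h : Tr s) [Nontrivial W] (i : ℕ) :
    ∃ d : ℕ, (∀ U : Submodule F W, (∀ x ∈ U, (s ^ i) x ∈ U) → d ∣ finrank F U) ∧
      (d = 1 → ∃ c : F, ∀ x, (s ^ i) x = c • x) ∧
      (d = 2 → ∃ α β : F, (∀ x, (s ^ i) ((s ^ i) x) = α • (s ^ i) x + β • x) ∧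
        ∀ c : F, c * c ≠ α * c + β) := by
  set t : End F W := (s : End F W) ^ i with ht
  simp only [RegDX.pow_apply, ← ht]
  have hint : IsIntegral F t := Algebra.IsIntegral.isIntegral t
  have hc : ∀ P : Polynomial F, Polynomial.aeval t P = 0 ∨ Function.Bijective (Polynomial.aeval t P) :=
    fun P => h.eq_zero_or_bij fun x => by
      have : Commute (Polynomial.aeval t P) (s : End F W) := by
        rw [Polynomial.aeval_eq_sum_range]
        exact Commute.sum_left _ _ _ fun j _ =>
          (((Commute.refl (s : End F W)).pow_left i).pow_left j).smul_left _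
      exact LinearMap.congr_fun this.eq x
  have hirr : Irreducible (minpoly F t) := by
    refine (Polynomial.irreducible_of_monic (minpoly.monic hint) <| minpoly.ne_one F t).2
      fun a b ha hb he => ?_
    rw [← ha.isUnit_iff, ← hb.isUnit_iff]
    by_contra! hn
    have heval := congr_arg (Polynomial.aeval t) he
    rw [minpoly.aeval F t, map_mul] at heval
    rcases hc a with h1 | h1
    · exact minpoly.aeval_ne_zero_of_dvdNotUnit_minpoly hint ha ⟨ha.ne_zero, b, hn.2, he.symm⟩ h1
    · refine minpoly.aeval_ne_zero_of_dvdNotUnit_minpoly hint hb ⟨hb.ne_zero, a, hn.1, ?_⟩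
        (LinearMap.ext fun x => h1.1 ?_)
      · rw [mul_comm, he]
      · rw [LinearMap.zero_apply, map_zero]
        exact LinearMap.congr_fun heval x
  refine ⟨(minpoly F t).natDegree, fun U hU => ?_, fun h1 => ?_, fun h2 => ?_⟩
  · have : Fact (Irreducible (minpoly F t)) := ⟨hirr⟩
    have h0 : Polynomial.aeval (t.restrict hU) (minpoly F t) = 0 := by
      ext x
      rw [RegDX.aeval_res hU]
      simp
    let φ : AdjoinRoot (minpoly F t) →ₐ[F] End F U :=
      Ideal.Quotient.liftₐ (Ideal.span {minpoly F t}) (Polynomial.aeval (t.restrict hU)) fun a ha => by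
        obtain ⟨b, rfl⟩ := Ideal.mem_span_singleton.1 ha
        rw [map_mul, h0, zero_mul]
    let _ : Module (AdjoinRoot (minpoly F t)) U := Module.compHom U φ.toRingHom
    have : IsScalarTower F (AdjoinRoot (minpoly F t)) U := ⟨fun a k u => by
      change φ (a • k) u = a • φ k u
      rw [map_smul, LinearMap.smul_apply]⟩
    rw [← Module.finrank_mul_finrank F (AdjoinRoot (minpoly F t)) U,
      (AdjoinRoot.powerBasis hirr.ne_zero).finrank, AdjoinRoot.powerBasis_dim]
    exact dvd_mul_right _ _
  · obtain ⟨c, hc⟩ := minpoly.natDegree_eq_one_iff.1 h1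
    exact ⟨c, fun x => by rw [← hc]; rfl⟩
  · have h3 : (minpoly F t).coeff 2 = 1 := h2 ▸ (minpoly.monic hint).coeff_natDegree
    refine ⟨-(minpoly F t).coeff 1, -(minpoly F t).coeff 0, fun x => ?_, fun c e => ?_⟩
    · have := LinearMap.congr_fun (minpoly.aeval F t) x
      rw [Polynomial.aeval_eq_sum_range, h2] at this
      simp only [Finset.sum_range_succ, Finset.sum_range_zero, h3, zero_add, pow_zero, pow_one, one_smul,
        LinearMap.add_apply, LinearMap.smul_apply, Module.End.one_apply, pow_two, Module.End.mul_apply,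
        LinearMap.zero_apply] at this
      rw [neg_smul, neg_smul, ← sub_eq_zero, ← this]
      abel
    · have : (minpoly F t).IsRoot c := by
        rw [Polynomial.IsRoot, Polynomial.eval_eq_sum_range, h2]
        simp only [Finset.sum_range_succ, Finset.sum_range_zero, h3]
        linear_combination e
      have := Polynomial.natDegree_eq_of_degree_eq_some
        (n := 1) (Polynomial.degree_eq_one_of_irreducible_of_root hirr this)
      omega

theorem Tr.form_eq_zero (h : Tr s) (h12 : ¬ (finrank F W = 1 ∧ q = 2))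
    (b : W →ₛₗ[(HT hF).σ] W →ₗ[F] F) (hb : ∀ x y, b (s x) (s y) = b x y) : b = 0 := by
  have hp : ∀ (i : ℕ) x, b ((s ^ i) x) ((s ^ i) x) = b x x := fun i x => by
    induction i with
    | zero => rfl
    | succ i ih => rw [pow_succ', LinearEquiv.mul_apply, hb, ih]
  have he : ∀ x y, x ≠ 0 → y ≠ 0 → b y y = b x x := fun x y hx hy => by
    obtain ⟨i, rfl⟩ := h x hx y hy
    exact hp i x
  have ex : ∀ x y (a : F), b (x + a • y) (x + a • y) =
      b x x + a * b x y + a ^ q * b y x + a ^ q * a * b y y := fun x y a => by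
    simp only [map_add, map_smulₛₗ, LinearMap.add_apply, LinearMap.smul_apply, smul_eq_mul, HT_σ,
      RingHom.id_apply]
    ring
  obtain ⟨ω, hω⟩ : ∃ x : F, x - x ^ q ≠ 0 := by
    by_contra! h
    exact sig_ne_id hF (RingHom.ext fun x => (sub_eq_zero.1 (h x)).symm)
  have h0 : ∀ x, b x x = 0 := fun x => by
    by_contra hc
    have hx : x ≠ 0 := fun e => hc (by rw [e, map_zero])
    have hn : ∀ a : F, a ≠ 0 → a ^ q * a = 1 := fun a ha => by
      have h1 := ex 0 x a
      rw [zero_add, he x _ hx (smul_ne_zero ha hx)] at h1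
      simp only [map_zero, LinearMap.zero_apply, mul_zero, zero_add] at h1
      exact mul_right_cancel₀ hc (h1.symm.trans (one_mul _).symm)
    have hq : q = 2 := by
      obtain ⟨g, hg⟩ := IsCyclic.exists_ofOrder_eq_natCard (α := Fˣ)
      rw [Nat.card_units, Nat.card_eq_fintype_card, hF] at hg
      have h1 : orderOf g ∣ q + 1 := orderOf_dvd_of_pow_eq_one (Units.ext (by
        rw [Units.val_pow_eq_pow_val, pow_succ, hn _ g.ne_zero, Units.val_one]))
      have h2 := Nat.le_of_dvd (Nat.succ_pos _) h1
      have h3 := two_le_q (hF := hF)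
      have h4 : q ^ 2 ≤ q + 2 := by omega
      nlinarith
    subst hq
    have h1 : ¬ ∀ w, ∃ c : F, c • x = w := fun e =>
      h12 ⟨(finrank_eq_one_iff_of_nonzero' x hx).2 e, rfl⟩
    push Not at h1
    obtain ⟨w, hw⟩ := h1
    have hw' : ∀ a : F, w + a • x ≠ 0 := fun a e =>
      hw (-a) (by rw [neg_smul, neg_eq_iff_add_eq_zero, add_comm, e])
    have hw0 : w ≠ 0 := by simpa using hw' 0
    have h2 : ∀ a : F, a ≠ 0 → a * b w x + a ^ 2 * b x w + b x x = 0 := fun a ha => by
      have h3 := ex w x a
      rw [he x _ hx (hw' a), he x _ hx hw0, hn a ha] at h3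
      linear_combination -h3
    have ω0 : ω ≠ 0 := fun e => hω (by simp [e])
    have ω3 := hn ω ω0
    have ω1 : ω ^ 2 + ω + 1 = 0 := mul_left_cancel₀ hω (by linear_combination (-ω) * ω3)
    have h4 : (4 : F) = 0 := by
      have := FiniteField.cast_card_eq_zero F
      rw [hF] at this
      exact_mod_cast this
    apply hc
    linear_combination b x x * h4 - h2 1 one_ne_zero - h2 ω ω0 - h2 (ω ^ 2) (pow_ne_zero _ ω0) +
      (b w x + b x w) * ω1 + b x w * ω * ω3
  ext x y
  have h1 := ex x y 1
  have h2 := ex x y ω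
  simp only [h0, one_pow] at h1 h2
  rw [LinearMap.zero_apply, LinearMap.zero_apply]
  exact mul_left_cancel₀ hω (by linear_combination ω ^ q * h1 - h2)

end CL.WU
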