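import Cfsg.Agent.CLAS.WU.RegD
import Cfsg.Agent.KSG.LSForm

/-! The regular element.  `CL.LS.exists_isHyp_herm` gives `W`, `W'` (spans of the hyperbolic
families), `e` spans the orthogonal complement.  `s` from `exists_tr`, `s'` on `W'` with `B (s' y) (s x) = B y x`
(`W'` is in duality with `W`), `g = s ⊕ s' ⊕ 1`.  `s'` is transitive: if `s'^i` fixes `y ≠ 0` then `s^i - 1` is not onto, so
`s^i = 1` (`eq_zero_or_bij`); the orbit of `y` has at least `|W| - 1` elements (`s^i x`, all distinct values). -/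

set_option autoImplicit false

namespace CL.WU

open Module CL.Witt CL.Uni Cfsg

theorem Sing.tr_dual {F W W' : Type*} [Field F] [AddCommGroup W] [Module F W] [AddCommGroup W']
    [Module F W'] [Finite W'] {s : W ≃ₗ[F] W} {s' : W' ≃ₗ[F] W'} (hs : Tr s)
    (hcard : Nat.card W' ≤ Nat.card W) (x0 : W) (hx0 : x0 ≠ 0)
    (h : ∀ (i : ℕ) (y : W'), y ≠ 0 → (s' ^ i) y = y → ∀ x, (s ^ i) x = x) : Tr s' := by
  classical
  intro y hy y' hy'
  choose! i hi using hs x0 hx0
  have key : ∀ a b : ℕ, a ≤ b → (s' ^ a) y = (s' ^ b) y → (s ^ a) x0 = (s ^ b) x0 := by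
    intro a b hab e
    obtain ⟨c, rfl⟩ := Nat.exists_eq_add_of_le hab
    rw [pow_add, LinearEquiv.mul_apply] at e ⊢
    rw [h c y hy ((s' ^ a).injective e).symm x0]
  let φ : W → W' := fun x => if x = 0 then 0 else (s' ^ i x) y
  have hinj : Function.Injective φ := by
    intro a b e
    by_cases ha : a = 0 <;> by_cases hb : b = 0 <;> simp only [φ, ha, hb, if_true, if_false] at e
    · rw [ha, hb]
    · exact absurd ((LinearEquiv.map_eq_zero_iff _).1 e.symm) hy
    · exact absurd ((LinearEquiv.map_eq_zero_iff _).1 e) hy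
    · rw [← hi a ha, ← hi b hb]
      rcases le_total (i a) (i b) with h1 | h1
      · exact key _ _ h1 e
      · exact (key _ _ h1 e.symm).symm
  obtain ⟨x, hx⟩ := (hinj.bijective_of_nat_card_le hcard).2 y'
  by_cases h0 : x = 0
  · simp only [φ, h0, if_true] at hx
    exact absurd hx.symm hy'
  · exact ⟨i x, by simpa only [φ, h0, if_false] using hx⟩

variable {F : Type*} [Field F] [Fintype F] {q : ℕ} {hF : Fintype.card F = q ^ 2}
  {V : Type*} [AddCommGroup V] [Module F V] [FiniteDimensional F V] {f : Form (HT hF) V}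

theorem exists_sg (hf : f.Nondeg) (h3 : 3 ≤ finrank F V) (hodd : Odd (finrank F V)) :
    ∃ (W W' : Submodule F V) (e : V) (g : f.O), Sg f W W' e g := by
  classical
  have : Finite V := Module.finite_of_finite F
  obtain ⟨e, e', h⟩ := CL.LS.exists_isHyp_herm hf
  generalize hk : finrank F V / 2 = k at e e' h
  have hn : finrank F V = 2 * k + 1 := by obtain ⟨m, hm⟩ := hodd; omega
  have hrk : finrank F (Submodule.span F (Set.range e)) = k := by
    simpa using finrank_span_eq_card h.linearIndependent_left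
  have hrk' : finrank F (Submodule.span F (Set.range e')) = k := by
    simpa using finrank_span_eq_card h.linearIndependent_right
  have hP : finrank F (f.perp (Submodule.span F (Set.range (Sum.elim e e')))) = 1 := by
    rw [h.finrank_perp, Fintype.card_fin]; omega
  obtain ⟨⟨p, hp⟩, hp0, hpall⟩ := finrank_eq_one_iff'.1 hP
  have hpe := h.mem_perp_span.1 hp
  have hT := h.totSing_left
  have hT' := h.totSing_right
  have he : ∀ i, e i ∈ Submodule.span F (Set.range e) := fun i => Submodule.subset_span ⟨i, rfl⟩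
  have he' : ∀ i, e' i ∈ Submodule.span F (Set.range e') := fun i => Submodule.subset_span ⟨i, rfl⟩
  have pW : ∀ x ∈ Submodule.span F (Set.range e), f.B p x = 0 := fun x hx =>
    f.B_eq_zero_symm (f.mem_perp_span.2 (by rintro _ ⟨i, rfl⟩; exact hpe.1 i) x hx)
  have pW' : ∀ x ∈ Submodule.span F (Set.range e'), f.B p x = 0 := fun x hx =>
    f.B_eq_zero_symm (f.mem_perp_span.2 (by rintro _ ⟨i, rfl⟩; exact hpe.2 i) x hx)
  have hle : ∀ {g : V →ₗ[F] V} {U : Submodule F V}, (∀ i, g (e' i) ∈ U) →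
      ∀ y ∈ Submodule.span F (Set.range e'), g y ∈ U := fun {g U} hg y hy =>
    (Submodule.span_le (p := U.comap g)).2 (by rintro _ ⟨i, rfl⟩; exact hg i) hy
  set W := Submodule.span F (Set.range e)
  set W' := Submodule.span F (Set.range e')
  obtain ⟨b, hb⟩ : ∃ b : Basis (Fin k) F W, ∀ i, (b i : V) = e i :=
    ⟨Basis.span h.linearIndependent_left, fun i => congrArg Subtype.val (Basis.span_apply _ i)⟩
  have span : ∀ x, ∃ a ∈ W, ∃ b ∈ W', ∃ c : F, x = a + b + c • p := by
    intro x
    obtain ⟨c, hc⟩ := hpall ⟨_, h.sub_mem_perp x⟩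
    refine ⟨_, W.sum_mem (t := Finset.univ) fun i _ => W.smul_mem ((HT hF).ε * f.B (e' i) x) (he i), _,
      W'.sum_mem (t := Finset.univ) fun i _ => W'.smul_mem (f.B (e i) x) (he' i), c, ?_⟩
    have h1 : c • p = _ := congrArg Subtype.val hc
    rw [h1]
    exact (add_sub_cancel _ _).symm
  have hpp : f.B p p ≠ 0 := by
    intro h0
    refine hp0 (Subtype.ext (hf p fun x => ?_))
    obtain ⟨a, ha, b, hb, c, rfl⟩ := span x
    rw [map_add, map_add, map_smul, pW a ha, pW' b hb, h0, smul_zero, add_zero, add_zero]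
  have hdual : ∀ y ∈ W', (∀ x : W, f.B x y = 0) → y = 0 := by
    intro y hy h0
    refine hf.right y fun x => ?_
    obtain ⟨a, ha, b, hb, c, rfl⟩ := span x
    rw [map_add, map_add, map_smulₛₗ, LinearMap.add_apply, LinearMap.add_apply,
      LinearMap.smul_apply, h0 ⟨a, ha⟩, hT'.2 b hb y hy, pW' y hy, smul_zero, add_zero, add_zero]
  obtain ⟨s, hs⟩ := exists_tr F W
  let L : W' →ₗ[F] (Fin k → F) := LinearMap.pi fun j => (f.B (s (b j))).comp W'.subtype
  have hL : Function.Injective L := by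
    rw [injective_iff_map_eq_zero]
    intro y hy
    refine Subtype.ext (hdual y y.2 fun x => ?_)
    have h1 : ((f.B.flip (y : V)).comp W.subtype).comp (s : W →ₗ[F] W) = 0 :=
      b.ext fun j => congrFun hy j
    have h2 := LinearMap.congr_fun h1 (s.symm x)
    simpa using h2
  have hL' : Function.Surjective L :=
    (LinearMap.injective_iff_surjective_of_finrank_eq_finrank (by simp [hrk'])).1 hL
  choose d hd using fun i : Fin k => hL' (Pi.single i 1)
  have hd' : f.IsHyp (fun i => (s (b i) : V)) (fun i => (d i : V)) :=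
    ⟨fun i => hT.1 _ (s (b i)).2, fun i => hT'.1 _ (d i).2,
      fun i j => hT.2 _ (s (b i)).2 _ (s (b j)).2, fun i j => hT'.2 _ (d i).2 _ (d j).2,
      fun i j => (congrFun (hd j) i).trans (Pi.single_apply _ _ _)⟩
  obtain ⟨g, hg, hg1, hg2⟩ := h.conj hf hd'
  have hgW : ∀ x : W, g x = s x := fun x =>
    LinearMap.congr_fun (f := (g : V →ₗ[F] V).comp W.subtype)
      (g := W.subtype.comp (s : W →ₗ[F] W)) (b.ext fun i => by
        change g (b i) = s (b i)
        rw [hb, hg1]) x
  have hgW' : ∀ y ∈ W', g y ∈ W' := hle (g := (g : V →ₗ[F] V)) fun i => by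
    change g (e' i) ∈ W'
    rw [hg2]; exact (d i).2
  let t : W' ≃ₗ[F] W' := (f.stabRes W' ⟨g, f.mem_stab_iff_le.2 ⟨hg, hgW'⟩⟩).1
  have ht : ∀ y : W', (t y : V) = g y := fun y => rfl
  have hgp : g p ∈ f.perp (Submodule.span F (Set.range (Sum.elim e e'))) := by
    refine h.mem_perp_span.2 ⟨fun i => ?_, fun i => ?_⟩
    · have h1 : e i = g (s.symm ⟨e i, he i⟩) := by rw [hgW, s.apply_symm_apply]
      rw [h1, Form.mem_O_B hg]
      exact f.B_eq_zero_symm (pW _ (s.symm ⟨e i, he i⟩).2)
    · have h1 : e' i = g (t.symm ⟨e' i, he' i⟩) := by rw [← ht, t.apply_symm_apply]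
      rw [h1, Form.mem_O_B hg]
      exact f.B_eq_zero_symm (pW' _ (t.symm ⟨e' i, he' i⟩).2)
  obtain ⟨l, hl⟩ := hpall ⟨_, hgp⟩
  have hl1 : l • p = g p := congrArg Subtype.val hl
  have hl2 : l ^ (q + 1) = 1 := by
    have h1 := Form.mem_O_B hg p p
    rw [← hl1, map_smul, map_smulₛₗ, LinearMap.smul_apply, smul_eq_mul, smul_eq_mul, HT_σ] at h1
    refine mul_right_cancel₀ hpp ?_
    rw [pow_succ]
    linear_combination h1
  let z : Mu F q := rootsOfUnity.mkOfPowEq l hl2
  have hz : z.val = l := rfl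
  have hpow : ∀ (i : ℕ) (x : W) (y : W'), f.B ((s ^ i) x) ((t ^ i) y) = f.B x y := by
    intro i
    induction i with
    | zero => intro x y; rfl
    | succ i ih =>
      intro x y
      rw [pow_succ', pow_succ', LinearEquiv.mul_apply, LinearEquiv.mul_apply, ← hgW, ht,
        Form.mem_O_B hg, ih]
  have hk0 : 0 < k := by omega
  have hW0 : (b ⟨0, hk0⟩) ≠ 0 := b.ne_zero _
  have htr : Tr t := by
    refine Sing.tr_dual hs ?_ _ hW0 fun i y hy hiy => ?_
    · rw [Module.natCard_eq_pow_finrank (K := F), Module.natCard_eq_pow_finrank (K := F) (V := W),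
        hrk, hrk']
    · rcases hs.eq_zero_or_bij (t := ((s ^ i : W ≃ₗ[F] W) : W →ₗ[F] W) - LinearMap.id) (fun x => by
        simp only [LinearMap.sub_apply, LinearMap.id_apply, LinearEquiv.coe_coe, map_sub]
        rw [← LinearEquiv.mul_apply, ← LinearEquiv.mul_apply, ← pow_succ, ← pow_succ']) with h0 | h0
      · exact fun x => sub_eq_zero.1 (LinearMap.congr_fun h0 x)
      · refine absurd (Subtype.ext (hdual y y.2 fun x => ?_)) hy
        obtain ⟨x, rfl⟩ := h0.2 x
        have h1 := hpow i x y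
        rw [hiy] at h1
        change f.B (((s ^ i) x : V) - x) y = 0
        rw [f.B_sub_left, h1, sub_self]
  refine ⟨W, W', p, rf f p z⁻¹ * ⟨g, hg⟩, hT, hT', hpp, pW, pW', span, fun h0 => ?_,
    by rw [hn, hrk], by rw [hrk, hrk'], ?_, ⟨s, hs, fun x => ?_⟩, ⟨t, htr, fun y => ?_⟩⟩
  · rw [h0, finrank_bot] at hrk; omega
  · change (rf f p z⁻¹).1 (g p) = p
    rw [← hl1, ← hz, ← rf_self hpp z]
    change (rf f p z⁻¹ * rf f p z).1 p = p
    rw [← map_mul, inv_mul_cancel, map_one]; rfl
  · change _ = (rf f p z⁻¹).1 (g x)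
    rw [hgW, rf_perp (pW _ (s x).2)]
  · change _ = (rf f p z⁻¹).1 (g y)
    rw [← ht, rf_perp (pW' _ (t y).2)]

end CL.WU
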