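import Cfsg.Agent.CLAS.WU.ZeA
import Cfsg.Agent.CLAS.WU.ZeB

/-! Irreducibility, and recognition from the vector stabilisers.
`ze_eq_of_fix`: by the central characters `χ = k ζ` on all `g` with an eigenvalue in `μ`; the class function
`ζ - [ν = 1] (-1)^n` vanishes elsewhere (`ze_off`), so `⟨χ, ζ - [ν=1](-1)^n⟩ = k ⟨ζ, ζ - ..⟩ = k`
(`ζ ≠ 1` by its degree).  `k ≠ 0` as `χ 1 ≠ 0`; `χ ≠ 1` as `k ζ(1) ≠ 1` when `ν = 1`; so `⟨χ, ζ⟩ = k ≠ 0`. -/

set_option autoImplicit false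

namespace CL.WU

open Module CL.Witt CL.Uni Cfsg

variable {F : Type*} [Field F] [Fintype F] {q : ℕ} {hF : Fintype.card F = q ^ 2}
  {V : Type*} [AddCommGroup V] [Module F V] [FiniteDimensional F V] {f : Form (HT hF) V}

open CL.Char ComplexConjugate

omit [FiniteDimensional F V] in
theorem ZeC.orth [Fintype f.O] {χ ψ : f.O → ℂ} {ν ν' : Mu F q →* ℂˣ} (h : Cen f χ ν) (h' : Cen f ψ ν') (n : ν ≠ ν') :
    classInner χ ψ = 0 := by
  obtain ⟨z, hz⟩ := DFunLike.ne_iff.1 n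
  have e : ∑ g, χ g * conj (ψ g) = ν z * (ν' z : ℂ)⁻¹ * ∑ g, χ g * conj (ψ g) := by
    rw [Finset.mul_sum, ← Equiv.sum_comp (Equiv.mulRight (sc f z))]
    refine Finset.sum_congr rfl fun g _ => ?_
    rw [Equiv.coe_mulRight, h, h', map_mul, conj_eq_inv_of_pow_eq_one (n := q + 1) (by omega) (by
      rw [← Units.val_pow_eq_pow_val, ← map_pow, show z ^ (q + 1) = 1 from Subtype.ext z.2, map_one, Units.val_one])]
    ring
  have : ∑ g, χ g * conj (ψ g) = 0 := by
    by_contra c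
    exact hz (Units.ext ((mul_inv_eq_one₀ (Units.ne_zero _)).1 (mul_right_cancel₀ c (e.symm.trans (one_mul _).symm))))
  rw [classInner_def, this, mul_zero]

theorem ZeC.ne0 (h2 : 2 ≤ finrank F V) (ν : Mu F q →* ℂˣ) : ze f ν ≠ 0 := fun e => by
  have h := ze_one (f := f) (by omega) ν
  have hq : (2 : ℤ) ≤ q := by exact_mod_cast two_le_q (hF := hF)
  have h3 : (q : ℤ) ^ 2 ≤ (q : ℤ) ^ finrank F V := pow_le_pow_right₀ (by omega) h2
  rw [e, Pi.zero_apply, mul_zero] at h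
  rcases neg_one_pow_eq_or ℂ (finrank F V) with a | a <;> rw [a] at h <;> split_ifs at h
  · have : (0 : ℤ) = (q : ℤ) ^ finrank F V + 1 * q := by exact_mod_cast h
    nlinarith
  · have : (0 : ℤ) = (q : ℤ) ^ finrank F V + 1 * -1 := by exact_mod_cast h
    nlinarith
  · have : (0 : ℤ) = (q : ℤ) ^ finrank F V + -1 * q := by exact_mod_cast h
    nlinarith
  · have : (0 : ℤ) = (q : ℤ) ^ finrank F V + -1 * -1 := by exact_mod_cast h
    nlinarith

theorem ZeC.ne1 (h2 : 2 ≤ finrank F V) (k : ℕ) : (k : ℂ) * ze f 1 1 ≠ 1 := fun e => by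
  have h := ze_one (f := f) (by omega) 1
  have hq : (2 : ℤ) ≤ q := by exact_mod_cast two_le_q (hF := hF)
  rw [if_pos rfl] at h
  have : (q : ℤ) + 1 = k * ((q : ℤ) ^ finrank F V + (-1) ^ finrank F V * q) := by
    have : (q : ℂ) + 1 = k * ((q : ℂ) ^ finrank F V + (-1) ^ finrank F V * q) := by
      rw [← h]; linear_combination (-(q : ℂ) - 1) * e
    exact_mod_cast this
  have d : (q : ℤ) ∣ q + 1 :=
    this ▸ Dvd.dvd.mul_left (dvd_add (dvd_pow_self _ (by omega)) (Dvd.intro_left _ rfl)) _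
  have := Int.le_of_dvd one_pos ((dvd_add_right (dvd_refl _)).1 d)
  omega

theorem isIrr_ze (hf : f.Nondeg) (h2 : 2 ≤ finrank F V) (ν : Mu F q →* ℂˣ) :
    IsIrrCharacter f.O (ze f ν) := by
  classical
  choose n n0 hn using fun ν : Mu F q →* ℂˣ => (isCharacter_ze hf ν).exists_pos_inner_self (ZeC.ne0 h2 ν)
  have h := om_inner hf h2
  rw [show om f = ∑ ν : Mu F q →* ℂˣ, ze f ν from funext fun g => by rw [Finset.sum_apply, sum_ze],
    classInner_sum_left, Finset.sum_congr rfl fun a _ => (show _ = (n a : ℂ) by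
      rw [classInner_sum_right, Finset.sum_eq_single a (fun b _ e => ZeC.orth (cen_ze a) (cen_ze b) e.symm)
        (by simp), hn])] at h
  have h' : ∑ _a : Mu F q →* ℂˣ, 1 = ∑ a, n a := by
    rw [Finset.sum_const, Finset.card_univ, card_Mu_hom (hF := hF), smul_eq_mul, mul_one]
    exact_mod_cast h.symm
  have := (Finset.sum_eq_sum_iff_of_le fun a _ => n0 a).1 h' ν (Finset.mem_univ _)
  exact (isCharacter_ze hf ν).isIrr_of_inner_self (by rw [hn, ← this]; simp)

theorem ze_eq_of_fix (hf : f.Nondeg) (h2 : 2 ≤ finrank F V) {χ : f.O → ℂ}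
    (hχ : IsIrrCharacter f.O χ) {ν : Mu F q →* ℂˣ} (hc : Cen f χ ν) {k : ℕ}
    (hk : ∀ v, v ≠ 0 → ∀ g ∈ St f v, χ g = k * ze f ν g) : χ = ze f ν := by
  classical
  have hζ := isIrr_ze hf h2 ν
  have : Nontrivial V := Module.nontrivial_of_finrank_pos (R := F) (by omega)
  obtain ⟨v0, h0⟩ := exists_ne (0 : V)
  have h1 := hk v0 h0 1 (one_mem _)
  obtain ⟨ε, hε⟩ : ∃ ε : ℂ, ε = if ν = 1 then (-1) ^ finrank F V else 0 := ⟨_, rfl⟩
  have e : classInner χ (ze f ν - ε • 1) = classInner ((k : ℂ) • ze f ν) (ze f ν - ε • 1) := by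
    rw [classInner_def, classInner_def]
    refine congrArg _ (Finset.sum_congr rfl fun g _ => ?_)
    by_cases c : ∀ (z : Mu F q) (v : V), g.1 v = z.val • v → v = 0
    · simp [ze_off ν c, ← hε]
    push Not at c
    obtain ⟨z, v, hv, v0⟩ := c
    have := hk v v0 (g * sc f z⁻¹) (by
      change g.1 ((z⁻¹ : Mu F q).val • v) = v
      rw [map_smul, hv, smul_smul]
      simp [Mu.val])
    rw [hc, cen_ze, mul_left_comm] at this
    rw [mul_left_cancel₀ (Units.ne_zero _) this]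
    rfl
  have i : ∀ {ψ : f.O → ℂ} (m : ℕ), IsIrrCharacter f.O ψ → ψ 1 = m * ze f ν 1 →
      classInner ψ (ze f ν - ε • 1) = classInner ψ (ze f ν) := fun {ψ} m hψ hm => by
    rw [classInner_sub_right, classInner_smul_right, hε]
    split_ifs with c
    · subst c
      rw [hψ.inner_of_ne isIrrCharacter_one' fun e => ZeC.ne1 h2 m (by rw [← hm, e]; rfl), mul_zero, sub_zero]
    · simp
  rw [i k hχ h1, classInner_smul_left, i 1 hζ (by simp), hζ.inner_self, mul_one] at e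
  refine hχ.eq_of_inner_ne_zero hζ fun c => hχ.one_ne_zero ?_
  rw [h1, ← e, c, zero_mul]

end CL.WU
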