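import Cfsg.Agent.CLAS.WU.ZeB
import Cfsg.Agent.CLAS.WU.ZeC
import Cfsg.Agent.CLAS.WU.Fix
import Cfsg.Agent.CHAR.Constit

/-! Restriction to `GU(v^⊥) × μ_v`.
`ψ_a = part χ (rf v) a ∘ emb` is a character of `G' = GU(v^⊥)` (`isCharacter_part`, `rf_comm`) with central
character `ν / a` (`emb_sc`, `part_mul`).  Its irreducible constituents satisfy `Hs` (`emb_rf`; `χ ∘ emb = ∑_a ψ_a`,
the sums `∑_z ψ (rf u z)` are nonnegative) and have central character `ν / a`.  None is linear: otherwise
`gsum (χ ∘ emb) SO' ≠ 0`, so `emb SO'` fixes some `x ≠ 0`; it contains `tv w`, `tv w'` for a hyperbolic pair in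
`v^⊥` (`exists_hyp_pair`, `emb_tv`, `dt_eiO`); `fix_Q_of_hs`, `fix_SO`, `lin_of_fix` contradict `hnl`.  So all are
`ze ν'`, and `ν' = ν / a` by `cen_ze`. -/

set_option autoImplicit false

namespace CL.WU

open Module CL.Witt CL.Uni Cfsg

variable {F : Type*} [Field F] [Fintype F] {q : ℕ} {hF : Fintype.card F = q ^ 2}
  {V : Type*} [AddCommGroup V] [Module F V] [FiniteDimensional F V] {f : Form (HT hF) V}

variable {M : Type*} [AddCommGroup M] [Module ℂ M] [FiniteDimensional ℂ M]

theorem StA.gsum_eq {G : Type*} [Group G] [Fintype G] (χ : G → ℂ) (C : Subgroup G) [Fintype C] :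
    gsum χ C = ∑ z : C, χ z := by
  classical
  rw [gsum, ← Finset.sum_filter,
    Finset.sum_subtype (p := fun g => g ∈ C) (F := inferInstance) _ (by simp)]

theorem StA.sum_zero {G A : Type*} [Group G] [Group A] [Fintype A] (ι : A →* G) {R ψ : G → ℂ}
    (hψ : IsCharacter G ψ) (hR : IsCharacter G (R - ψ)) (h : ∑ z, R (ι z) = 0) :
    ∑ z, ψ (ι z) = 0 := by
  have hA : (Nat.card A : ℂ) ≠ 0 := Nat.cast_ne_zero.2 Nat.card_pos.ne'
  have h1 := CL.Char.inner_eq_zero_of_add_left (hψ.comp ι) (hR.comp ι) CL.Char.isCharacter_one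
    (by simp [classInner, h])
  simpa [classInner, hA] using h1

theorem part_rf_eq (hf : f.Nondeg) (h3 : 3 ≤ finrank F V) (ρ : Representation ℂ f.O M)
    (hρ : ρ.IsIrreducible) (hs : Hs f ρ.character) {ν : Mu F q →* ℂˣ} (hc : Cen f ρ.character ν)
    (hnl : ¬ ∃ l, ρ.character = lin hf l) {v : V} (hv : f.B v v ≠ 0)
    (h : IsCompl (F ∙ v) (f.perp (F ∙ v)))
    (ih : ∀ ψ, IsIrrCharacter (f.restrict (f.perp (F ∙ v))).O ψ →
      Hs (f.restrict (f.perp (F ∙ v))) ψ →
      (∃ l, ψ = lin (perp_nondeg hf hv) l) ∨ ∃ ν', ψ = ze (f.restrict (f.perp (F ∙ v))) ν')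
    (a : Mu F q →* ℂˣ) :
    ∃ k : ℕ, ∀ x, part ρ.character (rf f v) a (emb f h x) =
      k * ze (f.restrict (f.perp (F ∙ v))) (ν / a) x := by
  classical
  have hf' := perp_nondeg hf hv
  have h2 : 2 ≤ finrank F (f.perp (F ∙ v)) := by
    have := finrank_perp_span (f := f) hv
    omega
  have hχ : IsCharacter f.O ρ.character := CL.Char.isCharacter_character ρ
  have hΨ : ∀ b : Mu F q →* ℂˣ, IsCharacter (f.restrict (f.perp (F ∙ v))).O
      (fun x => part ρ.character (rf f v) b (emb f h x)) := fun b =>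
    isCharacter_part hχ (rf f v) b (emb f h) fun x z =>
      rf_comm (mem_St.2 (emb_left h x (Submodule.mem_span_singleton_self v))) z
  have hcen : Cen (f.restrict (f.perp (F ∙ v)))
      (fun x => part ρ.character (rf f v) a (emb f h x)) (ν / a) := by
    intro z x
    have e1 := part_mul ρ.character (rf f v) a
      (emb f h (x * sc (f.restrict (f.perp (F ∙ v))) z)) z
    have e2 : part ρ.character (rf f v) a (emb f h x * sc f z) =
        ν z * part ρ.character (rf f v) a (emb f h x) := by
      simp only [part, Finset.mul_sum]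
      refine Finset.sum_congr rfl fun y _ => ?_
      rw [mul_assoc (emb f h x), ← sc_comm, ← mul_assoc (emb f h x), hc]
      ring
    rw [map_mul, mul_assoc, emb_sc hv h, e2] at e1
    have ha : ((a z : ℂˣ) : ℂ) ≠ 0 := Units.ne_zero _
    simp only [map_mul, MonoidHom.div_apply, Units.val_div_eq_div_val]
    field_simp
    linear_combination -e1
  have key : ∀ ψ, IsIrrCharacter (f.restrict (f.perp (F ∙ v))).O ψ →
      classInner (fun x => part ρ.character (rf f v) a (emb f h x)) ψ ≠ 0 →
      ψ = ze (f.restrict (f.perp (F ∙ v))) (ν / a) := by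
    intro ψ hψ hne
    have hR : IsCharacter (f.restrict (f.perp (F ∙ v))).O
        ((fun x => ρ.character (emb f h x)) - ψ) := by
      have h1 := (CL.Char.isCharacter_sum (Finset.univ.erase a) _ fun b _ => hΨ b).add
        ((hΨ a).sub_irr hψ hne)
      convert h1 using 1
      funext x
      simp only [Pi.sub_apply, Pi.add_apply, Finset.sum_apply]
      rw [← sum_part ρ.character (rf f v) (emb f h x),
        ← Finset.sum_erase_add _ _ (Finset.mem_univ a)]
      ring
    have hhs : Hs (f.restrict (f.perp (F ∙ v))) ψ := fun u hu =>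
      StA.sum_zero (rf (f.restrict (f.perp (F ∙ v))) u) hψ.isCharacter hR (by
        simp only [emb_rf]
        exact hs u hu)
    rcases ih ψ hψ hhs with ⟨l, rfl⟩ | ⟨ν', rfl⟩
    · exfalso
      have h0 : ∑ z : (dt hf').ker, ρ.character (emb f h z) ≠ 0 := fun h0 => by
        have h1 := StA.sum_zero (dt hf').ker.subtype hψ.isCharacter hR h0
        have h3 : ∀ z : (dt hf').ker, lin (perp_nondeg hf hv) l ((dt hf').ker.subtype z) = 1 :=
          fun z => by
            have : dt hf' z.1 = 1 := z.2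
            simp [lin, this]
        simp only [h3, Finset.sum_const, Finset.card_univ, nsmul_eq_mul, mul_one,
          Nat.cast_eq_zero] at h1
        exact Fintype.card_ne_zero h1
      obtain ⟨x, hx0, hx⟩ := (gsum_ne_zero_iff (ρ.comp (emb f h)) (dt hf').ker).1 (by
        rw [StA.gsum_eq]
        exact h0)
      obtain ⟨w, w', hw, hw', hB⟩ := exists_hyp_pair (sig_ne_id hF) hf' h2
      have hfix : ∀ (u : f.perp (F ∙ v)) (b : XA hF), ρ (tv f u b) x = x := fun u b => by
        rw [← emb_tv h]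
        exact hx _ (dt_eiO hf' _ _ _)
      have w0 : (w : V) ≠ 0 := fun e => by
        rw [Submodule.coe_eq_zero.1 e] at hB
        simp at hB
      have w0' : (w' : V) ≠ 0 := fun e => by
        rw [Submodule.coe_eq_zero.1 e] at hB
        simp at hB
      refine hnl (lin_of_fix hf (by omega) ρ hρ hx0 (fix_SO hf ρ (w := w) (w' := w') hw hw' ?_
        (fun _ _ hh => fix_Q_of_hs hf ρ hs w0 (hfix w) hh)
        fun _ _ hh => fix_Q_of_hs hf ρ hs w0' (hfix w') hh))
      rw [show f.B w w' = 1 from hB]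
      exact one_ne_zero
    · by_contra hn
      exact hne (ZeC.orth hcen (cen_ze ν') fun e => hn (by rw [e]))
  have hz := isIrr_ze hf' h2 (ν / a)
  obtain ⟨k, hk⟩ := (hΨ a).exists_nat_inner hz.isCharacter
  refine ⟨k, fun x => ?_⟩
  have := congrFun ((hΨ a).isClassFunction.eq_smul_of_forall hz key) x
  rw [hk] at this
  exact this

end CL.WU
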