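import Cfsg.Agent.CLAS.WU.ZeB
import Cfsg.Agent.CHAR.Gallagher

/-! The Heisenberg components on the stabiliser of an isotropic vector.
`part_ze_tv`: for `z ≠ 1` and `g w = w` the fixed vectors of `g t z` lie in `w^⊥` (`B w (g t z x) = z B w x`),
where `t` is trivial, so `om (g t z)` does not depend on `t ∈ X_w` and these terms cancel as `c ≠ 1`.
`th_levi`: for `t ≠ 1` the fixed space of `l t` is `ker (l - 1) ∩ w^⊥`, so `fd (l t) = fd l - 1`, and
`∑_{t ≠ 1} c(t)⁻¹ = -1`.
`gal`: `P = St w`, `Q` = the Eichler subgroup (normal in `P`, order `q^(2(n-2)+1)`).  `th` is a character of `P`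
(`part_ze_tv`, `isCharacter_part`) of degree `q^(n-2)` on which `X_w` acts by `c`.  A character of `Q` on which
`X_w` acts by `c ≠ 1` vanishes off `X_w` (commutators `[ei w v a, ei w v' a'] = tv (B v v' - B v' v)`), so
`th|Q` has norm one and is contained in every constituent of `part χ (tv w) c`; `gallagher_surj` for each
irreducible constituent, and add up. -/

set_option autoImplicit false

namespace CL.WU

open Module CL.Witt CL.Uni Cfsg

variable {F : Type*} [Field F] [Fintype F] {q : ℕ} {hF : Fintype.card F = q ^ 2}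
  {V : Type*} [AddCommGroup V] [Module F V] [FiniteDimensional F V] {f : Form (HT hF) V}

namespace Th

theorem sum_inv {A : Type*} [CommGroup A] [Fintype A] {c : A →* ℂˣ} (hc : c ≠ 1) :
    ∑ t : A, (((c t)⁻¹ : ℂˣ) : ℂ) = 0 := by
  have h := sum_hom_units_eq_zero ((Units.coeHom ℂ).comp c⁻¹) (fun e => hc (by
    ext t
    have := DFunLike.congr_fun e t
    simpa using this))
  simpa using h

omit [Fintype F] [FiniteDimensional F V] in
theorem mem_k (g : V ≃ₗ[F] V) (x : V) :
    x ∈ LinearMap.ker ((g : V →ₗ[F] V) - LinearMap.id) ↔ g x = x := by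
  simp [LinearMap.mem_ker, sub_eq_zero]

omit [FiniteDimensional F V] in
theorem tv_ap {w : V} (hw : f.q w = 0) (a : XA hF) (x : V) :
    (tv f w a).1 x = x - (((a.toAdd : (HT hF).π.ker) : F) * f.B w x) • w := by
  rw [tv_val, (tv_ok hw a).ei_apply, HT_ε]
  simp

theorem om_sc {w : V} (hw : f.q w = 0) {g : f.O} (hg : g ∈ St f w) (t : XA hF) {z : Mu F q}
    (hz : z ≠ 1) : om f (g * tv f w t * sc f z) = om f (g * sc f z) := by
  have hz' : z.val ≠ 1 := fun e => hz (Subtype.ext (Units.ext e))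
  have hww : f.B w w = 0 := f.B_self_eq_zero hw
  have key : ∀ (s : F) (x : V), g.1 (z.val • x - (s * f.B w (z.val • x)) • w) = x → f.B w x = 0 := by
    intro s x e
    have h1 := f.O_B g w (z.val • x - (s * f.B w (z.val • x)) • w)
    rw [e, mem_St.1 hg] at h1
    simp only [map_sub, map_smul, smul_eq_mul, hww, mul_zero, sub_zero] at h1
    have : (z.val - 1) * f.B w x = 0 := by linear_combination -h1
    exact (mul_eq_zero.1 this).resolve_left (sub_ne_zero.2 hz')
  have e1 : LinearMap.ker (((g * tv f w t * sc f z).1 : V →ₗ[F] V) - LinearMap.id) =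
      LinearMap.ker (((g * sc f z).1 : V →ₗ[F] V) - LinearMap.id) := by
    ext x
    rw [mem_k, mem_k]
    change g.1 ((tv f w t).1 (z.val • x)) = x ↔ g.1 (z.val • x) = x
    rw [tv_ap hw]
    constructor
    · intro e
      have h0 := key _ x e
      simpa [h0] using e
    · intro e
      have h0 := key 0 x (by simpa using e)
      simpa [h0] using e
  have : fd (g * tv f w t * sc f z).1 = fd (g * sc f z).1 := by
    unfold fd
    rw [e1]
  simp only [om, this]

theorem fd_levi {w w' : V} (hw : f.q w = 0) (h : f.B w w' = 1) {l : f.O}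
    (hl' : l ∈ St f w') {t : XA hF} (ht : t ≠ 1) : fd (l * tv f w t).1 + 1 = fd l.1 := by
  have ha : ((t.toAdd : (HT hF).π.ker) : F) ≠ 0 := fun e => ht (by
    apply Multiplicative.toAdd.injective
    exact Subtype.ext e)
  have h' : f.B w' w ≠ 0 := fun e => by
    rw [f.B_eq_zero_symm e] at h
    exact zero_ne_one h
  set K := LinearMap.ker ((l.1 : V →ₗ[F] V) - LinearMap.id) with hK
  have e1 : LinearMap.ker (((l * tv f w t).1 : V →ₗ[F] V) - LinearMap.id) =
      K ⊓ LinearMap.ker (f.B w) := by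
    ext x
    rw [Submodule.mem_inf, hK, mem_k, mem_k, LinearMap.mem_ker]
    change l.1 ((tv f w t).1 x) = x ↔ _
    rw [tv_ap hw]
    constructor
    · intro e
      have h1 := f.O_B l w' (x - (((t.toAdd : (HT hF).π.ker) : F) * f.B w x) • w)
      rw [e, mem_St.1 hl'] at h1
      simp only [map_sub, map_smul, smul_eq_mul] at h1
      have h2 : ((t.toAdd : (HT hF).π.ker) : F) * f.B w x * f.B w' w = 0 := by
        linear_combination h1
      have h3 : f.B w x = 0 :=
        (mul_eq_zero.1 ((mul_eq_zero.1 h2).resolve_right h')).resolve_left ha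
      exact ⟨by simpa [h3] using e, h3⟩
    · rintro ⟨e, h3⟩
      simpa [h3] using e
  have hw' : w' ∈ K := (mem_k _ _).2 hl'
  have w0 : w' ≠ 0 := fun e => by
    rw [e, map_zero] at h
    exact zero_ne_one h
  have e2 : (K ⊓ LinearMap.ker (f.B w)) ⊔ (F ∙ w') = K := by
    refine le_antisymm (sup_le inf_le_left ((Submodule.span_singleton_le_iff_mem _ _).2 hw'))
      fun x hx => ?_
    refine Submodule.mem_sup.2 ⟨x - f.B w x • w', ⟨K.sub_mem hx (K.smul_mem _ hw'), ?_⟩,
      f.B w x • w', Submodule.smul_mem _ _ (Submodule.mem_span_singleton_self _), by simp⟩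
    simp [h]
  have e3 : (K ⊓ LinearMap.ker (f.B w)) ⊓ (F ∙ w') = ⊥ := by
    refine eq_bot_iff.2 fun x hx => ?_
    obtain ⟨⟨-, h1⟩, h2⟩ := hx
    obtain ⟨c, rfl⟩ := Submodule.mem_span_singleton.1 h2
    have : c = 0 := by simpa [h] using h1
    simp [this]
  have e4 := Submodule.finrank_sup_add_finrank_inf_eq (K ⊓ LinearMap.ker (f.B w)) (F ∙ w')
  rw [e2, e3, finrank_bot, finrank_span_singleton w0] at e4
  unfold fd
  rw [e1, ← hK]
  omega

end Th

theorem part_ze_tv {w : V} (hw : f.q w = 0) {c : XA hF →* ℂˣ} (hc : c ≠ 1) (ν : Mu F q →* ℂˣ)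
    {g : f.O} (hg : g ∈ St f w) : part (ze f ν) (tv f w) c g = th f w c g := by
  classical
  have hM : (Nat.card (Mu F q) : ℂ) = q + 1 := by rw [card_Mu (hF := hF)]; push_cast; rfl
  have e : ∀ t : XA hF, ∑ z : Mu F q, (((ν z)⁻¹ : ℂˣ) : ℂ) * om f (g * tv f w t * sc f z) =
      om f (g * tv f w t) + ∑ z ∈ Finset.univ.erase (1 : Mu F q),
        (((ν z)⁻¹ : ℂˣ) : ℂ) * om f (g * sc f z) := fun t => by
    rw [← Finset.add_sum_erase _ _ (Finset.mem_univ (1 : Mu F q))]
    congr 1
    · simp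
    · exact Finset.sum_congr rfl fun z hz => by rw [Th.om_sc hw hg t (Finset.ne_of_mem_erase hz)]
  simp only [th, ze, part, e, hM]
  generalize (∑ z ∈ Finset.univ.erase (1 : Mu F q), (((ν z)⁻¹ : ℂˣ) : ℂ) * om f (g * sc f z)) = S
  simp only [mul_add, Finset.sum_add_distrib, ← Finset.sum_mul, Th.sum_inv hc, zero_mul, mul_zero,
    add_zero]
  simp only [Finset.mul_sum]
  exact Finset.sum_congr rfl fun t _ => by ring

theorem th_levi {w w' : V} (hw : f.q w = 0) (hw' : f.q w' = 0) (h : f.B w w' = 1)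
    {c : XA hF →* ℂˣ} (hc : c ≠ 1) {l : f.O} (hl : l ∈ St f w) (hl' : l ∈ St f w') :
    (q : ℂ) ^ 2 * th f w c l = om f l := by
  classical
  have q2 := two_le_q (hF := hF)
  have q0 : (q : ℂ) ≠ 0 := Nat.cast_ne_zero.2 (by omega)
  have q1 : (q : ℂ) + 1 ≠ 0 := by exact_mod_cast Nat.succ_ne_zero q
  have e : ∀ t : XA hF, t ≠ 1 → om f (l * tv f w t) = -(q : ℂ)⁻¹ * om f l := fun t ht => by
    simp only [om, ← Th.fd_levi hw h hl' ht, pow_succ]
    field_simp
  have e0 := Th.sum_inv hc
  rw [← Finset.add_sum_erase _ _ (Finset.mem_univ (1 : XA hF))] at e0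
  have e1 : ∑ t : XA hF, (((c t)⁻¹ : ℂˣ) : ℂ) * om f (l * tv f w t) =
      om f l + (∑ t ∈ Finset.univ.erase (1 : XA hF), (((c t)⁻¹ : ℂˣ) : ℂ)) * (-(q : ℂ)⁻¹ * om f l) := by
    rw [← Finset.add_sum_erase _ _ (Finset.mem_univ (1 : XA hF)), Finset.sum_mul]
    congr 1
    · simp
    · exact Finset.sum_congr rfl fun t ht => by rw [e t (Finset.ne_of_mem_erase ht)]
  have e2 : ∑ t ∈ Finset.univ.erase (1 : XA hF), (((c t)⁻¹ : ℂˣ) : ℂ) = -1 := by
    simp only [map_one, inv_one, Units.val_one] at e0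
    linear_combination e0
  simp only [th, part, e1, e2, card_XA]
  field_simp

end CL.WU
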