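import Cfsg.Agent.CLAS.WU.Bas
import Cfsg.Agent.CLAS.WU.Def2
import Cfsg.Agent.KSG.LSForm

/-! Two lemmas for `Sg.torA`. -/

set_option autoImplicit false

namespace CL.WU.TorA1

open Module CL.Witt CL.Uni Cfsg CL.LS

variable {F : Type*} [Field F] [Fintype F] {q : ℕ} {hF : Fintype.card F = q ^ 2}
  {V : Type*} [AddCommGroup V] [Module F V] [FiniteDimensional F V] {f : Form (HT hF) V}

omit [FiniteDimensional F V] in
theorem pow_mem {U : Submodule F V} {g : f.O} (h : ∀ x ∈ U, g.1 x ∈ U) (i : ℕ) :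
    ∀ x ∈ U, (g ^ i).1 x ∈ U := by
  induction i with
  | zero => exact fun x hx => hx
  | succ i ih => intro x hx; rw [pow_succ]; exact ih _ (h x hx)

omit [FiniteDimensional F V] in
theorem geo (hf : f.Nondeg) {W W' : Submodule F V} {e : V} {g : f.O} (h : Sg f W W' e g) (i : ℕ)
    (z : Mu F q) (hz : ∀ x ∈ W, (g ^ i).1 x = z.val • x) : g ^ i = sc f z * (rf f e z)⁻¹ := by
  have he : (g ^ i).1 e = e := (St f e).pow_mem h.ge i
  have hW' : ∀ y ∈ W', (g ^ i).1 y = z.val • y := fun y hy => by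
    obtain ⟨s, -, hs⟩ := h.tr'
    have m : (g ^ i).1 y ∈ W' := pow_mem (fun x hx => hs ⟨x, hx⟩ ▸ (s ⟨x, hx⟩).2) i y hy
    have md : (g ^ i).1 y - z.val • y ∈ W' := W'.sub_mem m (W'.smul_mem _ hy)
    refine sub_eq_zero.1 (hf _ fun v => f.B_eq_zero_symm ?_)
    obtain ⟨a, ha, b, hb, c, rfl⟩ := h.span v
    have k1 : f.B a ((g ^ i).1 y - z.val • y) = 0 := by
      have e1 := (g ^ i).2.1 a y
      rw [hz a ha, f.B_smul_left, HT_σ] at e1
      rw [map_sub, f.B_smul_right, ← e1]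
      linear_combination (-f.B a ((g ^ i).1 y)) * z.norm
    rw [map_add, map_add, LinearMap.add_apply, LinearMap.add_apply, k1, h.hW'.2 b hb _ md,
      f.B_smul_left, h.pW' _ md, mul_zero, add_zero, add_zero]
  rw [eq_mul_inv_iff_mul_eq]
  refine Subtype.ext (LinearEquiv.ext fun v => ?_)
  obtain ⟨a, ha, b, hb, c, rfl⟩ := h.span v
  change (g ^ i).1 ((rf f e z).1 _) = z.val • _
  simp only [map_add, map_smul, rf_perp (h.pW a ha), rf_perp (h.pW' b hb), rf_self h.he, hz a ha,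
    hW' b hb, he]
  module

variable {M : Type*} [AddCommGroup M] [Module ℂ M] [FiniteDimensional ℂ M]

omit [FiniteDimensional F V] [FiniteDimensional ℂ M] in
theorem comm {W W' : Submodule F V} {e : V} {g : f.O} (h : Sg f W W' e g)
    (ρ : Representation ℂ f.O M) (z : Mu F q) (i : W × W × (HT hF).π.ker) :
    Commute (ρ (rf f e z)) (op (Form.E_le_O (f := f)) ρ W i) :=
  commute_op h.hW (rf f e z).2 (fun x => rf_perp (h.pW x x.2) z) i

omit [FiniteDimensional F V] in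
theorem exw {W W' : Submodule F V} {e : V} {g : f.O} (h : Sg f W W' e g)
    (ρ : Representation ℂ f.O M) {x : M} (hx : ∀ z, ρ (rf f e z) x = x) {u v : V} (hu : u ∈ W)
    (hv : v ∈ W) {a : F} (ha : (HT hF).π a = 0) (hne : ρ (eiO f u v a) x ≠ x) :
    ∃ (μ : W × W × (HT hF).π.ker → ℂ) (y : M), y ≠ 0 ∧ (∀ z, ρ (rf f e z) y = y) ∧
      (∀ i, op (Form.E_le_O (f := f)) ρ W i y = μ i • y) ∧ μ (⟨u, hu⟩, ⟨v, hv⟩, ⟨a, ha⟩) ≠ 1 := by
  let M₀ : Submodule ℂ M := ⨅ z, LinearMap.ker (ρ (rf f e z) - 1)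
  have mem : ∀ y, y ∈ M₀ ↔ ∀ z, ρ (rf f e z) y = y := fun y => by
    simp [M₀, sub_eq_zero]
  have inv : ∀ i, ∀ y ∈ M₀, op (Form.E_le_O (f := f)) ρ W i y ∈ M₀ := fun i y hy =>
    (mem _).2 fun z => by
      rw [← Module.End.mul_apply, (comm h ρ z i).eq, Module.End.mul_apply, (mem y).1 hy]
  let X : W × W × (HT hF).π.ker → Module.End ℂ M₀ := fun i =>
    (op (Form.E_le_O (f := f)) ρ W i).restrict (inv i)
  have hX : ∀ i j, Commute (X i) (X j) := fun i j => LinearMap.ext fun y => Subtype.ext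
    (LinearMap.congr_fun (op_commute (hE := Form.E_le_O (f := f)) (ρ := ρ) h.hW i j).eq y.1)
  have hK : ringChar ℂ ≠ ringChar F := by
    rw [ringChar.eq_zero]
    exact (CharP.char_is_prime F (ringChar F)).ne_zero.symm
  obtain ⟨μ, hμ, h1⟩ := exists_wsp_ne_one hX (i₀ := (⟨u, hu⟩, ⟨v, hv⟩, ⟨a, ha⟩))
    (fun e1 => hne (congrArg Subtype.val (LinearMap.congr_fun e1 ⟨x, (mem x).2 hx⟩)))
    (natCast_ringChar_ne_zero hK) (by
      rw [Module.End.pow_restrict]
      refine LinearMap.ext fun y => Subtype.ext ?_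
      exact LinearMap.congr_fun (op_pow (hE := Form.E_le_O (f := f)) (ρ := ρ) h.hW _) y.1)
  obtain ⟨y, hy, hy0⟩ := (Submodule.ne_bot_iff _).1 hμ
  exact ⟨μ, y.1, fun e1 => hy0 (Subtype.ext e1), (mem _).1 y.2,
    fun i => congrArg Subtype.val (mem_wsp.1 hy i), h1⟩

end CL.WU.TorA1
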