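import Cfsg.Agent.CLAS.WU.RegB
import Cfsg.Agent.CLAS.WU.Part
import Cfsg.Agent.KSG.LSForm
import Cfsg.Agent.CLAS.WU.TorA1

/-! Nontrivial weights of the abelian radical on `M₀ = M^(rf e)`.
The operators `CL.LS.op` (`H = f.O`) commute with each other and with `rf e`, and have finite order, so `M₀` is the sum of its
joint eigenspaces; some weight `μ ≠ 1` occurs, `y₀ ∈ M₀`.  `CL.LS.exists_form` gives `b`, `μ (u,v,0) = ψ (b u v)`; `μ (u,0,a)`
is determined by `op_self`, `μ (u,v,a)` by `op_mul`; so `b ≠ 0`.  `k` from `reg`, `l ∈ St e` with `l = k` on `W` (Witt),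
`y = ρ l⁻¹ y₀ ∈ M₀` has the form `b ∘ k` (`op_mul_conj`).  If `g^i` fixes the weight, it fixes `b ∘ k` (scale `v`), so
`g^i = z` on `W`, on `W'` (duality), `g^i = sc z * (rf e z)⁻¹` fixes `y`.  `sum_ne_zero_of_wt` for `T = zpowers g`. -/

set_option autoImplicit false

namespace CL.WU

open Module CL.Witt CL.Uni Cfsg

variable {F : Type*} [Field F] [Fintype F] {q : ℕ} {hF : Fintype.card F = q ^ 2}
  {V : Type*} [AddCommGroup V] [Module F V] [FiniteDimensional F V] {f : Form (HT hF) V}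

variable {M : Type*} [AddCommGroup M] [Module ℂ M] [FiniteDimensional ℂ M]

namespace TorA

omit [FiniteDimensional F V] in
theorem pow_apply {W : Submodule F V} {g : f.O} {s : W ≃ₗ[F] W} (hs : ∀ x : W, (s x : V) = g.1 x)
    (i : ℕ) (x : W) : (g ^ i).1 x = ((s ^ i) x : W) := by
  induction i generalizing x with
  | zero => rfl
  | succ i ih =>
    rw [_root_.pow_succ, _root_.pow_succ]
    change (g ^ i).1 (g.1 x) = ((s ^ i) (s x) : W)
    rw [← hs, ih]

theorem exists_lift (hf : f.Nondeg) {W : Submodule F V} (hW : f.TotSing W) {e : V}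
    (he : f.B e e ≠ 0) (pW : ∀ x ∈ W, f.B e x = 0) (k : W ≃ₗ[F] W) :
    ∃ l : f.O, l ∈ St f e ∧ ∀ x : W, l.1 x = k x := by
  have inj : ∀ k : W ≃ₗ[F] W, Function.Injective
      ((W.subtype ∘ₗ (k : W →ₗ[F] W)).coprod (LinearMap.toSpanSingleton F V e)) := fun k => by
    rw [injective_iff_map_eq_zero]
    rintro ⟨x, c⟩ hx
    have hx' : (k x : V) + c • e = 0 := hx
    have hc : c = 0 := by
      have := congrArg (f.B e) hx'
      rw [map_add, pW _ (k x).2, map_smul, zero_add, map_zero, smul_eq_mul] at this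
      exact (mul_eq_zero.1 this).resolve_right he
    rw [hc, zero_smul, add_zero, Submodule.coe_eq_zero, map_eq_zero_iff _ k.injective] at hx'
    rw [hc, hx']; rfl
  have hB : ∀ (x y : W) (c d : F), f.B (x + c • e) (y + d • e) = f.B (c • e) (d • e) := by
    intro x y c d
    have h1 : f.B x e = 0 := by rw [f.symm, pW _ x.2, map_zero, mul_zero]
    have h2 : f.B (c • e) y = 0 := by
      rw [map_smulₛₗ, LinearMap.smul_apply, pW _ y.2, smul_zero]
    rw [map_add, map_add f.B, LinearMap.add_apply, LinearMap.add_apply, hW.2 _ x.2 _ y.2, h2,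
      map_smul (f.B x), h1, smul_zero, zero_add, zero_add, zero_add]
  obtain ⟨l, hl, h⟩ := hf.witt_maps _ _ (inj 1) (inj k)
    (fun x y => (hB _ _ _ _).trans (hB _ _ _ _).symm)
    (fun x => by
      rw [f.herm_q, f.herm_q]
      exact (hB _ _ _ _).trans (hB _ _ _ _).symm)
  refine ⟨⟨l, hl⟩, ?_, fun x => ?_⟩
  · simpa [mem_St] using h (0, 1)
  · simpa using h (x, 0)

end TorA

theorem Sg.torA (hf : f.Nondeg) {W W' : Submodule F V} {e : V} {g : f.O} (h : Sg f W W' e g)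
    (ρ : Representation ℂ f.O M) (hZ : ∀ z x, ρ (sc f z) x = x) {x : M}
    (hx : ∀ z, ρ (rf f e z) x = x) {u v : V} (hu : u ∈ W) (hv : v ∈ W) {a : F}
    (ha : (HT hF).π a = 0) (hne : ρ (eiO f u v a) x ≠ x) :
    ∃ y : M, y ≠ 0 ∧ ρ g y = y ∧ ∀ z, ρ (rf f e z) y = y := by
  classical
  obtain ⟨s, hs, hsg⟩ := h.tr
  obtain ⟨μ, y₀, hy0, hr0, hw0, hμ1⟩ := TorA1.exw h ρ hx hu hv ha hne
  have hμ : LS.wsp (LS.op Form.E_le_O ρ W) μ ≠ ⊥ :=
    (Submodule.ne_bot_iff _).2 ⟨y₀, (LS.mem_wsp).2 hw0, hy0⟩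
  have hK : ringChar ℂ ≠ ringChar F := by
    rw [ringChar.eq_zero]
    exact (CharP.ringChar_ne_zero_of_finite F).symm
  obtain ⟨ψ, hψ, hψσ⟩ := LS.exists_addChar_invariant hK (HT hF).σ (HT hF).σσ
  obtain ⟨b, hb, hb'⟩ := LS.exists_form h.hW hψ hψσ hμ
  have hb0 : b ≠ 0 := fun h0 => hμ1 <| by
    obtain ⟨c, hc⟩ := exists_sub_σ_eq (sig_ne_id hF) (sig_sig hF) (a := a) ha
    have hc' : (HT hF).σ (sig hF c) - (HT hF).ε * sig hF c = ((⟨a, ha⟩ : (HT hF).π.ker) : F) := by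
      rw [HT_ε, one_mul]
      exact (congrArg (· - _) (sig_sig hF c)).trans hc
    have e1 := LS.op_mul (hE := Form.E_le_O) (ρ := ρ) h.hW ⟨u, hu⟩ ⟨v, hv⟩ 0 0 ⟨a, ha⟩
    rw [add_zero, zero_add] at e1
    rw [LS.wt_mul hμ e1, ← LS.wt_eq hμ (LS.op_self h.hW (sig hF c) ⟨u, hu⟩ hc'), hb, hb, h0]
    simp
  obtain ⟨k, hk⟩ := reg hs b (fun u v => by rw [hb', HT_ε, one_mul, HT_σ]) hb0
  obtain ⟨l, hle, hl⟩ := TorA.exists_lift hf h.hW h.he h.pW k
  set y := ρ l⁻¹ y₀ with hy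
  have hy1 : y ≠ 0 := fun h0 => hy0 (LS.injective_rep ρ l⁻¹ (h0.trans (map_zero _).symm))
  have hst : ∀ t ∈ St f e, ∀ z x, ρ (rf f e z) (ρ t x) = ρ t (ρ (rf f e z) x) := fun t ht z x => by
    rw [← Module.End.mul_apply, ← map_mul, ← rf_comm ht, map_mul, Module.End.mul_apply]
  have hr : ∀ z, ρ (rf f e z) y = y := fun z => by rw [hy, hst _ (inv_mem hle), hr0]
  have hw : ∀ i, LS.op Form.E_le_O ρ W i y = μ (k i.1, k i.2.1, i.2.2) • y := fun i => by
    rw [hy, ← Module.End.mul_apply, LS.op_mul_conj h.hW l.2 hl, Module.End.mul_apply, hw0, map_smul]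
  have hn : ∀ t : Subgroup.zpowers g, ∃ n : ℕ, g ^ n = (t : f.O)⁻¹ := fun t =>
    (mem_powers_iff_mem_zpowers.2 (inv_mem t.2) :)
  choose n hn using hn
  have := Fintype.ofFinite (Subgroup.zpowers g)
  have hT : Subgroup.zpowers g ≤ St f e := (Subgroup.zpowers_le).2 h.ge
  have key := sum_ne_zero_of_wt ((ρ : f.O →* Module.End ℂ M).comp (Subgroup.zpowers g).subtype)
    (LS.op Form.E_le_O ρ W) (fun t i => ((s ^ n t) i.1, (s ^ n t) i.2.1, i.2.2))
    (fun t i => by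
      have := LS.op_mul_conj (hE := Form.E_le_O) (ρ := ρ) h.hW (g ^ n t).2
        (TorA.pow_apply hsg (n t)) i
      rwa [hn, inv_inv] at this) hy1 hw (fun t ht => by
      obtain ⟨z, hz⟩ := hk (n t) fun x y => LS.eq_of_addChar hψ fun c => by
        have := ht (x, c • y, 0)
        dsimp only at this
        simpa only [hb, map_smul, smul_eq_mul] using this
      have e1 := TorA1.geo hf h (n t) z fun x hx => by
        rw [TorA.pow_apply hsg (n t) ⟨x, hx⟩, hz]; rfl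
      rw [hn, inv_eq_iff_eq_inv, mul_inv_rev, inv_inv, ← map_inv] at e1
      change ρ t y = y
      rw [e1, map_mul, Module.End.mul_apply, hZ, hr])
  refine ⟨_, key, ?_, fun z => ?_⟩
  · rw [map_sum, ← Equiv.sum_comp (Equiv.mulLeft (⟨g, Subgroup.mem_zpowers g⟩ : Subgroup.zpowers g))
      fun t => ((ρ : f.O →* Module.End ℂ M).comp (Subgroup.zpowers g).subtype) t y]
    refine Finset.sum_congr rfl fun t _ => ?_
    rw [Equiv.coe_mulLeft, map_mul]
    rfl
  · rw [map_sum]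
    refine Finset.sum_congr rfl fun t _ => ?_
    exact (hst t (hT t.2) z y).trans (by rw [hr]; rfl)

end CL.WU
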