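import Cfsg.Agent.CLAS.WU.RegD
import Cfsg.Agent.CLAS.WU.Part
import Cfsg.Agent.KSG.LSWeight

/-! Nontrivial weights of `Q / R` on `M^R` (`N` = vectors fixed by all `eiO u v a`, `u, v ∈ W`).
Fix `a₀` with `π a₀ = q e`, `op u = ρ (eiO u e a₀)`; `ei u e a₀ * ei u' e a₀ = ei (u + u') e a₀ * ei u (a₀ • u') 0`, the `op u`
preserve `N` (they commute with `R`), so `u ↦ op u` is additive on `N`; `eiO u (c • e) a = eiO (c^q • u) e a₀ * (element of X)`
(`ei_smul_left`, `ei_mul`).  A weight `φ ≠ 1` occurs, an additive character of `W`.  `T = zpowers g × μ` acts through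
`(g^i, z) ↦ g^i * rf e z`, preserving `N`, on `W` by `u ↦ z • s^(-i) u`; if it fixes `φ` then `z s^(-i) - 1` is not onto, so zero
(`eq_zero_or_bij`), `g^i = z` on `W` and `W'`, and `g^i * rf e z = sc z`.  `sum_ne_zero_of_wt` on `N`. -/

set_option autoImplicit false

namespace CL.WU

open Module CL.Witt CL.Uni Cfsg

variable {F : Type*} [Field F] [Fintype F] {q : ℕ} {hF : Fintype.card F = q ^ 2}
  {V : Type*} [AddCommGroup V] [Module F V] [FiniteDimensional F V] {f : Form (HT hF) V}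

variable {M : Type*} [AddCommGroup M] [Module ℂ M] [FiniteDimensional ℂ M]

namespace TorB

variable {W W' : Submodule F V} {e : V} {g : f.O}

omit [FiniteDimensional F V] in
theorem okR (h : Sg f W W' e g) {u v : V} (hu : u ∈ W) (hv : v ∈ W) {a : F} (ha : (HT hF).π a = 0) :
    f.EichOK u v a := ⟨h.hW.1 u hu, h.hW.2 u hu v hv, by rw [ha, h.hW.1 v hv]⟩

omit [FiniteDimensional F V] in
theorem okP (h : Sg f W W' e g) {u : V} (hu : u ∈ W) {a : F} (ha : (HT hF).π a = f.q e) :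
    f.EichOK u e a := ⟨h.hW.1 u hu, f.B_eq_zero_symm (h.pW u hu), ha⟩

omit [FiniteDimensional F V] in
theorem fixW (h : Sg f W W' e g) {u : V} (hu : u ∈ W) {a : F} (ha : (HT hF).π a = f.q e) {w : V} (hw : w ∈ W) :
    (eiO f u e a).1 w = w := (okP h hu ha).ei_apply_fix (h.hW.2 u hu w hw) (h.pW w hw)

omit [FiniteDimensional F V] in
theorem P_mul (h : Sg f W W' e g) {u u' : V} (hu : u ∈ W) (hu' : u' ∈ W) {a : F} (ha : (HT hF).π a = f.q e) :
    eiO f u e a * eiO f u' e a = eiO f (u + u') e a * eiO f u (a • u') 0 := by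
  refine Subtype.ext (LinearEquiv.ext fun x => ?_)
  change f.ei u e a (f.ei u' e a x) = f.ei (u + u') e a (f.ei u (a • u') 0 x)
  have o1 := okP h hu ha
  have o2 := okP h hu' ha
  have o3 := okP h (W.add_mem hu hu') ha
  have o4 := okR h hu (W.smul_mem a hu') (map_zero (HT hF).π)
  have e1 := o1.hvv
  rw [o1.ei_apply, o2.ei_apply, o3.ei_apply, o4.ei_apply]
  simp only [map_add, map_sub, map_smul, map_smulₛₗ, LinearMap.add_apply, LinearMap.smul_apply, smul_eq_mul,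
    h.hW.2 u hu u hu, h.hW.2 u hu u' hu', h.hW.2 u' hu' u hu, h.hW.2 u' hu' u' hu', h.pW u hu, h.pW u' hu', o1.huv,
    e1, HT_ε]
  module

/-- The vectors fixed by the abelian radical. -/
def N (f : Form (HT hF) V) (W : Submodule F V) (ρ : Representation ℂ f.O M) : Submodule ℂ M where
  carrier := {x | ∀ u ∈ W, ∀ v ∈ W, ∀ a, (HT hF).π a = 0 → ρ (eiO f u v a) x = x}
  add_mem' hx hy u hu v hv a ha := by rw [map_add, hx u hu v hv a ha, hy u hu v hv a ha]
  zero_mem' _ _ _ _ _ _ := map_zero _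
  smul_mem' c x hx u hu v hv a ha := by rw [map_smul, hx u hu v hv a ha]

omit [FiniteDimensional ℂ M] [FiniteDimensional F V] in
theorem P_mem (h : Sg f W W' e g) (ρ : Representation ℂ f.O M) {u : V} (hu : u ∈ W) {a : F}
    (ha : (HT hF).π a = f.q e) {x : M} (hx : x ∈ N f W ρ) : ρ (eiO f u e a) x ∈ N f W ρ := by
  intro w hw v hv b hb
  have := eiO_conj (eiO f u e a) (okR h hw hv hb)
  rw [fixW h hu ha hw, fixW h hu ha hv, mul_inv_eq_iff_eq_mul] at this
  rw [← Module.End.mul_apply, ← map_mul, ← this, map_mul, Module.End.mul_apply, hx w hw v hv b hb]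

theorem exists_wt (h : Sg f W W' e g) (ρ : Representation ℂ f.O M) {a : F} (ha : (HT hF).π a = f.q e) {x : M}
    (hx : x ∈ N f W ρ) {u : W} (hne : ρ (eiO f u e a) x ≠ x) :
    ∃ (φ : W → ℂ) (y : M), y ≠ 0 ∧ (∀ w : W, ρ (eiO f w e a) y = φ w • y) ∧ (∀ w w', φ (w + w') = φ w * φ w') ∧
      φ u ≠ 1 := by
  let op : W → Module.End ℂ (N f W ρ) := fun w => (ρ (eiO f w e a)).restrict fun _ hy => P_mem h ρ w.2 ha hy
  have ov : ∀ (w : W) (y : N f W ρ), (op w y : M) = ρ (eiO f w e a) y := fun _ _ => rfl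
  have om : ∀ w w', op w * op w' = op (w + w') := fun w w' => by
    refine LinearMap.ext fun y => Subtype.ext ?_
    rw [Module.End.mul_apply, ov, ov, ov, ← Module.End.mul_apply, ← map_mul, P_mul h w.2 w'.2 ha, map_mul,
      Module.End.mul_apply, y.2 _ w.2 _ (W.smul_mem a w'.2) 0 (map_zero _)]
    rfl
  have opw : ∀ (n : ℕ) (y : N f W ρ), ((op u ^ n) y : M) = ρ (eiO f u e a ^ n) y := fun n => by
    induction n with
    | zero => intro y; rw [pow_zero, pow_zero, map_one]; rfl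
    | succ n ih => intro y; rw [pow_succ, pow_succ, map_mul, Module.End.mul_apply, ih, ov]; rfl
  obtain ⟨φ, hφ, h1⟩ := CL.LS.exists_wsp_ne_one (X := op) (fun i j => by rw [Commute, SemiconjBy, om, om, add_comm])
    (i₀ := u) (fun e1 => hne (by rw [← ov u ⟨x, hx⟩, e1]; rfl)) (CL.Char.card_ne_zero f.O)
    (LinearMap.ext fun y => Subtype.ext (by rw [opw, pow_card_eq_one', map_one]; rfl))
  obtain ⟨y, hy, y0⟩ := (Submodule.ne_bot_iff _).1 hφ
  exact ⟨φ, y, fun e1 => y0 (Subtype.ext e1), fun w => by rw [← ov, CL.LS.mem_wsp.1 hy w]; rfl,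
    fun w w' => CL.LS.wt_mul hφ (om w w'), h1⟩

omit [FiniteDimensional F V] in
theorem g_St (h : Sg f W W' e g) : Subgroup.zpowers g ≤ St f e := (Subgroup.zpowers_le).2 h.ge

/-- The centraliser of the regular element. -/
def T (h : Sg f W W' e g) : Subgroup f.O where
  carrier := {k | ∃ b ∈ Subgroup.zpowers g, ∃ z, k = b * rf f e z}
  one_mem' := ⟨1, one_mem _, 1, by rw [map_one, mul_one]⟩
  mul_mem' := by
    rintro _ _ ⟨b, hb, z, rfl⟩ ⟨b', hb', z', rfl⟩
    refine ⟨b * b', mul_mem hb hb', z * z', ?_⟩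
    rw [map_mul, mul_assoc, mul_assoc, ← mul_assoc (rf f e z), ← rf_comm (g_St h hb'), mul_assoc]
  inv_mem' := by
    rintro _ ⟨b, hb, z, rfl⟩
    exact ⟨b⁻¹, inv_mem hb, z⁻¹, by rw [mul_inv_rev, ← map_inv, rf_comm (g_St h (inv_mem hb))]⟩

theorem zp_mem {X : Submodule F V} (hX : ∃ s : X ≃ₗ[F] X, Tr s ∧ ∀ x : X, (s x : V) = g.1 x) {b : f.O}
    (hb : b ∈ Subgroup.zpowers g) : ∀ w ∈ X, b.1 w ∈ X := by
  obtain ⟨s, -, hs⟩ := hX
  obtain ⟨n, rfl⟩ := mem_powers_iff_mem_zpowers.2 hb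
  induction n with
  | zero => exact fun w hw => hw
  | succ n ih =>
    intro w hw
    change (g ^ (n + 1)).1 w ∈ X
    rw [pow_succ]
    exact ih (Subgroup.npow_mem_zpowers g n) (g.1 w) (by rw [← hs ⟨w, hw⟩]; exact (s ⟨w, hw⟩).2)

theorem scal (hf : f.Nondeg) (h : Sg f W W' e g) {b : f.O} (hb : b ∈ Subgroup.zpowers g) (z : Mu F q)
    (hW : ∀ w ∈ W, b.1 w = z.val • w) : b * rf f e z = sc f z := by
  have hW' : ∀ w ∈ W', b.1 w = z.val • w := fun w hw => by
    have m : b.1 w - z.val • w ∈ W' := W'.sub_mem (zp_mem h.tr' hb w hw) (W'.smul_mem _ hw)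
    refine sub_eq_zero.1 (hf.right _ fun x => ?_)
    obtain ⟨x1, h1, x2, h2, c, rfl⟩ := h.span x
    rw [map_add, map_add, LinearMap.add_apply, LinearMap.add_apply, h.hW'.2 x2 h2 _ m, map_smulₛₗ,
      LinearMap.smul_apply, h.pW' _ m, smul_zero, add_zero, add_zero, map_sub, map_smul, smul_eq_mul,
      ← f.O_B b x1 w, hW x1 h1, map_smulₛₗ, LinearMap.smul_apply, smul_eq_mul, HT_σ, ← mul_assoc,
      mul_comm z.val, z.norm, one_mul, sub_self]
  refine Subtype.ext (LinearEquiv.ext fun x => ?_)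
  obtain ⟨x1, h1, x2, h2, c, rfl⟩ := h.span x
  change b.1 ((rf f e z).1 _) = z.val • _
  simp only [map_add, map_smul, rf_perp (h.pW x1 h1), rf_perp (h.pW' x2 h2), rf_self h.he, hW x1 h1, hW' x2 h2,
    mem_St.1 (g_St h hb), smul_add]
  rw [smul_comm c]

theorem key (hf : f.Nondeg) (h : Sg f W W' e g) {a : F} (ha : (HT hF).π a = f.q e) (t : T h) :
    ∃ A : W →ₗ[F] W, (∀ u : W, eiO f u e a * t.1 = t.1 * eiO f (A u) e a) ∧
      (Function.Surjective (A - LinearMap.id : W →ₗ[F] W) ∨ ∃ z, t.1 = sc f z) := by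
  obtain ⟨b, hb, z, hz⟩ := (t⁻¹).2
  have hz' : t.1⁻¹ = b * rf f e z := hz
  obtain ⟨s, hs, hsg⟩ := h.tr
  let A : W →ₗ[F] W := (z.val ^ q) • (b.1 : V →ₗ[F] V).restrict (zp_mem h.tr hb)
  have hA : ∀ u : W, (A u : V) = z.val ^ q • b.1 u := fun _ => rfl
  refine ⟨A, fun u => ?_, ?_⟩
  · have e1 := eiO_conj t.1⁻¹ (okP h u.2 ha)
    have e2 : (t.1⁻¹).1 u = b.1 u := by
      rw [hz']
      change b.1 ((rf f e z).1 u) = _
      rw [rf_perp (h.pW u u.2)]
    have e3 : (t.1⁻¹).1 e = z.val • e := by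
      rw [hz']
      change b.1 ((rf f e z).1 e) = _
      rw [rf_self h.he, map_smul, mem_St.1 (g_St h hb)]
    have e4 : eiO f (A u) e a = eiO f (b.1 u) (z.val • e) a := by
      refine Subtype.ext ?_
      have := (okP h (zp_mem h.tr hb u u.2) ha).ei_smul_left ((HT hF).σ z.val)
      rw [(HT hF).σσ, mul_comm z.val, HT_σ, z.norm, one_mul] at this
      exact this
    rw [e4, ← e2, ← e3, ← e1]
    group
  · have hc : b * g = g * b := by
      obtain ⟨n, rfl⟩ := hb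
      exact (Commute.zpow_self g n).eq
    rcases hs.eq_zero_or_bij (t := A - LinearMap.id) (fun x => by
      refine Subtype.ext ?_
      rw [LinearMap.sub_apply, LinearMap.sub_apply, LinearMap.id_apply, LinearMap.id_apply, map_sub,
        Submodule.coe_sub, Submodule.coe_sub, hA, hsg, hsg, hA, map_smul]
      congr 2
      exact congrArg (fun k : f.O => k.1 x) hc) with h0 | h0
    · refine Or.inr ⟨z⁻¹, ?_⟩
      rw [map_inv, ← scal hf h hb z fun w hw => ?_, ← hz', inv_inv]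
      have := congrArg Subtype.val (LinearMap.congr_fun (sub_eq_zero.1 h0) ⟨w, hw⟩)
      rw [hA] at this
      change z.val ^ q • b.1 w = w at this
      nth_rewrite 2 [← this]
      rw [smul_smul, mul_comm, z.norm, one_smul]
    · exact Or.inl h0.2

end TorB

theorem Sg.torB (hf : f.Nondeg) {W W' : Submodule F V} {e : V} {g : f.O} (h : Sg f W W' e g)
    (ρ : Representation ℂ f.O M) (hZ : ∀ z x, ρ (sc f z) x = x) {x : M}
    (hx : ∀ u ∈ W, ∀ v ∈ W, ∀ a, (HT hF).π a = 0 → ρ (eiO f u v a) x = x) {u : V} (hu : u ∈ W)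
    {c a : F} (ha : f.EichOK u (c • e) a) (hne : ρ (eiO f u (c • e) a) x ≠ x) :
    ∃ y : M, y ≠ 0 ∧ ρ g y = y ∧ ∀ z, ρ (rf f e z) y = y := by
  obtain ⟨a₀, ha₀, -⟩ := f.lift e
  have o1 := TorB.okP h hu ha₀
  have o2 := o1.smul_right c
  have hb : (HT hF).π (a - (HT hF).σ c * c * a₀) = 0 := by rw [map_sub, ha.ha, o2.ha, sub_self]
  have e1 : eiO f u (c • e) a = eiO f ((HT hF).σ c • u) e a₀ * eiO f u 0 (a - (HT hF).σ c * c * a₀) := by
    refine Subtype.ext ?_
    change f.ei u (c • e) a = f.ei ((HT hF).σ c • u) e a₀ * f.ei u 0 _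
    rw [o1.ei_smul_left, (HT hF).σσ, mul_comm c, o2.ei_mul (TorB.okR h hu W.zero_mem hb), add_zero, map_zero,
      add_zero, add_sub_cancel]
  rw [e1, map_mul, Module.End.mul_apply, hx u hu 0 W.zero_mem _ hb] at hne
  obtain ⟨φ, y, y0, hy, hm, h1⟩ := TorB.exists_wt h ρ ha₀ hx (u := ⟨_, W.smul_mem _ hu⟩) hne
  choose A hA hA' using TorB.key hf h ha₀
  have : Fintype (TorB.T h) := Fintype.ofFinite _
  have n0 : ∀ w, φ w ≠ 0 := fun w e0 =>
    y0 (CL.LS.injective_rep ρ (eiO f w e a₀) (by rw [hy, e0, zero_smul, map_zero]))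
  have hs := sum_ne_zero_of_wt (ρ.comp (TorB.T h).subtype) (fun w : W => ρ (eiO f w e a₀)) (fun t w => A t w)
    (fun t w => by
      change ρ _ * ρ t.1 = ρ t.1 * ρ _
      rw [← map_mul, ← map_mul, hA]) y0 hy (fun t ht => by
      rcases hA' t with hs | ⟨z, hz⟩
      · obtain ⟨w, hw⟩ := hs ⟨_, W.smul_mem ((HT hF).σ c) hu⟩
        refine absurd (mul_right_cancel₀ (n0 w) ?_) h1
        rw [← hm, ← hw, LinearMap.sub_apply, LinearMap.id_apply, sub_add_cancel, ht, one_mul]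
      · change ρ t.1 y = y
        rw [hz, hZ])
  have fx : ∀ k : TorB.T h, ρ k.1 (∑ t, (ρ.comp (TorB.T h).subtype) t y) =
      ∑ t, (ρ.comp (TorB.T h).subtype) t y := fun k => by
    rw [map_sum]
    refine Fintype.sum_equiv (Equiv.mulLeft k) _ _ fun t => ?_
    rw [Equiv.coe_mulLeft, map_mul]
    rfl
  exact ⟨_, hs, fx ⟨g, g, Subgroup.mem_zpowers g, 1, by rw [map_one, mul_one]⟩,
    fun z => fx ⟨rf f e z, 1, one_mem _, z, by rw [one_mul]⟩⟩

end CL.WU
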