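import Cfsg.Agent.CLAS.WU.Def2
import Cfsg.Agent.CLAS.WU.Fix

/-! If the radical fixes `M₀ = M^(rf e)` then so does `SO`.
`M₀` is invariant under `St e` (`rf_comm`), so the set of elements fixing `M₀` pointwise is a subgroup normalised by `St e`.
For `0 ≠ w ∈ W` and `EichOK w v a` write `v = v₁ + b + c e` (`v₁ ∈ W`, `b ∈ W'`, `B w b = 0`); `ei w v a` is a product of
`ei w v₁ 0`, `ei w b 0`, `ei w (c e) a'` and `ei w 0 a''`.  For `b ≠ 0`: `dim W ≥ 2` (else `b ⊥ V`), Witt maps `(w, b, e)` to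
`(w, w₂, e)`, `w₂ ∈ W`.  So `U w` fixes `M₀`; a partner `w' ∈ W'` is `l w` with `l ∈ St e`; `fix_SO`. -/

set_option autoImplicit false

namespace CL.WU

open Module CL.Witt CL.Uni Cfsg

variable {F : Type*} [Field F] [Fintype F] {q : ℕ} {hF : Fintype.card F = q ^ 2}
  {V : Type*} [AddCommGroup V] [Module F V] [FiniteDimensional F V] {f : Form (HT hF) V}

variable {M : Type*} [AddCommGroup M] [Module ℂ M] [FiniteDimensional ℂ M]

namespace TorC

/-- `g` fixes all vectors fixed by the reflections along `e`. -/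
def K (ρ : Representation ℂ f.O M) (e : V) (g : f.O) : Prop :=
  ∀ x, (∀ z, ρ (rf f e z) x = x) → ρ g x = x

omit [FiniteDimensional F V] [FiniteDimensional ℂ M] in
theorem K.mul {ρ : Representation ℂ f.O M} {e : V} {g g' : f.O} (h : K ρ e g) (h' : K ρ e g') :
    K ρ e (g * g') := fun x hx => by rw [map_mul, End.mul_apply, h' x hx, h x hx]

omit [FiniteDimensional F V] [FiniteDimensional ℂ M] in
theorem K.conj {ρ : Representation ℂ f.O M} {e : V} {l : f.O} (hl : l ∈ St f e) {u v : V} {a : F}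
    (ok : f.EichOK u v a) (h : K ρ e (eiO f (l.1 u) (l.1 v) a)) : K ρ e (eiO f u v a) := by
  intro x hx
  have h1 := h (ρ l x) fun z => by
    rw [← End.mul_apply, ← map_mul, ← rf_comm hl, map_mul, End.mul_apply, hx]
  rw [← eiO_conj l ok, ← End.mul_apply, ← map_mul, inv_mul_cancel_right, map_mul, End.mul_apply] at h1
  exact FixQ.inj ρ l h1

theorem move (hf : f.Nondeg) {W W' : Submodule F V} {e : V} {g : f.O} (h : Sg f W W' e g)
    {X : Submodule F V} (hX : f.TotSing X) (he : ∀ x ∈ X, f.B e x = 0) :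
    ∃ l ∈ St f e, ∀ x ∈ X, l.1 x ∈ W := by
  have d : finrank F X ≤ finrank F W := by
    have h1 := hf.finrank_add_finrank_perp X
    have h2 := Submodule.finrank_mono hX.le_perp
    have h3 := h.rk
    omega
  obtain ⟨j, hj⟩ := finrank_le_iff_exists_linearMap.1 d
  have key : ∀ {Y : Submodule F V}, f.TotSing Y → (∀ y ∈ Y, f.B e y = 0) → ∀ y ∈ Y, ∀ y' ∈ Y,
      ∀ c c' : F, f.B (y + c • e) (y' + c' • e) = f.B (c • e) (c' • e) := by
    intro Y hY hYe y hy y' hy' c c'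
    rw [f.B_add_left, f.B_add_right, f.B_add_right, hY.2 y hy y' hy', f.B_smul_right c' y,
      f.B_eq_zero_symm (hYe y hy), f.B_smul_left c e y', hYe y' hy']
    simp
  have inj : ∀ {y : V} {c : F}, f.B e y = 0 → y + c • e = 0 → y = 0 ∧ c = 0 := by
    intro y c h1 h2
    have h3 := congrArg (f.B e) h2
    rw [f.B_add_right, h1, zero_add, f.B_smul_right, map_zero] at h3
    have h4 := (mul_eq_zero.1 h3).resolve_right h.he
    rw [h4, zero_smul, add_zero] at h2
    exact ⟨h2, h4⟩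
  let φ : X × F →ₗ[F] V := X.subtype.coprod (LinearMap.toSpanSingleton F V e)
  let ψ : X × F →ₗ[F] V := (W.subtype ∘ₗ j).coprod (LinearMap.toSpanSingleton F V e)
  have a1 : ∀ p, φ p = p.1 + p.2 • e := fun _ => rfl
  have a2 : ∀ p, ψ p = j p.1 + p.2 • e := fun _ => rfl
  have hB : ∀ s t, f.B (ψ s) (ψ t) = f.B (φ s) (φ t) := fun s t => by
    rw [a1, a1, a2, a2, key hX he _ s.1.2 _ t.1.2, key h.hW h.pW _ (j s.1).2 _ (j t.1).2]
  obtain ⟨l, hl, e1⟩ := hf.witt_maps φ ψ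
    ((injective_iff_map_eq_zero _).2 fun p e0 =>
      have := inj (he _ p.1.2) ((a1 p).symm.trans e0)
      Prod.ext (Subtype.ext this.1) this.2)
    ((injective_iff_map_eq_zero _).2 fun p e0 =>
      have := inj (h.pW _ (j p.1).2) ((a2 p).symm.trans e0)
      Prod.ext (hj ((Subtype.ext this.1 : j p.1 = 0).trans (map_zero j).symm)) this.2)
    hB fun s => by rw [f.herm_q, f.herm_q, hB]
  refine ⟨⟨l, hl⟩, ?_, fun x hx => ?_⟩
  · have := e1 (0, 1)
    rw [a1, a2] at this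
    change l e = e
    simpa using this
  · have := e1 (⟨x, hx⟩, 0)
    rw [a1, a2] at this
    simp only [zero_smul, add_zero] at this
    change l x ∈ W
    rw [this]; exact (j _).2

end TorC

theorem Sg.torC (hf : f.Nondeg) {W W' : Submodule F V} {e : V} {g : f.O} (h : Sg f W W' e g)
    (ρ : Representation ℂ f.O M)
    (h1 : ∀ x, (∀ z, ρ (rf f e z) x = x) → ∀ u ∈ W, ∀ v ∈ W, ∀ a, (HT hF).π a = 0 →
      ρ (eiO f u v a) x = x)
    (h2 : ∀ x, (∀ z, ρ (rf f e z) x = x) → ∀ u ∈ W, ∀ c a : F, f.EichOK u (c • e) a →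
      ρ (eiO f u (c • e) a) x = x)
    {x : M} (hx : ∀ z, ρ (rf f e z) x = x) (k : f.O) (hk : k.1 ∈ f.SO) : ρ k x = x := by
  have ts : ∀ {u v : V}, f.q u = 0 → f.q v = 0 → f.B u v = 0 → f.B e u = 0 → f.B e v = 0 →
      ∃ l ∈ St f e, l.1 u ∈ W ∧ l.1 v ∈ W := by
    intro u v hu hv huv eu ev
    obtain ⟨l, hl, hm⟩ := TorC.move hf h (X := Submodule.span F {u, v})
      (f.totSing_span (by rintro _ (rfl | rfl) <;> assumption) (by
        rintro _ (rfl | rfl) _ (rfl | rfl)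
        exacts [f.B_self_eq_zero hu, huv, f.B_eq_zero_symm huv, f.B_self_eq_zero hv]))
      fun x hx => f.mem_perp'.1 (f.mem_perp_span_pair.2 ⟨f.B_eq_zero_symm eu, f.B_eq_zero_symm ev⟩) x hx
    exact ⟨l, hl, hm u (Submodule.subset_span (by simp)), hm v (Submodule.subset_span (by simp))⟩
  have A : ∀ {u v : V}, f.q u = 0 → f.q v = 0 → f.B u v = 0 → f.B e u = 0 → f.B e v = 0 →
      TorC.K ρ e (eiO f u v 0) := by
    intro u v hu hv huv eu ev
    obtain ⟨l, hl, m1, m2⟩ := ts hu hv huv eu ev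
    exact TorC.K.conj hl ⟨hu, huv, by rw [map_zero, hv]⟩ fun x hx => h1 x hx _ m1 _ m2 0 (map_zero _)
  have B : ∀ {u : V} {c a : F}, f.B e u = 0 → f.EichOK u (c • e) a → TorC.K ρ e (eiO f u (c • e) a) := by
    intro u c a eu ok
    obtain ⟨l, hl, m1, -⟩ := ts ok.hu ok.hu ok.huu eu eu
    have e1 : l.1 (c • e) = c • e := by rw [map_smul, mem_St.1 hl]
    refine TorC.K.conj hl ok fun x hx => ?_
    have := ok.map l.2
    rw [e1] at this ⊢
    exact h2 x hx _ m1 c a this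
  have C : ∀ {w : V}, f.B e w = 0 → (∀ s ∈ W, f.B w s = 0) ∨ (∀ s ∈ W', f.B w s = 0) →
      ∀ v a, f.EichOK w v a → ρ (eiO f w v a) x = x := by
    intro w ew hw v a ok
    obtain ⟨s, hs, t, ht, c, rfl⟩ := h.span v
    have we : f.B w (c • e) = 0 := by rw [f.B_smul_right, f.B_eq_zero_symm ew, mul_zero]
    have h0 := ok.huv
    rw [f.B_add_right, f.B_add_right, we, add_zero] at h0
    have hst : f.B w s = 0 ∧ f.B w t = 0 := by
      rcases hw with hw | hw
      · exact ⟨hw s hs, by rwa [hw s hs, zero_add] at h0⟩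
      · exact ⟨by rwa [hw t ht, add_zero] at h0, hw t ht⟩
    have o1 : f.EichOK w s 0 := ⟨ok.hu, hst.1, by rw [map_zero, h.hW.1 s hs]⟩
    have o2 : f.EichOK w t 0 := ⟨ok.hu, hst.2, by rw [map_zero, h.hW'.1 t ht]⟩
    have z : f.B (s + t) (c • e) = 0 := by
      rw [f.B_smul_right, f.B_add_left, f.B_eq_zero_symm (h.pW s hs), f.B_eq_zero_symm (h.pW' t ht),
        add_zero, mul_zero]
    have o3 : f.EichOK w (c • e) (a - f.B s t) := ⟨ok.hu, we, by
      rw [map_sub, ok.ha, f.q_add_of_B_eq_zero z, f.q_add, h.hW.1 s hs, h.hW'.1 t ht]; ring⟩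
    have := ((A ok.hu (h.hW.1 s hs) hst.1 ew (h.pW s hs)).mul
      (A ok.hu (h.hW'.1 t ht) hst.2 ew (h.pW' t ht))).mul (B ew o3) x hx
    rwa [FixQ.mul o1 o2, FixQ.mul (o1.add o2) o3, z, zero_add, zero_add, add_zero, add_sub_cancel] at this
  obtain ⟨w, hw, w0⟩ := (Submodule.ne_bot_iff W).1 h.ne
  obtain ⟨y, hy⟩ := hf.exists_B_eq w0 1
  obtain ⟨s, hs, t, ht, c, rfl⟩ := h.span y
  rw [f.B_add_right, f.B_add_right, h.hW.2 w hw s hs, f.B_smul_right, f.B_eq_zero_symm (h.pW w hw),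
    mul_zero, zero_add, add_zero] at hy
  exact fix_SO hf ρ (h.hW.1 w hw) (h.hW'.1 t ht) (hy ▸ one_ne_zero)
    (C (h.pW w hw) (Or.inl (h.hW.2 w hw))) (C (h.pW' t ht) (Or.inr (h.hW'.2 t ht))) k hk

end CL.WU
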