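import Cfsg.Agent.CLAS.WU.Sing
import Cfsg.Agent.CLAS.WU.Cen
import Cfsg.Agent.CLAS.WU.TorA
import Cfsg.Agent.CLAS.WU.TorB
import Cfsg.Agent.CLAS.WU.TorC

/-! Characters with reflection-fixed vectors occur in the
conjugation character.  `exists_sg`; `hs_of_one` gives `∑ χ (rf e z) ≠ 0`, so `x ≠ 0` in `M₀` (`exists_of_part`); `Cen 1` makes the
scalars trivial.  `torA`, `torB` give a vector fixed by the centraliser (`cent`, `gsum_ne_zero_iff`); otherwise `torC`,
`lin_of_fix`: `χ = lin l`, `l (z^n) = 1` (`dt_sc`), so `l = 1` by coprimality and `χ = 1`. -/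

set_option autoImplicit false

namespace CL.WU

open Module CL.Witt CL.Uni Cfsg

variable {F : Type*} [Field F] [Fintype F] {q : ℕ} {hF : Fintype.card F = q ^ 2}
  {V : Type*} [AddCommGroup V] [Module F V] [FiniteDimensional F V] {f : Form (HT hF) V}

theorem exists_gsum_ne (hf : f.Nondeg) (h3 : 3 ≤ finrank F V)
    (hcop : Nat.Coprime (finrank F V) (2 * (q + 1))) {χ : f.O → ℂ} (hχ : IsIrrCharacter f.O χ)
    (hc : Cen f χ 1) (hs : ¬ Hs f χ) : ∃ g : f.O, gsum χ (Subgroup.centralizer {g}) ≠ 0 := by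
  obtain ⟨n, ρ, hρ, rfl⟩ := hχ
  have hodd : Odd (finrank F V) :=
    Nat.coprime_two_right.1 (Nat.Coprime.coprime_mul_right_right hcop)
  have hc1 : Nat.Coprime (finrank F V) (q + 1) := Nat.Coprime.coprime_mul_left_right hcop
  have h32 : ¬ (finrank F V = 3 ∧ q = 2) := by
    rintro ⟨h1, h2⟩
    rw [h1, h2] at hc1
    exact absurd hc1 (by decide)
  obtain ⟨W, W', e, g, h⟩ := exists_sg hf h3 hodd
  have hcl : IsClassFunction f.O ρ.character := (CL.Char.isCharacter_character ρ).isClassFunction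
  have hZ : ∀ z x, ρ (sc f z) x = x := by
    have h1 : part ρ.character (sc f) 1 1 = ρ.character 1 := by
      have h2 : ∀ z, ρ.character (sc f z) = ρ.character 1 := fun z => by
        have := hc z 1
        rwa [one_mul, MonoidHom.one_apply, Units.val_one, one_mul] at this
      rw [part_one_apply_one]
      simp only [h2, Finset.sum_const, Finset.card_univ, nsmul_eq_mul, ← Nat.card_eq_fintype_card]
      rw [← mul_assoc, inv_mul_cancel₀ Px.cA, one_mul]
    rw [Px.part_one, Representation.char_one, Nat.cast_inj] at h1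
    have h2 := Submodule.eq_top_of_finrank_eq h1
    intro z x
    have h3 : x ∈ Px.E ρ (sc f) 1 := by rw [h2]; trivial
    have := h3 z
    rwa [MonoidHom.one_apply, Units.val_one, one_smul] at this
  have key : (∃ y, y ≠ 0 ∧ ρ g y = y ∧ ∀ z, ρ (rf f e z) y = y) →
      ∃ g : f.O, gsum ρ.character (Subgroup.centralizer {g}) ≠ 0 := by
    rintro ⟨y, y0, hg, hy⟩
    refine ⟨g, (gsum_ne_zero_iff ρ _).2 ⟨y, y0, fun k hk => ?_⟩⟩
    obtain ⟨i, z, rfl⟩ := h.cent hf h32 (x := k) (Subgroup.mem_centralizer_singleton_iff.1 hk)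
    rw [map_mul, Module.End.mul_apply, hy]
    clear hk
    induction i with
    | zero => rw [pow_zero, map_one, Module.End.one_apply]
    | succ i ih => rw [pow_succ, map_mul, Module.End.mul_apply, hg, ih]
  by_cases h1 : ∀ x, (∀ z, ρ (rf f e z) x = x) → ∀ u ∈ W, ∀ v ∈ W, ∀ a, (HT hF).π a = 0 →
      ρ (eiO f u v a) x = x
  swap
  · push Not at h1
    obtain ⟨x, hx, u, hu, v, hv, a, ha, hne⟩ := h1
    exact key (h.torA hf ρ hZ hx hu hv ha hne)
  by_cases h2 : ∀ x, (∀ z, ρ (rf f e z) x = x) → ∀ u ∈ W, ∀ c a : F, f.EichOK u (c • e) a →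
      ρ (eiO f u (c • e) a) x = x
  swap
  · push Not at h2
    obtain ⟨x, hx, u, hu, c, a, ha, hne⟩ := h2
    exact key (h.torB hf ρ hZ (h1 x hx) hu ha hne)
  have hsum : ∑ z : Mu F q, ρ.character (rf f e z) ≠ 0 := fun h0 => hs (hs_of_one hf hcl h.he h0)
  obtain ⟨x, x0, hx⟩ := exists_of_part ρ (rf f e) 1 (by
    rw [part_one_apply_one]
    exact mul_ne_zero (inv_ne_zero Px.cA) hsum)
  have hx' : ∀ z, ρ (rf f e z) x = x := fun z => by
    have := hx z
    rwa [MonoidHom.one_apply, Units.val_one, one_smul] at this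
  have hSO := h.torC hf ρ h1 h2 hx'
  refine ⟨1, (gsum_ne_zero_iff ρ _).2 ⟨x, x0, fun k _ => ?_⟩⟩
  have h4 : (k * (rf f e (dt hf k))⁻¹).1 ∈ f.SO := by
    rw [← dt_eq_one_iff hf, map_mul, map_inv, dt_rf hf h.he, mul_inv_cancel]
  have h5 := hSO _ h4
  have h6 : k = k * (rf f e (dt hf k))⁻¹ * rf f e (dt hf k) := by rw [inv_mul_cancel_right]
  rw [h6, map_mul, Module.End.mul_apply, hx', h5]

end CL.WU
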