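import Cfsg.Agent.CLAS.WU.Om
import Cfsg.Agent.CLAS.WU.Part
import Cfsg.Agent.CLAS.WU.Bas
import Cfsg.Agent.CHAR.PermChar

/-! The Weil characters are irreducible.
`om g * conj (om g) = q^(2 fd g)` is the number of vectors fixed by `g`; Burnside: the orbits on vectors are
`{0}`, the nonzero isotropic vectors, and one orbit for each of the `q - 1` nonzero norms (Witt).  The `ze ν` are
`q + 1` nonzero (`ze_one` in ZeB) pairwise orthogonal characters (distinct central characters) with sum `om`. -/

set_option autoImplicit false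

namespace CL.WU

open Module CL.Witt CL.Uni Cfsg

variable {F : Type*} [Field F] [Fintype F] {q : ℕ} {hF : Fintype.card F = q ^ 2}
  {V : Type*} [AddCommGroup V] [Module F V] [FiniteDimensional F V] {f : Form (HT hF) V}

theorem ZeA.card_fix (hF : Fintype.card F = q ^ 2) (g : V ≃ₗ[F] V) :
    Nat.card {v : V // g v = v} = q ^ (2 * fd g) := by
  have e : {v : V // g v = v} ≃ LinearMap.ker ((g : V →ₗ[F] V) - LinearMap.id) :=
    Equiv.subtypeEquivRight fun v => by simp [sub_eq_zero]
  rw [Nat.card_congr e, Module.natCard_eq_pow_finrank (K := F), Nat.card_eq_fintype_card, hF, ← pow_mul, fd]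

theorem ZeA.card_orb (hf : f.Nondeg) (h2 : 2 ≤ finrank F V) :
    Nat.card (MulAction.orbitRel.Quotient f.O V) = q + 1 := by
  classical
  have fx : ∀ v : V, f.q v ^ q = f.q v := fun v => by
    have := f.symm v v
    rw [HT_ε, one_mul, HT_σ, ← f.herm_q] at this
    exact this.symm
  let φ : V → Option {x : F // x ^ q = x} := fun v => if v = 0 then none else some ⟨f.q v, fx v⟩
  have hφ : ∀ u v : V, MulAction.orbitRel f.O V u v ↔ φ u = φ v := fun u v => by
    rw [MulAction.orbitRel_apply, MulAction.mem_orbit_iff]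
    constructor
    · rintro ⟨g, rfl⟩
      change φ (g.1 v) = φ v
      by_cases v0 : v = 0
      · rw [v0, map_zero]
      · have : g.1 v ≠ 0 := fun e => v0 (g.1.map_eq_zero_iff.1 e)
        simp only [φ, if_neg v0, if_neg this, g.2.2 v]
    · intro e
      by_cases u0 : u = 0 <;> by_cases v0 : v = 0
      · exact ⟨1, by rw [one_smul, u0, v0]⟩
      · simp [φ, u0, v0] at e
      · simp [φ, u0, v0] at e
      · simp only [φ, if_neg u0, if_neg v0, Option.some.injEq, Subtype.mk.injEq] at e
        obtain ⟨g, hg, e'⟩ := hf.witt_vector v0 u0 e.symm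
        exact ⟨⟨g, hg⟩, e'⟩
  have sj : Function.Surjective φ := by
    rintro (_ | ⟨b, hb⟩)
    · exact ⟨0, if_pos rfl⟩
    · by_cases b0 : b = 0
      · obtain ⟨u, u0, hu⟩ := exists_isotropic (sig_ne_id hF) hf h2
        exact ⟨u, by simp only [φ, if_neg u0, hu, b0]⟩
      · obtain ⟨u, hu⟩ := exists_q_eq (sig_ne_id hF) hf (by omega) (b := b) hb
        have u0 : u ≠ 0 := fun e => b0 (by rw [← hu, e, f.q_zero])
        exact ⟨u, by simp only [φ, if_neg u0, hu]⟩
  have bj : Function.Bijective (Quotient.lift φ fun u v h => (hφ u v).1 h :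
      MulAction.orbitRel.Quotient f.O V → _) := by
    refine ⟨fun a b => Quotient.inductionOn₂ a b fun u v e => Quotient.sound ((hφ u v).2 e), fun y => ?_⟩
    obtain ⟨v, rfl⟩ := sj y
    exact ⟨Quotient.mk _ v, rfl⟩
  rw [Nat.card_eq_of_bijective _ bj, Finite.card_option, SqField.card_fixed hF]

theorem om_inner (hf : f.Nondeg) (h2 : 2 ≤ finrank F V) :
    classInner (om f) (om f) = (q : ℂ) + 1 := by
  classical
  have : Finite V := Module.finite_of_finite F
  have := Fintype.ofFinite V
  have := Fintype.ofFinite (MulAction.orbitRel.Quotient f.O V)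
  have b := MulAction.sum_card_fixedBy_eq_card_orbits_mul_card_group f.O V
  have e : ∀ g : f.O, om f g * (starRingEnd ℂ) (om f g) = (Fintype.card (MulAction.fixedBy V g) : ℂ) := fun g => by
    have c : Fintype.card (MulAction.fixedBy V g) = q ^ (2 * fd g.1) := by
      rw [← Nat.card_eq_fintype_card]
      exact ZeA.card_fix hF g.1
    rw [c, om]
    simp only [map_mul, map_pow, map_neg, map_one, map_natCast]
    rw [mul_mul_mul_comm, ← mul_pow, ← mul_pow, neg_mul_neg, neg_mul_neg, one_mul, one_pow, one_mul, two_mul, pow_add,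
      Nat.cast_mul, Nat.cast_pow, mul_pow]
  rw [classInner, Finset.sum_congr rfl fun g _ => e g, ← Nat.cast_sum, b, ← Nat.card_eq_fintype_card,
    ← Nat.card_eq_fintype_card, ZeA.card_orb hf h2]
  have : (Nat.card f.O : ℂ) ≠ 0 := Nat.cast_ne_zero.2 Nat.card_pos.ne'
  push_cast
  field_simp

end CL.WU
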